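import Cfsg.Agent.BlkInd.TCdef
import Cfsg.Agent.Char.Correspondence

set_option autoImplicit false
set_option linter.unusedSectionVars false
set_option linter.unusedVariables false

/-! Clifford correspondence in the form used for the three characters theorem. -/

namespace Cfsg.Agent.H99.TCcliff

open scoped BigOperators ComplexConjugate
open Cfsg Cfsg.Agent.CharBase Cfsg.Agent.Blk Cfsg.Agent.BlkC Cfsg.Agent.BlkInd Cfsg.Agent.BlkInd.TC Cfsg.Agent.Char

universe u

variable {X : Type u} [Group X] [Fintype X] {N I : Subgroup X} [hN : N.Normal] [Fintype N] [Fintype I] [Fintype (N.subgroupOf I)]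

/-- transport of a character to `N.subgroupOf I` -/
noncomputable def tr (hNI : N ≤ I) (θ : IrrCharacter N) : IrrCharacter (N.subgroupOf I) :=
  ⟨fun n => (θ : N → ℂ) (Subgroup.subgroupOfEquivOfLe hNI n),
    isIrrCharacter_comp_surjective θ.2 (Subgroup.subgroupOfEquivOfLe hNI).toMonoidHom (Subgroup.subgroupOfEquivOfLe hNI).surjective⟩

omit [Fintype X] hN [Fintype N] [Fintype I] [Fintype (N.subgroupOf I)] in
theorem tr_apply (hNI : N ≤ I) (θ : IrrCharacter N) (n : N.subgroupOf I) :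
    ((tr hNI θ : IrrCharacter (N.subgroupOf I)) : N.subgroupOf I → ℂ) n = (θ : N → ℂ) ⟨((n : I) : X), Subgroup.mem_subgroupOf.mp n.2⟩ := rfl

omit [Fintype X] hN [Fintype I] in
theorem inner_tr (hNI : N ≤ I) (θ : IrrCharacter N) (ψ : I → ℂ) :
    classInner (fun n : N.subgroupOf I => ψ n) ((tr hNI θ : IrrCharacter (N.subgroupOf I)) : N.subgroupOf I → ℂ) =
      classInner (fun n : N => ψ ⟨n, hNI n.2⟩) (θ : N → ℂ) :=
  classInner_comp_equiv (Subgroup.subgroupOfEquivOfLe hNI) (fun n : N => ψ ⟨n, hNI n.2⟩) (θ : N → ℂ)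

theorem over_key {θ : IrrCharacter N} (hI : I = inertia N (θ : N → ℂ)) (hNI : N ≤ I) (ψ : IrrCharacter I)
    (h : Ov (N.subgroupOf I) (tr hNI θ) ψ) :
    ∃ χ : IrrCharacter X, (χ : X → ℂ) = indFun I (ψ : I → ℂ) ∧ Ov N θ χ := by
  have hne : classInner (fun n : N => (ψ : I → ℂ) ⟨n, hNI n.2⟩) (θ : N → ℂ) ≠ 0 := by
    rw [← inner_tr hNI θ]
    exact h
  have hirr := isIrr_indFun_of_inertia N I θ.2 hI hNI ψ.2 hne
  refine ⟨⟨indFun I (ψ : I → ℂ), hirr⟩, rfl, ?_⟩
  have h1 : classInner (fun t : I => indFun I (ψ : I → ℂ) t) (ψ : I → ℂ) ≠ 0 := by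
    rw [← frobenius_reciprocity' I (ψ : I → ℂ) (indFun I (ψ : I → ℂ)) (indFun_isClassFunction I _)]
    rw [(isIrrCharacter_iff (isCharacter_of_isIrr hirr)).1 hirr]
    exact one_ne_zero
  have h2 := (correspondence_key N I θ.2 hI hNI hirr ψ.2 h1 hne).2
  change classInner (fun n : N => indFun I (ψ : I → ℂ) n) (θ : N → ℂ) ≠ 0
  rw [← h2]
  exact hne

theorem cliff (θ : IrrCharacter N) (hI : I = inertia N (θ : N → ℂ)) (hNI : N ≤ I) :
    ∃ θ' : IrrCharacter (N.subgroupOf I),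
      (∀ n : N.subgroupOf I, (θ' : N.subgroupOf I → ℂ) n = (θ : N → ℂ) ⟨((n : I) : X), Subgroup.mem_subgroupOf.mp n.2⟩) ∧
      Iv (N.subgroupOf I) θ' ∧
      Nat.card {ψ : IrrCharacter I // Ov (N.subgroupOf I) θ' ψ} = Nat.card {χ : IrrCharacter X // Ov N θ χ} := by
  classical
  refine ⟨tr hNI θ, fun n => rfl, ?_, ?_⟩
  · intro x n
    rw [tr_apply, tr_apply]
    have hx : (x : X) ∈ inertia N (θ : N → ℂ) := hI ▸ x.2
    have h1 := mem_inertia_iff N |>.1 hx ⟨((n : I) : X), Subgroup.mem_subgroupOf.mp n.2⟩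
    exact h1
  · choose F hF1 hF2 using fun ψ : {ψ : IrrCharacter I // Ov (N.subgroupOf I) (tr hNI θ) ψ} => over_key hI hNI ψ.1 ψ.2
    refine Nat.card_congr (Equiv.ofBijective (fun ψ => (⟨F ψ, hF2 ψ⟩ : {χ : IrrCharacter X // Ov N θ χ})) ⟨?_, ?_⟩)
    · intro ψ ψ' hψ
      have h1 : F ψ = F ψ' := congrArg Subtype.val hψ
      have h2 : indFun I (ψ.1 : I → ℂ) = indFun I (ψ'.1 : I → ℂ) := by
        rw [← hF1, ← hF1, h1]
      have h3 := indFun_injective_of_inertia N I θ.2 hI hNI ψ.1.2 ψ'.1.2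
        (by rw [← inner_tr hNI θ]; exact ψ.2) (by rw [← inner_tr hNI θ]; exact ψ'.2) h2
      exact Subtype.ext (Subtype.ext h3)
    · rintro ⟨χ, hχ⟩
      obtain ⟨ψ, hψ, hind, hin⟩ := clifford_correspondence N I θ.2 hI hNI χ.2 hχ
      refine ⟨⟨⟨ψ, hψ⟩, ?_⟩, ?_⟩
      · change classInner (fun n : N.subgroupOf I => ψ n) ((tr hNI θ : IrrCharacter (N.subgroupOf I)) : N.subgroupOf I → ℂ) ≠ 0
        rw [inner_tr hNI θ, hin]
        exact hχ
      · apply Subtype.ext
        apply Subtype.ext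
        rw [hF1]
        exact hind

/-- `∑ e² = |I : N|` -/
theorem sum_sq_mult (θ : IrrCharacter N) (hI : I = inertia N (θ : N → ℂ)) (hNI : N ≤ I) [Fintype (IrrCharacter I)] :
    ∑ ψ : IrrCharacter I, classInner (fun n : N => (ψ : I → ℂ) ⟨n, hNI n.2⟩) (θ : N → ℂ) ^ 2 = (Nat.card (↥I ⧸ N.subgroupOf I) : ℂ) := by
  classical
  set θ' := tr hNI θ with hθ'
  have hinv : inertia (N.subgroupOf I) ((θ' : IrrCharacter (N.subgroupOf I)) : N.subgroupOf I → ℂ) = ⊤ := by
    rw [eq_top_iff]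
    intro x _
    rw [mem_inertia_iff]
    intro n
    rw [hθ', tr_apply, tr_apply]
    have hx : (x : X) ∈ inertia N (θ : N → ℂ) := hI ▸ x.2
    exact (mem_inertia_iff N).1 hx ⟨((n : I) : X), Subgroup.mem_subgroupOf.mp n.2⟩
  have h1 := card_mul_classInner_indFun (N.subgroupOf I) θ'.2
  rw [hinv, Subgroup.card_top] at h1
  have h2 := classInner_eq_sum (f := indFun (N.subgroupOf I) (θ' : N.subgroupOf I → ℂ)) (f' := indFun (N.subgroupOf I) (θ' : N.subgroupOf I → ℂ))
    (indFun_isClassFunction _ _)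
  have h3 : ∀ ψ : IrrCharacter I, classInner (indFun (N.subgroupOf I) (θ' : N.subgroupOf I → ℂ)) (ψ : I → ℂ) =
      classInner (fun n : N => (ψ : I → ℂ) ⟨n, hNI n.2⟩) (θ : N → ℂ) := by
    intro ψ
    rw [frobenius_reciprocity _ _ _ (irr_isClassFunction ψ), ← inner_tr hNI θ]
    exact (classInner_comm_of_isCharacter (isCharacter_of_isIrr θ'.2) (isCharacter_restrict (irr_isCharacter ψ) _))
  have h4 : ∀ ψ : IrrCharacter I, classInner (ψ : I → ℂ) (indFun (N.subgroupOf I) (θ' : N.subgroupOf I → ℂ)) =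
      classInner (fun n : N => (ψ : I → ℂ) ⟨n, hNI n.2⟩) (θ : N → ℂ) := by
    intro ψ
    rw [frobenius_reciprocity' _ _ _ (irr_isClassFunction ψ), ← inner_tr hNI θ]
  rw [h2] at h1
  simp only [h3, h4, ← pow_two] at h1
  have h5 : (Nat.card (N.subgroupOf I) : ℂ) ≠ 0 := card_ne_zero_complex _
  apply mul_left_cancel₀ h5
  rw [h1]
  have h6 := Subgroup.card_mul_index (N.subgroupOf I)
  rw [← h6]
  push_cast
  rfl

theorem prime_index {p : ℕ} [hp : Fact p.Prime] (θ : IrrCharacter N) (hI : I = inertia N (θ : N → ℂ)) (hNI : N ≤ I)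
    (hdeg : ∀ χ : IrrCharacter X, Ov N θ χ → N.index.factorization p + (charDegree (θ : N → ℂ)).factorization p ≤ (charDegree (χ : X → ℂ)).factorization p) :
    ¬ p ∣ Nat.card (↥I ⧸ N.subgroupOf I) := by
  classical
  intro hdvd
  have := Fintype.ofFinite (IrrCharacter I)
  have hpp : p.Prime := hp.out
  have hinvθ : ∀ g ∈ I, cj N g (θ : N → ℂ) = θ := fun g hg => by
    rw [hI] at hg
    exact hg
  -- multiplicities
  have hmult : ∀ ψ : IrrCharacter I, ∃ e : ℕ, classInner (fun n : N => (ψ : I → ℂ) ⟨n, hNI n.2⟩) (θ : N → ℂ) = e := by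
    intro ψ
    rw [← inner_tr hNI θ]
    exact classInner_natCast (isCharacter_restrict (irr_isCharacter ψ) _) (isCharacter_of_isIrr (tr hNI θ).2)
  choose e he using hmult
  have hsum := sum_sq_mult θ hI hNI
  simp only [he] at hsum
  have hsum' : ∑ ψ : IrrCharacter I, e ψ ^ 2 = Nat.card (↥I ⧸ N.subgroupOf I) := by exact_mod_cast hsum
  set M := Nat.card (↥I ⧸ N.subgroupOf I) with hM
  have hM0 : M ≠ 0 := Nat.card_pos.ne'
  have hNindex : N.index = I.index * M := by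
    have h1 := Subgroup.relIndex_mul_index hNI
    rw [← h1, mul_comm]
    rfl
  have hIx0 : I.index ≠ 0 := Subgroup.index_ne_zero_of_finite
  have hkey : ∀ ψ : IrrCharacter I, p ^ (2 * M.factorization p) ∣ e ψ ^ 2 := by
    intro ψ
    by_cases h0 : e ψ = 0
    · rw [h0]; exact ⟨0, by ring⟩
    have hov : Ov (N.subgroupOf I) (tr hNI θ) ψ := by
      change classInner (fun n : N.subgroupOf I => (ψ : I → ℂ) n) ((tr hNI θ : IrrCharacter (N.subgroupOf I)) : N.subgroupOf I → ℂ) ≠ 0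
      rw [inner_tr hNI θ, he]
      exact_mod_cast h0
    obtain ⟨χ, hχ, hχov⟩ := over_key hI hNI ψ hov
    have h1 := hdeg χ hχov
    have h2 := congrFun (restrict_eq_smul_of_le_inertia N I hNI θ.2 hinvθ ψ.2 (by rw [he]; exact_mod_cast h0)) 1
    rw [he] at h2
    have h3 : charDegree (χ : X → ℂ) = I.index * (e ψ * charDegree (θ : N → ℂ)) := by
      have h4 := charDegree_spec χ
      have h5 : (χ : X → ℂ) 1 = (I.index : ℂ) * ((e ψ : ℂ) * (charDegree (θ : N → ℂ) : ℂ)) := by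
        rw [hχ, indFun_one_apply, ← charDegree_spec θ]
        congr 1
      rw [h4] at h5
      exact_mod_cast h5
    have hθ0 : charDegree (θ : N → ℂ) ≠ 0 := (charDegree_pos θ).ne'
    rw [h3, hNindex, Nat.factorization_mul hIx0 hM0, Nat.factorization_mul hIx0 (mul_ne_zero h0 hθ0), Nat.factorization_mul h0 hθ0] at h1
    simp only [Finsupp.add_apply] at h1
    have h4 : M.factorization p ≤ (e ψ).factorization p := by omega
    have h5 : p ^ (M.factorization p) ∣ e ψ := (hpp.pow_dvd_iff_le_factorization h0).2 h4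
    rw [mul_comm, pow_mul]
    exact pow_dvd_pow_of_dvd h5 2
  have h1 : p ^ (2 * M.factorization p) ∣ M := by
    have h0 : p ^ (2 * M.factorization p) ∣ ∑ ψ : IrrCharacter I, e ψ ^ 2 := Finset.dvd_sum (fun ψ _ => hkey ψ)
    rwa [hsum'] at h0
  have h2 := (hpp.pow_dvd_iff_le_factorization hM0).1 h1
  have h3 : 1 ≤ M.factorization p := (hpp.dvd_iff_one_le_factorization hM0).1 hdvd
  omega

end Cfsg.Agent.H99.TCcliff
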