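import Cfsg.Agent.H20.HarB

set_option autoImplicit false
set_option maxHeartbeats 1600000
set_option linter.unusedSectionVars false
set_option linter.unusedVariables false

/-! Harada's theorem, case `|V| = 8`, `|A ∩ V| = 4`, `b² ∉ ⟨z⟩`: the subgroups `D` and `E`. -/

namespace Cfsg.Agent.H99.HarB1a
open Subgroup Cfsg.Agent Cfsg.Agent.H20.Har

section
variable {S : Type*} [Group S] [Finite S] {A V : Subgroup S} {a v z b : S}

theorem exists_H1 (H : HB A V a v z) (hb : Hb V b) (hbz : b * b ≠ z) : ∃ b', H1 A V a v z b' := by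
  have hvv := H.vA'
  have hzz := H.h.Vsq z H.zV
  have hbv : b * v = v * b := hb.bC v H.vV
  rcases H.W hb.bb (H.bbA hb) (H.bb1 hb) hbz (H.fV hb) (H.fA hb) with h1 | h1 | h1 | h1
  · exact absurd h1 (H.f1 hb)
  · exact absurd h1 (H.fz hb)
  · exact ⟨b, H, hb, hbz, by rw [← h1]; group⟩
  · have hsq : (b * v) * (b * v) = b * b := by
      calc (b * v) * (b * v) = b * (v * b) * v := by group
        _ = b * (b * v) * v := by rw [hbv]
        _ = b * b * (v * v) := by group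
        _ = b * b := by rw [hvv, mul_one]
    have hcb : cj a b = b * (b * b * z) := by rw [← h1]; group
    have hV := H.Vnn
    have hsup : V ⊔ zpowers (b * v) = V ⊔ zpowers b := by
      apply le_antisymm
      · refine sup_le le_sup_left ?_
        rw [zpowers_le]
        exact mul_mem (mem_sup_right (mem_zpowers b)) (mem_sup_left H.vV)
      · refine sup_le le_sup_left ?_
        rw [zpowers_le]
        have h2 : b * v * v⁻¹ ∈ V ⊔ zpowers (b * v) := mul_mem (mem_sup_right (mem_zpowers (b * v))) (mem_sup_left (V.inv_mem H.vV))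
        rwa [mul_inv_cancel_right] at h2
    refine ⟨b * v, H, ⟨?_, ?_, ?_, ?_, ?_, ?_⟩, by rw [hsq]; exact hbz, ?_⟩
    · intro u hu
      rw [mul_assoc, H.h.Vcomm v H.vV u hu, ← mul_assoc, hb.bC u hu, mul_assoc]
    · intro h2
      apply hb.bV
      have h3 : b = (b * v) * v⁻¹ := by group
      rw [h3]
      exact V.mul_mem h2 (V.inv_mem H.vV)
    · rw [hsq]; exact hb.bb
    · intro g
      have h2 : b * v * g * (b * v)⁻¹ * g⁻¹ = b * (v * (g * v⁻¹ * g⁻¹)) * b⁻¹ * (b * g * b⁻¹ * g⁻¹) := by group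
      rw [h2]
      exact V.mul_mem (H.h.Vn _ (V.mul_mem H.vV (H.h.Vn _ (V.inv_mem H.vV) g)) b) (hb.bg g)
    · rw [hsup]; exact hb.bn
    · rw [hsup]; exact hb.b2
    · rw [hsq, map_mul, hcb, H.va]
      have h2 := H.h.Vcomm z H.zV v H.vV
      have h3 := H.h.Vcomm (b * b) hb.bb v H.vV
      calc b * (b * b * z) * (v * z) = b * (b * b) * (z * v) * z := by group
        _ = b * (b * b) * (v * z) * z := by rw [h2]
        _ = b * ((b * b) * v) * (z * z) := by group
        _ = b * (v * (b * b)) * (z * z) := by rw [h3]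
        _ = _ := by rw [hzz]; group

/-- involutions of a cyclic group are equal -/
theorem invol_unique {x y y' : S} (hy : y ∈ zpowers x) (hy' : y' ∈ zpowers x) (h1 : y * y = 1) (h1' : y' * y' = 1)
    (hne : y ≠ 1) (hne' : y' ≠ 1) : y = y' := by
  classical
  haveI : Fintype (zpowers x) := Fintype.ofFinite _
  by_contra hcon
  have h2 := IsCyclic.card_pow_eq_one_le (α := zpowers x) (n := 2) (by norm_num)
  have h3 : ({1, ⟨y, hy⟩, ⟨y', hy'⟩} : Finset (zpowers x)) ⊆ Finset.univ.filter (fun a : zpowers x => a ^ 2 = 1) := by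
    intro w hw
    simp only [Finset.mem_insert, Finset.mem_singleton] at hw
    rw [Finset.mem_filter]
    refine ⟨Finset.mem_univ _, ?_⟩
    rcases hw with rfl | rfl | rfl
    · exact one_pow 2
    · rw [pow_two]; exact Subtype.ext h1
    · rw [pow_two]; exact Subtype.ext h1'
  have h4 := (Finset.card_le_card h3).trans h2
  rw [Finset.card_insert_of_notMem, Finset.card_insert_of_notMem, Finset.card_singleton] at h4
  · omega
  · rw [Finset.mem_singleton]
    exact fun h => hcon (congrArg Subtype.val h)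
  · simp only [Finset.mem_insert, Finset.mem_singleton, not_or]
    exact ⟨fun h => hne (congrArg Subtype.val h).symm, fun h => hne' (congrArg Subtype.val h).symm⟩

/-- the family -/
def Fam (V : Subgroup S) (b : S) (M : Subgroup S) : Prop :=
  M.Normal ∧ V ⊔ zpowers b ≤ M ∧ M ≤ Subgroup.centralizer (V : Set S) ∧ ∃ x, M = V ⊔ zpowers x

theorem exists_maxFam (h : H1 A V a v z b) : ∃ D, Fam V b D ∧ ∀ M, Fam V b M → Nat.card M ≤ Nat.card D := by
  have hne : Nonempty {M : Subgroup S // Fam V b M} := by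
    refine ⟨⟨V ⊔ zpowers b, h.hb.bn, le_rfl, ?_, b, rfl⟩⟩
    refine sup_le h.H.VC ?_
    rw [zpowers_le]
    exact h.H.memC.2 h.hb.bC
  obtain ⟨D, hD⟩ := Finite.exists_max (fun M : {M : Subgroup S // Fam V b M} => Nat.card M.1)
  exact ⟨D.1, D.2, fun M hM => hD ⟨M, hM⟩⟩

/-- elements of `V ⊔ ⟨x⟩` -/
theorem mem_form (hV : V.Normal) {x d : S} (hd : d ∈ V ⊔ zpowers x) : ∃ u ∈ V, ∃ i : ℤ, d = u * x ^ i := by
  obtain ⟨u, hu, y, hy, rfl⟩ := mem_sup_of_normal_left.1 hd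
  obtain ⟨i, rfl⟩ := mem_zpowers_iff.1 hy
  exact ⟨u, hu, i, rfl⟩

/-- the commutator with `a` -/
def kp (a s : S) : S := s⁻¹ * cj a s

theorem exists_D (h : H1 A V a v z b) : ∃ D E, HD A V a v z b D E := by
  classical
  haveI hF2 : Fact (Nat.Prime 2) := ⟨Nat.prime_two⟩
  have H := h.H
  have hVn := H.Vnn
  obtain ⟨D, ⟨hDn, hBD, hDC, x, hDx⟩, hmax⟩ := exists_maxFam h
  have hVD : V ≤ D := le_sup_left.trans hBD
  have hbD : b ∈ D := hBD (mem_sup_right (mem_zpowers b))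
  have hxD : x ∈ D := by rw [hDx]; exact mem_sup_right (mem_zpowers x)
  have hVsq := H.h.Vsq
  have hVc := H.h.Vcomm
  have hDC' : ∀ d ∈ D, ∀ u ∈ V, d * u = u * d := fun d hd => H.memC.1 (hDC hd)
  have hxu : ∀ (i : ℤ), ∀ u ∈ V, x ^ i * u = u * x ^ i := fun i u hu => hDC' _ (D.zpow_mem hxD i) u hu
  have hform : ∀ d ∈ D, ∃ u ∈ V, ∃ i : ℤ, d = u * x ^ i := by
    intro d hd
    rw [hDx] at hd
    exact mem_form hVn hd
  have hDc : ∀ d ∈ D, ∀ d' ∈ D, d * d' = d' * d := by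
    intro d hd d' hd'
    obtain ⟨u, hu, i, rfl⟩ := hform d hd
    obtain ⟨u', hu', j, rfl⟩ := hform d' hd'
    calc u * x ^ i * (u' * x ^ j) = u * (x ^ i * u') * x ^ j := by group
      _ = (u * u') * x ^ i * x ^ j := by rw [hxu i u' hu']; group
      _ = (u' * u) * (x ^ j * x ^ i) := by rw [hVc u hu u' hu', mul_assoc _ (x ^ i), ← zpow_add, ← zpow_add, add_comm]
      _ = u' * (u * x ^ j) * x ^ i := by group
      _ = u' * (x ^ j * u) * x ^ i := by rw [hxu j u hu]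
      _ = _ := by group
  have hsqf : ∀ u ∈ V, ∀ i : ℤ, (u * x ^ i) * (u * x ^ i) = x ^ (i + i) := by
    intro u hu i
    calc (u * x ^ i) * (u * x ^ i) = u * (x ^ i * u) * x ^ i := by group
      _ = (u * u) * (x ^ i * x ^ i) := by rw [hxu i u hu]; group
      _ = _ := by rw [hVsq u hu, one_mul, zpow_add]
  -- D1
  have hD1 : ∀ d ∈ D, d * d = 1 → d ∈ V := by
    let Om : Subgroup S :=
      { carrier := {d | d ∈ D ∧ d * d = 1}
        one_mem' := ⟨D.one_mem, by rw [mul_one]⟩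
        mul_mem' := by
          rintro d d' ⟨h1, h2⟩ ⟨h3, h4⟩
          refine ⟨D.mul_mem h1 h3, ?_⟩
          calc d * d' * (d * d') = d * (d' * d) * d' := by group
            _ = d * (d * d') * d' := by rw [hDc d' h3 d h1]
            _ = (d * d) * (d' * d') := by group
            _ = 1 := by rw [h2, h4, mul_one]
        inv_mem' := by
          rintro d ⟨h1, h2⟩
          refine ⟨D.inv_mem h1, ?_⟩
          rw [← mul_inv_rev, h2, inv_one] }
    have hOn : Om.Normal := by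
      constructor
      rintro d ⟨h1, h2⟩ g
      refine ⟨hDn.conj_mem d h1 g, ?_⟩
      calc g * d * g⁻¹ * (g * d * g⁻¹) = g * (d * d) * g⁻¹ := by group
        _ = 1 := by rw [h2]; group
    have hVO : V ≤ Om := fun u hu => ⟨hVD hu, hVsq u hu⟩
    have h1 := H.h.Vmax Om hOn (fun d hd d' hd' => hDc d hd.1 d' hd'.1) (fun d hd => hd.2)
    have h2 : V = Om := Subgroup.eq_of_le_of_card_ge hVO h1
    intro d hd hdd
    rw [h2]
    exact ⟨hd, hdd⟩
  have hbb : b * b ∈ V := h.hb.bb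
  have hbb1 : b * b ≠ 1 := H.bb1 h.hb
  have hbbA : b * b ∈ A := H.bbA h.hb
  have hDsq : ∀ d ∈ D, d * d ∈ V → d ∈ V ∨ d * d = b * b := by
    intro d hd hdd
    by_cases h1 : d * d = 1
    · exact Or.inl (hD1 d hd h1)
    · right
      obtain ⟨u, hu, i, hdf⟩ := hform d hd
      obtain ⟨u', hu', k, hbf⟩ := hform b hbD
      have h2 : d * d ∈ zpowers x := by
        rw [hdf, hsqf u hu i]
        exact mem_zpowers_iff.2 ⟨_, rfl⟩
      have h3 : b * b ∈ zpowers x := by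
        rw [hbf, hsqf u' hu' k]
        exact mem_zpowers_iff.2 ⟨_, rfl⟩
      exact invol_unique h2 h3 (hVsq _ hdd) (hVsq _ hbb) h1 hbb1
  -- E
  let E : Subgroup S :=
    { carrier := {d | ∃ e ∈ D, ∃ u ∈ V, d = e * e * u}
      one_mem' := ⟨1, D.one_mem, 1, V.one_mem, by group⟩
      mul_mem' := by
        rintro _ _ ⟨e, he, u, hu, rfl⟩ ⟨e', he', u', hu', rfl⟩
        refine ⟨e * e', D.mul_mem he he', u * u', V.mul_mem hu hu', ?_⟩
        have c1 := hDc u (hVD hu) (e' * e') (D.mul_mem he' he')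
        have c2 := hDc e he e' he'
        calc e * e * u * (e' * e' * u') = e * e * (u * (e' * e')) * u' := by group
          _ = e * e * (e' * e' * u) * u' := by rw [c1]
          _ = e * (e * e') * e' * (u * u') := by group
          _ = e * (e' * e) * e' * (u * u') := by rw [c2]
          _ = _ := by group
      inv_mem' := by
        rintro _ ⟨e, he, u, hu, rfl⟩
        refine ⟨e⁻¹, D.inv_mem he, u⁻¹, V.inv_mem hu, ?_⟩
        have c1 := hDc u⁻¹ (hVD (V.inv_mem hu)) (e⁻¹ * e⁻¹) (D.mul_mem (D.inv_mem he) (D.inv_mem he))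
        rw [← c1]
        group }
  have hEn : E.Normal := by
    constructor
    rintro _ ⟨e, he, u, hu, rfl⟩ g
    exact ⟨g * e * g⁻¹, hDn.conj_mem e he g, g * u * g⁻¹, H.h.Vn u hu g, by group⟩
  have hVE : V ≤ E := fun u hu => ⟨1, D.one_mem, u, hu, by group⟩
  have hED : E ≤ D := by
    rintro _ ⟨e, he, u, hu, rfl⟩
    exact D.mul_mem (D.mul_mem he he) (hVD hu)
  have hE2 : ∀ d ∈ D, d * d ∈ E := fun d hd => ⟨d, hd, 1, V.one_mem, by group⟩
  have hEeven : ∀ u ∈ V, ∀ j : ℤ, u * x ^ (j + j) ∈ E := by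
    intro u hu j
    refine ⟨x ^ j, D.zpow_mem hxD j, u, hu, ?_⟩
    rw [← zpow_add, hxu (j + j) u hu]
  have hodd : ∀ d ∈ D, d ∉ E → ∃ u ∈ V, ∃ i : ℤ, Odd i ∧ d = u * x ^ i := by
    intro d hd hdE
    obtain ⟨u, hu, i, rfl⟩ := hform d hd
    rcases Int.even_or_odd i with ⟨j, hj⟩ | hi
    · exfalso
      apply hdE
      rw [hj]
      exact hEeven u hu j
    · exact ⟨u, hu, i, hi, rfl⟩
  obtain ⟨m, hm⟩ : ∃ m, orderOf x = 2 ^ m := (IsPGroup.iff_orderOf.mp H.h.two) x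
  -- D ≠ V
  have hxV : x ∉ V := by
    intro hx
    apply h.hb.bV
    have h1 : V ⊔ zpowers x = V := by
      apply sup_eq_left.2
      rw [zpowers_le]
      exact hx
    rw [hDx, h1] at hbD
    exact hbD
  have hxE : x ∉ E := by
    rintro ⟨e, he, u, hu, hxe⟩
    obtain ⟨u', hu', j, rfl⟩ := hform e he
    rw [hsqf u' hu' j] at hxe
    have h1 : x ^ (1 - (j + j)) = u := by
      have h3 : x ^ (1 - (j + j)) = (x ^ (j + j))⁻¹ * x := by
        rw [sub_eq_add_neg, add_comm, zpow_add, zpow_neg, zpow_one]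
      rw [h3]
      exact inv_mul_eq_iff_eq_mul.2 hxe
    have h2 : x ^ (2 * (1 - (j + j))) = 1 := by
      rw [two_mul, zpow_add, h1]
      exact hVsq u hu
    have h3 : ((2 ^ m : ℕ) : ℤ) ∣ 2 * (1 - (j + j)) := by
      rw [← hm]
      exact orderOf_dvd_iff_zpow_eq_one.2 h2
    have h4 : m ≤ 1 := by
      by_contra hcon
      have h5 : ((4 : ℕ) : ℤ) ∣ 2 * (1 - (j + j)) := by
        refine dvd_trans ?_ h3
        obtain ⟨k, hk⟩ : ∃ k, m = 2 + k := ⟨m - 2, by omega⟩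
        rw [hk, pow_add]
        exact_mod_cast Nat.dvd_mul_right 4 _
      obtain ⟨c, hc⟩ := h5
      push_cast at hc
      omega
    have h5 : x * x = 1 := by
      have h6 : orderOf x ∣ 2 := by
        rw [hm]
        exact pow_dvd_pow 2 h4
      have h7 := orderOf_dvd_iff_pow_eq_one.1 h6
      rwa [pow_two] at h7
    exact hxV (hD1 x hxD h5)
  have hDE : ∀ d ∈ D, ∀ d' ∈ D, d ∉ E → d' ∉ E → d * d' ∈ E := by
    intro d hd d' hd' h1 h2
    obtain ⟨u, hu, i, hi, rfl⟩ := hodd d hd h1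
    obtain ⟨u', hu', j, hj, rfl⟩ := hodd d' hd' h2
    obtain ⟨k, hk⟩ := hi.add_odd hj
    have h3 : u * x ^ i * (u' * x ^ j) = (u * u') * x ^ (k + k) := by
      calc u * x ^ i * (u' * x ^ j) = u * (x ^ i * u') * x ^ j := by group
        _ = (u * u') * (x ^ i * x ^ j) := by rw [hxu i u' hu']; group
        _ = _ := by rw [← zpow_add, hk]
    rw [h3]
    exact hEeven _ (V.mul_mem hu hu') k
  have hgen : ∀ o ∈ D, o ∉ E → D = V ⊔ zpowers o := by
    intro o ho hoE
    apply le_antisymm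
    · obtain ⟨u, hu, i, hi, hof⟩ := hodd o ho hoE
      rw [hDx]
      refine sup_le le_sup_left ?_
      rw [zpowers_le]
      have hcop : IsCoprime i ((2 ^ m : ℕ) : ℤ) := by
        push_cast
        apply IsCoprime.pow_right
        rw [Int.isCoprime_iff_gcd_eq_one]
        obtain ⟨k, hk⟩ := hi
        have h3 : IsCoprime i 2 := ⟨1, -k, by rw [hk]; ring⟩
        exact Int.isCoprime_iff_gcd_eq_one.1 h3
      obtain ⟨s, t, hst⟩ := hcop
      have h3 : x ^ (i * s) = x := by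
        have h4 : x ^ (((2 ^ m : ℕ) : ℤ) * t) = 1 := by
          rw [zpow_mul, zpow_natCast, ← hm, pow_orderOf_eq_one, one_zpow]
        have h5 : i * s = 1 - ((2 ^ m : ℕ) : ℤ) * t := by linear_combination hst
        rw [h5, sub_eq_add_neg, zpow_add, zpow_neg, h4, zpow_one, inv_one, mul_one]
      have h4 : x ^ i = u⁻¹ * o := by rw [hof]; group
      have h5 : x ^ i ∈ V ⊔ zpowers o := by
        rw [h4]
        exact mul_mem (mem_sup_left (V.inv_mem hu)) (mem_sup_right (mem_zpowers o))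
      rw [← h3, zpow_mul]
      exact zpow_mem h5 s
    · refine sup_le hVD ?_
      rw [zpowers_le]
      exact ho
  -- commutators with a
  have hDa : ∀ d ∈ D, cj a d ∈ D := fun d hd => hDn.conj_mem d hd a
  have hkpD : ∀ d ∈ D, d⁻¹ * cj a d ∈ D := fun d hd => D.mul_mem (D.inv_mem hd) (hDa d hd)
  have hkp_mul : ∀ d ∈ D, ∀ d' ∈ D, (d * d')⁻¹ * cj a (d * d') = (d⁻¹ * cj a d) * (d'⁻¹ * cj a d') := by
    intro d hd d' hd'
    have c1 := hDc d'⁻¹ (D.inv_mem hd') (d⁻¹ * cj a d) (hkpD d hd)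
    rw [map_mul, mul_inv_rev]
    calc d'⁻¹ * d⁻¹ * (cj a d * cj a d') = (d'⁻¹ * (d⁻¹ * cj a d)) * cj a d' := by group
      _ = ((d⁻¹ * cj a d) * d'⁻¹) * cj a d' := by rw [c1]
      _ = _ := by group
  have hdda : ∀ d ∈ D, d * cj a d ∈ A ∧ d * cj a d ∈ V := by
    intro d hd
    have h1 : cj a (d * cj a d) = d * cj a d := by
      rw [map_mul, H.cc]
      exact hDc _ (hDa d hd) d hd
    exact H.CCa (hDC' _ (D.mul_mem hd (hDa d hd))) h1
  have hET : ∀ s : S, s⁻¹ * cj a s ∈ E → ∃ d' ∈ D, cj a (s * d') = s * d' := by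
    intro s hs
    have hdd := H.dd s
    set δ := s⁻¹ * cj a s with hδ
    obtain ⟨e, he, u, hu, hδe⟩ := hs
    have hω := hdda e he
    have hdd2 := H.dd e⁻¹
    set κ := (e⁻¹)⁻¹ * cj a e⁻¹ with hκ
    have hκD : κ ∈ D := hkpD e⁻¹ (D.inv_mem he)
    have hδD : δ ∈ D := by rw [hδe]; exact D.mul_mem (D.mul_mem he he) (hVD hu)
    -- κ = e e ω⁻¹
    have hκ2 : κ = e * e * (e * cj a e)⁻¹ := by
      have c1 := hDc e he ((cj a e)⁻¹) (D.inv_mem (hDa e he))
      rw [hκ, map_inv, inv_inv, mul_inv_rev]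
      calc e * (cj a e)⁻¹ = e * (cj a e)⁻¹ * e * e⁻¹ := by group
        _ = e * ((cj a e)⁻¹ * e) * e⁻¹ := by group
        _ = e * (e * (cj a e)⁻¹) * e⁻¹ := by rw [c1]
        _ = _ := by group
    have hu2 : κ⁻¹ * δ = u * (e * cj a e) := by
      have c1 := hDc (e * cj a e) (hVD hω.2) u (hVD hu)
      rw [hκ2, hδe, mul_inv_rev, inv_inv]
      calc (e * cj a e) * (e * e)⁻¹ * (e * e * u) = (e * cj a e) * u := by group
        _ = _ := c1
    have hu2V : κ⁻¹ * δ ∈ V := by rw [hu2]; exact V.mul_mem hu hω.2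
    have hu2f : cj a (κ⁻¹ * δ) = κ⁻¹ * δ := by
      have h1 : cj a δ = δ⁻¹ := eq_inv_of_mul_eq_one_right hdd
      have h2 : cj a κ = κ⁻¹ := eq_inv_of_mul_eq_one_right hdd2
      have h3 : (κ⁻¹ * δ)⁻¹ = κ⁻¹ * δ := inv_eq_of_mul_eq_one_left (hVsq _ hu2V)
      rw [map_mul, map_inv, h1, h2, inv_inv]
      calc κ * δ⁻¹ = δ⁻¹ * κ := hDc _ hκD _ (D.inv_mem hδD)
        _ = (κ⁻¹ * δ)⁻¹ := by group
        _ = _ := h3
    have hu2A := H.fix hu2V hu2f
    have hkv : v⁻¹ * cj a v = z := by rw [H.va]; group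
    have hkb : b⁻¹ * cj a b = b * b := by rw [h.ba]; group
    obtain ⟨d2, hd2, hd2k⟩ : ∃ d2 ∈ D, d2⁻¹ * cj a d2 = κ⁻¹ * δ := by
      rcases H.W hbb hbbA hbb1 h.bz hu2V hu2A with h1 | h1 | h1 | h1
      · exact ⟨1, D.one_mem, by rw [h1, map_one]; group⟩
      · exact ⟨v, hVD H.vV, by rw [h1, hkv]⟩
      · exact ⟨b, hbD, by rw [h1, hkb]⟩
      · exact ⟨b * v, D.mul_mem hbD (hVD H.vV), by rw [h1, hkp_mul b hbD v (hVD H.vV), hkv, hkb]⟩
    have hd1 : (e⁻¹ * d2)⁻¹ * cj a (e⁻¹ * d2) = δ := by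
      rw [hkp_mul e⁻¹ (D.inv_mem he) d2 hd2, hd2k, ← hκ]
      group
    refine ⟨(e⁻¹ * d2)⁻¹, D.inv_mem (D.mul_mem (D.inv_mem he) hd2), ?_⟩
    have h1 : cj a s = s * δ := by rw [hδ]; group
    have h2 : cj a (e⁻¹ * d2) = (e⁻¹ * d2) * δ := by rw [← hd1]; group
    rw [map_mul, map_inv, h1, h2]
    group
  have hP : ∀ g : S, (∀ u ∈ V, g * u = u * g) → g⁻¹ * cj a g ∈ E → g ∈ D := by
    intro g hg hgE
    obtain ⟨d, hd, hda⟩ := hET g hgE
    have h1 := (H.CCa (x := g * d) (fun u hu => by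
      rw [mul_assoc, hDC' d hd u hu, ← mul_assoc, hg u hu, mul_assoc]) hda).2
    have h2 : g = (g * d) * d⁻¹ := by group
    rw [h2]
    exact D.mul_mem (hVD h1) (D.inv_mem hd)
  refine ⟨D, E, ⟨h, hDn, hEn, hVE, hED, hbD, hDc, hDsq, hD1, hE2, fun e he => he, hDE, ⟨x, hxD, hxE⟩, ?_⟩⟩
  by_cases hCD : Subgroup.centralizer (V : Set S) ≤ D
  · left
    intro x hx
    exact hCD (H.memC.2 hx)
  right
  have hlt : D < Subgroup.centralizer (V : Set S) := lt_of_le_of_ne hDC (fun h1 => hCD h1.ge)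
  obtain ⟨y, hyC, hyD, hy2, hyg, hyn, hyc⟩ := H23.exists_step H.h.two hDn H.Cn hlt
  rw [pow_two] at hy2
  have hyC' := H.memC.1 hyC
  have hβD : y⁻¹ * cj a y ∈ D := form1 hDn (hyg a)
  have hβE : y⁻¹ * cj a y ∉ E := fun h1 => hyD (hP y hyC' h1)
  have hyyE : y * y ∈ E := by
    by_contra hcon
    have h1 := hgen (y * y) hy2 hcon
    have h2 : D ⊔ zpowers y = V ⊔ zpowers y := by
      apply le_antisymm
      · refine sup_le ?_ le_sup_right
        rw [h1]
        refine sup_le le_sup_left ?_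
        rw [zpowers_le]
        exact mem_sup_right (mul_mem (mem_zpowers y) (mem_zpowers y))
      · exact sup_le_sup_right hVD _
    have h3 := hmax (D ⊔ zpowers y) ⟨hyn, hBD.trans le_sup_left, sup_le hDC (by rw [zpowers_le]; exact hyC), y, h2⟩
    rw [hyc] at h3
    have h4 : 0 < Nat.card D := Nat.card_pos
    omega
  have hR : ∀ g : S, (∀ u ∈ V, g * u = u * g) → g⁻¹ * cj a g ∈ D → g ∈ D ∨ y⁻¹ * g ∈ D := by
    intro g hg hγ
    by_cases hγE : g⁻¹ * cj a g ∈ E
    · exact Or.inl (hP g hg hγE)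
    · right
      apply hP (y⁻¹ * g)
      · intro u hu
        have h1 : y⁻¹ * u = u * y⁻¹ := by
          rw [inv_mul_eq_iff_eq_mul, ← mul_assoc, hyC' u hu, mul_assoc, mul_inv_cancel, mul_one]
        rw [mul_assoc, hg u hu, ← mul_assoc, h1, mul_assoc]
      · have h1 : (y⁻¹ * g)⁻¹ * cj a (y⁻¹ * g) = (g⁻¹ * (y * (y⁻¹ * cj a y)⁻¹ * y⁻¹) * g⁻¹⁻¹) * (g⁻¹ * cj a g) := by
          rw [map_mul, map_inv]
          group
        rw [h1]
        have hE1 : (y⁻¹ * cj a y)⁻¹ ∉ E := fun h2 => hβE (by simpa using E.inv_mem h2)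
        apply hDE _ (hDn.conj_mem _ (hDn.conj_mem _ (D.inv_mem hβD) y) g⁻¹) _ hγ _ hγE
        intro h2
        apply hE1
        have h3 := hEn.conj_mem _ (hEn.conj_mem _ h2 g) y⁻¹
        have h4 : y⁻¹ * (g * (g⁻¹ * (y * (y⁻¹ * cj a y)⁻¹ * y⁻¹) * g⁻¹⁻¹) * g⁻¹) * y⁻¹⁻¹ = (y⁻¹ * cj a y)⁻¹ := by group
        rwa [h4] at h3
  have hyD1 : y ∈ D ⊔ zpowers y := mem_sup_right (mem_zpowers y)
  have hD1C : D ⊔ zpowers y ≤ Subgroup.centralizer (V : Set S) := sup_le hDC (by rw [zpowers_le]; exact hyC)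
  have hcos : ∀ g ∈ D ⊔ zpowers y, g ∉ D → y⁻¹ * g ∈ D := by
    intro g hg hgD
    refine (idx_two (H := D) le_sup_left (by rw [hyc]; ring) (inv_mem hyD1) hg).2 ⟨fun k => ?_, fun k => absurd k hgD⟩
    exact absurd (by simpa using D.inv_mem k) hyD
  have hCeq : D ⊔ zpowers y = Subgroup.centralizer (V : Set S) := by
    by_contra hne
    obtain ⟨g, hgC, hgD1, -, hgg, -, -⟩ := H23.exists_step H.h.two hyn H.Cn (lt_of_le_of_ne hD1C hne)
    have hγD1 : g⁻¹ * cj a g ∈ D ⊔ zpowers y := form1 hyn (hgg a)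
    by_cases hγD : g⁻¹ * cj a g ∈ D
    · rcases hR g (H.memC.1 hgC) hγD with h1 | h1
      · exact hgD1 (mem_sup_left h1)
      · apply hgD1
        have h2 : g = y * (y⁻¹ * g) := by group
        rw [h2]
        exact mul_mem hyD1 (mem_sup_left h1)
    · have hd := hcos _ hγD1 hγD
      have hdd := H.dd g
      set γ := g⁻¹ * cj a g with hγ
      set d := y⁻¹ * γ with hdd'
      have h1 : γ = y * d := by rw [hdd']; group
      have h2 : cj a γ = y * (y⁻¹ * cj a y) * cj a d := by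
        rw [h1, map_mul]; group
      have h3 : γ * cj a γ = (y * y) * ((y⁻¹ * d * y⁻¹⁻¹) * cj a d) * (y⁻¹ * cj a y) := by
        have c1 := hDc (y⁻¹ * cj a y) hβD (cj a d) (hDa d hd)
        rw [h2, h1]
        calc y * d * (y * (y⁻¹ * cj a y) * cj a d) = y * d * y * ((y⁻¹ * cj a y) * cj a d) := by group
          _ = y * d * y * (cj a d * (y⁻¹ * cj a y)) := by rw [c1]
          _ = _ := by group
      have hcd : (y⁻¹ * d * y⁻¹⁻¹) * cj a d ∈ E := by
        by_cases hdE : d ∈ E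
        · exact E.mul_mem (hEn.conj_mem _ hdE y⁻¹) (hEn.conj_mem _ hdE a)
        · apply hDE _ (hDn.conj_mem _ hd y⁻¹) _ (hDa d hd)
          · intro h4
            apply hdE
            have h5 := hEn.conj_mem _ h4 y
            have h6 : y * (y⁻¹ * d * y⁻¹⁻¹) * y⁻¹ = d := by group
            rwa [h6] at h5
          · intro h4
            apply hdE
            have h5 := hEn.conj_mem _ h4 a
            have h6 : a * cj a d * a⁻¹ = d := H.cc d
            rwa [h6] at h5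
      rw [hdd] at h3
      apply hβE
      have h4 : y⁻¹ * cj a y = ((y * y) * ((y⁻¹ * d * y⁻¹⁻¹) * cj a d))⁻¹ := eq_inv_of_mul_eq_one_right h3.symm
      rw [h4]
      exact E.inv_mem (E.mul_mem hyyE hcd)
  refine ⟨y, hyC', hyD, hyyE, hβD, hβE, ?_⟩
  intro g hg
  by_cases hgD : g ∈ D
  · exact Or.inl hgD
  · right
    apply hcos g _ hgD
    rw [hCeq]
    exact H.memC.2 hg

end

end Cfsg.Agent.H99.HarB1a
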