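import Mathlib

set_option autoImplicit false

/-! Direct sum decompositions from partitions of a basis (helper99). -/

namespace Cfsg.Agent.H99

open Module

section
variable {F V X : Type*} [Field F] [AddCommGroup V] [Module F V] [DecidableEq X] {t : ℕ}

/-- span of a block of basis vectors -/
noncomputable def blockSpan (b : Basis X F V) (A : Finset X) : Submodule F V :=
  Submodule.span F (b '' (A : Set X))

lemma finrank_blockSpan (b : Basis X F V) (A : Finset X) : finrank F (blockSpan b A) = A.card := by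
  unfold blockSpan
  have h1 : LinearIndependent F (fun x : A => b x) := b.linearIndependent.comp _ Subtype.val_injective
  have h2 : b '' (A : Set X) = Set.range (fun x : A => b x) := by
    ext y; constructor
    · rintro ⟨x, hx, rfl⟩; exact ⟨⟨x, hx⟩, rfl⟩
    · rintro ⟨x, rfl⟩; exact ⟨x, x.2, rfl⟩
  rw [h2, finrank_span_eq_card h1, Fintype.card_coe]

lemma blockSpan_iSup (b : Basis X F V) (A : Fin t → Finset X) (hcov : ∀ x, ∃ j, x ∈ A j) :
    (⨆ j, blockSpan b (A j)) = ⊤ := by
  rw [eq_top_iff, ← b.span_eq, Submodule.span_le]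
  rintro _ ⟨x, rfl⟩
  obtain ⟨j, hj⟩ := hcov x
  exact Submodule.mem_iSup_of_mem j (Submodule.subset_span ⟨x, hj, rfl⟩)

lemma blockSpan_iSupIndep (b : Basis X F V) (A : Fin t → Finset X)
    (hdis : ∀ i j, i ≠ j → Disjoint (A i) (A j)) : iSupIndep (fun j => blockSpan b (A j)) := by
  intro i
  have h1 : (⨆ j, ⨆ (_ : j ≠ i), blockSpan b (A j)) ≤ Submodule.span F (b '' {x | x ∉ A i}) := by
    refine iSup₂_le fun j hj => ?_
    refine Submodule.span_mono (Set.image_mono ?_)
    intro x hx
    exact Finset.disjoint_left.mp (hdis j i hj) hx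
  refine Disjoint.mono_right h1 ?_
  refine b.linearIndependent.disjoint_span_image ?_
  rw [Set.disjoint_left]
  intro x hx hx'
  exact hx' hx

/-- A map monomial on the basis maps block spans to block spans. -/
lemma map_blockSpan (b : Basis X F V) (f : V →ₗ[F] V) (σ : X → X)
    (hb : ∀ x, ∃ c : F, c ≠ 0 ∧ f (b x) = c • b (σ x)) (A : Finset X) :
    (blockSpan b A).map f = blockSpan b (A.image σ) := by
  unfold blockSpan
  rw [Submodule.map_span]
  apply le_antisymm
  · rw [Submodule.span_le]
    rintro _ ⟨_, ⟨x, hx, rfl⟩, rfl⟩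
    obtain ⟨c, -, hc2⟩ := hb x
    rw [hc2]
    exact Submodule.smul_mem _ _ (Submodule.subset_span ⟨σ x, by
      simp only [Finset.coe_image]; exact Set.mem_image_of_mem σ hx, rfl⟩)
  · rw [Submodule.span_le]
    rintro _ ⟨y, hy, rfl⟩
    simp only [Finset.coe_image] at hy
    obtain ⟨x, hx, rfl⟩ := hy
    obtain ⟨c, hc1, hc2⟩ := hb x
    have : b (σ x) = c⁻¹ • f (b x) := by rw [hc2, smul_smul, inv_mul_cancel₀ hc1, one_smul]
    rw [this]
    exact Submodule.smul_mem _ _ (Submodule.subset_span ⟨b x, ⟨x, hx, rfl⟩, rfl⟩)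

end

end Cfsg.Agent.H99
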