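import Mathlib

set_option autoImplicit false

/-! Cyclic decompositions of endomorphisms (rational canonical form) (helper99). -/

namespace Cfsg.Agent.H99

open Module Polynomial

universe u

/-- a decomposition of `V` into cyclic blocks `F[X]/(P j)` for the endomorphism `f` -/
structure CycDecomp {F V : Type*} [Field F] [AddCommGroup V] [Module F V] (f : V →ₗ[F] V) {ι : Type*} (P : ι → F[X]) where
  basis : Basis (Σ j, Fin (P j).natDegree) F V
  gen : ι → V
  basis_eq : ∀ j s, basis ⟨j, s⟩ = (f ^ (s : ℕ)) (gen j)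
  aeval_eq : ∀ j, (aeval f (P j)) (gen j) = 0
  monic : ∀ j, (P j).Monic

namespace CycDecomp

section
variable {F V : Type*} [Field F] [AddCommGroup V] [Module F V] {f : V →ₗ[F] V} {ι : Type*} {P : ι → F[X]}

lemma apply_basis_lt (D : CycDecomp f P) (j : ι) (s : Fin (P j).natDegree) (h : (s : ℕ) + 1 < (P j).natDegree) :
    f (D.basis ⟨j, s⟩) = D.basis ⟨j, ⟨s + 1, h⟩⟩ := by
  rw [D.basis_eq, D.basis_eq, pow_succ']
  rfl

lemma pow_natDegree_gen (D : CycDecomp f P) (j : ι) :
    (f ^ (P j).natDegree) (D.gen j) = -∑ s : Fin (P j).natDegree, (P j).coeff s • D.basis ⟨j, s⟩ := by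
  have h := D.aeval_eq j
  rw [aeval_eq_sum_range, Finset.sum_range_succ, LinearMap.add_apply] at h
  have hc : (P j).coeff (P j).natDegree = 1 := (D.monic j)
  rw [hc, one_smul, LinearMap.sum_apply, Finset.sum_range] at h
  rw [eq_neg_iff_add_eq_zero, add_comm, ← h]
  congr 1
  apply Finset.sum_congr rfl
  intro s _
  rw [D.basis_eq]
  rfl

lemma apply_basis_last (D : CycDecomp f P) (j : ι) (s : Fin (P j).natDegree) (h : (s : ℕ) + 1 = (P j).natDegree) :
    f (D.basis ⟨j, s⟩) = -∑ s : Fin (P j).natDegree, (P j).coeff s • D.basis ⟨j, s⟩ := by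
  have h2 : (f ^ (P j).natDegree) (D.gen j) = (f ^ ((s : ℕ) + 1)) (D.gen j) := by rw [h]
  rw [← D.pow_natDegree_gen j, D.basis_eq, h2, pow_succ']
  rfl

/-- two endomorphisms with the same cyclic decomposition are conjugate -/
theorem conj {W : Type*} [AddCommGroup W] [Module F W] {g : W →ₗ[F] W} (D : CycDecomp f P) (D' : CycDecomp g P) :
    ∃ e : V ≃ₗ[F] W, (∀ v, e (f v) = g (e v)) ∧ ∀ x, e (D.basis x) = D'.basis x := by
  refine ⟨D.basis.equiv D'.basis (Equiv.refl _), ?_, ?_⟩
  · have h : (D.basis.equiv D'.basis (Equiv.refl _)).toLinearMap ∘ₗ f = g ∘ₗ (D.basis.equiv D'.basis (Equiv.refl _)).toLinearMap := by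
      apply D.basis.ext
      rintro ⟨j, s⟩
      simp only [LinearMap.comp_apply, LinearEquiv.coe_coe, Basis.equiv_apply, Equiv.refl_apply]
      rcases Nat.lt_or_ge ((s : ℕ) + 1) (P j).natDegree with h | h
      · rw [D.apply_basis_lt j s h, D'.apply_basis_lt j s h, Basis.equiv_apply, Equiv.refl_apply]
      · have h' : (s : ℕ) + 1 = (P j).natDegree := by have := s.2; omega
        rw [D.apply_basis_last j s h', D'.apply_basis_last j s h', map_neg, map_sum]
        congr 1
        apply Finset.sum_congr rfl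
        intro t _
        rw [map_smul, Basis.equiv_apply, Equiv.refl_apply]
    exact fun v => LinearMap.congr_fun h v
  · intro x
    rw [Basis.equiv_apply, Equiv.refl_apply]

/-- transport along an isomorphism -/
noncomputable def map {W : Type*} [AddCommGroup W] [Module F W] {g : W →ₗ[F] W} (D : CycDecomp f P) (e : V ≃ₗ[F] W)
    (he : ∀ v, e (f v) = g (e v)) : CycDecomp g P := by
  have hpow : ∀ (s : ℕ) (v : V), e ((f ^ s) v) = (g ^ s) (e v) := by
    intro s
    induction s with
    | zero => intro v; rfl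
    | succ s ih => intro v; rw [pow_succ, pow_succ, Module.End.mul_apply, Module.End.mul_apply, ih, he]
  exact
  { basis := D.basis.map e
    gen := fun j => e (D.gen j)
    basis_eq := fun j s => by rw [Basis.map_apply, D.basis_eq, hpow]
    aeval_eq := fun j => by
      have h := congrArg e (D.aeval_eq j)
      rw [map_zero, aeval_eq_sum_range, LinearMap.sum_apply, map_sum] at h
      rw [aeval_eq_sum_range, LinearMap.sum_apply, ← h]
      apply Finset.sum_congr rfl
      intro s _
      rw [LinearMap.smul_apply, LinearMap.smul_apply, map_smul, hpow]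
    monic := D.monic }

/-- reindexing the blocks -/
noncomputable def reindex {κ : Type*} (D : CycDecomp f P) (e : κ ≃ ι) : CycDecomp f (fun j => P (e j)) where
  basis := D.basis.reindex (Equiv.sigmaCongrLeft (β := fun j => Fin (P j).natDegree) e).symm
  gen := fun j => D.gen (e j)
  basis_eq := fun j s => by
    rw [Basis.reindex_apply, Equiv.symm_symm]
    exact D.basis_eq (e j) s
  aeval_eq := fun j => D.aeval_eq (e j)
  monic := fun j => D.monic (e j)

/-- leaving out the trivial blocks -/
noncomputable def restrict {p : ι → Prop} (D : CycDecomp f P) (hp : ∀ j, ¬ p j → (P j).natDegree = 0) :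
    CycDecomp f (fun j : {j // p j} => P j) where
  basis := by
    refine D.basis.reindex (Equiv.ofBijective (fun x : (Σ j : {j // p j}, Fin (P j).natDegree) => (⟨x.1, x.2⟩ : Σ j, Fin (P j).natDegree)) ?_).symm
    constructor
    · rintro ⟨⟨j, hj⟩, s⟩ ⟨⟨j', hj'⟩, s'⟩ h
      simp only [Sigma.mk.injEq] at h
      obtain ⟨rfl, h2⟩ := h
      rw [eq_of_heq h2]
    · rintro ⟨j, s⟩
      have hj : p j := by
        by_contra hcon
        have h1 := hp j hcon
        have h2 := s.2
        omega
      exact ⟨⟨⟨j, hj⟩, s⟩, rfl⟩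
  gen := fun j => D.gen j
  basis_eq := fun j s => by
    rw [Basis.reindex_apply, Equiv.symm_symm]
    exact D.basis_eq j s
  aeval_eq := fun j => D.aeval_eq j
  monic := fun j => D.monic j

/-- leaving out the trivial blocks -/
theorem aeval_eq_zero (D : CycDecomp f P) (μ : F[X]) (h : ∀ j, P j ∣ μ) : aeval f μ = 0 := by
  apply D.basis.ext
  rintro ⟨j, s⟩
  obtain ⟨Q, hQ⟩ := h j
  rw [D.basis_eq, LinearMap.zero_apply, hQ]
  have h1 : (aeval f (P j * Q)) ((f ^ (s : ℕ)) (D.gen j)) = (aeval f (Q * X ^ (s : ℕ))) ((aeval f (P j)) (D.gen j)) := by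
    have h2 : P j * Q * X ^ (s : ℕ) = Q * X ^ (s : ℕ) * P j := by ring
    have h3 := congrArg (fun R : F[X] => (aeval f R) (D.gen j)) h2
    simp only [map_mul, map_pow, aeval_X, Module.End.mul_apply] at h3
    rw [map_mul, map_mul, Module.End.mul_apply, Module.End.mul_apply, map_pow, aeval_X]
    exact h3
  rw [h1, D.aeval_eq, map_zero]

theorem finrank_eq [Fintype ι] (D : CycDecomp f P) : finrank F V = ∑ j, (P j).natDegree := by
  rw [finrank_eq_card_basis D.basis, Fintype.card_sigma]
  simp

end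

end CycDecomp

section
variable {F : Type u} {V : Type u} [Field F] [AddCommGroup V] [Module F V] [FiniteDimensional F V]

/-- existence of the primary decomposition -/
theorem exists_cycDecomp (f : V →ₗ[F] V) : ∃ (k : ℕ) (P : Fin k → F[X]) (e : Fin k → ℕ),
    (∀ j, (P j).Monic ∧ Irreducible (P j) ∧ 0 < e j) ∧ Nonempty (CycDecomp f (fun j => P j ^ e j)) := by
  classical
  have hfin : Module.Finite F[X] (AEval' f) := inferInstance
  have htor : Module.IsTorsion F[X] (AEval' f) := by
    intro x
    refine ⟨⟨f.charpoly, mem_nonZeroDivisors_of_ne_zero f.charpoly_monic.ne_zero⟩, ?_⟩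
    change f.charpoly • x = 0
    obtain ⟨v, rfl⟩ := (AEval'.of f).surjective x
    have := AEval.of_aeval_smul (R := F) (M := V) (a := f) f.charpoly v
    change _ = f.charpoly • AEval'.of f v at this
    rw [← this, LinearMap.aeval_self_charpoly]
    simp
  obtain ⟨ι, _, p, hp, e, ⟨E⟩⟩ := Module.equiv_directSum_of_isTorsion.{u, u} htor
  -- monic version
  let P : ι → F[X] := fun j => p j * C (p j).leadingCoeff⁻¹
  have hPm : ∀ j, (P j).Monic := fun j => monic_mul_leadingCoeff_inv (hp j).ne_zero
  have hunit : ∀ j, IsUnit (C (p j).leadingCoeff⁻¹) := fun j => by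
    rw [isUnit_C]
    exact (IsUnit.mk0 _ (inv_ne_zero (leadingCoeff_ne_zero.mpr (hp j).ne_zero)))
  have hPa : ∀ j, Associated (P j) (p j) := fun j => by
    obtain ⟨c, hc⟩ := hunit j
    refine Associated.symm ⟨c, ?_⟩
    rw [hc]
  have hPi : ∀ j, Irreducible (P j) := fun j => (hPa j).irreducible_iff.mpr (hp j)
  have hQm : ∀ j, (P j ^ e j).Monic := fun j => (hPm j).pow _
  have hspan : ∀ j, Submodule.span F[X] {p j ^ e j} = Ideal.span {P j ^ e j} := fun j => by
    have : Associated (P j ^ e j) (p j ^ e j) := (hPa j).pow_pow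
    change Ideal.span {p j ^ e j} = _
    exact (Ideal.span_singleton_eq_span_singleton.mpr this).symm
  let E2 : AEval' f ≃ₗ[F[X]] DirectSum ι (fun j => F[X] ⧸ Ideal.span {P j ^ e j}) :=
    E.trans (DFinsupp.mapRange.linearEquiv (fun j => Submodule.quotEquivOfEq _ _ (hspan j)))
  let b0 : ∀ j, Basis (Fin (P j ^ e j).natDegree) F (F[X] ⧸ Ideal.span {P j ^ e j}) := fun j => AdjoinRoot.powerBasisAux' (hQm j)
  have hb0 : ∀ j s, b0 j s = (X ^ (s : ℕ) : F[X]) • (Ideal.Quotient.mk (Ideal.span {P j ^ e j}) 1) := fun j s => by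
    have h1 := (AdjoinRoot.powerBasis' (hQm j)).basis_eq_pow s
    change b0 j s = _ at h1
    rw [h1]
    change AdjoinRoot.root (P j ^ e j) ^ (s : ℕ) = _
    change _ = AdjoinRoot.mk (P j ^ e j) (X ^ (s : ℕ) • 1)
    rw [smul_eq_mul, mul_one, map_pow, AdjoinRoot.mk_X]
  let b1 : Basis (Σ j, Fin (P j ^ e j).natDegree) F (DirectSum ι (fun j => F[X] ⧸ Ideal.span {P j ^ e j})) := DFinsupp.basis b0
  have hb1 : ∀ j s, b1 ⟨j, s⟩ = DirectSum.lof F[X] ι (fun j => F[X] ⧸ Ideal.span {P j ^ e j}) j (b0 j s) := by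
    intro j s
    rw [Basis.apply_eq_iff]
    change (sigmaFinsuppLequivDFinsupp F).symm (DFinsupp.mapRange.linearEquiv (fun i => (b0 i).repr) (DFinsupp.single j (b0 j s))) = _
    rw [DFinsupp.mapRange.linearEquiv_apply, DFinsupp.mapRange_single, Basis.repr_self, LinearEquiv.symm_apply_eq]
    change _ = sigmaFinsuppEquivDFinsupp _
    rw [sigmaFinsuppEquivDFinsupp_single]
  let Q : ι → F[X] := fun j => P j ^ e j
  let E3 : (DirectSum ι (fun j => F[X] ⧸ Ideal.span {P j ^ e j})) ≃ₗ[F] V :=
    ((AEval'.of f).trans (E2.restrictScalars F)).symm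
  have hE3 : ∀ (R : F[X]) (x : DirectSum ι (fun j => F[X] ⧸ Ideal.span {P j ^ e j})), E3 (R • x) = (aeval f R) (E3 x) := by
    intro R x
    change (AEval'.of f).symm (E2.symm (R • x)) = (aeval f R) ((AEval'.of f).symm (E2.symm x))
    rw [map_smul, LinearEquiv.symm_apply_eq]
    have := AEval.of_aeval_smul (R := F) (M := V) (a := f) R ((AEval'.of f).symm (E2.symm x))
    change _ = R • (AEval'.of f) ((AEval'.of f).symm (E2.symm x)) at this
    rw [LinearEquiv.apply_symm_apply] at this
    exact this.symm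
  let one : ∀ j, DirectSum ι (fun j => F[X] ⧸ Ideal.span {P j ^ e j}) := fun j =>
    DirectSum.lof F[X] ι (fun j => F[X] ⧸ Ideal.span {P j ^ e j}) j (Ideal.Quotient.mk (Ideal.span {P j ^ e j}) 1)
  let D : CycDecomp f Q :=
  { basis := b1.map E3
    gen := fun j => E3 (one j)
    basis_eq := fun j s => by
      rw [Basis.map_apply, hb1, hb0, map_smul, hE3, map_pow, aeval_X]
    aeval_eq := fun j => by
      rw [← hE3, ← map_smul]
      have h0 : (P j ^ e j) • (Ideal.Quotient.mk (Ideal.span {P j ^ e j}) 1) = 0 := by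
        change Ideal.Quotient.mk (Ideal.span {P j ^ e j}) (P j ^ e j • 1) = 0
        rw [smul_eq_mul, mul_one]
        exact Ideal.Quotient.eq_zero_iff_mem.mpr (Ideal.mem_span_singleton_self _)
      rw [h0, map_zero, map_zero]
    monic := hQm }
  let D2 := D.restrict (p := fun j => 0 < e j) (fun j hj => by
    have : e j = 0 := by omega
    change (P j ^ e j).natDegree = 0
    rw [this, pow_zero, natDegree_one])
  have : Fintype {j // 0 < e j} := inferInstance
  let ε : Fin (Fintype.card {j // 0 < e j}) ≃ {j // 0 < e j} := (Fintype.equivFin _).symm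
  exact ⟨_, fun i => P (ε i), fun i => e (ε i), fun i => ⟨hPm _, hPi _, (ε i).2⟩, ⟨D2.reindex ε⟩⟩

/-- existence of the decomposition for semisimple endomorphisms -/
theorem exists_cycDecomp_of_squarefree (f : V →ₗ[F] V) (μ : F[X]) (hμ : Squarefree μ) (h : aeval f μ = 0) :
    ∃ (k : ℕ) (P : Fin k → F[X]), (∀ j, (P j).Monic ∧ Irreducible (P j) ∧ P j ∣ μ) ∧ Nonempty (CycDecomp f P) := by
  obtain ⟨k, P, e, hP, ⟨D⟩⟩ := exists_cycDecomp f
  have hdvd : ∀ j, P j ^ e j ∣ μ := by
    intro j
    -- the generator has annihilator `P j ^ e j`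
    have h1 : (aeval f (μ %ₘ (P j ^ e j))) (D.gen j) = 0 := by
      have h2 := congrArg (fun R : F[X] => (aeval f R) (D.gen j)) (modByMonic_add_div μ (P j ^ e j))
      simp only [map_add, map_mul, LinearMap.add_apply, Module.End.mul_apply, h, LinearMap.zero_apply] at h2
      have h3 : (aeval f (P j ^ e j)) ((aeval f (μ /ₘ (P j ^ e j))) (D.gen j)) = 0 := by
        rw [← Module.End.mul_apply, ← map_mul, mul_comm, map_mul, Module.End.mul_apply, D.aeval_eq, map_zero]
      rw [h3, add_zero] at h2
      exact h2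
    have hm := D.monic j
    rw [← modByMonic_eq_zero_iff_dvd hm]
    have hdeg : (μ %ₘ (P j ^ e j)).natDegree < (P j ^ e j).natDegree := by
      apply natDegree_modByMonic_lt _ hm
      intro h1
      have := (hP j).2.1
      have h2 : IsUnit (P j) := by
        rw [← isUnit_pow_iff (hP j).2.2.ne', h1]
        exact isUnit_one
      exact this.not_isUnit h2
    set R := μ %ₘ (P j ^ e j) with hR
    rw [aeval_eq_sum_range' hdeg, LinearMap.sum_apply, Finset.sum_range] at h1
    have h2 : ∑ s : Fin (P j ^ e j).natDegree, R.coeff s • D.basis ⟨j, s⟩ = 0 := by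
      rw [← h1]
      apply Finset.sum_congr rfl
      intro s _
      rw [D.basis_eq]
      rfl
    have hli : LinearIndependent F (fun s : Fin (P j ^ e j).natDegree => D.basis ⟨j, s⟩) :=
      D.basis.linearIndependent.comp _ (fun a b hab => by simpa using hab)
    have h3 := Fintype.linearIndependent_iff.mp hli _ h2
    ext s
    rw [coeff_zero]
    rcases Nat.lt_or_ge s (P j ^ e j).natDegree with h4 | h4
    · exact h3 ⟨s, h4⟩
    · exact coeff_eq_zero_of_natDegree_lt (by omega)
  have he : ∀ j, e j = 1 := by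
    intro j
    by_contra hne
    have h2 : 2 ≤ e j := by have := (hP j).2.2; omega
    have h3 : P j * P j ∣ μ := by
      refine Dvd.dvd.trans ?_ (hdvd j)
      rw [← pow_two]
      exact pow_dvd_pow _ h2
    exact (hP j).2.1.not_isUnit (hμ _ h3)
  have hfun : (fun j => P j ^ e j) = P := by
    funext j
    rw [he, pow_one]
  have hdvd' : ∀ j, P j ∣ μ := fun j => by
    have := hdvd j
    rwa [he, pow_one] at this
  rw [hfun] at D
  exact ⟨k, P, fun j => ⟨(hP j).1, (hP j).2.1, hdvd' j⟩, ⟨D⟩⟩

end

section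
variable {F V : Type*} [Field F] [AddCommGroup V] [Module F V]

/-- construction of an endomorphism with given cyclic decomposition in a given basis -/
theorem exists_endo_cycDecomp {ι : Type*} (P : ι → F[X]) (hP : ∀ j, (P j).Monic)
    (b : Basis (Σ j, Fin (P j).natDegree) F V) : ∃ f : V →ₗ[F] V, ∃ D : CycDecomp f P, D.basis = b := by
  classical
  let g : (Σ j, Fin (P j).natDegree) → V := fun x =>
    if h : (x.2 : ℕ) + 1 < (P x.1).natDegree then b ⟨x.1, ⟨x.2 + 1, h⟩⟩
    else -∑ s : Fin (P x.1).natDegree, (P x.1).coeff s • b ⟨x.1, s⟩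
  let f := b.constr F g
  have hf : ∀ x, f (b x) = g x := fun x => b.constr_basis F g x
  let v : ι → V := fun j => if h : 0 < (P j).natDegree then b ⟨j, ⟨0, h⟩⟩ else 0
  have hpow : ∀ j (s : ℕ) (hs : s < (P j).natDegree), (f ^ s) (v j) = b ⟨j, ⟨s, hs⟩⟩ := by
    intro j s
    induction s with
    | zero =>
      intro hs
      simp only [pow_zero, Module.End.one_apply, v]
      rw [dif_pos hs]
    | succ s ih =>
      intro hs
      rw [pow_succ', Module.End.mul_apply, ih (by omega), hf]
      simp only [g]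
      rw [dif_pos hs]
  refine ⟨f, ⟨b, v, fun j s => (hpow j s s.2).symm, ?_, hP⟩, rfl⟩
  intro j
  rcases Nat.eq_zero_or_pos (P j).natDegree with h0 | h0
  · have hv : v j = 0 := by
      simp only [v]
      rw [dif_neg (by omega)]
    rw [hv, map_zero]
  · rw [aeval_eq_sum_range, Finset.sum_range_succ, LinearMap.add_apply]
    have hc : (P j).coeff (P j).natDegree = 1 := (hP j)
    have h1 : (f ^ (P j).natDegree) (v j) = -∑ s : Fin (P j).natDegree, (P j).coeff s • b ⟨j, s⟩ := by
      obtain ⟨d, hd⟩ : ∃ d, (P j).natDegree = d + 1 := ⟨(P j).natDegree - 1, by omega⟩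
      have h2 : (f ^ (P j).natDegree) (v j) = (f ^ (d + 1)) (v j) := by rw [hd]
      rw [h2, pow_succ', Module.End.mul_apply, hpow j d (by omega), hf]
      simp only [g]
      rw [dif_neg (by omega)]
    rw [hc, one_smul, h1, LinearMap.sum_apply, Finset.sum_range, ← sub_eq_add_neg, sub_eq_zero]
    apply Finset.sum_congr rfl
    intro s _
    rw [LinearMap.smul_apply, hpow j s s.2]

end

end Cfsg.Agent.H99
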