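import Mathlib

set_option autoImplicit false

/-! 2-adic facts on finite fields of odd order (helper99). -/

namespace Cfsg.Agent.H99

lemma padicValNat_two_le_of_dvd {a b : ℕ} (hb : b ≠ 0) (h : a ∣ b) : padicValNat 2 a ≤ padicValNat 2 b :=
  (padicValNat_dvd_iff_le hb).mp (pow_padicValNat_dvd.trans h)

lemma padicValNat_lt_of_dvd_two_mul {d n : ℕ} (hn : n ≠ 0) (h1 : d ∣ 2 * n) (h2 : ¬ d ∣ n) :
    padicValNat 2 n < padicValNat 2 d := by
  by_contra hcon
  push Not at hcon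
  apply h2
  have hd : d ≠ 0 := by
    rintro rfl
    simp at h1
    exact hn h1
  obtain ⟨a, u, hu, rfl⟩ := Nat.exists_eq_two_pow_mul_odd hd
  have hu0 : u ≠ 0 := by rintro rfl; simp at hu
  have ha : padicValNat 2 (2 ^ a * u) = a := by
    rw [padicValNat.mul (by positivity) hu0, padicValNat.prime_pow, padicValNat.eq_zero_of_not_dvd, add_zero]
    exact fun h => (Nat.not_even_iff_odd.mpr hu) (even_iff_two_dvd.mpr h)
  rw [ha] at hcon
  have h3 : 2 ^ a ∣ n := (padicValNat_dvd_iff_le hn).mpr hcon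
  have h4 : u ∣ n := by
    have : u ∣ 2 * n := (Dvd.intro_left _ rfl).trans h1
    exact (Nat.Coprime.dvd_mul_left (Nat.Coprime.symm (Nat.coprime_two_left.mpr hu))).mp this
  exact Nat.Coprime.mul_dvd_of_dvd_of_dvd (Nat.Coprime.pow_left _ (Nat.coprime_two_left.mpr hu)) h3 h4

lemma dvd_half_of_padicValNat_lt {d N : ℕ} (hN : N ≠ 0) (h1 : d ∣ N)
    (h2 : padicValNat 2 d < padicValNat 2 N) : d ∣ N / 2 := by
  have h3 : 2 ∣ N := by
    by_contra h
    rw [padicValNat.eq_zero_of_not_dvd h] at h2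
    omega
  obtain ⟨M, rfl⟩ := h3
  rw [Nat.mul_div_cancel_left _ (by norm_num)]
  by_contra hcon
  have hM : M ≠ 0 := by rintro rfl; simp at hN
  have h4 := padicValNat_lt_of_dvd_two_mul hM h1 hcon
  rw [padicValNat.mul (by norm_num) hM, padicValNat.self (by norm_num)] at h2
  omega

section
variable {F : Type*} [Field F] [Fintype F]

lemma neg_one_ne_one_of_odd (hodd : Odd (Fintype.card F)) : (-1 : F) ≠ 1 := by
  have h : ringChar F ≠ 2 := by
    intro h
    have := FiniteField.even_card_of_char_two h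
    rw [Nat.odd_iff] at hodd
    omega
  exact Ring.neg_one_ne_one_of_char_ne_two h

lemma two_ne_zero_of_odd (hodd : Odd (Fintype.card F)) : (2 : F) ≠ 0 := by
  intro h
  apply neg_one_ne_one_of_odd hodd
  have : (1 : F) + 1 = 0 := by rw [one_add_one_eq_two, h]
  exact (eq_neg_of_add_eq_zero_left this).symm

/-- `w ^ n ≠ -1` when the 2-part of `q - 1` divides `n`. -/
theorem pow_ne_neg_one {n : ℕ} (hn : n ≠ 0) (hodd : Odd (Fintype.card F))
    (hv : padicValNat 2 (Fintype.card F - 1) ≤ padicValNat 2 n) (w : F) : w ^ n ≠ -1 := by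
  intro h
  have hw : w ≠ 0 := by
    rintro rfl
    rw [zero_pow hn] at h
    exact one_ne_zero (neg_eq_zero.mp h.symm)
  have h1 : orderOf w ∣ 2 * n := by
    rw [orderOf_dvd_iff_pow_eq_one, mul_comm, pow_mul, h]
    norm_num
  have h2 : ¬ orderOf w ∣ n := by
    rw [orderOf_dvd_iff_pow_eq_one, h]
    exact neg_one_ne_one_of_odd hodd
  have h3 := padicValNat_lt_of_dvd_two_mul hn h1 h2
  have hq : Fintype.card F - 1 ≠ 0 := by
    have := Fintype.one_lt_card (α := F)
    omega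
  have h4 : orderOf w ∣ Fintype.card F - 1 := by
    rw [orderOf_dvd_iff_pow_eq_one]
    exact FiniteField.pow_card_sub_one_eq_one w hw
  have h5 := padicValNat_two_le_of_dvd hq h4
  omega

/-- a generator of the multiplicative group -/
lemma exists_generator : ∃ g : F, g ≠ 0 ∧ (∀ k : ℕ, g ^ k = 1 ↔ Fintype.card F - 1 ∣ k) ∧
    ∀ x : F, x ≠ 0 → ∃ k : ℕ, x = g ^ k := by
  classical
  obtain ⟨g, hg⟩ := IsCyclic.exists_generator (α := Fˣ)
  refine ⟨g, g.ne_zero, fun k => ?_, fun x hx => ?_⟩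
  · rw [← Units.val_pow_eq_pow_val, Units.val_eq_one, ← orderOf_dvd_iff_pow_eq_one,
      orderOf_eq_card_of_forall_mem_zpowers hg, Nat.card_eq_fintype_card, Fintype.card_units]
  · have := hg (Units.mk0 x hx)
    rw [← mem_powers_iff_mem_zpowers] at this
    obtain ⟨k, hk⟩ := this
    refine ⟨k, ?_⟩
    have h2 := congrArg (fun u : Fˣ => (u : F)) hk
    simpa using h2.symm

lemma generator_pow_half {g : F} (hodd : Odd (Fintype.card F))
    (hg : ∀ k : ℕ, g ^ k = 1 ↔ Fintype.card F - 1 ∣ k) : g ^ ((Fintype.card F - 1) / 2) = -1 := by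
  have h1 := Fintype.one_lt_card (α := F)
  obtain ⟨m, hm⟩ := hodd
  have h2 : Fintype.card F - 1 = 2 * m := by omega
  rw [h2, Nat.mul_div_cancel_left _ (by norm_num)]
  have h3 : g ^ m ≠ 1 := by
    intro h
    rw [hg, h2] at h
    have := Nat.le_of_dvd (by omega) h
    omega
  have h4 : g ^ m * g ^ m = 1 := by
    rw [← pow_add, hg, h2, two_mul]
  exact (mul_self_eq_one_iff.mp h4).resolve_left h3

/-- `-1` is an `n`-th power when the 2-part of `q - 1` does not divide `n`. -/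
theorem exists_pow_eq_neg_one {n : ℕ} (hn : n ≠ 0) (hodd : Odd (Fintype.card F))
    (hv : padicValNat 2 n < padicValNat 2 (Fintype.card F - 1)) : ∃ w : F, w ^ n = -1 := by
  obtain ⟨g, hg0, hg, -⟩ := exists_generator (F := F)
  have h1 := Fintype.one_lt_card (α := F)
  set N := Fintype.card F - 1 with hN
  have hN0 : N ≠ 0 := by omega
  have hd : Nat.gcd n N ∣ N / 2 := by
    apply dvd_half_of_padicValNat_lt hN0 (Nat.gcd_dvd_right _ _)
    refine lt_of_le_of_lt ?_ hv
    exact padicValNat_two_le_of_dvd hn (Nat.gcd_dvd_left _ _)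
  obtain ⟨t, ht⟩ := hd
  have hb := Nat.gcd_eq_gcd_ab n N
  refine ⟨g ^ ((Nat.gcdA n N) * (t : ℤ)), ?_⟩
  rw [← zpow_natCast, ← zpow_mul]
  have h2 : (Nat.gcdA n N) * (t : ℤ) * (n : ℤ) = (N / 2 : ℕ) + (N : ℤ) * (- (Nat.gcdB n N) * t) := by
    rw [ht]
    push_cast
    rw [hb]
    ring
  rw [h2, zpow_add₀ hg0, zpow_mul, zpow_natCast, zpow_natCast, (hg N).mpr (dvd_refl _), one_zpow, mul_one]
  exact generator_pow_half hodd hg

lemma pow_half_ne_one_of_nonsquare {ζ : F} (hodd : Odd (Fintype.card F)) (hζ : ∀ w, w * w ≠ ζ) :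
    ζ ^ ((Fintype.card F - 1) / 2) ≠ 1 := by
  intro h
  have h2 : ringChar F ≠ 2 := by
    intro h
    have := FiniteField.even_card_of_char_two h
    rw [Nat.odd_iff] at hodd
    omega
  have hζ0 : ζ ≠ 0 := by
    rintro rfl
    exact hζ 0 (by simp)
  have h3 : Fintype.card F / 2 = (Fintype.card F - 1) / 2 := by
    obtain ⟨m, hm⟩ := hodd
    omega
  rw [← h3] at h
  obtain ⟨w, hw⟩ := (FiniteField.isSquare_iff h2 hζ0).mpr h
  exact hζ w hw.symm

theorem nonsquare_pow_half_ne_one {n : ℕ} {ζ : F} (hn : n ≠ 0) (he : Even n) (hodd : Odd (Fintype.card F))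
    (hζ : ∀ w, w * w ≠ ζ) (hv : padicValNat 2 n ≤ padicValNat 2 (Fintype.card F - 1)) :
    ζ ^ (n / 2) ≠ 1 := by
  intro h
  have h1 := Fintype.one_lt_card (α := F)
  have hζ0 : ζ ≠ 0 := by
    rintro rfl
    exact hζ 0 (by simp)
  obtain ⟨m, hm⟩ := hodd
  have hodd : Odd (Fintype.card F) := ⟨m, hm⟩
  have h2 : Fintype.card F - 1 = 2 * m := by omega
  have hhalf := pow_half_ne_one_of_nonsquare hodd hζ
  rw [h2, Nat.mul_div_cancel_left _ (by norm_num)] at hhalf
  have h3 : padicValNat 2 m < padicValNat 2 (orderOf ζ) := by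
    apply padicValNat_lt_of_dvd_two_mul (by omega)
    · rw [orderOf_dvd_iff_pow_eq_one, ← h2]
      exact FiniteField.pow_card_sub_one_eq_one ζ hζ0
    · rw [orderOf_dvd_iff_pow_eq_one]
      exact hhalf
  obtain ⟨l, hl⟩ := he
  have hl2 : n = 2 * l := by omega
  rw [hl2, Nat.mul_div_cancel_left _ (by norm_num)] at h
  have hl0 : l ≠ 0 := by omega
  have h4 : padicValNat 2 (orderOf ζ) ≤ padicValNat 2 l := by
    apply padicValNat_two_le_of_dvd hl0
    rw [orderOf_dvd_iff_pow_eq_one]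
    exact h
  rw [hl2, h2, padicValNat.mul (by norm_num) hl0, padicValNat.mul (by norm_num) (by omega)] at hv
  omega

theorem exists_nonsquare_pow_half {n : ℕ} (hn : n ≠ 0) (hodd : Odd (Fintype.card F))
    (hv : padicValNat 2 (Fintype.card F - 1) < padicValNat 2 n) :
    ∃ ζ : F, ζ ≠ 0 ∧ (∀ w, w * w ≠ ζ) ∧ ζ ^ (n / 2) = 1 := by
  obtain ⟨g, hg0, hg, hgen⟩ := exists_generator (F := F)
  have h1 := Fintype.one_lt_card (α := F)
  obtain ⟨s, u, hu, hs⟩ := Nat.exists_eq_two_pow_mul_odd (n := Fintype.card F - 1) (by omega)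
  have hu0 : u ≠ 0 := by rintro rfl; simp at hu
  have ha : padicValNat 2 (2 ^ s * u) = s := by
    rw [padicValNat.mul (by positivity) hu0, padicValNat.prime_pow, padicValNat.eq_zero_of_not_dvd, add_zero]
    exact fun h => (Nat.not_even_iff_odd.mpr hu) (even_iff_two_dvd.mpr h)
  have hhalf := generator_pow_half hodd hg
  refine ⟨g ^ u, pow_ne_zero _ hg0, ?_, ?_⟩
  · intro w hw
    have hw0 : w ≠ 0 := by
      rintro rfl
      exact pow_ne_zero u hg0 (by rw [← hw]; simp)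
    have h2 : (g ^ u) ^ ((Fintype.card F - 1) / 2) = -1 := by
      rw [← pow_mul, mul_comm, pow_mul, hhalf]
      exact hu.neg_one_pow
    obtain ⟨m, hm⟩ := hodd
    have h3 : Fintype.card F - 1 = 2 * m := by omega
    rw [← hw, h3, Nat.mul_div_cancel_left _ (by norm_num), ← pow_two, ← pow_mul, ← h3,
      FiniteField.pow_card_sub_one_eq_one w hw0] at h2
    exact neg_one_ne_one_of_odd ⟨m, hm⟩ h2.symm
  · rw [← pow_mul, hg, hs]
    rw [hs, ha] at hv
    have h4 : 2 ^ (s + 1) ∣ n := (padicValNat_dvd_iff_le hn).mpr hv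
    obtain ⟨t, ht⟩ := h4
    rw [ht, pow_succ]
    rw [show 2 ^ s * 2 * t / 2 = 2 ^ s * t by rw [show 2 ^ s * 2 * t = 2 * (2 ^ s * t) by ring]; exact Nat.mul_div_cancel_left _ (by norm_num)]
    exact ⟨t, by ring⟩

end

end Cfsg.Agent.H99
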