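import Mathlib
import Cfsg.Agent.H99.FinFieldTwo

set_option autoImplicit false

/-! r-th powers in finite fields and the order of q modulo r (helper99). -/

namespace Cfsg.Agent.H99

open Polynomial

section
variable {F : Type*} [Field F] [Fintype F]

/-- an element which is not an `r`-th power and whose order is the `r`-part of `q - 1` -/
theorem exists_nonpower (r : ℕ) [hr : Fact r.Prime] (hd : r ∣ Fintype.card F - 1) :
    ∃ g : F, g ≠ 0 ∧ (∀ w, w ^ r ≠ g) ∧ g ^ (r ^ padicValNat r (Fintype.card F - 1)) = 1 := by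
  obtain ⟨γ, hγ0, hγ, hgen⟩ := exists_generator (F := F)
  have h1 := Fintype.one_lt_card (α := F)
  set N := Fintype.card F - 1 with hN
  have hN0 : N ≠ 0 := by omega
  obtain ⟨m, hm⟩ : r ^ padicValNat r N ∣ N := pow_padicValNat_dvd
  have hrm : ¬ r ∣ m := by
    rintro ⟨t, rfl⟩
    have h2 : r ^ (padicValNat r N + 1) ∣ N := ⟨t, by rw [pow_succ]; rw [hm] at *; linarith⟩
    exact pow_succ_padicValNat_not_dvd hN0 h2
  refine ⟨γ ^ m, pow_ne_zero _ hγ0, ?_, ?_⟩
  · intro w hw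
    have hw0 : w ≠ 0 := by
      rintro rfl
      rw [zero_pow hr.out.ne_zero] at hw
      exact pow_ne_zero _ hγ0 hw.symm
    obtain ⟨k, rfl⟩ := hgen w hw0
    apply hrm
    -- γ^(kr) = γ^m
    have h3 : γ ^ (k * r + N * m - m) = 1 := by
      have hle : m ≤ k * r + N * m := by nlinarith [Nat.pos_of_ne_zero hN0]
      have h4 : γ ^ (k * r + N * m - m) * γ ^ m = γ ^ m := by
        rw [← pow_add, Nat.sub_add_cancel hle, pow_add, pow_mul γ k r, hw]
        have : γ ^ (N * m) = 1 := by rw [hγ]; exact dvd_mul_right _ _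
        rw [this, mul_one]
      have := pow_ne_zero m hγ0
      exact mul_right_cancel₀ this (by rw [h4, one_mul])
    rw [hγ] at h3
    have h5 : r ∣ k * r + N * m - m := hd.trans h3
    have hle : m ≤ k * r + N * m := by nlinarith [Nat.pos_of_ne_zero hN0]
    have h6 : r ∣ k * r + N * m := dvd_add (dvd_mul_left _ _) (hd.mul_right _)
    exact (Nat.dvd_sub_iff_right hle h6).mp h5
  · rw [← pow_mul, hγ]
    exact ⟨1, by rw [mul_one, mul_comm]; exact hm.symm⟩

/-- the order of a non-`r`-th power is divisible by the `r`-part of `q - 1` -/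
theorem padicValNat_le_of_nonpower {r m : ℕ} [hr : Fact r.Prime] {a : F} (ha : a ≠ 0) (hna : ∀ w, w ^ r ≠ a)
    (hm : m ≠ 0) (ham : a ^ m = 1) : padicValNat r (Fintype.card F - 1) ≤ padicValNat r m := by
  obtain ⟨γ, hγ0, hγ, hgen⟩ := exists_generator (F := F)
  have h1 := Fintype.one_lt_card (α := F)
  set N := Fintype.card F - 1 with hN
  have hN0 : N ≠ 0 := by omega
  obtain ⟨k, rfl⟩ := hgen a ha
  have hrk : ¬ r ∣ k := by
    rintro ⟨t, rfl⟩
    apply hna (γ ^ t)
    rw [← pow_mul, mul_comm]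
  rw [← pow_mul, hγ] at ham
  have h2 : r ^ padicValNat r N ∣ k * m := pow_padicValNat_dvd.trans ham
  have h3 : Nat.Coprime (r ^ padicValNat r N) k := Nat.Coprime.pow_left _ ((Nat.Prime.coprime_iff_not_dvd hr.out).mpr hrk)
  exact (padicValNat_dvd_iff_le hm).mp (h3.dvd_of_dvd_mul_left h2)

theorem exists_root_of_not_dvd {r : ℕ} [hr : Fact r.Prime] (hd : ¬ r ∣ Fintype.card F - 1) (a : F) :
    ∃ w, w ^ r = a := by
  classical
  by_cases ha : a = 0
  · exact ⟨0, by rw [ha, zero_pow hr.out.ne_zero]⟩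
  have hc : (Nat.card Fˣ).Coprime r := by
    rw [Nat.card_eq_fintype_card, Fintype.card_units]
    exact ((Nat.Prime.coprime_iff_not_dvd hr.out).mpr hd).symm
  obtain ⟨w, hw⟩ := (powCoprime hc).surjective (Units.mk0 a ha)
  refine ⟨w, ?_⟩
  have := congrArg Units.val hw
  simpa using this

end

section
variable {q r : ℕ} [hr : Fact r.Prime]

lemma dvd_pow_sub_one_iff (hq : 0 < q) (j : ℕ) : r ∣ q ^ j - 1 ↔ orderOf (q : ZMod r) ∣ j := by
  rw [orderOf_dvd_iff_pow_eq_one, ← CharP.cast_eq_zero_iff (ZMod r) r, Nat.cast_sub (Nat.one_le_pow _ _ hq)]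
  push_cast
  rw [sub_eq_zero]

lemma orderOf_pos_of_not_dvd (hq : ¬ r ∣ q) : 0 < orderOf (q : ZMod r) := by
  rw [orderOf_pos_iff]
  have h : (q : ZMod r) ≠ 0 := by
    rw [Ne, CharP.cast_eq_zero_iff (ZMod r) r]
    exact hq
  have h2 := ZMod.pow_card_sub_one_eq_one h
  rw [isOfFinOrder_iff_pow_eq_one]
  exact ⟨r - 1, by have := hr.out.two_le; omega, h2⟩

lemma orderOf_dvd_sub_one (hq : ¬ r ∣ q) : orderOf (q : ZMod r) ∣ r - 1 := by
  have h : (q : ZMod r) ≠ 0 := by
    rw [Ne, CharP.cast_eq_zero_iff (ZMod r) r]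
    exact hq
  exact orderOf_dvd_of_pow_eq_one (ZMod.pow_card_sub_one_eq_one h)

end

end Cfsg.Agent.H99
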