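import Mathlib

set_option autoImplicit false

/-! Combinatorics of block sizes (helper99). -/

namespace Cfsg.Agent.H99

lemma exists_le_sum_eq {t : ℕ} (u : Fin t → ℕ) (T : ℕ) (h : T ≤ ∑ j, u j) :
    ∃ l : Fin t → ℕ, (∀ j, l j ≤ u j) ∧ ∑ j, l j = T := by
  induction t generalizing T with
  | zero => exact ⟨fun _ => 0, fun j => Nat.zero_le _, by simp at h ⊢; omega⟩
  | succ t ih =>
    rw [Fin.sum_univ_succ] at h
    obtain ⟨l, hl1, hl2⟩ := ih (fun j => u j.succ) (T - min T (u 0)) (by omega)
    refine ⟨Fin.cons (min T (u 0)) l, ?_, ?_⟩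
    · intro j
      refine Fin.cases ?_ (fun j => ?_) j
      · simp
      · simpa using hl1 j
    · rw [Fin.sum_univ_succ]
      simp only [Fin.cons_zero, Fin.cons_succ, hl2]
      omega

/-- disjoint subsets of prescribed cardinalities -/
lemma exists_disjoint_cards {X : Type*} [DecidableEq X] {t : ℕ} (S : Finset X) (l : Fin t → ℕ) (h : ∑ j, l j ≤ S.card) :
    ∃ A : Fin t → Finset X, (∀ j, A j ⊆ S) ∧ (∀ i j, i ≠ j → Disjoint (A i) (A j)) ∧ ∀ j, (A j).card = l j := by
  have h1 : Fintype.card (Σ j : Fin t, Fin (l j)) ≤ Fintype.card S := by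
    rw [Fintype.card_sigma, Fintype.card_coe]
    simpa using h
  obtain ⟨e⟩ := Function.Embedding.nonempty_of_card_le h1
  refine ⟨fun j => Finset.univ.image (fun s : Fin (l j) => (e ⟨j, s⟩ : X)), ?_, ?_, ?_⟩
  · intro j x hx
    rw [Finset.mem_image] at hx
    obtain ⟨s, _, rfl⟩ := hx
    exact (e ⟨j, s⟩).2
  · intro i j hij
    rw [Finset.disjoint_left]
    intro x hx hx'
    rw [Finset.mem_image] at hx hx'
    obtain ⟨s, _, rfl⟩ := hx
    obtain ⟨s', _, h2⟩ := hx'
    have := e.injective (Subtype.ext h2)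
    simp only [Sigma.mk.injEq] at this
    exact hij this.1.symm
  · intro j
    rw [Finset.card_image_of_injective]
    · simp
    · intro s s' hss
      have := e.injective (Subtype.ext hss)
      simpa using this

/-- selecting disjoint families of blocks of sizes 1 or `i` with prescribed total sizes -/
theorem exists_disjoint_sums {X : Type*} [Fintype X] [DecidableEq X] (d : X → ℕ) (i : ℕ) (hi : 1 ≤ i)
    (hd : ∀ x, d x = 1 ∨ d x = i) {t : ℕ} (m : Fin t → ℕ) (h : ∑ j, m j ≤ ∑ x, d x)
    (hmod : ∑ j, m j % i ≤ (∑ x, d x) % i) :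
    ∃ A : Fin t → Finset X, (∀ i j, i ≠ j → Disjoint (A i) (A j)) ∧ ∀ j, ∑ x ∈ A j, d x = m j := by
  classical
  set S := Finset.univ.filter (fun x => d x = i) with hS
  set S' := Finset.univ.filter (fun x => ¬ d x = i) with hS'
  have hd1 : ∀ x ∈ S', d x = 1 := by
    intro x hx
    rw [hS', Finset.mem_filter] at hx
    exact (hd x).resolve_right hx.2
  have hdi : ∀ x ∈ S, d x = i := fun x hx => (Finset.mem_filter.mp hx).2
  have hsum : ∑ x, d x = S.card * i + S'.card := by
    rw [← Finset.sum_filter_add_sum_filter_not Finset.univ (fun x => d x = i)]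
    congr 1
    · rw [Finset.sum_congr rfl hdi, Finset.sum_const, smul_eq_mul]
    · rw [Finset.sum_congr rfl hd1, Finset.sum_const, smul_eq_mul, mul_one]
  obtain ⟨l, hl1, hl2⟩ := exists_le_sum_eq (fun j => m j / i) (min S.card (∑ j, m j / i)) (min_le_right _ _)
  have hmi : ∀ j, l j * i ≤ m j := fun j => (Nat.mul_le_mul_right i (hl1 j)).trans (Nat.div_mul_le_self _ _)
  have htot : ∑ j, (m j - l j * i) + (∑ j, l j) * i = ∑ j, m j := by
    rw [Finset.sum_mul, ← Finset.sum_add_distrib]
    exact Finset.sum_congr rfl (fun j _ => by have := hmi j; omega)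
  have hdm : ∑ j, m j = (∑ j, m j / i) * i + ∑ j, m j % i := by
    rw [Finset.sum_mul, ← Finset.sum_add_distrib]
    exact Finset.sum_congr rfl (fun j _ => by rw [mul_comm]; exact (Nat.div_add_mod _ _).symm)
  have hrest : ∑ j, (m j - l j * i) ≤ S'.card := by
    rw [hl2] at htot
    rcases le_total S.card (∑ j, m j / i) with h1 | h1
    · rw [min_eq_left h1] at htot
      omega
    · rw [min_eq_right h1] at htot
      rw [hsum] at hmod
      have h2 : (S.card * i + S'.card) % i = S'.card % i := by
        rw [add_comm, Nat.add_mul_mod_self_right]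
      rw [h2] at hmod
      have h3 := Nat.mod_le S'.card i
      omega
  obtain ⟨A, hA1, hA2, hA3⟩ := exists_disjoint_cards S l (by rw [hl2]; exact min_le_left _ _)
  obtain ⟨B, hB1, hB2, hB3⟩ := exists_disjoint_cards S' (fun j => m j - l j * i) hrest
  have hSS' : Disjoint S S' := by
    rw [hS, hS']
    exact Finset.disjoint_filter_filter_not _ _ _
  refine ⟨fun j => A j ∪ B j, ?_, ?_⟩
  · intro i j hij
    rw [Finset.disjoint_union_left, Finset.disjoint_union_right, Finset.disjoint_union_right]
    exact ⟨⟨hA2 i j hij, Finset.disjoint_of_subset_left (hA1 i) (Finset.disjoint_of_subset_right (hB1 j) hSS')⟩,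
      Finset.disjoint_of_subset_left (hB1 i) (Finset.disjoint_of_subset_right (hA1 j) hSS'.symm), hB2 i j hij⟩
  · intro j
    rw [Finset.sum_union (Finset.disjoint_of_subset_left (hA1 j) (Finset.disjoint_of_subset_right (hB1 j) hSS')),
      Finset.sum_congr rfl (fun x hx => hdi x (hA1 j hx)), Finset.sum_congr rfl (fun x hx => hd1 x (hB1 j hx)),
      Finset.sum_const, Finset.sum_const, hA3, hB3, smul_eq_mul, smul_eq_mul, mul_one]
    have := hmi j
    omega

end Cfsg.Agent.H99
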