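import Mathlib
import Cfsg.Agent.H99.CycDecomp
import Cfsg.Agent.H99.BlockDecomp
import Cfsg.Agent.H99.FinFieldR
import Cfsg.Agent.H99.SubSum

set_option autoImplicit false

/-! Endomorphisms with scalar `r`-th power (helper99). -/

namespace Cfsg.Agent.H99

open Module Polynomial

universe u

/-! ### subspaces spanned by blocks -/
namespace CycDecomp

section
variable {F V : Type*} [Field F] [AddCommGroup V] [Module F V] {f : V →ₗ[F] V} {ι : Type*} {P : ι → F[X]}

/-- span of the blocks in `A` -/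
def sub (D : CycDecomp f P) (A : Set ι) : Submodule F V :=
  Submodule.span F (D.basis '' {x | x.1 ∈ A})

lemma basis_mem_sub (D : CycDecomp f P) (A : Set ι) (j : ι) (hj : j ∈ A) (s : Fin (P j).natDegree) :
    D.basis ⟨j, s⟩ ∈ D.sub A := Submodule.subset_span ⟨⟨j, s⟩, hj, rfl⟩

lemma sub_mono (D : CycDecomp f P) {A B : Set ι} (h : A ⊆ B) : D.sub A ≤ D.sub B :=
  Submodule.span_mono (Set.image_mono (fun _ hx => h hx))

lemma apply_mem_sub (D : CycDecomp f P) (A : Set ι) {v : V} (hv : v ∈ D.sub A) : f v ∈ D.sub A := by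
  have h : (D.sub A).map f ≤ D.sub A := by
    unfold sub
    rw [Submodule.map_span, Submodule.span_le]
    rintro _ ⟨_, ⟨⟨j, s⟩, hj, rfl⟩, rfl⟩
    rcases Nat.lt_or_ge ((s : ℕ) + 1) (P j).natDegree with h | h
    · rw [D.apply_basis_lt j s h]
      exact D.basis_mem_sub A j hj _
    · have h' : (s : ℕ) + 1 = (P j).natDegree := by have := s.2; omega
      rw [D.apply_basis_last j s h']
      exact Submodule.neg_mem _ (Submodule.sum_mem _ (fun t _ => Submodule.smul_mem _ _ (D.basis_mem_sub A j hj t)))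
  exact h ⟨v, hv, rfl⟩

lemma map_sub_le (D : CycDecomp f P) (A : Set ι) : (D.sub A).map f ≤ D.sub A := by
  rintro _ ⟨v, hv, rfl⟩
  exact D.apply_mem_sub A hv

lemma finrank_sub [Fintype ι] [DecidableEq ι] (D : CycDecomp f P) (A : Finset ι) :
    finrank F (D.sub (A : Set ι)) = ∑ j ∈ A, (P j).natDegree := by
  classical
  have h1 : D.sub (A : Set ι) = blockSpan D.basis (A.sigma (fun _ => Finset.univ)) := by
    unfold sub blockSpan
    congr 2
    ext x
    simp
  rw [h1, finrank_blockSpan, Finset.card_sigma]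
  simp

lemma sub_disjoint (D : CycDecomp f P) {A B : Set ι} (h : Disjoint A B) : Disjoint (D.sub A) (D.sub B) := by
  unfold sub
  apply D.basis.linearIndependent.disjoint_span_image
  rw [Set.disjoint_left]
  intro x hx hx'
  exact Set.disjoint_left.mp h hx hx'

lemma sub_sup (D : CycDecomp f P) (A B : Set ι) : D.sub A ⊔ D.sub B = D.sub (A ∪ B) := by
  unfold sub
  rw [← Submodule.span_union, ← Set.image_union]
  rfl

lemma sub_univ (D : CycDecomp f P) : D.sub Set.univ = ⊤ := by
  unfold sub
  simp only [Set.mem_univ, Set.ofPred_true, Set.image_univ]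
  exact D.basis.span_eq

lemma isCompl_sub (D : CycDecomp f P) (A : Set ι) : IsCompl (D.sub A) (D.sub Aᶜ) := by
  refine ⟨D.sub_disjoint disjoint_compl_right, ?_⟩
  rw [codisjoint_iff, D.sub_sup, Set.union_compl_self, D.sub_univ]

/-- the restriction to a sum of blocks is killed by a common multiple -/
lemma aeval_sub_eq_zero (D : CycDecomp f P) (A : Set ι) (μ : F[X]) (h : ∀ j ∈ A, P j ∣ μ) {v : V} (hv : v ∈ D.sub A) :
    (aeval f μ) v = 0 := by
  have h1 : D.sub A ≤ LinearMap.ker (aeval f μ) := by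
    unfold sub
    rw [Submodule.span_le]
    rintro _ ⟨⟨j, s⟩, hj, rfl⟩
    obtain ⟨Q, hQ⟩ := h j hj
    rw [SetLike.mem_coe, LinearMap.mem_ker, D.basis_eq, hQ]
    have h2 : P j * Q * X ^ (s : ℕ) = Q * X ^ (s : ℕ) * P j := by ring
    have h3 := congrArg (fun R : F[X] => (aeval f R) (D.gen j)) h2
    simp only [map_mul, map_pow, aeval_X, Module.End.mul_apply] at h3
    rw [map_mul, Module.End.mul_apply]
    rw [h3, D.aeval_eq, map_zero, map_zero]
  exact LinearMap.mem_ker.mp (h1 hv)

end

end CycDecomp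

section
variable {F : Type*} [Field F] [Fintype F] {p : ℕ} [Fact p.Prime] [CharP F p] {r : ℕ} [Fact r.Prime]

/-- irreducible factors of `X ^ r - 1` over a finite field -/
theorem factor_X_pow_sub_one (hrp : r ≠ p) {P : F[X]} (hPm : P.Monic) (hPi : Irreducible P) (hd : P ∣ X ^ r - 1) :
    P = X - C 1 ∨ (P ∣ cyclotomic r F ∧ P.natDegree = orderOf ((Fintype.card F : ℕ) : ZMod r)) := by
  rw [← cyclotomic_prime_mul_X_sub_one F r] at hd
  rcases hPi.prime.dvd_or_dvd hd with h | h
  · right
    refine ⟨h, ?_⟩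
    obtain ⟨e, he⟩ := FiniteField.card F p
    have hc : p.Coprime r := by
      rw [Nat.coprime_primes Fact.out Fact.out]
      exact hrp.symm
    rw [natDegree_of_dvd_cyclotomic_of_irreducible he.2 hc h hPi, ← orderOf_units]
    congr 1
    rw [ZMod.coe_unitOfCoprime, he.2]
  · left
    have h1 : (X - C 1 : F[X]).Monic := monic_X_sub_C 1
    have h2 : X - C 1 = (X - 1 : F[X]) := by rw [C_1]
    rw [← h2] at h
    exact eq_of_monic_of_associated hPm h1 (hPi.associated_of_dvd (irreducible_X_sub_C 1) h)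

omit [Fintype F] [Fact r.Prime] in
lemma natCast_ne_zero_of_ne (hr : r.Prime) (hrp : r ≠ p) : (r : F) ≠ 0 := by
  intro h
  rw [CharP.cast_eq_zero_iff F p r] at h
  exact hrp ((Nat.prime_dvd_prime_iff_eq Fact.out hr).mp h).symm

omit [Fintype F] in
lemma squarefree_X_pow_sub_C (hrp : r ≠ p) {z : F} (hz : z ≠ 0) : Squarefree (X ^ r - C z) :=
  (separable_X_pow_sub_C z (natCast_ne_zero_of_ne (Fact.out : r.Prime) hrp) hz).squarefree

end

section
variable {F : Type u} [Field F] [Fintype F] {p : ℕ} [Fact p.Prime] [CharP F p] {r : ℕ} [Fact r.Prime]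
variable {V : Type u} [AddCommGroup V] [Module F V] [FiniteDimensional F V]

/-- structure of elements of order `r` different from the characteristic -/
theorem exists_decomp_one (hrp : r ≠ p) (f : V →ₗ[F] V) (hf : f ^ r = 1) :
    ∃ (k : ℕ) (P : Fin k → F[X]), (∀ j, (P j).Monic ∧ Irreducible (P j) ∧
      (P j = X - C 1 ∨ (P j ∣ cyclotomic r F ∧ (P j).natDegree = orderOf ((Fintype.card F : ℕ) : ZMod r)))) ∧
      Nonempty (CycDecomp f P) := by
  obtain ⟨k, P, hP, D⟩ := exists_cycDecomp_of_squarefree f (X ^ r - C 1) (squarefree_X_pow_sub_C hrp one_ne_zero) (by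
    rw [map_sub, map_pow, aeval_X, aeval_C, map_one, hf, sub_self])
  refine ⟨k, P, fun j => ⟨(hP j).1, (hP j).2.1, ?_⟩, D⟩
  have h := (hP j).2.2
  rw [C_1] at h
  exact factor_X_pow_sub_one hrp (hP j).1 (hP j).2.1 h

omit [Fintype F] in
/-- structure when `X ^ r - z` is irreducible -/
theorem exists_decomp_irred (f : V →ₗ[F] V) (μ : F[X]) (hμ : μ.Monic) (hi : Irreducible μ) (hf : aeval f μ = 0) :
    ∃ (k : ℕ), Nonempty (CycDecomp f (fun _ : Fin k => μ)) := by
  obtain ⟨k, P, hP, ⟨D⟩⟩ := exists_cycDecomp_of_squarefree f μ hi.squarefree hf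
  have : P = fun _ => μ := by
    funext j
    exact eq_of_monic_of_associated (hP j).1 hμ ((hP j).2.1.associated_of_dvd hi (hP j).2.2)
  rw [this] at D
  exact ⟨k, ⟨D⟩⟩

omit [CharP F p] [Fact p.Prime] in
/-- an endomorphism with scalar `r`-th power: uniform description of the blocks -/
theorem exists_decomp_scalar (f : V →ₗ[F] V) (z : F) (hz : z ≠ 0) (hf : f ^ r = z • (1 : V →ₗ[F] V)) :
    (∃ w : F, w ^ r = z ∧ w ≠ 0 ∧ (w⁻¹ • f) ^ r = 1) ∨
    ((∀ w : F, w ^ r ≠ z) ∧ r ∣ Fintype.card F - 1 ∧ Irreducible (X ^ r - C z) ∧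
      ∃ k : ℕ, Nonempty (CycDecomp f (fun _ : Fin k => X ^ r - C z))) := by
  by_cases h : ∃ w : F, w ^ r = z
  · left
    obtain ⟨w, hw⟩ := h
    have hw0 : w ≠ 0 := by
      rintro rfl
      rw [zero_pow (Fact.out : r.Prime).ne_zero] at hw
      exact hz hw.symm
    refine ⟨w, hw, hw0, ?_⟩
    rw [_root_.smul_pow, hf, smul_smul, inv_pow, hw, inv_mul_cancel₀ hz, one_smul]
  · right
    push Not at h
    have hirr := X_pow_sub_C_irreducible_of_prime (Fact.out : r.Prime) h
    refine ⟨h, ?_, hirr, ?_⟩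
    · by_contra hd
      obtain ⟨w, hw⟩ := exists_root_of_not_dvd hd z
      exact h w hw
    · apply exists_decomp_irred f _ (monic_X_pow_sub_C z (Fact.out : r.Prime).ne_zero) hirr
      rw [map_sub, map_pow, aeval_X, aeval_C, hf, sub_eq_zero]
      ext v
      simp [Module.algebraMap_end_apply]

end

section
variable {F : Type*} [Field F] [Fintype F] {p : ℕ} [Fact p.Prime] [CharP F p] {r : ℕ} [Fact r.Prime]
variable {V : Type*} [AddCommGroup V] [Module F V] [FiniteDimensional F V]

/-- dimension of the fixed space modulo the order of `q` -/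
theorem finrank_modEq_fixed (hrp : r ≠ p) (f : V →ₗ[F] V) (hf : f ^ r = 1) :
    finrank F V ≡ finrank F (LinearMap.ker (f - 1)) [MOD orderOf ((Fintype.card F : ℕ) : ZMod r)] := by
  classical
  have hfin : Finite V := Module.finite_of_finite F
  have := Fintype.ofFinite V
  let g : Function.End V := fun v => f v
  have hg : ∀ k : ℕ, ∀ v, (g ^ k : Function.End V) v = (f ^ k) v := by
    intro k
    induction k with
    | zero => intro v; rfl
    | succ k ih => intro v; rw [pow_succ, pow_succ, Module.End.mul_apply, ← ih]; rfl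
  have hg1 : g ^ r ^ 1 = 1 := by
    funext v
    rw [pow_one, hg, hf]
    rfl
  have h := Equiv.Perm.card_fixedPoints_modEq (f := g) (p := r) (n := 1) hg1
  rw [← Nat.card_eq_fintype_card, ← Nat.card_eq_fintype_card] at h
  have h2 : Nat.card (g.fixedPoints) = Nat.card (LinearMap.ker (f - 1)) := by
    apply Nat.card_congr
    apply Equiv.subtypeEquivRight
    intro v
    change f v = v ↔ _
    rw [LinearMap.mem_ker, LinearMap.sub_apply, Module.End.one_apply, sub_eq_zero]
  rw [h2, Module.natCard_eq_pow_finrank (K := F) (V := V), Module.natCard_eq_pow_finrank (K := F) (V := LinearMap.ker (f - 1)),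
    Nat.card_eq_fintype_card] at h
  set q := Fintype.card F with hq
  set a := finrank F V with ha
  set b := finrank F (LinearMap.ker (f - 1)) with hb
  have hba : b ≤ a := Submodule.finrank_le _
  have hqr : (q : ZMod r) ≠ 0 := by
    rw [Ne, CharP.cast_eq_zero_iff (ZMod r) r]
    obtain ⟨e, he⟩ := FiniteField.card F p
    rw [hq, he.2]
    intro h3
    have h4 := (Fact.out : r.Prime).dvd_of_dvd_pow h3
    exact hrp ((Nat.prime_dvd_prime_iff_eq Fact.out Fact.out).mp h4)
  have h3 : (q : ZMod r) ^ a = (q : ZMod r) ^ b := by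
    have := (ZMod.natCast_eq_natCast_iff _ _ _).mpr h
    push_cast at this
    exact this
  have h4 : (q : ZMod r) ^ (a - b) = 1 := by
    have h5 : (q : ZMod r) ^ (a - b) * (q : ZMod r) ^ b = 1 * (q : ZMod r) ^ b := by
      rw [← pow_add, Nat.sub_add_cancel hba, h3, one_mul]
    exact mul_right_cancel₀ (pow_ne_zero _ hqr) h5
  exact ((Nat.modEq_iff_dvd' hba).mpr (orderOf_dvd_of_pow_eq_one h4)).symm

omit [Fintype F] [CharP F p] [Fact p.Prime] [FiniteDimensional F V] in
/-- version for invariant subspaces -/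
theorem restrict_pow_eq (f : V →ₗ[F] V) (W : Submodule F V) (hW : ∀ v ∈ W, f v ∈ W) (z : F) (r : ℕ)
    (hf : f ^ r = z • (1 : V →ₗ[F] V)) : (f.restrict hW) ^ r = z • (1 : W →ₗ[F] W) := by
  have h : ∀ (k : ℕ) (v : W), (((f.restrict hW) ^ k) v : V) = (f ^ k) v := by
    intro k
    induction k with
    | zero => intro v; rfl
    | succ k ih =>
      intro v
      rw [pow_succ, pow_succ, Module.End.mul_apply, Module.End.mul_apply, ih]
      rfl
  ext v
  rw [h, hf]
  rfl

theorem finrank_modEq_fixed_sub (hrp : r ≠ p) (f : V →ₗ[F] V) (hf : f ^ r = 1) (W : Submodule F V)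
    (hW : ∀ v ∈ W, f v ∈ W) :
    finrank F W ≡ finrank F (W ⊓ LinearMap.ker (f - 1) : Submodule F V) [MOD orderOf ((Fintype.card F : ℕ) : ZMod r)] := by
  have h1 := restrict_pow_eq f W hW 1 r (by rw [hf, one_smul])
  rw [one_smul] at h1
  have h2 := finrank_modEq_fixed hrp (f.restrict hW) h1
  refine h2.trans ?_
  have h3 : finrank F (LinearMap.ker (f.restrict hW - 1)) = finrank F (W ⊓ LinearMap.ker (f - 1) : Submodule F V) := by
    have h4 : (LinearMap.ker (f.restrict hW - 1)).map W.subtype = W ⊓ LinearMap.ker (f - 1) := by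
      ext v
      rw [Submodule.mem_map]
      constructor
      · rintro ⟨w, hw, rfl⟩
        refine ⟨w.2, ?_⟩
        rw [LinearMap.mem_ker, LinearMap.sub_apply] at hw
        have h5 := congrArg Subtype.val hw
        rw [SetLike.mem_coe, LinearMap.mem_ker, LinearMap.sub_apply]
        exact h5
      · rintro ⟨hv, hv2⟩
        refine ⟨⟨v, hv⟩, ?_, rfl⟩
        rw [LinearMap.mem_ker]
        apply Subtype.ext
        rw [SetLike.mem_coe, LinearMap.mem_ker] at hv2
        exact hv2
    rw [← h4]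
    exact (LinearEquiv.finrank_eq (Submodule.equivMapOfInjective W.subtype W.injective_subtype _))
  rw [h3]

end

section
variable {F : Type u} [Field F] {V : Type u} [AddCommGroup V] [Module F V] [FiniteDimensional F V]

/-- invariant subspaces have dimension divisible by the degree of the irreducible polynomial -/
theorem natDegree_dvd_finrank (f : V →ₗ[F] V) (r : ℕ) (hr : 0 < r) (z : F) (hi : Irreducible (X ^ r - C z : F[X]))
    (hf : f ^ r = z • (1 : V →ₗ[F] V)) (W : Submodule F V) (hW : ∀ v ∈ W, f v ∈ W) : r ∣ finrank F W := by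
  have h1 := restrict_pow_eq f W hW z r hf
  obtain ⟨k, ⟨D⟩⟩ := exists_decomp_irred (f.restrict hW) (X ^ r - C z) (monic_X_pow_sub_C z hr.ne') hi (by
    rw [map_sub, map_pow, aeval_X, aeval_C, h1, sub_eq_zero]
    ext v
    simp [Module.algebraMap_end_apply])
  rw [D.finrank_eq]
  simp [natDegree_X_pow_sub_C]

end

section
variable {F : Type*} [Field F] [Fintype F] {p : ℕ} [Fact p.Prime] [CharP F p] {r : ℕ} [Fact r.Prime]

omit [Fintype F] [Fact p.Prime] in
lemma ker_sub_one_disjoint {V : Type*} [AddCommGroup V] [Module F V] (hrF : (r : F) ≠ 0) (f : V →ₗ[F] V) (v : V)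
    (h1 : (aeval f (cyclotomic r F)) v = 0) (h2 : f v = v) : v = 0 := by
  have h3 : ∀ k : ℕ, (f ^ k) v = v := by
    intro k
    induction k with
    | zero => rfl
    | succ k ih => rw [pow_succ, Module.End.mul_apply, h2, ih]
  rw [cyclotomic_prime, map_sum, LinearMap.sum_apply] at h1
  simp only [map_pow, aeval_X, h3, Finset.sum_const, Finset.card_range] at h1
  rw [← Nat.cast_smul_eq_nsmul F] at h1
  exact (smul_eq_zero.mp h1).resolve_left hrF

/-- existence of elements of order `r` with `a` nontrivial blocks in any space of dimension `≥ a i` -/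
theorem exists_endo_order {V : Type*} [AddCommGroup V] [Module F V] [FiniteDimensional F V] (hrp : r ≠ p) (a : ℕ)
    (ha : a * orderOf ((Fintype.card F : ℕ) : ZMod r) ≤ finrank F V) :
    ∃ f : V →ₗ[F] V, f ^ r = 1 ∧ finrank F (LinearMap.ker (f - 1)) + a * orderOf ((Fintype.card F : ℕ) : ZMod r) ≤ finrank F V ∧
      (0 < a → f ≠ 1) := by
  classical
  set i := orderOf ((Fintype.card F : ℕ) : ZMod r) with hi
  set n := finrank F V with hn
  have hrF : (r : F) ≠ 0 := natCast_ne_zero_of_ne (Fact.out : r.Prime) hrp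
  -- an irreducible factor of the cyclotomic polynomial
  have hcyc : ¬ IsUnit (cyclotomic r F) := by
    intro h
    have := degree_cyclotomic_pos r F (Fact.out : r.Prime).pos
    rw [degree_eq_zero_of_isUnit h] at this
    exact lt_irrefl _ this
  obtain ⟨P₀, hP₀m, hP₀i, hP₀d⟩ := exists_monic_irreducible_factor (cyclotomic r F) hcyc
  have hdeg : P₀.natDegree = i := by
    obtain ⟨e, he⟩ := FiniteField.card F p
    have hc : p.Coprime r := by
      rw [Nat.coprime_primes Fact.out Fact.out]
      exact hrp.symm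
    rw [natDegree_of_dvd_cyclotomic_of_irreducible he.2 hc hP₀d hP₀i, ← orderOf_units, hi]
    congr 1
    rw [ZMod.coe_unitOfCoprime, he.2]
  let P : Fin a ⊕ Fin (n - a * i) → F[X] := Sum.elim (fun _ => P₀) (fun _ => X - C 1)
  have hP : ∀ j, (P j).Monic := by
    rintro (j | j)
    · exact hP₀m
    · exact monic_X_sub_C 1
  have hcard : Fintype.card (Σ j, Fin (P j).natDegree) = n := by
    rw [Fintype.card_sigma, Fintype.sum_sum_type]
    simp only [P, Sum.elim_inl, Sum.elim_inr, Fintype.card_fin, Finset.sum_const, Finset.card_univ, smul_eq_mul, hdeg,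
      natDegree_X_sub_C, mul_one]
    omega
  let b0 := Module.finBasis F V
  let b : Basis (Σ j, Fin (P j).natDegree) F V := b0.reindex (Fintype.equivOfCardEq (by rw [hcard, Fintype.card_fin]))
  obtain ⟨f, D, -⟩ := exists_endo_cycDecomp P hP b
  have hfr : f ^ r = 1 := by
    have h1 := D.aeval_eq_zero (X ^ r - 1) (by
      rintro (j | j)
      · rw [← cyclotomic_prime_mul_X_sub_one F r]
        exact hP₀d.trans (dvd_mul_right _ _)
      · rw [← cyclotomic_prime_mul_X_sub_one F r]
        simp only [P, Sum.elim_inr, C_1]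
        exact dvd_mul_left _ _)
    rw [map_sub, map_pow, aeval_X, map_one, sub_eq_zero] at h1
    exact h1
  let A : Finset (Fin a ⊕ Fin (n - a * i)) := Finset.univ.image Sum.inl
  have hA : finrank F (D.sub (A : Set _)) = a * i := by
    rw [D.finrank_sub, Finset.sum_image (fun x _ y _ h => Sum.inl_injective h)]
    simp only [P, Sum.elim_inl, Finset.sum_const, Finset.card_univ, Fintype.card_fin, smul_eq_mul, hdeg]
  have hdis : Disjoint (LinearMap.ker (f - 1)) (D.sub (A : Set _)) := by
    rw [Submodule.disjoint_def]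
    intro v hv hv2
    apply ker_sub_one_disjoint (r := r) hrF f v
    · apply D.aeval_sub_eq_zero _ _ _ hv2
      intro j hj
      rw [Finset.mem_coe, Finset.mem_image] at hj
      obtain ⟨j, _, rfl⟩ := hj
      exact hP₀d
    · rw [LinearMap.mem_ker, LinearMap.sub_apply, Module.End.one_apply, sub_eq_zero] at hv
      exact hv
  have h1 := Submodule.finrank_add_finrank_le_of_disjoint hdis
  rw [hA] at h1
  refine ⟨f, hfr, h1, ?_⟩
  intro ha0 hf1
  rw [hf1, sub_self, LinearMap.ker_zero, finrank_top] at h1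
  have hi0 : 0 < i := by
    rw [← hdeg]
    exact hP₀i.natDegree_pos
  have : 0 < a * i := Nat.mul_pos ha0 hi0
  omega

end

section
variable {F : Type u} [Field F]

/-- determinant of an endomorphism killed by an irreducible polynomial -/
theorem det_of_decomp_const {V : Type u} [AddCommGroup V] [Module F V] [FiniteDimensional F V] (f : V →ₗ[F] V) (μ : F[X])
    (hμ : μ.Monic) (hi : Irreducible μ) (k : ℕ) (D : CycDecomp f (fun _ : Fin k => μ)) :
    LinearMap.det f = ((-1) ^ μ.natDegree * μ.coeff 0) ^ k := by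
  classical
  have : Fact (Irreducible μ) := ⟨hi⟩
  have hfinA : Module.Finite F (AdjoinRoot μ) := hμ.finite_adjoinRoot
  let f₀ : (Fin k → AdjoinRoot μ) →ₗ[F] (Fin k → AdjoinRoot μ) :=
    LinearMap.pi (fun j => (LinearMap.mulLeft F (AdjoinRoot.root μ)).comp (LinearMap.proj j))
  have hf₀ : ∀ (v : Fin k → AdjoinRoot μ) j, f₀ v j = AdjoinRoot.root μ * v j := fun v j => rfl
  have hpow : ∀ (s : ℕ) (v : Fin k → AdjoinRoot μ) j, (f₀ ^ s) v j = AdjoinRoot.root μ ^ s * v j := by
    intro s
    induction s with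
    | zero => intro v j; simp
    | succ s ih => intro v j; rw [pow_succ, Module.End.mul_apply, ih, hf₀, pow_succ, mul_assoc]
  have hz : aeval f₀ μ = 0 := by
    apply LinearMap.ext
    intro v
    funext j
    have h1 : (aeval f₀ μ) v j = (aeval (AdjoinRoot.root μ) μ) * v j := by
      rw [aeval_eq_sum_range, aeval_eq_sum_range, LinearMap.sum_apply, Finset.sum_apply, Finset.sum_mul]
      apply Finset.sum_congr rfl
      intro s _
      rw [LinearMap.smul_apply, Pi.smul_apply, hpow, smul_mul_assoc]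
    rw [h1, AdjoinRoot.aeval_eq, AdjoinRoot.mk_self, zero_mul]
    rfl
  obtain ⟨k', ⟨D'⟩⟩ := exists_decomp_irred f₀ μ hμ hi hz
  have hk : k' = k := by
    have h1 := D'.finrank_eq
    have h2 : finrank F (Fin k → AdjoinRoot μ) = k * μ.natDegree := by
      rw [Module.finrank_pi_fintype, Finset.sum_const, Finset.card_univ, Fintype.card_fin, smul_eq_mul,
        (AdjoinRoot.powerBasis' hμ).finrank]
      rfl
    rw [h2] at h1
    simp only [Finset.sum_const, Finset.card_univ, Fintype.card_fin, smul_eq_mul] at h1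
    exact (Nat.eq_of_mul_eq_mul_right hi.natDegree_pos h1).symm
  subst hk
  obtain ⟨e, he, -⟩ := D'.conj D
  have h1 : f = e.toLinearMap ∘ₗ f₀ ∘ₗ e.symm.toLinearMap := by
    apply LinearMap.ext
    intro v
    simp only [LinearMap.comp_apply, LinearEquiv.coe_coe]
    rw [he, LinearEquiv.apply_symm_apply]
  rw [h1, LinearMap.det_conj]
  have h2 : LinearMap.det f₀ = ∏ _j : Fin k', LinearMap.det (LinearMap.mulLeft F (AdjoinRoot.root μ)) :=
    LinearMap.det_pi _
  rw [h2, Finset.prod_const, Finset.card_univ, Fintype.card_fin]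
  congr 1
  have h3 : LinearMap.det (LinearMap.mulLeft F (AdjoinRoot.root μ)) = Algebra.norm F (AdjoinRoot.root μ) := rfl
  have h4 := Algebra.PowerBasis.norm_gen_eq_coeff_zero_minpoly (AdjoinRoot.powerBasis' hμ)
  rw [AdjoinRoot.powerBasis'_gen, AdjoinRoot.powerBasis'_dim] at h4
  have h5 : minpoly F (AdjoinRoot.root μ) = μ := by
    rw [AdjoinRoot.minpoly_root hi.ne_zero, hμ.leadingCoeff, inv_one, C_1, mul_one]
  rw [h5] at h4
  rw [h3, h4]

/-- existence of elements killed by an irreducible polynomial -/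
theorem exists_endo_const {V : Type u} [AddCommGroup V] [Module F V] [FiniteDimensional F V] (μ : F[X])
    (hμ : μ.Monic) (k : ℕ) (hk : finrank F V = k * μ.natDegree) :
    ∃ f : V →ₗ[F] V, Nonempty (CycDecomp f (fun _ : Fin k => μ)) := by
  have hcard : Fintype.card (Σ _ : Fin k, Fin μ.natDegree) = finrank F V := by
    rw [Fintype.card_sigma, hk]
    simp
  let b0 := Module.finBasis F V
  let b : Basis (Σ _ : Fin k, Fin μ.natDegree) F V := b0.reindex (Fintype.equivOfCardEq (by rw [hcard, Fintype.card_fin]))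
  obtain ⟨f, D, -⟩ := exists_endo_cycDecomp (fun _ : Fin k => μ) (fun _ => hμ) b
  exact ⟨f, ⟨D⟩⟩

/-- elements with scalar non-`r`-th power -/
theorem exists_endo_nonpower {V : Type u} [AddCommGroup V] [Module F V] [FiniteDimensional F V] {r : ℕ} (hr : r.Prime)
    (z : F) (hz : ∀ w : F, w ^ r ≠ z) (hrn : r ∣ finrank F V) :
    ∃ f : V →ₗ[F] V, f ^ r = z • (1 : V →ₗ[F] V) ∧ LinearMap.det f = ((-1) ^ (r + 1) * z) ^ (finrank F V / r) := by
  obtain ⟨k, hk⟩ := hrn
  have hirr := X_pow_sub_C_irreducible_of_prime hr hz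
  have hmon : (X ^ r - C z : F[X]).Monic := monic_X_pow_sub_C z hr.ne_zero
  obtain ⟨f, ⟨D⟩⟩ := exists_endo_const (V := V) (X ^ r - C z) hmon k (by rw [natDegree_X_pow_sub_C, hk, mul_comm])
  refine ⟨f, ?_, ?_⟩
  · have h1 := D.aeval_eq_zero (X ^ r - C z) (fun _ => dvd_rfl)
    rw [map_sub, map_pow, aeval_X, aeval_C, sub_eq_zero] at h1
    rw [h1]
    ext v
    simp [Module.algebraMap_end_apply]
  · rw [det_of_decomp_const f _ hmon hirr k D, hk, Nat.mul_div_cancel_left _ hr.pos, natDegree_X_pow_sub_C]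
    congr 1
    rw [coeff_sub, coeff_X_pow, coeff_C_zero, if_neg hr.ne_zero.symm, zero_sub, pow_succ]
    ring

/-- determinant of an endomorphism with scalar non-`r`-th power -/
theorem det_of_nonpower {V : Type u} [AddCommGroup V] [Module F V] [FiniteDimensional F V] {r : ℕ} (hr : r.Prime)
    (z : F) (hz : ∀ w : F, w ^ r ≠ z) (f : V →ₗ[F] V) (hf : f ^ r = z • (1 : V →ₗ[F] V)) :
    r ∣ finrank F V ∧ LinearMap.det f = ((-1) ^ (r + 1) * z) ^ (finrank F V / r) := by
  have hirr := X_pow_sub_C_irreducible_of_prime hr hz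
  have hmon : (X ^ r - C z : F[X]).Monic := monic_X_pow_sub_C z hr.ne_zero
  obtain ⟨k, ⟨D⟩⟩ := exists_decomp_irred f (X ^ r - C z) hmon hirr (by
    rw [map_sub, map_pow, aeval_X, aeval_C, hf, sub_eq_zero]
    ext v
    simp [Module.algebraMap_end_apply])
  have hk : finrank F V = r * k := by
    rw [D.finrank_eq]
    simp only [natDegree_X_pow_sub_C, Finset.sum_const, Finset.card_univ, Fintype.card_fin, smul_eq_mul]
    ring
  refine ⟨⟨k, hk⟩, ?_⟩
  rw [det_of_decomp_const f _ hmon hirr k D, hk, Nat.mul_div_cancel_left _ hr.pos, natDegree_X_pow_sub_C]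
  congr 1
  rw [coeff_sub, coeff_X_pow, coeff_C_zero, if_neg hr.ne_zero.symm, zero_sub, pow_succ]
  ring

end

/-! ### the numerical condition -/
section
variable {F : Type*} [Field F] [Fintype F]

/-- the condition `(n)_r ≤ (q-1)_r` (with `q ≡ 1 mod 4` when `r = 2 ∣ n`) excludes elements of determinant one whose
`r`-th power is a scalar that is not an `r`-th power -/
theorem no_nonpower_of_cond {r n : ℕ} [Fact r.Prime] (hn : 0 < n) (hrn : r ∣ n) (hrq : r ∣ Fintype.card F - 1)
    (hC : padicValNat r n ≤ padicValNat r (Fintype.card F - 1) ∧ (r = 2 → Even n → Fintype.card F % 4 = 1))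
    (z : F) (hz0 : z ≠ 0) (hz : ∀ w : F, w ^ r ≠ z) (hd : ((-1) ^ (r + 1) * z) ^ (n / r) = 1) : False := by
  have hr : r.Prime := Fact.out
  obtain ⟨k, rfl⟩ := hrn
  have hk0 : k ≠ 0 := by rintro rfl; simp at hn
  rw [Nat.mul_div_cancel_left _ hr.pos] at hd
  have hval : padicValNat r (r * k) = 1 + padicValNat r k := by
    rw [padicValNat.mul hr.ne_zero hk0, padicValNat_self]
  have key : ∀ a : F, a ≠ 0 → (∀ w, w ^ r ≠ a) → a ^ k = 1 → False := by
    intro a ha hna hak
    have := padicValNat_le_of_nonpower ha hna hk0 hak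
    omega
  rcases hr.eq_two_or_odd' with h2 | hodd
  · subst h2
    have hq4 := hC.2 rfl (even_two_mul k)
    -- `-1` is a square
    have hsq : IsSquare (-1 : F) := by
      rw [FiniteField.isSquare_neg_one_iff]
      omega
    obtain ⟨u, hu⟩ := hsq
    have hu0 : u ≠ 0 := by
      rintro rfl
      rw [mul_zero] at hu
      exact neg_ne_zero.mpr one_ne_zero hu
    have h3 : ((-1 : F) ^ (2 + 1) * z) = -z := by ring
    rw [h3] at hd
    refine key (-z) (neg_ne_zero.mpr hz0) ?_ hd
    intro w hw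
    apply hz (w * u⁻¹)
    rw [mul_pow, hw, inv_pow, pow_two u, ← hu]
    field_simp
  · have h3 : ((-1 : F) ^ (r + 1) * z) = z := by
      rw [Even.neg_one_pow (hodd.add_odd odd_one), one_mul]
    rw [h3] at hd
    exact key z hz0 hz hd

/-- conversely if the condition fails, such elements exist -/
theorem exists_nonpower_of_not_cond {r n : ℕ} [Fact r.Prime] (hn : 0 < n) (hrq : r ∣ Fintype.card F - 1)
    (hC : ¬ (padicValNat r n ≤ padicValNat r (Fintype.card F - 1) ∧ (r = 2 → Even n → Fintype.card F % 4 = 1))) :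
    r ∣ n ∧ ∃ z : F, z ≠ 0 ∧ (∀ w : F, w ^ r ≠ z) ∧ ((-1) ^ (r + 1) * z) ^ (n / r) = 1 := by
  have hr : r.Prime := Fact.out
  have hq1 : Fintype.card F - 1 ≠ 0 := by
    have := Fintype.one_lt_card (α := F)
    omega
  have hv1 : 1 ≤ padicValNat r (Fintype.card F - 1) := one_le_padicValNat_of_dvd hq1 hrq
  by_cases h1 : padicValNat r n ≤ padicValNat r (Fintype.card F - 1)
  · have h2 : ¬ (r = 2 → Even n → Fintype.card F % 4 = 1) := fun h => hC ⟨h1, h⟩
    push Not at h2
    obtain ⟨rfl, hne, hq4⟩ := h2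
    refine ⟨hne.two_dvd, -1, neg_ne_zero.mpr one_ne_zero, ?_, ?_⟩
    · intro w hw
      have hsq : IsSquare (-1 : F) := ⟨w, by rw [← hw, pow_two]⟩
      rw [FiniteField.isSquare_neg_one_iff] at hsq
      omega
    · norm_num
  · push Not at h1
    have hrn : r ∣ n := by
      by_contra h
      rw [padicValNat.eq_zero_of_not_dvd h] at h1
      omega
    refine ⟨hrn, ?_⟩
    obtain ⟨k, rfl⟩ := hrn
    have hk0 : k ≠ 0 := by rintro rfl; simp at hn
    have hval : padicValNat r (r * k) = 1 + padicValNat r k := by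
      rw [padicValNat.mul hr.ne_zero hk0, padicValNat_self]
    rw [Nat.mul_div_cancel_left _ hr.pos]
    obtain ⟨g, hg0, hgn, hg1⟩ := exists_nonpower (F := F) r hrq
    have hgk : g ^ k = 1 := by
      have h3 : r ^ padicValNat r (Fintype.card F - 1) ∣ k := by
        rw [padicValNat_dvd_iff_le hk0]
        omega
      obtain ⟨c, hc⟩ := h3
      rw [hc, pow_mul, hg1, one_pow]
    rcases hr.eq_two_or_odd' with h2 | hodd
    · subst h2
      by_cases hq4 : Fintype.card F % 4 = 3
      · refine ⟨-1, neg_ne_zero.mpr one_ne_zero, ?_, ?_⟩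
        · intro w hw
          have hsq : IsSquare (-1 : F) := ⟨w, by rw [← hw, pow_two]⟩
          rw [FiniteField.isSquare_neg_one_iff] at hsq
          exact hsq hq4
        · norm_num
      · have hsq : IsSquare (-1 : F) := by
          rw [FiniteField.isSquare_neg_one_iff]
          exact hq4
        obtain ⟨u, hu⟩ := hsq
        have hu0 : u ≠ 0 := by
          rintro rfl
          rw [mul_zero] at hu
          exact neg_ne_zero.mpr one_ne_zero hu
        refine ⟨-g, neg_ne_zero.mpr hg0, ?_, ?_⟩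
        · intro w hw
          apply hgn (w * u⁻¹)
          rw [mul_pow, hw, inv_pow, pow_two u, ← hu]
          field_simp
        · have h3 : ((-1 : F) ^ (2 + 1) * -g) = g := by ring
          rw [h3, hgk]
    · refine ⟨g, hg0, hgn, ?_⟩
      rw [Even.neg_one_pow (hodd.add_odd odd_one), one_mul, hgk]

end

end Cfsg.Agent.H99
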