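import Mathlib

set_option autoImplicit false

/-! Partition of a finite set into blocks of equal size permuted by a given involution (helper99). -/

namespace Cfsg.Agent.H99

variable {X : Type*} [DecidableEq X] (σ : X → X)

lemma image_image_invol {σ : X → X} (hσ : Function.Involutive σ) (A : Finset X) : (A.image σ).image σ = A := by
  rw [Finset.image_image, hσ.comp_self, Finset.image_id]

lemma mem_of_image_eq {σ : X → X} {Y : Finset X} (hY : Y.image σ = Y) {x : X} (hx : x ∈ Y) : σ x ∈ Y := by
  rw [← hY]; exact Finset.mem_image_of_mem σ hx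

lemma image_eq_of_mem {σ : X → X} (hσ : Function.Involutive σ) {Y : Finset X} (hY : ∀ x ∈ Y, σ x ∈ Y) :
    Y.image σ = Y := by
  ext x
  rw [Finset.mem_image]
  constructor
  · rintro ⟨y, hy, rfl⟩; exact hY y hy
  · intro hx; exact ⟨σ x, hY x hx, hσ x⟩

/-- Even-sized invariant subsets. -/
lemma exists_invariant_even {σ : X → X} (hσ : Function.Involutive σ) (Y : Finset X) (hY : ∀ x ∈ Y, σ x ∈ Y)
    (k : ℕ) (hk : 2 * k ≤ Y.card) :
    ∃ A ⊆ Y, (∀ x ∈ A, σ x ∈ A) ∧ A.card = 2 * k := by
  induction k with
  | zero => exact ⟨∅, by simp, by simp, by simp⟩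
  | succ k ih =>
    obtain ⟨A, hAY, hA, hAc⟩ := ih (by omega)
    have hcard : (Y \ A).card ≥ 2 := by
      have := Finset.card_sdiff_add_card_eq_card hAY
      omega
    have hinv : ∀ x ∈ Y \ A, σ x ∈ Y \ A := by
      intro x hx
      rw [Finset.mem_sdiff] at hx ⊢
      refine ⟨hY x hx.1, fun h => hx.2 ?_⟩
      have := hA _ h
      rwa [hσ x] at this
    obtain ⟨x, hx, y, hy, hxy⟩ := Finset.one_lt_card.mp (by omega : 1 < (Y \ A).card)
    -- choose a pair
    have : ∃ u v, u ∈ Y \ A ∧ v ∈ Y \ A ∧ u ≠ v ∧ σ u ∈ ({u, v} : Finset X) ∧ σ v ∈ ({u, v} : Finset X) := by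
      by_cases h1 : σ x = x
      · by_cases h2 : σ y = y
        · exact ⟨x, y, hx, hy, hxy, by simp [h1], by simp [h2]⟩
        · exact ⟨y, σ y, hy, hinv y hy, fun h => h2 h.symm, by simp, by simp [hσ y]⟩
      · exact ⟨x, σ x, hx, hinv x hx, fun h => h1 h.symm, by simp, by simp [hσ x]⟩
    obtain ⟨u, v, hu, hv, huv, h1, h2⟩ := this
    rw [Finset.mem_sdiff] at hu hv
    refine ⟨{u, v} ∪ A, ?_, ?_, ?_⟩
    · refine Finset.union_subset ?_ hAY
      intro z hz
      rw [Finset.mem_insert, Finset.mem_singleton] at hz
      rcases hz with rfl | rfl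
      exacts [hu.1, hv.1]
    · intro z hz
      rw [Finset.mem_union] at hz ⊢
      rcases hz with hz | hz
      · left
        rw [Finset.mem_insert, Finset.mem_singleton] at hz
        rcases hz with rfl | rfl
        exacts [h1, h2]
      · exact Or.inr (hA z hz)
    · rw [Finset.card_union_of_disjoint, Finset.card_pair huv, hAc]
      · ring
      · rw [Finset.disjoint_left]
        intro z hz
        rw [Finset.mem_insert, Finset.mem_singleton] at hz
        rcases hz with rfl | rfl
        exacts [hu.2, hv.2]

lemma exists_fixed_of_odd {σ : X → X} (hσ : Function.Involutive σ) (Y : Finset X) (hY : ∀ x ∈ Y, σ x ∈ Y)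
    (hodd : Odd Y.card) : ∃ x ∈ Y, σ x = x := by
  obtain ⟨k, hk⟩ := hodd
  obtain ⟨A, hAY, hA, hAc⟩ := exists_invariant_even hσ Y hY k (by omega)
  have h1 : (Y \ A).card = 1 := by
    have := Finset.card_sdiff_add_card_eq_card hAY
    omega
  obtain ⟨x, hx⟩ := Finset.card_eq_one.mp h1
  have hxm : x ∈ Y \ A := by rw [hx]; simp
  rw [Finset.mem_sdiff] at hxm
  refine ⟨x, hxm.1, ?_⟩
  have : σ x ∈ Y \ A := by
    rw [Finset.mem_sdiff]
    refine ⟨hY x hxm.1, fun h => hxm.2 ?_⟩
    have := hA _ h
    rwa [hσ x] at this
  rw [hx, Finset.mem_singleton] at this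
  exact this

/-- Invariant subsets of odd size when there is a fixed point. -/
lemma exists_invariant_of_fixed {σ : X → X} (hσ : Function.Involutive σ) (Y : Finset X) (hY : ∀ x ∈ Y, σ x ∈ Y)
    (x₀ : X) (hx₀ : x₀ ∈ Y) (hfix : σ x₀ = x₀) (a : ℕ) (ha : a ≤ Y.card) :
    ∃ A ⊆ Y, (∀ x ∈ A, σ x ∈ A) ∧ A.card = a := by
  rcases Nat.even_or_odd' a with ⟨k, hk | hk⟩
  · rw [hk]; exact exists_invariant_even hσ Y hY k (by omega)
  · have hinv : ∀ x ∈ Y.erase x₀, σ x ∈ Y.erase x₀ := by
      intro x hx
      rw [Finset.mem_erase] at hx ⊢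
      refine ⟨fun h => hx.1 ?_, hY x hx.2⟩
      rw [← hσ x, h, hfix]
    have hc := Finset.card_erase_of_mem hx₀
    obtain ⟨A, hAY, hA, hAc⟩ := exists_invariant_even hσ _ hinv k (by omega)
    refine ⟨insert x₀ A, ?_, ?_, ?_⟩
    · intro z hz
      rw [Finset.mem_insert] at hz
      rcases hz with rfl | hz
      · exact hx₀
      · exact Finset.mem_of_mem_erase (hAY hz)
    · intro z hz
      rw [Finset.mem_insert] at hz ⊢
      rcases hz with rfl | hz
      · exact Or.inl hfix
      · exact Or.inr (hA z hz)
    · rw [Finset.card_insert_of_notMem, hAc, hk]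
      intro h
      exact (Finset.mem_erase.mp (hAY h)).1 rfl

/-- For a fixed point free involution there are half-systems of every size. -/
lemma exists_half {σ : X → X} (hσ : Function.Involutive σ) (Y : Finset X) (hY : ∀ x ∈ Y, σ x ∈ Y)
    (hfree : ∀ x ∈ Y, σ x ≠ x) (a : ℕ) (ha : 2 * a ≤ Y.card) :
    ∃ A ⊆ Y, Disjoint A (A.image σ) ∧ A.card = a := by
  induction a with
  | zero => exact ⟨∅, by simp, by simp, by simp⟩
  | succ a ih =>
    obtain ⟨A, hAY, hA, hAc⟩ := ih (by omega)
    have hsub : A ∪ A.image σ ⊆ Y := by
      refine Finset.union_subset hAY ?_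
      intro z hz
      rw [Finset.mem_image] at hz
      obtain ⟨w, hw, rfl⟩ := hz
      exact hY w (hAY hw)
    have hcard : (A ∪ A.image σ).card = 2 * a := by
      rw [Finset.card_union_of_disjoint hA, Finset.card_image_of_injective _ hσ.injective, hAc]; ring
    have hne : (Y \ (A ∪ A.image σ)).Nonempty := by
      rw [← Finset.card_pos]
      have := Finset.card_sdiff_add_card_eq_card hsub
      omega
    obtain ⟨x, hx⟩ := hne
    rw [Finset.mem_sdiff, Finset.mem_union, not_or] at hx
    obtain ⟨hxY, hxA, hxA'⟩ := hx
    have hσx : σ x ∉ A := fun h => hxA' (Finset.mem_image.mpr ⟨σ x, h, hσ x⟩)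
    refine ⟨insert x A, ?_, ?_, ?_⟩
    · intro z hz
      rw [Finset.mem_insert] at hz
      rcases hz with rfl | hz
      exacts [hxY, hAY hz]
    · rw [Finset.image_insert, Finset.disjoint_insert_left, Finset.disjoint_insert_right, Finset.mem_insert, not_or]
      exact ⟨⟨fun h => hfree x hxY h.symm, hxA'⟩, hσx, hA⟩
    · rw [Finset.card_insert_of_notMem hxA, hAc]

/-- A set invariant under an involution, of size `a * t`, is a disjoint union of `t` blocks of size `a`
permuted by the involution. -/
lemma exists_blocks {σ : X → X} (hσ : Function.Involutive σ) (a : ℕ) (ha : 0 < a) (t : ℕ) :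
    ∀ Y : Finset X, (∀ x ∈ Y, σ x ∈ Y) → Y.card = a * t →
    ∃ P : Finset (Finset X), (∀ A ∈ P, A.card = a) ∧ (∀ A ∈ P, ∀ B ∈ P, A ≠ B → Disjoint A B) ∧
      P.biUnion id = Y ∧ ∀ A ∈ P, A.image σ ∈ P := by
  induction t using Nat.strong_induction_on with
  | _ t ih =>
    intro Y hY hcard
    rcases Nat.eq_zero_or_pos t with ht | ht
    · subst ht
      have : Y = ∅ := by rw [← Finset.card_eq_zero, hcard, mul_zero]
      exact ⟨∅, by simp, by simp, by simp [this], by simp⟩
    · -- auxiliary: remove an invariant set
      by_cases hA : ∃ A ⊆ Y, (∀ x ∈ A, σ x ∈ A) ∧ A.card = a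
      · obtain ⟨A, hAY, hA, hAc⟩ := hA
        have hinv : ∀ x ∈ Y \ A, σ x ∈ Y \ A := by
          intro x hx
          rw [Finset.mem_sdiff] at hx ⊢
          refine ⟨hY x hx.1, fun h => hx.2 ?_⟩
          have := hA _ h
          rwa [hσ x] at this
        have hc : (Y \ A).card = a * (t - 1) := by
          have := Finset.card_sdiff_add_card_eq_card hAY
          rw [Nat.mul_sub, mul_one]; omega
        obtain ⟨P, h1, h2, h3, h4⟩ := ih (t - 1) (by omega) (Y \ A) hinv hc
        have hdis : ∀ B ∈ P, Disjoint A B := by
          intro B hB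
          have hBs : B ⊆ Y \ A := by rw [← h3]; exact Finset.subset_biUnion_of_mem id hB
          exact (Finset.disjoint_sdiff (s := A) (t := Y)).mono_right hBs
        refine ⟨insert A P, ?_, ?_, ?_, ?_⟩
        · intro B hB
          rw [Finset.mem_insert] at hB
          rcases hB with rfl | hB
          exacts [hAc, h1 B hB]
        · intro B hB C hC hne
          rw [Finset.mem_insert] at hB hC
          rcases hB with rfl | hB <;> rcases hC with rfl | hC
          · exact absurd rfl hne
          · exact hdis C hC
          · exact (hdis B hB).symm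
          · exact h2 B hB C hC hne
        · rw [Finset.biUnion_insert, h3, id, Finset.union_sdiff_of_subset hAY]
        · intro B hB
          rw [Finset.mem_insert] at hB ⊢
          rcases hB with rfl | hB
          · left; exact image_eq_of_mem hσ hA
          · exact Or.inr (h4 B hB)
      · -- then `a` is odd and there is no fixed point
        have hodd : Odd a := by
          rw [← Nat.not_even_iff_odd]
          rintro ⟨k, hk⟩
          apply hA
          obtain ⟨A, h1, h2, h3⟩ := exists_invariant_even hσ Y hY k (by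
            rw [hcard]
            calc 2 * k = a := by omega
              _ ≤ a * t := Nat.le_mul_of_pos_right a ht)
          exact ⟨A, h1, h2, by omega⟩
        have hfree : ∀ x ∈ Y, σ x ≠ x := by
          intro x hx hfix
          apply hA
          exact exists_invariant_of_fixed hσ Y hY x hx hfix a (by
            rw [hcard]; exact Nat.le_mul_of_pos_right a ht)
        have heven : Even Y.card := by
          rw [← Nat.not_odd_iff_even]
          intro ho
          obtain ⟨x, hx, hfix⟩ := exists_fixed_of_odd hσ Y hY ho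
          exact hfree x hx hfix
        have hte : Even t := by
          rw [hcard, Nat.even_mul] at heven
          rcases heven with h | h
          · exact absurd h (Nat.not_even_iff_odd.mpr hodd)
          · exact h
        have ht2 : 2 ≤ t := by
          obtain ⟨k, hk⟩ := hte; omega
        have hYc : 2 * a ≤ Y.card := by
          rw [hcard, mul_comm 2 a]; exact Nat.mul_le_mul_left a ht2
        obtain ⟨A, hAY, hAd, hAc⟩ := exists_half hσ Y hY hfree a hYc
        set A' := A.image σ with hA'
        have hA'Y : A' ⊆ Y := by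
          intro z hz
          rw [hA', Finset.mem_image] at hz
          obtain ⟨w, hw, rfl⟩ := hz
          exact hY w (hAY hw)
        have hA'c : A'.card = a := by
          rw [hA', Finset.card_image_of_injective _ hσ.injective, hAc]
        have hUY : A ∪ A' ⊆ Y := Finset.union_subset hAY hA'Y
        have hUinv : ∀ x ∈ A ∪ A', σ x ∈ A ∪ A' := by
          intro x hx
          rw [Finset.mem_union] at hx ⊢
          rcases hx with hx | hx
          · right; exact Finset.mem_image_of_mem σ hx
          · left
            rw [hA', Finset.mem_image] at hx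
            obtain ⟨w, hw, rfl⟩ := hx
            rw [hσ w]; exact hw
        have hinv : ∀ x ∈ Y \ (A ∪ A'), σ x ∈ Y \ (A ∪ A') := by
          intro x hx
          rw [Finset.mem_sdiff] at hx ⊢
          refine ⟨hY x hx.1, fun h => hx.2 ?_⟩
          have := hUinv _ h
          rwa [hσ x] at this
        have hUc : (A ∪ A').card = 2 * a := by
          rw [Finset.card_union_of_disjoint hAd, hAc, hA'c]; ring
        have hc : (Y \ (A ∪ A')).card = a * (t - 2) := by
          have := Finset.card_sdiff_add_card_eq_card hUY
          rw [Nat.mul_sub]; omega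
        obtain ⟨P, h1, h2, h3, h4⟩ := ih (t - 2) (by omega) _ hinv hc
        have hdis : ∀ B ∈ P, Disjoint (A ∪ A') B := by
          intro B hB
          have hBs : B ⊆ Y \ (A ∪ A') := by rw [← h3]; exact Finset.subset_biUnion_of_mem id hB
          exact (Finset.disjoint_sdiff (s := A ∪ A') (t := Y)).mono_right hBs
        have hdA : ∀ B ∈ P, Disjoint A B := fun B hB =>
          (hdis B hB).mono_left Finset.subset_union_left
        have hdA' : ∀ B ∈ P, Disjoint A' B := fun B hB =>
          (hdis B hB).mono_left Finset.subset_union_right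
        refine ⟨insert A (insert A' P), ?_, ?_, ?_, ?_⟩
        · intro B hB
          rw [Finset.mem_insert, Finset.mem_insert] at hB
          rcases hB with rfl | rfl | hB
          exacts [hAc, hA'c, h1 B hB]
        · intro B hB C hC hne
          rw [Finset.mem_insert, Finset.mem_insert] at hB hC
          rcases hB with rfl | rfl | hB <;> rcases hC with rfl | rfl | hC
          · exact absurd rfl hne
          · exact hAd
          · exact hdA C hC
          · exact hAd.symm
          · exact absurd rfl hne
          · exact hdA' C hC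
          · exact (hdA B hB).symm
          · exact (hdA' B hB).symm
          · exact h2 B hB C hC hne
        · rw [Finset.biUnion_insert, Finset.biUnion_insert, h3, id, id, ← Finset.union_assoc,
            Finset.union_sdiff_of_subset hUY]
        · intro B hB
          rw [Finset.mem_insert, Finset.mem_insert] at hB ⊢
          rcases hB with rfl | rfl | hB
          · right; left; rfl
          · left; rw [hA']; exact image_image_invol hσ A
          · exact Or.inr (Or.inr (h4 B hB))

/-- Indexed version: blocks indexed by `Fin t` and a permutation of the index set. -/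
lemma exists_blocks_fin {σ : X → X} [Fintype X] (hσ : Function.Involutive σ) (a : ℕ) (ha : 0 < a) (t : ℕ)
    (hcard : Fintype.card X = a * t) :
    ∃ (A : Fin t → Finset X) (ρ : Equiv.Perm (Fin t)), (∀ j, (A j).card = a) ∧
      (∀ i j, i ≠ j → Disjoint (A i) (A j)) ∧ (∀ x, ∃ j, x ∈ A j) ∧
      (∀ j, (A j).image σ = A (ρ j)) ∧ ∀ j, ρ (ρ j) = j := by
  obtain ⟨P, h1, h2, h3, h4⟩ := exists_blocks hσ a ha t Finset.univ (by simp) (by simpa using hcard)
  have hPc : P.card = t := by
    have h5 : (P.biUnion id).card = ∑ A ∈ P, A.card := by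
      rw [Finset.card_biUnion]
      · rfl
      · intro A hA B hB hne; exact h2 A hA B hB hne
    rw [h3, Finset.sum_congr rfl h1, Finset.sum_const, Finset.card_univ, hcard, smul_eq_mul, mul_comm] at h5
    exact (Nat.eq_of_mul_eq_mul_right ha h5).symm
  let e : P ≃ Fin t := P.equivFinOfCardEq hPc
  have hinv : Function.Involutive (fun A : P => (⟨(A : Finset X).image σ, h4 A A.2⟩ : P)) := by
    intro A
    apply Subtype.ext
    exact image_image_invol hσ A
  let τ : Equiv.Perm P := hinv.toPerm
  refine ⟨fun j => (e.symm j : Finset X), e.symm.trans (τ.trans e), ?_, ?_, ?_, ?_, ?_⟩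
  · intro j; exact h1 _ (e.symm j).2
  · intro i j hij
    refine h2 _ (e.symm i).2 _ (e.symm j).2 ?_
    intro h
    exact hij (e.symm.injective (Subtype.ext h))
  · intro x
    have : x ∈ P.biUnion id := by rw [h3]; exact Finset.mem_univ x
    rw [Finset.mem_biUnion] at this
    obtain ⟨A, hA, hxA⟩ := this
    refine ⟨e ⟨A, hA⟩, ?_⟩
    simpa using hxA
  · intro j
    simp [τ]
  · intro j
    simp only [Equiv.trans_apply, Equiv.symm_apply_apply]
    have : τ (τ (e.symm j)) = e.symm j := hinv (e.symm j)
    rw [this, Equiv.apply_symm_apply]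

end Cfsg.Agent.H99
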