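import Mathlib
import Cfsg.Agent.H99.Forms
import Cfsg.Agent.H99.InvolPart

set_option autoImplicit false

/-! Orthogonal decompositions of a symplectic space into non-degenerate planes permuted by an isometry
whose square is a scalar (helper99). -/

namespace Cfsg.Agent.H99

open Module

section
variable {F V : Type*} [Field F] [AddCommGroup V] [Module F V]

/-- alternating form, as a function -/
structure AltForm (B : V → V → F) : Prop where
  add_left : ∀ x y v, B (x + y) v = B x v + B y v
  smul_left : ∀ (c : F) (x v : V), B (c • x) v = c * B x v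
  alt : ∀ x, B x x = 0
  skew : ∀ x y, B x y = - B y x

lemma AltForm.oform {B : V → V → F} (h : AltForm B) : OForm B where
  add_left := h.add_left
  smul_left := h.smul_left
  refl := fun x y hxy => by rw [h.skew, hxy, neg_zero]

lemma AltForm.add_right {B : V → V → F} (h : AltForm B) (v x y : V) : B v (x + y) = B v x + B v y := by
  rw [h.skew, h.add_left, h.skew v x, h.skew v y]; ring

lemma AltForm.smul_right {B : V → V → F} (h : AltForm B) (c : F) (v x : V) : B v (c • x) = c * B v x := by
  rw [h.skew, h.smul_left, h.skew v x]; ring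

lemma mem_of_smul_mem {S : Submodule F V} {c : F} (hc : c ≠ 0) {w y : V} (h : y = c • w) (hy : y ∈ S) :
    w ∈ S := by
  have := S.smul_mem c⁻¹ hy
  rwa [h, smul_smul, inv_mul_cancel₀ hc, one_smul] at this

lemma mem_span_pair' (v u w : V) : w ∈ Submodule.span F {v, u} ↔ ∃ a b : F, a • v + b • u = w :=
  Submodule.mem_span_pair

section plane
variable {B : V → V → F} (hA : AltForm B)
include hA

lemma plane_ND {v u : V} (h : B v u ≠ 0) : ND B (Submodule.span F {v, u}) := by
  intro w hw hall
  obtain ⟨a, b, rfl⟩ := (mem_span_pair' v u w).mp hw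
  have h1 := hall v (Submodule.subset_span (by simp))
  have h2 := hall u (Submodule.subset_span (by simp))
  rw [hA.add_left, hA.smul_left, hA.smul_left, hA.alt, mul_zero, zero_add, hA.skew u v] at h1
  rw [hA.add_left, hA.smul_left, hA.smul_left, hA.alt, mul_zero, add_zero] at h2
  have ha : a = 0 := (mul_eq_zero.mp h2).resolve_right h
  have hb : b = 0 := (mul_eq_zero.mp h1).resolve_right (neg_ne_zero.mpr h)
  rw [ha, hb]; simp

lemma plane_finrank {v u : V} (h : B v u ≠ 0) : finrank F (Submodule.span F {v, u}) = 2 := by
  have hv : v ≠ 0 := by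
    rintro rfl; exact h (hA.oform.zero_left u)
  have hli : LinearIndependent F ![v, u] := by
    rw [LinearIndependent.pair_iff' hv]
    rintro a rfl
    exact h (by rw [hA.smul_right, hA.alt, mul_zero])
  have h2 : ({v, u} : Set V) = Set.range ![v, u] := by simp [Set.pair_comm]
  rw [h2, finrank_span_eq_card hli]; simp

end plane

/-- A system of pairwise orthogonal non-degenerate planes inside `W` permuted by `x` through `σ`. -/
structure PlaneSys {B : V → V → F} (hB : OForm B) (x : V →ₗ[F] V) (W : Submodule F V) (ι : Type)
    (P : ι → Submodule F V) (σ : ι → ι) : Prop where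
  invol : Function.Involutive σ
  le : ∀ i, P i ≤ W
  dim : ∀ i, finrank F (P i) = 2
  nd : ∀ i, ND B (P i)
  orth : ∀ i j, i ≠ j → P i ≤ orth hB (P j)
  map : ∀ i, (P i).map x = P (σ i)

lemma PlaneSys.sum {B : V → V → F} {hB : OForm B} {x : V →ₗ[F] V} {W W₁ W₂ : Submodule F V} {ι₁ ι₂ : Type}
    {P₁ : ι₁ → Submodule F V} {σ₁ : ι₁ → ι₁} {P₂ : ι₂ → Submodule F V} {σ₂ : ι₂ → ι₂}
    (h₁ : PlaneSys hB x W₁ ι₁ P₁ σ₁) (h₂ : PlaneSys hB x W₂ ι₂ P₂ σ₂) (hW₁ : W₁ ≤ W) (hW₂ : W₂ ≤ W)
    (ho : W₁ ≤ Cfsg.Agent.H99.orth hB W₂) :
    PlaneSys hB x W (ι₁ ⊕ ι₂) (Sum.elim P₁ P₂) (Sum.map σ₁ σ₂) where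
  invol := by
    rintro (i | i)
    · simp [h₁.invol i]
    · simp [h₂.invol i]
  le := by
    rintro (i | i)
    · exact (h₁.le i).trans hW₁
    · exact (h₂.le i).trans hW₂
  dim := by
    rintro (i | i)
    · exact h₁.dim i
    · exact h₂.dim i
  nd := by
    rintro (i | i)
    · exact h₁.nd i
    · exact h₂.nd i
  orth := by
    rintro (i | i) (j | j) hij
    · exact h₁.orth i j (fun h => hij (by rw [h]))
    · exact (h₁.le i).trans (ho.trans (orth_anti hB (h₂.le j)))
    · exact (h₂.le i).trans (((le_orth_comm hB).mp ho).trans (orth_anti hB (h₁.le j)))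
    · exact h₂.orth i j (fun h => hij (by rw [h]))
  map := by
    rintro (i | i)
    · exact h₁.map i
    · exact h₂.map i

variable [FiniteDimensional F V]

theorem exists_planeSys {B : V → V → F} (hA : AltForm B) (x : V →ₗ[F] V)
    (hx : ∀ u v, B (x u) (x v) = B u v) (z : F) (hz0 : z ≠ 0) (hz : ∀ v, x (x v) = z • v) (n : ℕ) :
    ∀ W : Submodule F V, finrank F W = n → ND B W → (∀ w ∈ W, x w ∈ W) →
    ∃ (ι : Type) (_ : Fintype ι) (_ : DecidableEq ι) (P : ι → Submodule F V) (σ : ι → ι),
      PlaneSys hA.oform x W ι P σ ∧ 2 * Fintype.card ι = n := by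
  induction n using Nat.strong_induction_on with
  | _ n ih =>
    intro W hWn hW hxW
    have hB := hA.oform
    by_cases hbot : W = ⊥
    · refine ⟨Empty, inferInstance, inferInstance, fun e => e.elim, id,
        ⟨fun _ => rfl, fun e => e.elim, fun e => e.elim, fun e => e.elim, fun e => e.elim,
          fun e => e.elim⟩, ?_⟩
      subst hbot
      rw [finrank_bot] at hWn
      simp [← hWn]
    have hxo : ∀ u v, B u v = 0 → B (x u) (x v) = 0 := fun u v h => by rw [hx, h]
    -- reduction step: an invariant non-degenerate subspace with a plane system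
    have step : ∀ (T : Submodule F V) (ι₀ : Type) (_ : Fintype ι₀) (_ : DecidableEq ι₀)
        (P₀ : ι₀ → Submodule F V) (σ₀ : ι₀ → ι₀), PlaneSys hB x T ι₀ P₀ σ₀ → T ≤ W → ND B T →
        T ≤ T.map x → finrank F T = 2 * Fintype.card ι₀ → 0 < Fintype.card ι₀ →
        ∃ (ι : Type) (_ : Fintype ι) (_ : DecidableEq ι) (P : ι → Submodule F V) (σ : ι → ι),
          PlaneSys hA.oform x W ι P σ ∧ 2 * Fintype.card ι = n := by
      intro T ι₀ _ _ P₀ σ₀ hS hTW hT hTx hTd hpos
      have h1 := split_finrank hB hT hTW
      obtain ⟨ι', _, _, P', σ', hS', hc⟩ := ih (finrank F ↥(W ⊓ orth hB T)) (by omega) (W ⊓ orth hB T) rfl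
        (split_ND_compl hB hW hT hTW)
        (fun w hw => ⟨hxW w hw.1, orth_invariant hB x hxo hTx w hw.2⟩)
      refine ⟨ι₀ ⊕ ι', inferInstance, inferInstance, _, _,
        PlaneSys.sum hS hS' hTW inf_le_left ?_, ?_⟩
      · rw [le_orth_comm]; exact inf_le_right
      · rw [Fintype.card_sum]; omega
    -- single invariant plane
    have step1 : ∀ v ∈ W, ∀ u ∈ W, B v u ≠ 0 →
        (Submodule.span F {v, u}).map x = Submodule.span F {v, u} →
        ∃ (ι : Type) (_ : Fintype ι) (_ : DecidableEq ι) (P : ι → Submodule F V) (σ : ι → ι),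
          PlaneSys hA.oform x W ι P σ ∧ 2 * Fintype.card ι = n := by
      intro v hv u hu hvu hmap
      have hle : Submodule.span F {v, u} ≤ W := by
        rw [Submodule.span_le]
        rintro w hw
        rcases hw with rfl | hw
        · exact hv
        · rw [Set.mem_singleton_iff.mp hw]; exact hu
      refine step (Submodule.span F {v, u}) Unit inferInstance inferInstance (fun _ => Submodule.span F {v, u}) id
        ⟨fun _ => rfl, fun _ => le_rfl, fun _ => plane_finrank hA hvu, fun _ => plane_ND hA hvu, ?_,
          fun _ => hmap⟩ hle (plane_ND hA hvu) hmap.ge ?_ (by simp)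
      · intro i j hij; exact absurd rfl hij
      · rw [plane_finrank hA hvu]; simp
    by_cases h1 : ∃ v ∈ W, B v (x v) ≠ 0
    · obtain ⟨v, hv, hvv⟩ := h1
      refine step1 v hv (x v) (hxW v hv) hvv ?_
      apply le_antisymm
      · rw [Submodule.map_span, Submodule.span_le]
        rintro _ ⟨w, hw, rfl⟩
        rcases hw with rfl | hw
        · exact Submodule.subset_span (by simp)
        · rw [Set.mem_singleton_iff.mp hw, hz]
          exact Submodule.smul_mem _ _ (Submodule.subset_span (by simp))
      · rw [Submodule.map_span, Submodule.span_le]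
        intro w hw
        rcases hw with rfl | hw
        · exact mem_of_smul_mem hz0 (hz w) (Submodule.subset_span ⟨x w, by simp, rfl⟩)
        · rw [Set.mem_singleton_iff.mp hw]
          exact Submodule.subset_span ⟨v, by simp, rfl⟩
    push Not at h1
    by_cases h2 : ∀ v ∈ W, ∃ c : F, x v = c • v
    · -- every vector of W is an eigenvector
      obtain ⟨v, hv, hv0⟩ := (Submodule.ne_bot_iff W).mp hbot
      have : ∃ u ∈ W, B v u ≠ 0 := by
        by_contra hcon
        push Not at hcon
        exact hv0 (hW v hv hcon)
      obtain ⟨u, hu, hvu⟩ := this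
      obtain ⟨c, hc⟩ := h2 v hv
      obtain ⟨d, hd⟩ := h2 u hu
      have hne : ∀ (y : V) (e : F), x y = e • y → y ≠ 0 → e ≠ 0 := by
        rintro y e he hy rfl
        rw [zero_smul] at he
        have := hz y
        rw [he, map_zero] at this
        exact hy ((smul_eq_zero.mp this.symm).resolve_left hz0)
      have hu0 : u ≠ 0 := by rintro rfl; exact hvu (hB.zero_right v)
      refine step1 v hv u hu hvu ?_
      have hc0 := hne v c hc hv0
      have hd0 := hne u d hd hu0
      apply le_antisymm
      · rw [Submodule.map_span, Submodule.span_le]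
        rintro _ ⟨w, hw, rfl⟩
        rcases hw with rfl | hw
        · rw [hc]; exact Submodule.smul_mem _ _ (Submodule.subset_span (by simp))
        · rw [Set.mem_singleton_iff.mp hw, hd]
          exact Submodule.smul_mem _ _ (Submodule.subset_span (by simp))
      · rw [Submodule.map_span, Submodule.span_le]
        intro w hw
        rcases hw with rfl | hw
        · exact mem_of_smul_mem hc0 hc (Submodule.subset_span ⟨w, by simp, rfl⟩)
        · rw [Set.mem_singleton_iff.mp hw]
          exact mem_of_smul_mem hd0 hd (Submodule.subset_span ⟨u, by simp, rfl⟩)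
    · push Not at h2
      obtain ⟨v, hv, hvc⟩ := h2
      have hxv0 : x v ≠ 0 := fun h => hvc 0 (by rw [h, zero_smul])
      have : ∃ u₀ ∈ W, B (x v) u₀ ≠ 0 := by
        by_contra hcon
        push Not at hcon
        exact hxv0 (hW (x v) (hxW v hv) hcon)
      obtain ⟨u₀, hu₀, hxu₀⟩ := this
      set c := B v u₀ / B (x v) u₀ with hc
      have hw0 : v - c • x v ≠ 0 := by
        intro h
        rw [sub_eq_zero] at h
        by_cases hc0 : c = 0
        · rw [hc0, zero_smul] at h
          exact hvc 0 (by rw [h]; simp)
        · exact hvc c⁻¹ (by nth_rewrite 2 [h]; rw [smul_smul, inv_mul_cancel₀ hc0, one_smul])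
      have : ∃ u₁ ∈ W, B (v - c • x v) u₁ ≠ 0 := by
        by_contra hcon
        push Not at hcon
        exact hw0 (hW _ (W.sub_mem hv (W.smul_mem c (hxW v hv))) hcon)
      obtain ⟨u₁, hu₁, hwu₁⟩ := this
      set e := B (x v) u₁ / B (x v) u₀ with he
      set u := u₁ + (-e) • u₀ with hu
      have huW : u ∈ W := W.add_mem hu₁ (W.smul_mem _ hu₀)
      have hxvu : B (x v) u = 0 := by
        rw [hu, hA.add_right, hA.smul_right, he]
        field_simp
        ring
      have hvu : B v u ≠ 0 := by
        have : B v u = B (v - c • x v) u₁ := by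
          rw [hB.sub_left, hA.smul_left, hu, hA.add_right, hA.smul_right, he, hc]
          field_simp
          ring
        rw [this]; exact hwu₁
      set P₀ := Submodule.span F {v, u} with hP₀
      set Q₀ := Submodule.span F {x v, x u} with hQ₀
      have hP₀W : P₀ ≤ W := by
        rw [hP₀, Submodule.span_le]
        rintro w hw
        rcases hw with rfl | hw
        · exact hv
        · rw [Set.mem_singleton_iff.mp hw]; exact huW
      have hQ₀W : Q₀ ≤ W := by
        rw [hQ₀, Submodule.span_le]
        rintro w hw
        rcases hw with rfl | hw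
        · exact hxW v hv
        · rw [Set.mem_singleton_iff.mp hw]; exact hxW u huW
      have hmapP : P₀.map x = Q₀ := by
        rw [hP₀, Submodule.map_span, Set.image_pair]
      have hmapQ : Q₀.map x = P₀ := by
        apply le_antisymm
        · rw [hQ₀, Submodule.map_span, Set.image_pair, Submodule.span_le]
          intro w hw
          rcases hw with rfl | hw
          · rw [hz]; exact Submodule.smul_mem _ _ (Submodule.subset_span (by simp))
          · rw [Set.mem_singleton_iff.mp hw, hz]
            exact Submodule.smul_mem _ _ (Submodule.subset_span (by simp))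
        · rw [hP₀, Submodule.span_le, hQ₀, Submodule.map_span, Set.image_pair]
          intro w hw
          rcases hw with rfl | hw
          · exact mem_of_smul_mem hz0 (hz w) (Submodule.subset_span (by simp))
          · rw [Set.mem_singleton_iff.mp hw]
            exact mem_of_smul_mem hz0 (hz u) (Submodule.subset_span (by simp))
      have hpol : ∀ a ∈ W, ∀ b ∈ W, B a (x b) = - B b (x a) := by
        intro a ha b hb
        have h3 := h1 (a + b) (W.add_mem ha hb)
        rw [map_add, hA.add_left, hA.add_right, hA.add_right, h1 a ha, h1 b hb] at h3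
        linear_combination h3
      have hPQ : P₀ ≤ orth hB Q₀ := by
        rw [hP₀, Submodule.span_le]
        intro w hw
        show w ∈ orth hB Q₀
        rw [hQ₀, mem_orth_span]
        intro y hy
        rcases hw with rfl | hw
        · rcases hy with rfl | hy
          · exact h1 w hv
          · rw [Set.mem_singleton_iff.mp hy, hpol w hv u huW, hA.skew, neg_neg, hxvu]
        · rw [Set.mem_singleton_iff.mp hw]
          rcases hy with rfl | hy
          · rw [hA.skew, hxvu, neg_zero]
          · rw [Set.mem_singleton_iff.mp hy]; exact h1 u huW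
      have hvu' : B (x v) (x u) ≠ 0 := by rw [hx]; exact hvu
      have hNP := plane_ND hA hvu
      have hNQ := plane_ND hA hvu'
      have hNT := ND_sup hB hNP hNQ hPQ
      have hTd : finrank F ↥(P₀ ⊔ Q₀) = 4 := by
        have h3 := Submodule.finrank_sup_add_finrank_inf_eq P₀ Q₀
        have h4 : Disjoint P₀ Q₀ :=
          (((ND_iff_disjoint hB Q₀).mp hNQ).mono_right hPQ).symm
        rw [disjoint_iff.mp h4, finrank_bot, hP₀, hQ₀, plane_finrank hA hvu, plane_finrank hA hvu'] at h3
        omega
      refine step (P₀ ⊔ Q₀) (Fin 2) inferInstance inferInstance ![P₀, Q₀] ![1, 0] ?_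
        (sup_le hP₀W hQ₀W) hNT ?_ (by rw [hTd]; simp) (by simp)
      · refine ⟨?_, ?_, ?_, ?_, ?_, ?_⟩
        · intro i; fin_cases i <;> rfl
        · intro i; fin_cases i
          · exact le_sup_left
          · exact le_sup_right
        · intro i; fin_cases i
          · exact plane_finrank hA hvu
          · exact plane_finrank hA hvu'
        · intro i; fin_cases i
          · exact hNP
          · exact hNQ
        · intro i j hij
          fin_cases i <;> fin_cases j
          · exact absurd rfl hij
          · exact hPQ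
          · exact (le_orth_comm hB).mp hPQ
          · exact absurd rfl hij
        · intro i; fin_cases i
          · exact hmapP
          · exact hmapQ
      · rw [Submodule.map_sup, hmapP, hmapQ, sup_comm]

end

end Cfsg.Agent.H99
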