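import Mathlib
import Cfsg.Agent.H99.Forms
import Cfsg.Agent.H99.PrimeElt
import Cfsg.Agent.H99.SympPlanes

set_option autoImplicit false
set_option linter.unusedVariables false

/-! Epsilon-hermitian forms and their isometries of prime order (helper99). -/

namespace Cfsg.Agent.H99

open Module Polynomial

section
variable {F V : Type*} [Field F] [AddCommGroup V] [Module F V]

structure EForm (σ : F →+* F) (ε : F) (B : V → V → F) : Prop where
  add_left : ∀ x y v, B (x + y) v = B x v + B y v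
  smul_left : ∀ (c : F) (x v : V), B (c • x) v = c * B x v
  symm : ∀ x y, B y x = ε * σ (B x y)
  eps : ε * ε = 1

lemma AltForm.eform {B : V → V → F} (h : AltForm B) : EForm (RingHom.id F) (-1) B where
  add_left := h.add_left
  smul_left := h.smul_left
  symm x y := by rw [h.skew]; simp
  eps := by ring

namespace EForm
variable {σ : F →+* F} {ε : F} {B : V → V → F} (hE : EForm σ ε B)
include hE

lemma oform : OForm B where
  add_left := hE.add_left
  smul_left := hE.smul_left
  refl := fun x y h => by rw [hE.symm x y, h, map_zero, mul_zero]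

lemma add_right (v x y : V) : B v (x + y) = B v x + B v y := by
  rw [hE.symm (x + y) v, hE.add_left, map_add, mul_add, ← hE.symm, ← hE.symm]

lemma smul_right (c : F) (v x : V) : B v (c • x) = σ c * B v x := by
  rw [hE.symm (c • x) v, hE.smul_left, map_mul, hE.symm x v]; ring

lemma zero_right (v : V) : B v 0 = 0 := hE.oform.zero_right v

lemma neg_right (v x : V) : B v (-x) = - B v x := by
  have h := hE.add_right v x (-x)
  rw [add_neg_cancel, hE.zero_right] at h
  exact (neg_eq_of_add_eq_zero_right h.symm).symm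

lemma sub_right (v x y : V) : B v (x - y) = B v x - B v y := by
  rw [sub_eq_add_neg, hE.add_right, hE.neg_right, sub_eq_add_neg]

lemma sum_right {ι : Type*} (s : Finset ι) (v : V) (w : ι → V) : B v (∑ i ∈ s, w i) = ∑ i ∈ s, B v (w i) := by
  classical
  induction s using Finset.induction_on with
  | empty => simp [hE.zero_right]
  | insert i s hi ih => rw [Finset.sum_insert hi, Finset.sum_insert hi, hE.add_right, ih]

lemma restrict (W : Submodule F V) : EForm σ ε (fun u v : W => B (u : V) (v : V)) where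
  add_left x y v := hE.add_left _ _ _
  smul_left c x v := hE.smul_left _ _ _
  symm x y := hE.symm _ _
  eps := hE.eps

lemma comp {V' : Type*} [AddCommGroup V'] [Module F V'] (E : V' →ₗ[F] V) : EForm σ ε (fun u v => B (E u) (E v)) where
  add_left x y v := by rw [map_add, hE.add_left]
  smul_left c x v := by rw [map_smul, hE.smul_left]
  symm x y := hE.symm _ _
  eps := hE.eps

end EForm

/-! ### isometries -/
section isom
variable {σ : F →+* F} {ε : F} {B : V → V → F}

lemma isom_pow {x : V →ₗ[F] V} (hx : ∀ u v, B (x u) (x v) = B u v) (k : ℕ) (u v : V) :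
    B ((x ^ k) u) ((x ^ k) v) = B u v := by
  induction k with
  | zero => rfl
  | succ k ih => rw [pow_succ', Module.End.mul_apply, Module.End.mul_apply, hx, ih]

lemma pow_mul_sub_one {x : V →ₗ[F] V} {r : ℕ} (hr0 : 0 < r) (hr : x ^ r = 1) (k : ℕ) : x ^ k * x ^ (k * (r - 1)) = 1 := by
  rw [← pow_add]
  have h : k + k * (r - 1) = r * k := by
    obtain ⟨s, rfl⟩ : ∃ s, r = s + 1 := ⟨r - 1, by omega⟩
    rw [Nat.add_sub_cancel]
    ring
  rw [h, pow_mul, hr, one_pow]

lemma adj_pow {x : V →ₗ[F] V} (hx : ∀ u v, B (x u) (x v) = B u v) {r : ℕ} (hr0 : 0 < r) (hr : x ^ r = 1) (k : ℕ) (u v : V) :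
    B u ((x ^ k) v) = B ((x ^ (k * (r - 1))) u) v := by
  rw [← isom_pow hx k ((x ^ (k * (r - 1))) u) v, ← Module.End.mul_apply, pow_mul_sub_one hr0 hr k]
  rfl

lemma adj_aeval (hE : EForm σ ε B) {x : V →ₗ[F] V} (hx : ∀ u v, B (x u) (x v) = B u v) {r : ℕ} (hr0 : 0 < r) (hr : x ^ r = 1)
    (P : F[X]) (u v : V) : B u (aeval x P v) = B (aeval x ((P.map σ).comp (X ^ (r - 1))) u) v := by
  induction P using Polynomial.induction_on' with
  | add P Q hP hQ =>
    rw [map_add, LinearMap.add_apply, hE.add_right, hP, hQ, Polynomial.map_add, add_comp, map_add, LinearMap.add_apply, hE.add_left]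
  | monomial k a =>
    rw [map_monomial, monomial_comp, aeval_monomial, map_mul, aeval_C, map_pow, map_pow, aeval_X, ← pow_mul, Module.End.mul_apply, Module.End.mul_apply,
      Module.algebraMap_end_apply, Module.algebraMap_end_apply, hE.smul_right, hE.smul_left, adj_pow hx hr0 hr k, mul_comm (r - 1)]

end isom

/-! ### cyclic subspaces -/
section cyc

/-- the cyclic subspace generated by `u` -/
noncomputable def cyc (x : V →ₗ[F] V) (u : V) : Submodule F V :=
  LinearMap.range (((LinearMap.applyₗ u : (V →ₗ[F] V) →ₗ[F] V)) ∘ₗ (aeval x : F[X] →ₐ[F] (V →ₗ[F] V)).toLinearMap)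

lemma mem_cyc {x : V →ₗ[F] V} {u v : V} : v ∈ cyc x u ↔ ∃ f : F[X], aeval x f u = v := by
  unfold cyc
  rw [LinearMap.mem_range]
  rfl

lemma self_mem_cyc (x : V →ₗ[F] V) (u : V) : u ∈ cyc x u := mem_cyc.mpr ⟨1, by simp⟩

lemma cyc_invariant (x : V →ₗ[F] V) (u : V) : ∀ v ∈ cyc x u, x v ∈ cyc x u := by
  intro v hv
  obtain ⟨f, rfl⟩ := mem_cyc.mp hv
  exact mem_cyc.mpr ⟨X * f, by rw [map_mul, aeval_X, Module.End.mul_apply]⟩

lemma pow_mem_cyc (x : V →ₗ[F] V) (u : V) (k : ℕ) : (x ^ k) u ∈ cyc x u := mem_cyc.mpr ⟨X ^ k, by rw [map_pow, aeval_X]⟩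

lemma pow_mem_of_invariant {x : V →ₗ[F] V} {W : Submodule F V} (hW : ∀ v ∈ W, x v ∈ W) {v : V} (hv : v ∈ W) (k : ℕ) :
    (x ^ k) v ∈ W := by
  induction k with
  | zero => exact hv
  | succ k ih => rw [pow_succ', Module.End.mul_apply]; exact hW _ ih

lemma aeval_mem_of_invariant {x : V →ₗ[F] V} {W : Submodule F V} (hW : ∀ v ∈ W, x v ∈ W) {v : V} (hv : v ∈ W) (f : F[X]) :
    aeval x f v ∈ W := by
  induction f using Polynomial.induction_on' with
  | add P Q hP hQ => rw [map_add, LinearMap.add_apply]; exact W.add_mem hP hQ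
  | monomial k a =>
    rw [aeval_monomial, Module.End.mul_apply, Module.algebraMap_end_apply]
    exact W.smul_mem _ (pow_mem_of_invariant hW hv k)

lemma cyc_le {x : V →ₗ[F] V} {W : Submodule F V} (hW : ∀ v ∈ W, x v ∈ W) {u : V} (hu : u ∈ W) : cyc x u ≤ W := by
  intro v hv
  obtain ⟨f, rfl⟩ := mem_cyc.mp hv
  exact aeval_mem_of_invariant hW hu f

lemma aeval_eq_zero_of_mem_cyc {x : V →ₗ[F] V} {u v : V} {P : F[X]} (hP : aeval x P u = 0) (hv : v ∈ cyc x u) : aeval x P v = 0 := by
  obtain ⟨f, rfl⟩ := mem_cyc.mp hv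
  rw [← Module.End.mul_apply, ← map_mul, mul_comm, map_mul, Module.End.mul_apply, hP, map_zero]

lemma finrank_cyc_le {x : V →ₗ[F] V} {u : V} {P : F[X]} (hm : P.Monic) (hP : aeval x P u = 0) :
    finrank F (cyc x u) ≤ P.natDegree := by
  have h1 : cyc x u = (degreeLT F P.natDegree).map
      ((LinearMap.applyₗ u : (V →ₗ[F] V) →ₗ[F] V) ∘ₗ (aeval x : F[X] →ₐ[F] (V →ₗ[F] V)).toLinearMap) := by
    apply le_antisymm
    · intro v hv
      obtain ⟨f, rfl⟩ := mem_cyc.mp hv
      refine ⟨f %ₘ P, ?_, ?_⟩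
      · rw [SetLike.mem_coe, mem_degreeLT]
        refine (degree_modByMonic_lt f hm).trans_le ?_
        exact degree_le_natDegree
      · change aeval x (f %ₘ P) u = aeval x f u
        conv_rhs => rw [← modByMonic_add_div f P]
        rw [map_add, LinearMap.add_apply, mul_comm, map_mul, Module.End.mul_apply, hP, map_zero, add_zero]
    · rintro _ ⟨f, -, rfl⟩
      exact mem_cyc.mpr ⟨f, rfl⟩
  rw [h1]
  refine (Submodule.finrank_map_le _ _).trans ?_
  rw [(degreeLTEquiv F P.natDegree).finrank_eq, finrank_fin_fun]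

end cyc

/-- an invariant complement -/
theorem exists_invariant_compl {x : V →ₗ[F] V} {r : ℕ} (hr0 : 0 < r) (hr : x ^ r = 1) (hrF : (r : F) ≠ 0) (U : Submodule F V)
    (hU : ∀ v ∈ U, x v ∈ U) : ∃ U' : Submodule F V, (∀ v ∈ U', x v ∈ U') ∧ IsCompl U U' := by
  obtain ⟨g, hg⟩ := LinearMap.exists_leftInverse_of_injective U.subtype (Submodule.ker_subtype U)
  let π : V →ₗ[F] V := U.subtype ∘ₗ g
  have hπ1 : ∀ v, π v ∈ U := fun v => (g v).2
  have hπ2 : ∀ u ∈ U, π u = u := by
    intro u hu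
    change ((g u : U) : V) = u
    have := LinearMap.congr_fun hg ⟨u, hu⟩
    exact congrArg Subtype.val this
  let E : V →ₗ[F] V := (r : F)⁻¹ • ∑ k ∈ Finset.range r, x ^ k * π * x ^ (k * (r - 1))
  have hE1 : ∀ v, E v ∈ U := by
    intro v
    change ((r : F)⁻¹ • ∑ k ∈ Finset.range r, x ^ k * π * x ^ (k * (r - 1))) v ∈ U
    rw [LinearMap.smul_apply, LinearMap.sum_apply]
    apply U.smul_mem
    apply U.sum_mem
    intro k _
    rw [Module.End.mul_apply, Module.End.mul_apply]
    exact pow_mem_of_invariant hU (hπ1 _) k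
  have hE2 : ∀ u ∈ U, E u = u := by
    intro u hu
    change ((r : F)⁻¹ • ∑ k ∈ Finset.range r, x ^ k * π * x ^ (k * (r - 1))) u = u
    rw [LinearMap.smul_apply, LinearMap.sum_apply]
    have h1 : ∀ k ∈ Finset.range r, (x ^ k * π * x ^ (k * (r - 1))) u = u := by
      intro k _
      rw [Module.End.mul_apply, Module.End.mul_apply, hπ2 _ (pow_mem_of_invariant hU hu _), ← Module.End.mul_apply, pow_mul_sub_one hr0 hr k]
      rfl
    rw [Finset.sum_congr rfl h1, Finset.sum_const, Finset.card_range, ← Nat.cast_smul_eq_nsmul F, smul_smul, inv_mul_cancel₀ hrF, one_smul]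
  have hcomm : x * E = E * x := by
    have h1 : x * (∑ k ∈ Finset.range r, x ^ k * π * x ^ (k * (r - 1))) = (∑ k ∈ Finset.range r, x ^ k * π * x ^ (k * (r - 1))) * x := by
      rw [Finset.mul_sum, Finset.sum_mul]
      let f : ℕ → (V →ₗ[F] V) := fun k => x ^ k * π * (x ^ (k * (r - 1)) * x)
      have h2 : ∀ k, x * (x ^ k * π * x ^ (k * (r - 1))) = f (k + 1) := by
        intro k
        have h3 : x ^ ((k + 1) * (r - 1)) * x = x ^ (k * (r - 1)) := by
          rw [add_mul, one_mul, pow_add, mul_assoc, ← pow_succ, Nat.sub_add_cancel hr0, hr, mul_one]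
        change _ = x ^ (k + 1) * π * (x ^ ((k + 1) * (r - 1)) * x)
        rw [h3, pow_succ']
        simp only [mul_assoc]
      have h4 : ∀ k, x ^ k * π * x ^ (k * (r - 1)) * x = f k := fun k => by
        change _ = x ^ k * π * (x ^ (k * (r - 1)) * x)
        rw [mul_assoc]
      rw [Finset.sum_congr rfl (fun k _ => h2 k), Finset.sum_congr rfl (fun k _ => h4 k)]
      have h5 := Finset.sum_range_succ f r
      have h6 := Finset.sum_range_succ' f r
      have h7 : f r = f 0 := by
        change x ^ r * π * (x ^ (r * (r - 1)) * x) = x ^ 0 * π * (x ^ (0 * (r - 1)) * x)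
        rw [pow_mul, hr, one_pow, zero_mul, pow_zero]
      rw [h5, h7] at h6
      exact (add_right_cancel h6).symm
    change x * ((r : F)⁻¹ • _) = ((r : F)⁻¹ • _) * x
    rw [mul_smul_comm, h1, smul_mul_assoc]
  refine ⟨LinearMap.ker E, ?_, ?_⟩
  · intro v hv
    rw [LinearMap.mem_ker] at hv ⊢
    rw [← Module.End.mul_apply, ← hcomm, Module.End.mul_apply, hv, map_zero]
  · constructor
    · rw [Submodule.disjoint_def]
      intro v hv hv2
      rw [LinearMap.mem_ker, hE2 v hv] at hv2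
      exact hv2
    · rw [codisjoint_iff, eq_top_iff]
      intro v _
      rw [Submodule.mem_sup]
      refine ⟨E v, hE1 v, v - E v, ?_, by abel⟩
      rw [LinearMap.mem_ker, map_sub, hE2 _ (hE1 v), sub_self]

/-- an invariant complement inside an invariant subspace -/
theorem exists_invariant_compl_in {x : V →ₗ[F] V} {r : ℕ} (hr0 : 0 < r) (hr : x ^ r = 1) (hrF : (r : F) ≠ 0) (U W : Submodule F V)
    (hU : ∀ v ∈ U, x v ∈ U) (hW : ∀ v ∈ W, x v ∈ W) (hUW : U ≤ W) :
    ∃ U' : Submodule F V, (∀ v ∈ U', x v ∈ U') ∧ U' ≤ W ∧ Disjoint U U' ∧ U ⊔ U' = W := by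
  obtain ⟨U', h1, h2⟩ := exists_invariant_compl hr0 hr hrF U hU
  refine ⟨W ⊓ U', ?_, inf_le_left, h2.disjoint.mono_right inf_le_right, ?_⟩
  · rintro v ⟨hv1, hv2⟩
    exact ⟨hW v hv1, h1 v hv2⟩
  · rw [inf_comm, ← sup_inf_assoc_of_le U' hUW, h2.sup_eq_top, top_inf_eq]

end

end Cfsg.Agent.H99
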