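import Mathlib
import Cfsg.Agent.H99.PrimeElt
import Cfsg.Agent.H99.SubCount

set_option autoImplicit false

/-! Elements of prime order of PSL_n (helper99). -/

namespace Cfsg.Agent.H99

open Module Polynomial Matrix

section
variable {F : Type*} [Field F] [Fintype F] {p : ℕ} [Fact p.Prime] [CharP F p] {r : ℕ} [Fact r.Prime] {n : ℕ}

omit [Fintype F] [Fact r.Prime] in
lemma toLin_pow_eq {x : Matrix (Fin n) (Fin n) F} {c : F} (hx : x ^ r = c • (1 : Matrix (Fin n) (Fin n) F)) :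
    (Matrix.toLin' x) ^ r = c • (1 : (Fin n → F) →ₗ[F] (Fin n → F)) := by
  rw [← Matrix.toLin'_pow, hx]
  ext v
  simp

/-- block structure of elements of prime order of `PSL_n` -/
theorem sl_decomp (hn : 0 < n) (hrp : r ≠ p) (x : Matrix.SpecialLinearGroup (Fin n) F) (c : F)
    (hx : ((x ^ r : Matrix.SpecialLinearGroup (Fin n) F) : Matrix (Fin n) (Fin n) F) = c • (1 : Matrix (Fin n) (Fin n) F)) :
    ∃ (a : F) (k : ℕ) (P : Fin k → F[X]), a ≠ 0 ∧
      Nonempty (CycDecomp (a • Matrix.toLin' (x : Matrix (Fin n) (Fin n) F)) P) ∧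
      ((∀ j, (P j).natDegree = 1 ∨ (P j).natDegree = orderOf ((Fintype.card F : ℕ) : ZMod r)) ∨
       ((∀ j, (P j).natDegree = r) ∧ r ∣ Fintype.card F - 1 ∧ r ∣ n ∧
        ∃ z : F, z ≠ 0 ∧ (∀ w : F, w ^ r ≠ z) ∧ ((-1) ^ (r + 1) * z) ^ (n / r) = 1)) := by
  have hr : r.Prime := Fact.out
  rw [Matrix.SpecialLinearGroup.coe_pow] at hx
  have hc0 : c ≠ 0 := by
    rintro rfl
    have h1 := congrArg Matrix.det hx
    have : Nonempty (Fin n) := ⟨⟨0, hn⟩⟩
    rw [Matrix.det_pow, x.det_coe, one_pow, zero_smul, Matrix.det_zero] at h1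
    exact one_ne_zero h1
  have hf := toLin_pow_eq hx
  set f := Matrix.toLin' (x : Matrix (Fin n) (Fin n) F) with hfdef
  rcases exists_decomp_scalar f c hc0 hf with ⟨w, hw, hw0, hwf⟩ | ⟨hnp, hrq, hirr, k, ⟨D⟩⟩
  · obtain ⟨k, P, hP, hD⟩ := exists_decomp_one hrp (w⁻¹ • f) hwf
    refine ⟨w⁻¹, k, P, inv_ne_zero hw0, hD, Or.inl (fun j => ?_)⟩
    rcases (hP j).2.2 with h | h
    · left
      rw [h, natDegree_X_sub_C]
    · right
      exact h.2
  · have h1 := det_of_nonpower hr c hnp f hf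
    rw [hfdef, LinearMap.det_toLin', x.det_coe] at h1
    have hfn : finrank F (Fin n → F) = n := by simp
    rw [hfn] at h1
    refine ⟨1, k, fun _ => X ^ r - C c, one_ne_zero, ?_, Or.inr ⟨fun j => natDegree_X_pow_sub_C, hrq, h1.1, c, hc0, hnp, h1.2.symm⟩⟩
    rw [one_smul]
    exact ⟨D⟩

omit [Fintype F] [Fact r.Prime] in
lemma map_le_of_sub {f : (Fin n → F) →ₗ[F] (Fin n → F)} {a : F} (ha : a ≠ 0) {ι : Type*} {P : ι → F[X]}
    (D : CycDecomp (a • f) P) (A : Set ι) : (D.sub A).map f ≤ D.sub A := by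
  rintro _ ⟨v, hv, rfl⟩
  have h1 := D.apply_mem_sub A hv
  rw [LinearMap.smul_apply] at h1
  have h2 := (D.sub A).smul_mem a⁻¹ h1
  rwa [smul_smul, inv_mul_cancel₀ ha, one_smul] at h2

/-- families of independent invariant subspaces with given dimensions -/
theorem sl_exists_family (hn : 0 < n) (hrp : r ≠ p) (x : Matrix.SpecialLinearGroup (Fin n) F) (c : F)
    (hx : ((x ^ r : Matrix.SpecialLinearGroup (Fin n) F) : Matrix (Fin n) (Fin n) F) = c • (1 : Matrix (Fin n) (Fin n) F))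
    {t : ℕ} (m : Fin t → ℕ) (hm : ∑ j, m j ≤ n)
    (hA : ∑ j, m j % orderOf ((Fintype.card F : ℕ) : ZMod r) ≤ n % orderOf ((Fintype.card F : ℕ) : ZMod r))
    (hB : r ∣ Fintype.card F - 1 → (∀ j, r ∣ m j) ∨ (padicValNat r n ≤ padicValNat r (Fintype.card F - 1) ∧
      (r = 2 → Even n → Fintype.card F % 4 = 1))) :
    ∃ (a : F) (k : ℕ) (P : Fin k → F[X]) (_ : a ≠ 0) (D : CycDecomp (a • Matrix.toLin' (x : Matrix (Fin n) (Fin n) F)) P)
      (A : Fin t → Finset (Fin k)), (∀ i j, i ≠ j → Disjoint (A i) (A j)) ∧ ∀ j, finrank F (D.sub (A j : Set (Fin k))) = m j := by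
  classical
  have hr : r.Prime := Fact.out
  obtain ⟨a, k, P, ha, ⟨D⟩, h⟩ := sl_decomp hn hrp x c hx
  have hsum : ∑ j, (P j).natDegree = n := by
    rw [← D.finrank_eq]
    simp
  rcases h with h | ⟨h1, hrq, hrn, z, hz0, hznp, hz⟩
  · have hi1 : 1 ≤ orderOf ((Fintype.card F : ℕ) : ZMod r) := by
      apply orderOf_pos_of_not_dvd
      intro hd
      obtain ⟨e, he⟩ := FiniteField.card F p
      rw [he.2] at hd
      exact hrp ((Nat.prime_dvd_prime_iff_eq Fact.out Fact.out).mp (hr.dvd_of_dvd_pow hd))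
    obtain ⟨A, hA1, hA2⟩ := exists_disjoint_sums (fun j => (P j).natDegree) _ hi1 h m (by rw [hsum]; exact hm)
      (by rw [hsum]; exact hA)
    exact ⟨a, k, P, ha, D, A, hA1, fun j => by rw [D.finrank_sub, hA2]⟩
  · rcases hB hrq with hB | hB
    · obtain ⟨A, hA1, hA2⟩ := exists_disjoint_sums (fun j => (P j).natDegree) r hr.one_lt.le (fun j => Or.inr (h1 j)) m
        (by rw [hsum]; exact hm) (by
          rw [hsum, Finset.sum_eq_zero (fun j _ => Nat.mod_eq_zero_of_dvd (hB j))]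
          exact Nat.zero_le _)
      exact ⟨a, k, P, ha, D, A, hA1, fun j => by rw [D.finrank_sub, hA2]⟩
    · exact (no_nonpower_of_cond hn hrn hrq hB z hz0 hznp hz).elim

omit [Fact p.Prime] [CharP F p] [Fact r.Prime] [Fintype F] in
/-- matrices from endomorphisms of determinant one -/
lemma exists_sl_of_endo (f : (Fin n → F) →ₗ[F] (Fin n → F)) (hd : LinearMap.det f = 1) (c : F)
    (hf : f ^ r = c • (1 : (Fin n → F) →ₗ[F] (Fin n → F))) :
    ∃ x : Matrix.SpecialLinearGroup (Fin n) F, Matrix.toLin' (x : Matrix (Fin n) (Fin n) F) = f ∧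
      ((x ^ r : Matrix.SpecialLinearGroup (Fin n) F) : Matrix (Fin n) (Fin n) F) = c • (1 : Matrix (Fin n) (Fin n) F) := by
  let x : Matrix.SpecialLinearGroup (Fin n) F := ⟨LinearMap.toMatrix' f, by rw [LinearMap.det_toMatrix', hd]⟩
  have hx : Matrix.toLin' (x : Matrix (Fin n) (Fin n) F) = f := Matrix.toLin'_toMatrix' f
  refine ⟨x, hx, ?_⟩
  rw [Matrix.SpecialLinearGroup.coe_pow]
  apply Matrix.toLin'.injective
  rw [Matrix.toLin'_pow, hx, hf]
  ext v
  simp

/-- elements with `a` nontrivial blocks -/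
theorem sl_exists_order (hn : 0 < n) (hrp : r ≠ p) (hrq : ¬ r ∣ Fintype.card F - 1) (a : ℕ) (ha0 : 0 < a)
    (ha : a * orderOf ((Fintype.card F : ℕ) : ZMod r) ≤ n) :
    ∃ x : Matrix.SpecialLinearGroup (Fin n) F,
      ((x ^ r : Matrix.SpecialLinearGroup (Fin n) F) : Matrix (Fin n) (Fin n) F) = (1 : F) • (1 : Matrix (Fin n) (Fin n) F) ∧
      (∀ c : F, (x : Matrix (Fin n) (Fin n) F) ≠ c • (1 : Matrix (Fin n) (Fin n) F)) ∧
      (Matrix.toLin' (x : Matrix (Fin n) (Fin n) F)) ^ r = 1 ∧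
      finrank F (LinearMap.ker (Matrix.toLin' (x : Matrix (Fin n) (Fin n) F) - 1)) +
        a * orderOf ((Fintype.card F : ℕ) : ZMod r) ≤ n := by
  have hr : r.Prime := Fact.out
  have hfn : finrank F (Fin n → F) = n := by simp
  obtain ⟨f, hf1, hf2, hf3⟩ := exists_endo_order (V := Fin n → F) hrp a (by rw [hfn]; exact ha)
  have hroot : ∀ u : F, u ^ r = 1 → u = 1 := by
    intro u hu
    have hu0 : u ≠ 0 := by
      rintro rfl
      rw [zero_pow hr.ne_zero] at hu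
      exact zero_ne_one hu
    have h1 : orderOf u ∣ r := orderOf_dvd_of_pow_eq_one hu
    have h2 : orderOf u ∣ Fintype.card F - 1 := orderOf_dvd_of_pow_eq_one (FiniteField.pow_card_sub_one_eq_one u hu0)
    rcases (Nat.dvd_prime hr).mp h1 with h3 | h3
    · exact orderOf_eq_one_iff.mp h3
    · rw [h3] at h2
      exact absurd h2 hrq
  have hdet : LinearMap.det f = 1 := by
    apply hroot
    rw [← map_pow, hf1, map_one]
  obtain ⟨x, hx1, hx2⟩ := exists_sl_of_endo f hdet 1 (by rw [hf1, one_smul])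
  refine ⟨x, hx2, ?_, by rw [hx1]; exact hf1, by rw [hx1]; rwa [hfn] at hf2⟩
  intro c hc
  apply hf3 ha0
  rw [← hx1, hc]
  have hcr : c ^ r = 1 := by
    rw [Matrix.SpecialLinearGroup.coe_pow, hc, _root_.smul_pow, one_pow, one_smul] at hx2
    have : Nonempty (Fin n) := ⟨⟨0, hn⟩⟩
    have h3 := congrFun (congrFun hx2 ⟨0, hn⟩) ⟨0, hn⟩
    simpa using h3
  rw [hroot c hcr, one_smul]
  ext v
  simp

omit [Fintype F] [Fact p.Prime] [CharP F p] in
/-- elements with scalar non-`r`-th power -/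
theorem sl_exists_nonpower (z : F) (hz : ∀ w : F, w ^ r ≠ z) (hrn : r ∣ n) (hd : ((-1) ^ (r + 1) * z) ^ (n / r) = 1) :
    ∃ x : Matrix.SpecialLinearGroup (Fin n) F,
      ((x ^ r : Matrix.SpecialLinearGroup (Fin n) F) : Matrix (Fin n) (Fin n) F) = z • (1 : Matrix (Fin n) (Fin n) F) ∧
      (n ≠ 0 → ∀ c : F, (x : Matrix (Fin n) (Fin n) F) ≠ c • (1 : Matrix (Fin n) (Fin n) F)) ∧
      ∀ W : Submodule F (Fin n → F), W.map (Matrix.toLin' (x : Matrix (Fin n) (Fin n) F)) ≤ W → r ∣ finrank F W := by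
  have hr : r.Prime := Fact.out
  have hfn : finrank F (Fin n → F) = n := by simp
  obtain ⟨f, hf1, hf2⟩ := exists_endo_nonpower (V := Fin n → F) hr z hz (by rw [hfn]; exact hrn)
  rw [hfn, hd] at hf2
  obtain ⟨x, hx1, hx2⟩ := exists_sl_of_endo f hf2 z hf1
  refine ⟨x, hx2, ?_, ?_⟩
  · intro hn c hc
    rw [Matrix.SpecialLinearGroup.coe_pow, hc, _root_.smul_pow, one_pow] at hx2
    have h3 := congrFun (congrFun hx2 ⟨0, by omega⟩) ⟨0, by omega⟩
    apply hz c
    simpa using h3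
  · intro W hW
    rw [hx1] at hW
    exact natDegree_dvd_finrank f r hr.pos z (X_pow_sub_C_irreducible_of_prime hr hz) hf1 W (fun v hv => hW ⟨v, hv, rfl⟩)

omit [CharP F p] [Fact p.Prime] in
lemma dvd_sub_one_iff_orderOf : r ∣ Fintype.card F - 1 ↔ orderOf ((Fintype.card F : ℕ) : ZMod r) = 1 := by
  have h := dvd_pow_sub_one_iff (r := r) (Fintype.card_pos (α := F)) 1
  rw [pow_one] at h
  rw [h, Nat.dvd_one]

omit [Fact p.Prime] in
lemma prime_not_dvd_card [Fact p.Prime] (hrp : r ≠ p) : ¬ r ∣ Fintype.card F := by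
  intro hd
  obtain ⟨e, he⟩ := FiniteField.card F p
  rw [he.2] at hd
  exact hrp ((Nat.prime_dvd_prime_iff_eq Fact.out Fact.out).mp ((Fact.out : r.Prime).dvd_of_dvd_pow hd))

end

end Cfsg.Agent.H99
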