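import Mathlib
import Cfsg.Agent.H99.EForm
import Cfsg.Agent.H99.PrimeSL

set_option autoImplicit false
set_option linter.unusedVariables false
set_option linter.unusedSectionVars false

/-! Orthogonal block decompositions of isometries of prime order (helper99). -/

namespace Cfsg.Agent.H99

open Module Polynomial

section
variable {F V : Type*} [Field F] [Fintype F] [AddCommGroup V] [Module F V] [FiniteDimensional F V]
variable {p : ℕ} [Fact p.Prime] [CharP F p] {r : ℕ} [Fact r.Prime]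
variable {σ : F →+* F} {ε : F} {B : V → V → F}

/-- the self-dual situation: some Frobenius power inducing `σ` inverts the `r`-th roots of unity -/
def SelfDualE (p r : ℕ) (σ : F →+* F) : Prop := ∃ e : ℕ, r ∣ p ^ e + 1 ∧ ∀ a : F, σ a = a ^ (p ^ e)

/-- the arithmetic self-duality condition, `σ` being the `N`-power map and `Q` the order of the field -/
def SelfDual (r N Q : ℕ) : Prop := ∃ j : ℕ, r ∣ N * Q ^ j + 1

lemma SelfDual.toE {N : ℕ} (hN : ∃ e0, N = p ^ e0) (hσ : ∀ a : F, σ a = a ^ N) (h : SelfDual r N (Fintype.card F)) : SelfDualE p r σ := by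
  obtain ⟨j, hj⟩ := h
  obtain ⟨e0, rfl⟩ := hN
  obtain ⟨f, hf⟩ := FiniteField.card F p
  have hpe : p ^ e0 * Fintype.card F ^ j = p ^ (e0 + f * j) := by
    rw [hf.2, ← pow_mul, ← pow_add]
  refine ⟨e0 + f * j, by rw [← hpe]; exact hj, ?_⟩
  intro a
  rw [← hpe, hσ, pow_mul, FiniteField.pow_card_pow]

omit [Fintype F] [FiniteDimensional F V] [Fact r.Prime] in
theorem aeval_adj_eq_zero (hsd : SelfDualE p r σ) (hr0 : 0 < r) {x : V →ₗ[F] V} (hr : x ^ r = 1) {P : F[X]} {v : V}
    (hv : aeval x P v = 0) : aeval x ((P.map σ).comp (X ^ (r - 1))) v = 0 := by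
  obtain ⟨e, he, hσ⟩ := hsd
  have h1 : σ = iterateFrobenius F p e := by
    ext a
    rw [hσ, iterateFrobenius_def]
  have h2 : x ^ (r - 1) = x ^ (p ^ e) := by
    obtain ⟨m, hm⟩ := he
    have h3 : r - 1 + r * (m - 1) = p ^ e := by
      rcases Nat.eq_zero_or_pos m with h | h
      · rw [h, mul_zero] at hm
        omega
      · obtain ⟨m', rfl⟩ : ∃ m', m = m' + 1 := ⟨m - 1, by omega⟩
        rw [Nat.add_sub_cancel]
        rw [mul_add, mul_one] at hm
        omega
    rw [← h3, pow_add, pow_mul, hr, one_pow, mul_one]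
  have h3 : aeval x ((P.map σ).comp (X ^ (r - 1))) = (aeval x P) ^ (p ^ e) := by
    rw [aeval_comp, map_pow, aeval_X, h2, ← map_pow (aeval x) P, ← map_iterateFrobenius_expand p P e, map_expand, expand_aeval, ← h1]
  rw [h3]
  have hpe : p ^ e ≠ 0 := pow_ne_zero _ (Fact.out : p.Prime).ne_zero
  obtain ⟨k, hk⟩ := Nat.exists_eq_succ_of_ne_zero hpe
  rw [hk, pow_succ, Module.End.mul_apply, hv, map_zero]

/-- an irreducible factor acting on a vector -/
theorem exists_factor (hrp : r ≠ p) {x : V →ₗ[F] V} (hr : x ^ r = 1) {W : Submodule F V} (hW : ∀ v ∈ W, x v ∈ W)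
    (hfix : ∀ v ∈ W, x v = v → v = 0) {w : V} (hw : w ∈ W) (hw0 : w ≠ 0) :
    ∃ (P : F[X]) (u : V), P.Monic ∧ Irreducible P ∧ P ∣ cyclotomic r F ∧ P.natDegree = orderOf ((Fintype.card F : ℕ) : ZMod r) ∧
      u ∈ W ∧ u ≠ 0 ∧ aeval x P u = 0 := by
  have hkey : ∀ (n : ℕ) (f : F[X]), f.natDegree = n → f ∣ cyclotomic r F → aeval x f w = 0 →
      ∃ (P : F[X]) (u : V), P.Monic ∧ Irreducible P ∧ P ∣ cyclotomic r F ∧ u ∈ W ∧ u ≠ 0 ∧ aeval x P u = 0 := by
    intro n
    induction n using Nat.strong_induction_on with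
    | _ n ih =>
      intro f hn hf hfw
      have hc0 : cyclotomic r F ≠ 0 := cyclotomic_ne_zero r F
      have hf0 : f ≠ 0 := by
        rintro rfl
        exact hc0 (zero_dvd_iff.mp hf)
      have hfu : ¬ IsUnit f := by
        intro h
        rw [isUnit_iff_degree_eq_zero] at h
        rw [eq_C_of_degree_eq_zero h, aeval_C, Module.algebraMap_end_apply, smul_eq_zero] at hfw
        rcases hfw with h1 | h1
        · apply hf0
          rw [eq_C_of_degree_eq_zero h, h1, C_0]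
        · exact hw0 h1
      obtain ⟨P₀, hP₀, hPf⟩ := WfDvdMonoid.exists_irreducible_factor hfu hf0
      set P := P₀ * C P₀.leadingCoeff⁻¹ with hP
      have hl : P₀.leadingCoeff ≠ 0 := leadingCoeff_ne_zero.mpr hP₀.ne_zero
      have hPm : P.Monic := monic_mul_leadingCoeff_inv hP₀.ne_zero
      have has : Associated P₀ P := ⟨⟨C P₀.leadingCoeff⁻¹, C P₀.leadingCoeff, by rw [← C_mul, inv_mul_cancel₀ hl, C_1],
        by rw [← C_mul, mul_inv_cancel₀ hl, C_1]⟩, rfl⟩
      have hPi : Irreducible P := has.irreducible hP₀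
      obtain ⟨g, hg⟩ : P ∣ f := has.symm.dvd.trans hPf
      by_cases hgw : aeval x g w = 0
      · apply ih g.natDegree _ g rfl ((Dvd.intro_left P hg.symm).trans hf) hgw
        rw [← hn, hg, natDegree_mul hPi.ne_zero (by rintro rfl; rw [mul_zero] at hg; exact hf0 hg)]
        have := hPi.natDegree_pos
        omega
      · exact ⟨P, aeval x g w, hPm, hPi, (Dvd.intro g hg.symm).trans hf, aeval_mem_of_invariant hW hw g, hgw, by
          rw [← Module.End.mul_apply, ← map_mul, ← hg, hfw]⟩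
  have hcyc : aeval x (cyclotomic r F) w = 0 := by
    apply hfix _ (aeval_mem_of_invariant hW hw _)
    have h1 := cyclotomic_prime_mul_X_sub_one F r
    have h2 : aeval x (X ^ r - 1 : F[X]) w = 0 := by
      rw [map_sub, map_pow, aeval_X, hr, map_one, sub_self]
      rfl
    rw [← h1, mul_comm, map_mul, Module.End.mul_apply, map_sub, aeval_X, map_one, LinearMap.sub_apply, Module.End.one_apply, sub_eq_zero] at h2
    exact h2
  obtain ⟨P, u, h1, h2, h3, h4, h5, h6⟩ := hkey _ (cyclotomic r F) rfl dvd_rfl hcyc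
  refine ⟨P, u, h1, h2, h3, ?_, h4, h5, h6⟩
  obtain ⟨e, he⟩ := FiniteField.card F p
  have hc : p.Coprime r := by
    rw [Nat.coprime_primes Fact.out Fact.out]
    exact hrp.symm
  rw [natDegree_of_dvd_cyclotomic_of_irreducible he.2 hc h3 h2, ← orderOf_units]
  congr 1
  rw [ZMod.coe_unitOfCoprime, he.2]

/-- dimension of an invariant subspace without fixed vectors -/
lemma dvd_finrank_of_fix (hrp : r ≠ p) {x : V →ₗ[F] V} (hr : x ^ r = 1) {W : Submodule F V} (hW : ∀ v ∈ W, x v ∈ W)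
    (hfix : ∀ v ∈ W, x v = v → v = 0) : orderOf ((Fintype.card F : ℕ) : ZMod r) ∣ finrank F W := by
  have h1 := finrank_modEq_fixed_sub hrp x hr W hW
  have h2 : (W ⊓ LinearMap.ker (x - 1) : Submodule F V) = ⊥ := by
    rw [eq_bot_iff]
    rintro v ⟨hv1, hv2⟩
    rw [Submodule.mem_bot]
    apply hfix v hv1
    rw [SetLike.mem_coe, LinearMap.mem_ker, LinearMap.sub_apply, Module.End.one_apply, sub_eq_zero] at hv2
    exact hv2
  rw [h2, finrank_bot] at h1
  exact (Nat.modEq_zero_iff_dvd).mp h1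

/-- minimal invariant subspaces -/
lemma eq_bot_or_eq (hrp : r ≠ p) {x : V →ₗ[F] V} (hr : x ^ r = 1) {A : Submodule F V}
    (hfix : ∀ v ∈ A, x v = v → v = 0) (hd : finrank F A = orderOf ((Fintype.card F : ℕ) : ZMod r))
    {A' : Submodule F V} (hA' : ∀ v ∈ A', x v ∈ A') (hle : A' ≤ A) : A' = ⊥ ∨ A' = A := by
  have h1 := dvd_finrank_of_fix hrp hr hA' (fun v hv => hfix v (hle hv))
  have h2 := Submodule.finrank_mono hle
  rw [← hd] at h1
  rcases Nat.eq_zero_or_pos (finrank F A') with h | h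
  · left
    exact Submodule.finrank_eq_zero.mp h
  · right
    apply Submodule.eq_of_le_of_finrank_eq hle
    have := Nat.le_of_dvd h h1
    omega

lemma orth_inter_invariant (hE : EForm σ ε B) {x : V →ₗ[F] V} (hx : ∀ u v, B (x u) (x v) = B u v) (hr : x ^ r = 1)
    {A : Submodule F V} (hA : ∀ v ∈ A, x v ∈ A) : ∀ v ∈ orth hE.oform A, x v ∈ orth hE.oform A := by
  apply orth_invariant hE.oform x (fun u v h => by rw [hx, h])
  intro v hv
  have hr0 : 0 < r := (Fact.out : r.Prime).pos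
  refine ⟨(x ^ (r - 1)) v, pow_mem_of_invariant hA hv _, ?_⟩
  rw [← Module.End.mul_apply, ← pow_succ', Nat.sub_add_cancel hr0, hr]
  rfl

/-- a minimal invariant subspace is nondegenerate or totally isotropic -/
lemma ND_or_iso (hrp : r ≠ p) (hE : EForm σ ε B) {x : V →ₗ[F] V} (hx : ∀ u v, B (x u) (x v) = B u v) (hr : x ^ r = 1)
    {A : Submodule F V} (hA : ∀ v ∈ A, x v ∈ A)
    (hfix : ∀ v ∈ A, x v = v → v = 0) (hd : finrank F A = orderOf ((Fintype.card F : ℕ) : ZMod r)) :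
    ND B A ∨ ∀ u ∈ A, ∀ v ∈ A, B u v = 0 := by
  have h1 : ∀ v ∈ A ⊓ orth hE.oform A, x v ∈ A ⊓ orth hE.oform A := by
    rintro v ⟨hv1, hv2⟩
    exact ⟨hA v hv1, orth_inter_invariant hE hx hr hA v hv2⟩
  rcases eq_bot_or_eq hrp hr hfix hd h1 inf_le_left with h | h
  · left
    rw [ND_iff_disjoint hE.oform, disjoint_iff, h]
  · right
    intro u hu v hv
    have : u ∈ A ⊓ orth hE.oform A := by rw [h]; exact hu
    exact this.2 v hv

/-- the `P`-part of a nondegenerate space is nondegenerate, self-dual case -/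
theorem ND_part (hrp : r ≠ p) (hE : EForm σ ε B) (hsd : SelfDualE p r σ) {x : V →ₗ[F] V} (hx : ∀ u v, B (x u) (x v) = B u v)
    (hr : x ^ r = 1) {W : Submodule F V} (hW : ∀ v ∈ W, x v ∈ W) (hND : ND B W) {P : F[X]} (hP : P ∣ cyclotomic r F) :
    ND B (W ⊓ LinearMap.ker (aeval x P)) := by
  rintro u ⟨hu1, hu2⟩ hu
  rw [SetLike.mem_coe, LinearMap.mem_ker] at hu2
  apply hND u hu1
  intro w hw
  have hr0 : 0 < r := (Fact.out : r.Prime).pos
  obtain ⟨G₀, hG₀⟩ := hP
  have hsep : (P * (G₀ * (X - 1))).Separable := by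
    rw [← mul_assoc, ← hG₀, cyclotomic_prime_mul_X_sub_one]
    have := separable_X_pow_sub_C (1 : F) (natCast_ne_zero_of_ne (Fact.out : r.Prime) hrp) one_ne_zero
    rwa [C_1] at this
  obtain ⟨a, b, hab⟩ := hsep.isCoprime
  have h1 : w = aeval x P (aeval x a w) + aeval x ((G₀ * (X - 1)) * b) w := by
    have h0 : (aeval x (a * P + b * (G₀ * (X - 1)))) w = w := by rw [hab, map_one]; rfl
    rw [map_add, LinearMap.add_apply, mul_comm a, map_mul, Module.End.mul_apply, mul_comm b] at h0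
    exact h0.symm
  rw [h1, hE.add_right, adj_aeval hE hx hr0 hr, aeval_adj_eq_zero hsd hr0 hr hu2, hE.oform.zero_left, zero_add]
  apply hu
  refine ⟨aeval_mem_of_invariant hW hw _, ?_⟩
  rw [SetLike.mem_coe, LinearMap.mem_ker, ← Module.End.mul_apply, ← map_mul, ← mul_assoc, ← mul_assoc, ← hG₀, cyclotomic_prime_mul_X_sub_one, map_mul,
    map_sub, map_pow, aeval_X, hr, map_one, sub_self, zero_mul]
  rfl

/-- polarization -/
theorem exists_not_perp (hr2 : r ≠ 2) (hE : EForm σ ε B) {x : V →ₗ[F] V} (hx : ∀ u v, B (x u) (x v) = B u v)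
    (hr : x ^ r = 1) {W : Submodule F V} (hW : ∀ v ∈ W, x v ∈ W) (hND : ND B W) (hfix : ∀ v ∈ W, x v = v → v = 0) (hW0 : W ≠ ⊥) :
    ∃ u ∈ W, ∃ k : ℕ, B u ((x ^ k) u) ≠ 0 := by
  by_contra hcon
  push Not at hcon
  have hrp' : r.Prime := Fact.out
  have hr0 : 0 < r := hrp'.pos
  have hpol : ∀ u ∈ W, ∀ v ∈ W, ∀ k : ℕ, B u ((x ^ k) v) + B v ((x ^ k) u) = 0 := by
    intro u hu v hv k
    have h1 := hcon (u + v) (W.add_mem hu hv) k
    rw [map_add, hE.add_left, hE.add_right, hE.add_right, hcon u hu k, hcon v hv k, zero_add, add_zero] at h1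
    exact h1
  obtain ⟨w, hw, hw0⟩ := Submodule.exists_mem_ne_zero_of_ne_bot hW0
  by_cases hσ : ∃ c, σ c ≠ c
  · obtain ⟨c, hc⟩ := hσ
    apply hw0
    apply hND w hw
    intro v hv
    have h1 := hpol w hw v hv 0
    have h2 := hpol w hw (c • v) (W.smul_mem c hv) 0
    simp only [pow_zero, Module.End.one_apply] at h1 h2
    rw [hE.smul_right, hE.smul_left] at h2
    have h3 : (σ c - c) * B w v = 0 := by linear_combination h2 - c * h1
    rcases mul_eq_zero.mp h3 with h4 | h4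
    · exact absurd (sub_eq_zero.mp h4) hc
    · exact h4
  · push Not at hσ
    have h1 : ∀ v ∈ W, x v + ε • (x ^ (r - 1)) v = 0 := by
      intro v hv
      have hmem : x v + ε • (x ^ (r - 1)) v ∈ W := W.add_mem (hW v hv) (W.smul_mem _ (pow_mem_of_invariant hW hv _))
      apply hND _ hmem
      intro u hu
      apply hE.oform.refl
      have h2 := hpol u hu v hv 1
      rw [pow_one] at h2
      rw [hE.add_right, hE.smul_right, hσ, adj_pow hx hr0 hr (r - 1)]
      have h3 : (x ^ ((r - 1) * (r - 1))) u = x u := by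
        have h4 : (r - 1) * (r - 1) = r * (r - 2) + 1 := by
          obtain ⟨s, rfl⟩ : ∃ s, r = s + 2 := ⟨r - 2, by have := hrp'.two_le; omega⟩
          rw [Nat.add_sub_cancel, show s + 2 - 1 = s + 1 by omega]
          ring
        rw [h4, pow_succ, pow_mul, hr, one_pow, one_mul]
      rw [h3]
      have h4 : B v (x u) = ε * B (x u) v := by rw [hE.symm (x u) v, hσ]
      rw [h4] at h2
      exact h2
    have h2 : ∀ v ∈ W, (x ^ 4) v = v := by
      intro v hv
      have h3 : ∀ v ∈ W, x (x v) = -ε • v := by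
        intro v hv
        have h4 := congrArg x (h1 v hv)
        rw [map_add, map_smul, map_zero, ← Module.End.mul_apply x (x ^ (r - 1)), ← pow_succ', Nat.sub_add_cancel hr0, hr, Module.End.one_apply] at h4
        rw [neg_smul]
        exact eq_neg_of_add_eq_zero_left h4
      have h5 : (x ^ 4) v = x (x (x (x v))) := rfl
      rw [h5, h3 _ (hW _ (hW v hv)), h3 v hv, smul_smul]
      rw [show -ε * -ε = ε * ε by ring, hE.eps, one_smul]
    apply hw0
    apply hfix w hw
    have h3 : ∀ k : ℕ, (x ^ (4 * k)) w = w := by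
      intro k
      induction k with
      | zero => rfl
      | succ k ih => rw [mul_add, mul_one, pow_add, Module.End.mul_apply, h2 w hw, ih]
    have h4 : (x ^ r) w = w := by rw [hr]; rfl
    have hodd : r % 2 = 1 := hrp'.eq_two_or_odd.resolve_left hr2
    have h5 : r % 4 = 1 ∨ r % 4 = 3 := by omega
    rcases h5 with h5 | h5
    · have h6 : r = 4 * (r / 4) + 1 := by omega
      rw [h6, pow_succ', Module.End.mul_apply, h3] at h4
      exact h4
    · have h6 : r = 3 + 4 * (r / 4) := by omega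
      rw [h6, pow_add, Module.End.mul_apply, h3] at h4
      have h7 := h2 w hw
      rw [show (4 : ℕ) = 1 + 3 from rfl, pow_add, Module.End.mul_apply, h4, pow_one] at h7
      exact h7

/-- cyclic subspaces generated by vectors killed by an irreducible factor -/
theorem cyc_min (hrp : r ≠ p) {x : V →ₗ[F] V} (hr : x ^ r = 1) {W : Submodule F V} (hW : ∀ v ∈ W, x v ∈ W)
    (hfix : ∀ v ∈ W, x v = v → v = 0) {P : F[X]} {u : V} (hPm : P.Monic)
    (hPd : P.natDegree = orderOf ((Fintype.card F : ℕ) : ZMod r)) (hu : u ∈ W) (hu0 : u ≠ 0) (hPu : aeval x P u = 0) :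
    cyc x u ≤ W ∧ (∀ v ∈ cyc x u, x v ∈ cyc x u) ∧ finrank F (cyc x u) = orderOf ((Fintype.card F : ℕ) : ZMod r) := by
  have h1 := cyc_le hW hu
  refine ⟨h1, cyc_invariant x u, ?_⟩
  have h2 := finrank_cyc_le hPm hPu
  have h3 := dvd_finrank_of_fix hrp hr (cyc_invariant x u) (fun v hv => hfix v (h1 hv))
  have h4 : 0 < finrank F (cyc x u) := by
    rw [Module.finrank_pos_iff_exists_ne_zero]
    exact ⟨⟨u, self_mem_cyc x u⟩, fun h => hu0 (congrArg Subtype.val h)⟩
  have h5 := Nat.le_of_dvd h4 h3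
  omega

/-- a nondegenerate minimal invariant subspace, self-dual case -/
theorem exists_ND_min (hr2 : r ≠ 2) (hrp : r ≠ p) (hE : EForm σ ε B) (hsd : SelfDualE p r σ) {x : V →ₗ[F] V}
    (hx : ∀ u v, B (x u) (x v) = B u v)
    (hr : x ^ r = 1) {W : Submodule F V} (hW : ∀ v ∈ W, x v ∈ W) (hND : ND B W) (hfix : ∀ v ∈ W, x v = v → v = 0)
    {P : F[X]} (hPm : P.Monic) (hPc : P ∣ cyclotomic r F) (hPd : P.natDegree = orderOf ((Fintype.card F : ℕ) : ZMod r))
    (hPW : ∃ u ∈ W, u ≠ 0 ∧ aeval x P u = 0) :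
    ∃ U ≤ W, (∀ v ∈ U, x v ∈ U) ∧ ND B U ∧ finrank F U = orderOf ((Fintype.card F : ℕ) : ZMod r) ∧ ∀ v ∈ U, aeval x P v = 0 := by
  obtain ⟨u₀, hu₀, hu₀0, hPu₀⟩ := hPW
  set WP := W ⊓ LinearMap.ker (aeval x P) with hWP
  have hWPi : ∀ v ∈ WP, x v ∈ WP := by
    rintro v ⟨hv1, hv2⟩
    refine ⟨hW v hv1, ?_⟩
    rw [SetLike.mem_coe, LinearMap.mem_ker] at hv2 ⊢
    have h1 : aeval x P (x v) = x (aeval x P v) := by
      have h2 : aeval x (P * X) v = aeval x (X * P) v := by rw [mul_comm]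
      rw [map_mul, map_mul, aeval_X, Module.End.mul_apply, Module.End.mul_apply] at h2
      exact h2
    rw [h1, hv2, map_zero]
  have hfix' : ∀ v ∈ WP, x v = v → v = 0 := fun v hv => hfix v hv.1
  obtain ⟨u, hu, k, hk⟩ := exists_not_perp hr2 hE hx hr hWPi (ND_part hrp hE hsd hx hr hW hND hPc) hfix' (by
    intro h
    apply hu₀0
    rw [← Submodule.mem_bot (R := F), ← h]
    exact ⟨hu₀, LinearMap.mem_ker.mpr hPu₀⟩)
  have hu0 : u ≠ 0 := by
    rintro rfl
    exact hk (hE.oform.zero_left _)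
  obtain ⟨h1, h2, h3⟩ := cyc_min hrp hr hW hfix hPm hPd hu.1 hu0 (LinearMap.mem_ker.mp hu.2)
  refine ⟨cyc x u, h1, h2, ?_, h3, fun v hv => aeval_eq_zero_of_mem_cyc (LinearMap.mem_ker.mp hu.2) hv⟩
  rcases ND_or_iso hrp hE hx hr h2 (fun v hv => hfix v (h1 hv)) h3 with h | h
  · exact h
  · exact absurd (h u (self_mem_cyc x u) _ (pow_mem_cyc x u k)) hk

end

section
variable {F : Type*} [Field F] [Fintype F] {p : ℕ} [Fact p.Prime] [CharP F p] {r : ℕ} [Fact r.Prime]
variable {σ : F →+* F}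

lemma modEq_of_pow_eq_pow {E : Type*} [Field E] {lam : E} {m : ℕ} (hm : 0 < m) (hprim : IsPrimitiveRoot lam m) (a b : ℕ) (h : lam ^ a = lam ^ b) :
    a ≡ b [MOD m] := by
  have hl0 : lam ≠ 0 := hprim.ne_zero hm.ne'
  wlog hab : a ≤ b
  · exact (this hm hprim b a h.symm hl0 (by omega)).symm
  rw [Nat.modEq_iff_dvd' hab]
  apply hprim.dvd_of_pow_eq_one
  have h1 : lam ^ (b - a) * lam ^ a = 1 * lam ^ a := by
    rw [← pow_add, Nat.sub_add_cancel hab, one_mul, h]
  exact mul_right_cancel₀ (pow_ne_zero _ hl0) h1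

lemma eq_of_pow_eq_pow {E : Type*} [Field E] {a : E} (ha : a ≠ 0) {j j' : ℕ} (hj : j < orderOf a) (hj' : j' < orderOf a) (h : a ^ j = a ^ j') :
    j = j' := by
  have h1 := modEq_of_pow_eq_pow (by omega) (IsPrimitiveRoot.orderOf a) j j' h
  rw [Nat.ModEq, Nat.mod_eq_of_lt hj, Nat.mod_eq_of_lt hj'] at h1
  exact h1

/-- the arithmetic behind the self-dual situation -/
theorem selfDual_of_dvd (hrp : r ≠ p) (e0 : ℕ) (hσ : ∀ a : F, σ a = a ^ (p ^ e0)) {P : F[X]} (hPm : P.Monic) (hPi : Irreducible P)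
    (hPc : P ∣ cyclotomic r F) (hPd : P.natDegree = orderOf ((Fintype.card F : ℕ) : ZMod r))
    (h : P ∣ (P.map σ).comp (X ^ (r - 1))) : SelfDual r (p ^ e0) (Fintype.card F) := by
  classical
  have hrp' : r.Prime := Fact.out
  have hfact : Fact (Irreducible P) := ⟨hPi⟩
  let E := AdjoinRoot P
  have hEc : CharP E p := charP_of_injective_algebraMap (algebraMap F E).injective p
  set lam : E := AdjoinRoot.root P with hlam
  have hal : ∀ f : F[X], aeval lam f = AdjoinRoot.mk P f := fun f => AdjoinRoot.aeval_eq f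
  have h0 : aeval lam P = 0 := by rw [hal, AdjoinRoot.mk_self]
  have hlr : lam ^ r = 1 := by
    have h1 : P ∣ X ^ r - 1 := hPc.trans (Dvd.intro _ (cyclotomic_prime_mul_X_sub_one F r))
    have h2 : aeval lam (X ^ r - 1 : F[X]) = 0 := by rw [hal, AdjoinRoot.mk_eq_zero]; exact h1
    rw [map_sub, map_pow, aeval_X, map_one, sub_eq_zero] at h2
    exact h2
  have hl1 : lam ≠ 1 := by
    intro h1
    have h2 : aeval lam (cyclotomic r F) = 0 := by rw [hal, AdjoinRoot.mk_eq_zero]; exact hPc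
    rw [h1] at h2
    have h3 : aeval (1 : E) (cyclotomic r F) = ((eval 1 (cyclotomic r F) : F) : E) := by
      have := aeval_algebraMap_apply_eq_algebraMap_eval (A := E) (1 : F) (cyclotomic r F)
      rw [map_one] at this
      exact this
    rw [h3, eval_one_cyclotomic_prime] at h2
    have h4 : (r : F) = 0 := by
      apply (AdjoinRoot.of P).injective
      rw [map_zero]
      exact h2
    exact natCast_ne_zero_of_ne hrp' hrp h4
  have hprim : IsPrimitiveRoot lam r := by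
    rw [IsPrimitiveRoot.iff_orderOf]
    exact orderOf_eq_prime hlr hl1
  -- the conjugates
  set Q := Fintype.card F with hQ
  obtain ⟨f, hf⟩ := FiniteField.card F p
  set P' := (P.map σ).map (AdjoinRoot.of P) with hP'
  have hP'm : P'.Monic := (hPm.map σ).map _
  have hP'd : P'.natDegree = orderOf ((Q : ℕ) : ZMod r) := by
    rw [hP', (hPm.map σ).natDegree_map, hPm.natDegree_map, hPd]
  have hroot : ∀ j : ℕ, P'.IsRoot (lam ^ (p ^ e0 * Q ^ j)) := by
    intro j
    have hσ' : ∀ a : F, σ a = a ^ (p ^ e0 * Q ^ j) := by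
      intro a
      rw [hσ, pow_mul, FiniteField.pow_card_pow]
    have hpe : p ^ e0 * Q ^ j = p ^ (e0 + f * j) := by
      rw [hQ, hf.2, ← pow_mul, ← pow_add]
    rw [IsRoot.def, hP', eval_map, eval₂_map]
    have h1 : (AdjoinRoot.of P).comp σ = (iterateFrobenius E p (e0 + f * j)).comp (AdjoinRoot.of P) := by
      ext a
      rw [RingHom.comp_apply, RingHom.comp_apply, hσ', map_pow, iterateFrobenius_def, hpe]
    have h2 : lam ^ (p ^ e0 * Q ^ j) = iterateFrobenius E p (e0 + f * j) lam := by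
      rw [iterateFrobenius_def, hpe]
    rw [h1, h2, ← hom_eval₂]
    have h3 : eval₂ (AdjoinRoot.of P) lam P = 0 := h0
    rw [h3, map_zero]
  have hQr : ¬ r ∣ Q := prime_not_dvd_card hrp
  have hpr : ¬ r ∣ p := by
    intro h1
    exact hrp ((Nat.prime_dvd_prime_iff_eq hrp' Fact.out).mp h1)
  have hinj : ∀ j < orderOf ((Q : ℕ) : ZMod r), ∀ j' < orderOf ((Q : ℕ) : ZMod r), lam ^ (p ^ e0 * Q ^ j) = lam ^ (p ^ e0 * Q ^ j') → j = j' := by
    intro j hj j' hj' h1
    have h2 := modEq_of_pow_eq_pow hrp'.pos hprim _ _ h1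
    have h3 := (ZMod.natCast_eq_natCast_iff _ _ _).mpr h2
    push_cast at h3
    have h4 : ((p : ℕ) : ZMod r) ^ e0 ≠ 0 := by
      apply pow_ne_zero
      rw [Ne, ZMod.natCast_eq_zero_iff]
      exact hpr
    have h5 := mul_left_cancel₀ h4 h3
    have h6 : ((Q : ℕ) : ZMod r) ≠ 0 := by
      rw [Ne, ZMod.natCast_eq_zero_iff]
      exact hQr
    exact eq_of_pow_eq_pow h6 hj hj' h5
  let S : Finset E := (Finset.range (orderOf ((Q : ℕ) : ZMod r))).image (fun j => lam ^ (p ^ e0 * Q ^ j))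
  have hS : S.card = P'.natDegree := by
    rw [Finset.card_image_of_injOn, Finset.card_range, hP'd]
    intro j hj j' hj' h1
    exact hinj j (Finset.mem_range.mp hj) j' (Finset.mem_range.mp hj') h1
  have hmem : lam ^ (r - 1) ∈ S := by
    by_contra hcon
    have h1 : (insert (lam ^ (r - 1)) S).card ≤ P'.natDegree := by
      apply Polynomial.card_le_degree_of_subset_roots
      intro y hy
      rw [mem_roots hP'm.ne_zero]
      rcases Finset.mem_insert.mp (Finset.mem_def.mpr hy) with rfl | hy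
      · rw [IsRoot.def, hP', eval_map]
        have h2 : aeval lam ((P.map σ).comp (X ^ (r - 1))) = 0 := by
          rw [hal, AdjoinRoot.mk_eq_zero]
          exact h
        rw [aeval_comp, map_pow, aeval_X] at h2
        exact h2
      · obtain ⟨j, -, rfl⟩ := Finset.mem_image.mp hy
        exact hroot j
    rw [Finset.card_insert_of_notMem hcon, hS] at h1
    omega
  obtain ⟨j, -, hj⟩ := Finset.mem_image.mp hmem
  have h1 := modEq_of_pow_eq_pow hrp'.pos hprim _ _ hj
  refine ⟨j, ?_⟩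
  have h2 := h1.add_right 1
  rw [Nat.sub_add_cancel hrp'.pos] at h2
  exact (Nat.modEq_zero_iff_dvd).mp (h2.trans ((Nat.modEq_zero_iff_dvd).mpr dvd_rfl))

end


section
variable {F V : Type*} [Field F] [Fintype F] [AddCommGroup V] [Module F V] [FiniteDimensional F V]
variable {p : ℕ} [Fact p.Prime] [CharP F p] {r : ℕ} [Fact r.Prime]
variable {σ : F →+* F} {ε : F} {B : V → V → F}

/-- minimal invariant subspaces are cyclic -/
lemma exists_factor_min (hrp : r ≠ p) {x : V →ₗ[F] V} (hr : x ^ r = 1)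
    {A : Submodule F V} (hA : ∀ v ∈ A, x v ∈ A) (hfix : ∀ v ∈ A, x v = v → v = 0)
    (hd : finrank F A = orderOf ((Fintype.card F : ℕ) : ZMod r)) :
    ∃ (P : F[X]) (u : V), P.Monic ∧ Irreducible P ∧ P ∣ cyclotomic r F ∧ P.natDegree = orderOf ((Fintype.card F : ℕ) : ZMod r) ∧
      u ∈ A ∧ u ≠ 0 ∧ A = cyc x u ∧ ∀ v ∈ A, aeval x P v = 0 := by
  have hpos := orderOf_pos_of_not_dvd (r := r) (prime_not_dvd_card (F := F) hrp)
  have hA0 : A ≠ ⊥ := by
    rintro rfl
    rw [finrank_bot] at hd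
    omega
  obtain ⟨w, hw, hw0⟩ := Submodule.exists_mem_ne_zero_of_ne_bot hA0
  obtain ⟨P, u, h1, h2, h3, h4, h5, h6, h7⟩ := exists_factor hrp hr hA hfix hw hw0
  obtain ⟨h8, h9, h10⟩ := cyc_min hrp hr hA hfix h1 h4 h5 h6 h7
  have h11 : cyc x u = A := Submodule.eq_of_le_of_finrank_eq h8 (by rw [h10, hd])
  refine ⟨P, u, h1, h2, h3, h4, h5, h6, h11.symm, ?_⟩
  intro v hv
  rw [← h11] at hv
  exact aeval_eq_zero_of_mem_cyc h7 hv

/-- minimal invariant subspaces are totally isotropic, non-self-dual case -/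
theorem iso_of_min (hrp : r ≠ p) (hE : EForm σ ε B) {N : ℕ} (hN : ∃ e0, N = p ^ e0) (hσ : ∀ a : F, σ a = a ^ N) (hsd : ¬ SelfDual r N (Fintype.card F)) {x : V →ₗ[F] V}
    (hx : ∀ u v, B (x u) (x v) = B u v) (hr : x ^ r = 1)
    {A : Submodule F V} (hA : ∀ v ∈ A, x v ∈ A) (hfix : ∀ v ∈ A, x v = v → v = 0)
    (hd : finrank F A = orderOf ((Fintype.card F : ℕ) : ZMod r)) : ∀ u ∈ A, ∀ v ∈ A, B u v = 0 := by
  rcases ND_or_iso hrp hE hx hr hA hfix hd with h | h
  swap
  · exact h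
  exfalso
  obtain ⟨e0, rfl⟩ := hN
  obtain ⟨P, u, h1, h2, h3, h4, h5, h6, h7, h8⟩ := exists_factor_min hrp hr hA hfix hd
  apply hsd
  apply selfDual_of_dvd hrp e0 hσ h1 h2 h3 h4
  by_contra hcon
  have hr0 : 0 < r := (Fact.out : r.Prime).pos
  have h9 : ∀ v ∈ A, aeval x ((P.map σ).comp (X ^ (r - 1))) v = 0 := by
    intro v hv
    apply h _ (aeval_mem_of_invariant hA hv _)
    intro w hw
    rw [← adj_aeval hE hx hr0 hr, h8 w hw, hE.zero_right]
  have h10 : IsCoprime P ((P.map σ).comp (X ^ (r - 1))) := (h2.coprime_iff_not_dvd).mpr hcon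
  obtain ⟨a, b, hab⟩ := h10
  apply h6
  have h0 : (aeval x (a * P + b * ((P.map σ).comp (X ^ (r - 1))))) u = u := by rw [hab, map_one]; rfl
  rw [map_add, LinearMap.add_apply, map_mul, map_mul, Module.End.mul_apply, Module.End.mul_apply, h8 u h5, h9 u h5, map_zero, map_zero, add_zero] at h0
  exact h0.symm

/-- a hyperbolic pair of minimal invariant subspaces, non-self-dual case -/
theorem exists_pair_min (hrp : r ≠ p) (hE : EForm σ ε B) {N : ℕ} (hN : ∃ e0, N = p ^ e0) (hσ : ∀ a : F, σ a = a ^ N) (hsd : ¬ SelfDual r N (Fintype.card F)) {x : V →ₗ[F] V}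
    (hx : ∀ u v, B (x u) (x v) = B u v) (hr : x ^ r = 1)
    {W : Submodule F V} (hW : ∀ v ∈ W, x v ∈ W) (hND : ND B W) (hfix : ∀ v ∈ W, x v = v → v = 0)
    {A : Submodule F V} (hAW : A ≤ W) (hA : ∀ v ∈ A, x v ∈ A)
    (hd : finrank F A = orderOf ((Fintype.card F : ℕ) : ZMod r)) :
    ∃ A' ≤ W, (∀ v ∈ A', x v ∈ A') ∧ finrank F A' = orderOf ((Fintype.card F : ℕ) : ZMod r) ∧
      (∀ u ∈ A, ∀ v ∈ A, B u v = 0) ∧ (∀ u ∈ A', ∀ v ∈ A', B u v = 0) ∧ Disjoint A A' ∧ ND B (A ⊔ A') := by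
  have hr0 : 0 < r := (Fact.out : r.Prime).pos
  have hrF : (r : F) ≠ 0 := natCast_ne_zero_of_ne (Fact.out : r.Prime) hrp
  have hpos := orderOf_pos_of_not_dvd (r := r) (prime_not_dvd_card (F := F) hrp)
  have hAi := iso_of_min hrp hE hN hσ hsd hx hr hA (fun v hv => hfix v (hAW hv)) hd
  set U := W ⊓ orth hE.oform A with hU
  have hUi : ∀ v ∈ U, x v ∈ U := by
    rintro v ⟨hv1, hv2⟩
    exact ⟨hW v hv1, orth_inter_invariant hE hx hr hA v hv2⟩
  obtain ⟨A', h1, h2, h3, h4⟩ := exists_invariant_compl_in hr0 hr hrF U W hUi hW inf_le_left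
  -- the dimension of `A'`
  have hle : finrank F W ≤ finrank F A + finrank F U := by
    have h5 := finrank_le_add_orth (hE.restrict W).oform (A.comap W.subtype)
    have h6 : finrank F (A.comap W.subtype) = finrank F A := by
      have h7 : (A.comap W.subtype).map W.subtype = A := by
        rw [Submodule.map_comap_subtype, inf_eq_right.mpr hAW]
      rw [LinearEquiv.finrank_eq (Submodule.equivMapOfInjective W.subtype W.injective_subtype (A.comap W.subtype)), h7]
    have h8 : finrank F (orth (hE.restrict W).oform (A.comap W.subtype)) = finrank F U := by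
      have h7 : (orth (hE.restrict W).oform (A.comap W.subtype)).map W.subtype = U := by
        ext v
        rw [Submodule.mem_map]
        constructor
        · rintro ⟨w, hw, rfl⟩
          refine ⟨w.2, ?_⟩
          intro a ha
          exact hw ⟨a, hAW ha⟩ ha
        · rintro ⟨hv1, hv2⟩
          exact ⟨⟨v, hv1⟩, fun a ha => hv2 a ha, rfl⟩
      rw [LinearEquiv.finrank_eq (Submodule.equivMapOfInjective W.subtype W.injective_subtype _), h7]
    rw [h6, h8] at h5
    exact h5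
  have hA'd : finrank F A' ≤ finrank F A := by
    have h5 := Submodule.finrank_sup_add_finrank_inf_eq U A'
    rw [h4, disjoint_iff.mp h3, finrank_bot] at h5
    omega
  have hA'0 : A' ≠ ⊥ := by
    rintro rfl
    rw [sup_bot_eq] at h4
    have hA0 : A ≠ ⊥ := by
      rintro rfl
      rw [finrank_bot] at hd
      omega
    obtain ⟨w, hw, hw0⟩ := Submodule.exists_mem_ne_zero_of_ne_bot hA0
    apply hw0
    apply hND w (hAW hw)
    intro v hv
    rw [← h4] at hv
    exact hE.oform.refl _ _ (hv.2 w hw)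
  have hA'd2 : finrank F A' = orderOf ((Fintype.card F : ℕ) : ZMod r) := by
    have h5 := dvd_finrank_of_fix hrp hr h1 (fun v hv => hfix v (h2 hv))
    have h6 : 0 < finrank F A' := by
      rw [Nat.pos_iff_ne_zero]
      intro h7
      exact hA'0 (Submodule.finrank_eq_zero.mp h7)
    have h7 := Nat.le_of_dvd h6 h5
    omega
  have hA'i := iso_of_min hrp hE hN hσ hsd hx hr h1 (fun v hv => hfix v (h2 hv)) hA'd2
  have hAU : A ≤ U := fun a ha => ⟨hAW ha, fun b hb => hAi a ha b hb⟩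
  refine ⟨A', h2, h1, hA'd2, hAi, hA'i, h3.mono_left hAU, ?_⟩
  intro w hw hw2
  obtain ⟨a, ha, a', ha', rfl⟩ := Submodule.mem_sup.mp hw
  have h5 : ∀ v ∈ A, B a' v = 0 := by
    intro v hv
    have := hw2 v (Submodule.mem_sup_left hv)
    rw [hE.add_left, hAi a ha v hv, zero_add] at this
    exact this
  have h6 : a' = 0 := by
    have h7 : a' ∈ U := ⟨h2 ha', fun v hv => h5 v hv⟩
    exact (Submodule.disjoint_def.mp h3) a' h7 ha'
  have h7 : a = 0 := by
    apply hND a (hAW ha)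
    intro v hv
    rw [← h4] at hv
    obtain ⟨u, hu, b, hb, rfl⟩ := Submodule.mem_sup.mp hv
    rw [hE.add_right]
    have h8 : B a u = 0 := hE.oform.refl _ _ (hu.2 a ha)
    have h9 : B a b = 0 := by
      have := hw2 b (Submodule.mem_sup_right hb)
      rw [hE.add_left, hA'i a' ha' b hb, add_zero] at this
      exact this
    rw [h8, h9, add_zero]
  rw [h6, h7, add_zero]

/-- existence of a block -/
theorem exists_block (hr2 : r ≠ 2) (hrp : r ≠ p) (hE : EForm σ ε B) {N : ℕ} (hN : ∃ e0, N = p ^ e0) (hσ : ∀ a : F, σ a = a ^ N) {c : ℕ}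
    (hc : (SelfDual r N (Fintype.card F) ∧ c = orderOf ((Fintype.card F : ℕ) : ZMod r)) ∨ (¬ SelfDual r N (Fintype.card F) ∧ c = 2 * orderOf ((Fintype.card F : ℕ) : ZMod r)))
    {x : V →ₗ[F] V} (hx : ∀ u v, B (x u) (x v) = B u v) (hr : x ^ r = 1)
    {W : Submodule F V} (hW : ∀ v ∈ W, x v ∈ W) (hND : ND B W) (hfix : ∀ v ∈ W, x v = v → v = 0) (hW0 : W ≠ ⊥) :
    ∃ U ≤ W, (∀ v ∈ U, x v ∈ U) ∧ ND B U ∧ finrank F U = c := by
  obtain ⟨w, hw, hw0⟩ := Submodule.exists_mem_ne_zero_of_ne_bot hW0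
  obtain ⟨P, u, h1, h2, h3, h4, h5, h6, h7⟩ := exists_factor hrp hr hW hfix hw hw0
  rcases hc with ⟨hsd, hc⟩ | ⟨hsd, hc⟩
  · obtain ⟨U, g1, g2, g3, g4, -⟩ := exists_ND_min hr2 hrp hE (hsd.toE hN hσ) hx hr hW hND hfix h1 h3 h4 ⟨u, h5, h6, h7⟩
    exact ⟨U, g1, g2, g3, by rw [g4, hc]⟩
  · obtain ⟨g1, g2, g3⟩ := cyc_min hrp hr hW hfix h1 h4 h5 h6 h7
    obtain ⟨A', k1, k2, k3, -, -, k4, k5⟩ := exists_pair_min hrp hE hN hσ hsd hx hr hW hND hfix g1 g2 g3
    refine ⟨cyc x u ⊔ A', sup_le g1 k1, ?_, k5, ?_⟩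
    · intro v hv
      obtain ⟨a, ha, b, hb, rfl⟩ := Submodule.mem_sup.mp hv
      rw [map_add]
      exact Submodule.add_mem_sup (g2 a ha) (k2 b hb)
    · have h8 := Submodule.finrank_sup_add_finrank_inf_eq (cyc x u) A'
      rw [disjoint_iff.mp k4, finrank_bot, g3, k3] at h8
      omega

/-- sums of blocks -/
theorem exists_isoBlocks (hr2 : r ≠ 2) (hrp : r ≠ p) (hE : EForm σ ε B) {N : ℕ} (hN : ∃ e0, N = p ^ e0) (hσ : ∀ a : F, σ a = a ^ N) {c : ℕ}
    (hc : (SelfDual r N (Fintype.card F) ∧ c = orderOf ((Fintype.card F : ℕ) : ZMod r)) ∨ (¬ SelfDual r N (Fintype.card F) ∧ c = 2 * orderOf ((Fintype.card F : ℕ) : ZMod r)))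
    {x : V →ₗ[F] V} (hx : ∀ u v, B (x u) (x v) = B u v) (hr : x ^ r = 1) (n : ℕ) :
    ∀ {W : Submodule F V} (hW : ∀ v ∈ W, x v ∈ W) (hND : ND B W) (hfix : ∀ v ∈ W, x v = v → v = 0), finrank F W = n →
    c ∣ n ∧ ∀ j, j * c ≤ n → ∃ U ≤ W, (∀ v ∈ U, x v ∈ U) ∧ ND B U ∧ finrank F U = j * c := by
  have hpos := orderOf_pos_of_not_dvd (r := r) (prime_not_dvd_card (F := F) hrp)
  have hcpos : 0 < c := by omega
  induction n using Nat.strong_induction_on with
  | _ n ih =>
    intro W hW hND hfix hn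
    by_cases hW0 : W = ⊥
    · subst hW0
      rw [finrank_bot] at hn
      subst hn
      refine ⟨dvd_zero c, fun j hj => ⟨⊥, le_rfl, ?_, ND_bot hE.oform, ?_⟩⟩
      · intro v hv
        rw [Submodule.mem_bot] at hv ⊢
        rw [hv, map_zero]
      · rw [finrank_bot]
        omega
    · obtain ⟨U, g1, g2, g3, g4⟩ := exists_block hr2 hrp hE hN hσ hc hx hr hW hND hfix hW0
      have h1 := split_finrank hE.oform g3 g1
      have h2 := split_ND_compl hE.oform hND g3 g1
      have h3 : ∀ v ∈ W ⊓ orth hE.oform U, x v ∈ W ⊓ orth hE.oform U := by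
        rintro v ⟨hv1, hv2⟩
        exact ⟨hW v hv1, orth_inter_invariant hE hx hr g2 v hv2⟩
      obtain ⟨h4, h5⟩ := ih (n - c) (by omega) h3 h2 (fun v hv => hfix v hv.1) (by omega)
      have h6 : n = (n - c) + c := by omega
      refine ⟨by rw [h6]; exact dvd_add h4 dvd_rfl, ?_⟩
      intro j hj
      rcases Nat.eq_zero_or_pos j with hj0 | hj0
      · refine ⟨⊥, bot_le, ?_, ND_bot hE.oform, ?_⟩
        · intro v hv
          rw [Submodule.mem_bot] at hv ⊢
          rw [hv, map_zero]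
        · rw [finrank_bot, hj0, zero_mul]
      · obtain ⟨j', rfl⟩ : ∃ j', j = j' + 1 := ⟨j - 1, by omega⟩
        rw [add_mul, one_mul] at hj
        obtain ⟨U', k1, k2, k3, k4⟩ := h5 j' (by omega)
        have h7 : U ≤ orth hE.oform U' := by
          rw [le_orth_comm]
          exact k1.trans inf_le_right
        refine ⟨U ⊔ U', sup_le g1 (k1.trans inf_le_left), ?_, ND_sup hE.oform g3 k3 h7, ?_⟩
        · intro v hv
          obtain ⟨a, ha, b, hb, rfl⟩ := Submodule.mem_sup.mp hv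
          rw [map_add]
          exact Submodule.add_mem_sup (g2 a ha) (k2 b hb)
        · have h8 := Submodule.finrank_sup_add_finrank_inf_eq U U'
          have h9 : Disjoint U U' := ((ND_iff_disjoint hE.oform U).mp g3).mono_right (k1.trans inf_le_right)
          rw [disjoint_iff.mp h9, finrank_bot, g4, k4] at h8
          rw [add_mul, one_mul]
          omega

/-- the fixed space in a nondegenerate invariant subspace -/
theorem split_fixed (hrp : r ≠ p) (hE : EForm σ ε B) {x : V →ₗ[F] V} (hx : ∀ u v, B (x u) (x v) = B u v) (hr : x ^ r = 1)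
    {W : Submodule F V} (hW : ∀ v ∈ W, x v ∈ W) (hND : ND B W) :
    ND B (W ⊓ LinearMap.ker (x - 1)) ∧
    (∀ v ∈ W ⊓ orth hE.oform (W ⊓ LinearMap.ker (x - 1)), x v ∈ W ⊓ orth hE.oform (W ⊓ LinearMap.ker (x - 1))) ∧
    ND B (W ⊓ orth hE.oform (W ⊓ LinearMap.ker (x - 1))) ∧
    (∀ v ∈ W ⊓ orth hE.oform (W ⊓ LinearMap.ker (x - 1)), x v = v → v = 0) ∧
    finrank F (W ⊓ LinearMap.ker (x - 1) : Submodule F V) + finrank F (W ⊓ orth hE.oform (W ⊓ LinearMap.ker (x - 1)) : Submodule F V) = finrank F W := by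
  have hr0 : 0 < r := (Fact.out : r.Prime).pos
  have hrF : (r : F) ≠ 0 := natCast_ne_zero_of_ne (Fact.out : r.Prime) hrp
  have hkermem : ∀ v, v ∈ LinearMap.ker (x - 1) ↔ x v = v := by
    intro v
    rw [LinearMap.mem_ker, LinearMap.sub_apply, Module.End.one_apply, sub_eq_zero]
  have hpow : ∀ u, x u = u → ∀ k, (x ^ k) u = u := by
    intro u hu k
    induction k with
    | zero => rfl
    | succ k ih => rw [pow_succ', Module.End.mul_apply, ih, hu]
  have hC : ND B (W ⊓ LinearMap.ker (x - 1)) := by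
    rintro u ⟨hu1, hu2⟩ hu
    rw [SetLike.mem_coe, hkermem] at hu2
    apply hND u hu1
    intro w hw
    set s : V := ∑ k ∈ Finset.range r, (x ^ k) w with hs
    have h1 : B u s = (r : F) * B u w := by
      rw [hs, hE.sum_right]
      have h2 : ∀ k ∈ Finset.range r, B u ((x ^ k) w) = B u w := by
        intro k _
        have h3 := isom_pow hx k u w
        rw [hpow u hu2 k] at h3
        exact h3
      rw [Finset.sum_congr rfl h2, Finset.sum_const, Finset.card_range, nsmul_eq_mul]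
    have h2 : x s = s := by
      rw [hs, map_sum]
      have h3 : ∀ k ∈ Finset.range r, x ((x ^ k) w) = (x ^ (k + 1)) w := fun k _ => by rw [pow_succ', Module.End.mul_apply]
      rw [Finset.sum_congr rfl h3]
      have h5 := Finset.sum_range_succ (fun k => (x ^ k) w) r
      have h6 := Finset.sum_range_succ' (fun k => (x ^ k) w) r
      simp only [hr, pow_zero] at h5 h6
      rw [h5] at h6
      exact (add_right_cancel h6).symm
    have h3 : s ∈ W := W.sum_mem (fun k _ => pow_mem_of_invariant hW hw k)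
    have h4 := hu s ⟨h3, (hkermem s).mpr h2⟩
    rw [h1] at h4
    exact (mul_eq_zero.mp h4).resolve_left hrF
  refine ⟨hC, ?_, split_ND_compl hE.oform hND hC inf_le_left, ?_, split_finrank hE.oform hC inf_le_left⟩
  · rintro v ⟨hv1, hv2⟩
    refine ⟨hW v hv1, ?_⟩
    apply orth_inter_invariant hE hx hr (A := W ⊓ LinearMap.ker (x - 1)) _ v hv2
    rintro v ⟨hv1, hv2⟩
    refine ⟨hW v hv1, ?_⟩
    rw [SetLike.mem_coe, hkermem] at hv2 ⊢
    rw [hv2, hv2]
  · rintro v ⟨hv1, hv2⟩ hv3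
    have h1 : v ∈ W ⊓ LinearMap.ker (x - 1) := ⟨hv1, (hkermem v).mpr hv3⟩
    exact hC v h1 (fun w hw => hv2 w hw)

end

end Cfsg.Agent.H99
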