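import Mathlib
import Cfsg.Agent.H99.PrimeSL

set_option autoImplicit false

/-! Elements of order `r` with exact fixed space dimension (helper99). -/

namespace Cfsg.Agent.H99

open Module Polynomial

section
variable {F : Type*} [Field F] [Fintype F] {p : ℕ} [Fact p.Prime] [CharP F p] {r : ℕ} [Fact r.Prime]

/-- existence of elements of order `r` with `a` nontrivial blocks in any space of dimension `≥ a i` -/
theorem exists_endo_order_eq {V : Type*} [AddCommGroup V] [Module F V] [FiniteDimensional F V] (hrp : r ≠ p) (a : ℕ)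
    (ha : a * orderOf ((Fintype.card F : ℕ) : ZMod r) ≤ finrank F V) :
    ∃ f : V →ₗ[F] V, f ^ r = 1 ∧ finrank F (LinearMap.ker (f - 1)) + a * orderOf ((Fintype.card F : ℕ) : ZMod r) = finrank F V ∧
      (0 < a → f ≠ 1) := by
  classical
  set i := orderOf ((Fintype.card F : ℕ) : ZMod r) with hi
  set n := finrank F V with hn
  have hrF : (r : F) ≠ 0 := natCast_ne_zero_of_ne (Fact.out : r.Prime) hrp
  -- an irreducible factor of the cyclotomic polynomial
  have hcyc : ¬ IsUnit (cyclotomic r F) := by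
    intro h
    have := degree_cyclotomic_pos r F (Fact.out : r.Prime).pos
    rw [degree_eq_zero_of_isUnit h] at this
    exact lt_irrefl _ this
  obtain ⟨P₀, hP₀m, hP₀i, hP₀d⟩ := exists_monic_irreducible_factor (cyclotomic r F) hcyc
  have hdeg : P₀.natDegree = i := by
    obtain ⟨e, he⟩ := FiniteField.card F p
    have hc : p.Coprime r := by
      rw [Nat.coprime_primes Fact.out Fact.out]
      exact hrp.symm
    rw [natDegree_of_dvd_cyclotomic_of_irreducible he.2 hc hP₀d hP₀i, ← orderOf_units, hi]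
    congr 1
    rw [ZMod.coe_unitOfCoprime, he.2]
  let P : Fin a ⊕ Fin (n - a * i) → F[X] := Sum.elim (fun _ => P₀) (fun _ => X - C 1)
  have hP : ∀ j, (P j).Monic := by
    rintro (j | j)
    · exact hP₀m
    · exact monic_X_sub_C 1
  have hcard : Fintype.card (Σ j, Fin (P j).natDegree) = n := by
    rw [Fintype.card_sigma, Fintype.sum_sum_type]
    simp only [P, Sum.elim_inl, Sum.elim_inr, Fintype.card_fin, Finset.sum_const, Finset.card_univ, smul_eq_mul, hdeg,
      natDegree_X_sub_C, mul_one]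
    omega
  let b0 := Module.finBasis F V
  let b : Basis (Σ j, Fin (P j).natDegree) F V := b0.reindex (Fintype.equivOfCardEq (by rw [hcard, Fintype.card_fin]))
  obtain ⟨f, D, -⟩ := exists_endo_cycDecomp P hP b
  have hfr : f ^ r = 1 := by
    have h1 := D.aeval_eq_zero (X ^ r - 1) (by
      rintro (j | j)
      · rw [← cyclotomic_prime_mul_X_sub_one F r]
        exact hP₀d.trans (dvd_mul_right _ _)
      · rw [← cyclotomic_prime_mul_X_sub_one F r]
        simp only [P, Sum.elim_inr, C_1]
        exact dvd_mul_left _ _)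
    rw [map_sub, map_pow, aeval_X, map_one, sub_eq_zero] at h1
    exact h1
  let A : Finset (Fin a ⊕ Fin (n - a * i)) := Finset.univ.image Sum.inl
  let B : Finset (Fin a ⊕ Fin (n - a * i)) := Finset.univ.image Sum.inr
  have hA : finrank F (D.sub (A : Set _)) = a * i := by
    rw [D.finrank_sub, Finset.sum_image (fun x _ y _ h => Sum.inl_injective h)]
    simp only [P, Sum.elim_inl, Finset.sum_const, Finset.card_univ, Fintype.card_fin, smul_eq_mul, hdeg]
  have hB : finrank F (D.sub (B : Set _)) = n - a * i := by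
    rw [D.finrank_sub, Finset.sum_image (fun x _ y _ h => Sum.inr_injective h)]
    simp only [P, Sum.elim_inr, Finset.sum_const, Finset.card_univ, Fintype.card_fin, smul_eq_mul,
      natDegree_X_sub_C, mul_one]
  have hBle : D.sub (B : Set _) ≤ LinearMap.ker (f - 1) := by
    intro v hv
    have h1 := D.aeval_sub_eq_zero (B : Set _) (X - C 1) (by
      intro j hj
      rw [Finset.mem_coe, Finset.mem_image] at hj
      obtain ⟨j, _, rfl⟩ := hj
      exact dvd_rfl) hv
    rw [map_sub, aeval_X, aeval_C, map_one] at h1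
    exact LinearMap.mem_ker.mpr h1
  have hdis : Disjoint (LinearMap.ker (f - 1)) (D.sub (A : Set _)) := by
    rw [Submodule.disjoint_def]
    intro v hv hv2
    apply ker_sub_one_disjoint (r := r) hrF f v
    · apply D.aeval_sub_eq_zero _ _ _ hv2
      intro j hj
      rw [Finset.mem_coe, Finset.mem_image] at hj
      obtain ⟨j, _, rfl⟩ := hj
      exact hP₀d
    · rw [LinearMap.mem_ker, LinearMap.sub_apply, Module.End.one_apply, sub_eq_zero] at hv
      exact hv
  have h1 := Submodule.finrank_add_finrank_le_of_disjoint hdis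
  have h2 := Submodule.finrank_mono hBle
  rw [hA] at h1
  rw [hB] at h2
  have h3 : finrank F (LinearMap.ker (f - 1)) + a * i = n := by omega
  refine ⟨f, hfr, h3, ?_⟩
  intro ha0 hf1
  rw [hf1, sub_self, LinearMap.ker_zero, finrank_top] at h1
  have hi0 : 0 < i := by
    rw [← hdeg]
    exact hP₀i.natDegree_pos
  have : 0 < a * i := Nat.mul_pos ha0 hi0
  omega

/-- an element of order `r` of `SL_n` with exactly `a` nontrivial blocks -/
theorem sl_exists_order_eq {n : ℕ} (hn : 0 < n) (hrp : r ≠ p) (hrq : ¬ r ∣ Fintype.card F - 1) (a : ℕ) (ha0 : 0 < a)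
    (ha : a * orderOf ((Fintype.card F : ℕ) : ZMod r) ≤ n) :
    ∃ x : Matrix.SpecialLinearGroup (Fin n) F,
      ((x ^ r : Matrix.SpecialLinearGroup (Fin n) F) : Matrix (Fin n) (Fin n) F) = (1 : F) • (1 : Matrix (Fin n) (Fin n) F) ∧
      (∀ c : F, (x : Matrix (Fin n) (Fin n) F) ≠ c • (1 : Matrix (Fin n) (Fin n) F)) ∧
      (Matrix.toLin' (x : Matrix (Fin n) (Fin n) F)) ^ r = 1 ∧
      finrank F (LinearMap.ker (Matrix.toLin' (x : Matrix (Fin n) (Fin n) F) - 1)) +
        a * orderOf ((Fintype.card F : ℕ) : ZMod r) = n := by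
  have hr : r.Prime := Fact.out
  have hfn : finrank F (Fin n → F) = n := by simp
  obtain ⟨f, hf1, hf2, hf3⟩ := exists_endo_order_eq (V := Fin n → F) hrp a (by rw [hfn]; exact ha)
  have hroot : ∀ u : F, u ^ r = 1 → u = 1 := by
    intro u hu
    have hu0 : u ≠ 0 := by
      rintro rfl
      rw [zero_pow hr.ne_zero] at hu
      exact zero_ne_one hu
    have h1 : orderOf u ∣ r := orderOf_dvd_of_pow_eq_one hu
    have h2 : orderOf u ∣ Fintype.card F - 1 := orderOf_dvd_of_pow_eq_one (FiniteField.pow_card_sub_one_eq_one u hu0)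
    rcases (Nat.dvd_prime hr).mp h1 with h3 | h3
    · exact orderOf_eq_one_iff.mp h3
    · rw [h3] at h2
      exact absurd h2 hrq
  have hdet : LinearMap.det f = 1 := by
    apply hroot
    rw [← map_pow, hf1, map_one]
  obtain ⟨x, hx1, hx2⟩ := exists_sl_of_endo f hdet 1 (by rw [hf1, one_smul])
  refine ⟨x, hx2, ?_, by rw [hx1]; exact hf1, by rw [hx1]; rwa [hfn] at hf2⟩
  intro c hc
  apply hf3 ha0
  rw [← hx1, hc]
  have hcr : c ^ r = 1 := by
    rw [Matrix.SpecialLinearGroup.coe_pow, hc, _root_.smul_pow, one_pow, one_smul] at hx2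
    have : Nonempty (Fin n) := ⟨⟨0, hn⟩⟩
    have h3 := congrFun (congrFun hx2 ⟨0, hn⟩) ⟨0, hn⟩
    simpa using h3
  rw [hroot c hcr, one_smul]
  ext v
  simp

/-- a primitive `r`-th root of unity -/
lemma exists_prim_root (hrq : r ∣ Fintype.card F - 1) : ∃ ζ : F, ζ ≠ 1 ∧ ζ ^ r = 1 := by
  classical
  have h1 : r ∣ Fintype.card Fˣ := by rw [Fintype.card_units]; exact hrq
  obtain ⟨u, hu⟩ := exists_prime_orderOf_dvd_card r h1
  refine ⟨u, ?_, ?_⟩
  · intro h
    have h2 : u = 1 := Units.ext h
    rw [h2, orderOf_one] at hu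
    exact (Fact.out : r.Prime).one_lt.ne hu
  · rw [← Units.val_pow_eq_pow_val, ← hu, pow_orderOf_eq_one]
    rfl

/-- diagonal elements -/
lemma sl_exists_diag {n : ℕ} (c : Fin n → F) (hc : ∏ j, c j = 1) (m : ℕ) (z : F) (hz : ∀ j, c j ^ m = z) :
    ∃ x : Matrix.SpecialLinearGroup (Fin n) F, (x : Matrix (Fin n) (Fin n) F) = Matrix.diagonal c ∧
      ((x ^ m : Matrix.SpecialLinearGroup (Fin n) F) : Matrix (Fin n) (Fin n) F) = z • (1 : Matrix (Fin n) (Fin n) F) := by
  let x : Matrix.SpecialLinearGroup (Fin n) F := ⟨Matrix.diagonal c, by rw [Matrix.det_diagonal, hc]⟩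
  refine ⟨x, rfl, ?_⟩
  rw [Matrix.SpecialLinearGroup.coe_pow]
  change (Matrix.diagonal c) ^ m = _
  rw [Matrix.diagonal_pow, Matrix.smul_one_eq_diagonal]
  congr 1
  funext j
  exact hz j

end

end Cfsg.Agent.H99
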