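import Mathlib
import Cfsg.Prelude.Def_GeometricClasses
import Cfsg.Agent.H99.OrderEq

set_option autoImplicit false

/-! Orders and indices in SL_n: the order of `q` modulo a prime divisor of the order (helper99). -/

namespace Cfsg.Agent.H99

open Module Matrix

section
variable {F : Type*} [Field F] [Fintype F] {p : ℕ} [Fact p.Prime] [CharP F p] {r : ℕ} [Fact r.Prime] {n : ℕ}

omit [Fact p.Prime] [CharP F p] in
lemma eq_one_of_pow_eq_one (hrq : ¬ r ∣ Fintype.card F - 1) {u : F} (hu : u ^ r = 1) : u = 1 := by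
  have hr : r.Prime := Fact.out
  have hu0 : u ≠ 0 := by
    rintro rfl
    rw [zero_pow hr.ne_zero] at hu
    exact zero_ne_one hu
  have h1 : orderOf u ∣ r := orderOf_dvd_of_pow_eq_one hu
  have h2 : orderOf u ∣ Fintype.card F - 1 := orderOf_dvd_of_pow_eq_one (FiniteField.pow_card_sub_one_eq_one u hu0)
  rcases (Nat.dvd_prime hr).mp h1 with h3 | h3
  · exact orderOf_eq_one_iff.mp h3
  · rw [h3] at h2
    exact absurd h2 hrq

omit [Fintype F] [Fact p.Prime] [CharP F p] in
lemma dvd_of_pow_eq_one {ζ : F} (h1 : ζ ≠ 1) (h : ζ ^ r = 1) {k : ℕ} (hk : ζ ^ k = 1) : r ∣ k := by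
  have hr : r.Prime := Fact.out
  have h2 : orderOf ζ ∣ r := orderOf_dvd_of_pow_eq_one h
  rcases (Nat.dvd_prime hr).mp h2 with h3 | h3
  · exact absurd (orderOf_eq_one_iff.mp h3) h1
  · rw [← h3]
    exact orderOf_dvd_of_pow_eq_one hk

omit [Fact p.Prime] in
lemma order_le_of_dvd_card_GL [Fact p.Prime] (hrp : r ≠ p) (h : r ∣ Nat.card (GL (Fin n) F)) :
    orderOf ((Fintype.card F : ℕ) : ZMod r) ≤ n := by
  have hr : r.Prime := Fact.out
  have hq1 : 1 < Fintype.card F := Fintype.one_lt_card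
  rw [Matrix.card_GL_field] at h
  obtain ⟨j, -, hj⟩ := (Nat.Prime.prime hr).exists_mem_finset_dvd h
  have h6 : Fintype.card F ^ n - Fintype.card F ^ (j : ℕ) = Fintype.card F ^ (j : ℕ) * (Fintype.card F ^ (n - j) - 1) := by
    rw [Nat.mul_sub, mul_one, ← pow_add]
    congr 2
    have := j.2
    omega
  rw [h6] at hj
  rcases hr.dvd_mul.mp hj with h | h
  · exact absurd (hr.dvd_of_dvd_pow h) (prime_not_dvd_card hrp)
  · rw [dvd_pow_sub_one_iff (by omega)] at h
    have := Nat.le_of_dvd (by have := j.2; omega) h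
    omega

lemma order_le_of_dvd_card_SL (hrp : r ≠ p) (h : r ∣ Nat.card (Matrix.SpecialLinearGroup (Fin n) F)) :
    orderOf ((Fintype.card F : ℕ) : ZMod r) ≤ n := by
  apply order_le_of_dvd_card_GL hrp
  refine h.trans ?_
  exact Subgroup.card_dvd_of_injective (Matrix.SpecialLinearGroup.toGL : Matrix.SpecialLinearGroup (Fin n) F →* GL (Fin n) F)
    Matrix.SpecialLinearGroup.toGL_injective

lemma order_le_of_dvd_index (hrp : r ≠ p) (H : Subgroup (Matrix.SpecialLinearGroup (Fin n) F)) (h : r ∣ H.index) :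
    orderOf ((Fintype.card F : ℕ) : ZMod r) ≤ n :=
  order_le_of_dvd_card_SL hrp (h.trans H.index_dvd_card)

lemma order_le_of_dvd_relIndex (hrp : r ≠ p) (H K : Subgroup (GL (Fin n) F)) (h : r ∣ H.relIndex K) :
    orderOf ((Fintype.card F : ℕ) : ZMod r) ≤ n :=
  order_le_of_dvd_card_GL hrp ((h.trans (Subgroup.relIndex_dvd_card H K)).trans (Subgroup.card_subgroup_dvd_card K))

omit [Fact p.Prime] [CharP F p] [Fact r.Prime] [Fintype F] in
/-- kernels of maps vanishing on a coordinate subspace -/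
lemma le_finrank_ker_add {V : Type*} [AddCommGroup V] [Module F V] (S : Finset (Fin n)) (f : (Fin n → F) →ₗ[F] V)
    (h : ∀ v, (∀ j ∈ S, v j = 0) → f v = 0) : n ≤ finrank F (LinearMap.ker f) + S.card := by
  let π : (Fin n → F) →ₗ[F] (S → F) := LinearMap.funLeft F F (fun j : S => (j : Fin n))
  have h1 : LinearMap.ker π ≤ LinearMap.ker f := by
    intro v hv
    apply h
    intro j hj
    exact congrFun hv ⟨j, hj⟩
  have h2 := π.finrank_range_add_finrank_ker
  have h3 : finrank F (LinearMap.range π) ≤ S.card := by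
    refine (Submodule.finrank_le _).trans ?_
    simp
  have h4 := Submodule.finrank_mono h1
  have h5 : finrank F (Fin n → F) = n := by simp
  omega

omit [Fact p.Prime] [CharP F p] [Fact r.Prime] [Fintype F] in
/-- kernels of conjugate endomorphisms -/
lemma finrank_ker_conj {V W : Type*} [AddCommGroup V] [Module F V] [AddCommGroup W] [Module F W] (f : V →ₗ[F] V) (g : W →ₗ[F] W)
    (φ : V ≃ₗ[F] W) (h : ∀ v, φ (f v) = g (φ v)) (l : F) :
    finrank F (LinearMap.ker (f - l • (1 : V →ₗ[F] V))) = finrank F (LinearMap.ker (g - l • (1 : W →ₗ[F] W))) := by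
  have h1 : (LinearMap.ker (f - l • (1 : V →ₗ[F] V))).map φ.toLinearMap = LinearMap.ker (g - l • (1 : W →ₗ[F] W)) := by
    ext w
    rw [Submodule.mem_map]
    simp only [LinearMap.mem_ker, LinearMap.sub_apply, LinearMap.smul_apply, Module.End.one_apply, sub_eq_zero, LinearEquiv.coe_coe]
    constructor
    · rintro ⟨v, hv, rfl⟩
      rw [← h, hv, map_smul]
    · intro hw
      refine ⟨φ.symm w, ?_, φ.apply_symm_apply w⟩
      apply φ.injective
      rw [h, map_smul, φ.apply_symm_apply, hw]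
  rw [← h1]
  exact (LinearEquiv.finrank_map_eq φ _).symm

/-- dimension of the moved part for a nontrivial element of order `r` -/
lemma order_le_of_ne_one {V : Type*} [AddCommGroup V] [Module F V] [FiniteDimensional F V] (hrp : r ≠ p) (f : V →ₗ[F] V) (hf : f ^ r = 1) (hf1 : f ≠ 1) :
    finrank F (LinearMap.ker (f - 1)) + orderOf ((Fintype.card F : ℕ) : ZMod r) ≤ finrank F V := by
  have h1 := finrank_modEq_fixed hrp f hf
  have h2 : finrank F (LinearMap.ker (f - 1)) < finrank F V := by
    rw [lt_iff_le_and_ne]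
    refine ⟨Submodule.finrank_le _, fun h => hf1 ?_⟩
    have h3 := Submodule.eq_top_of_finrank_eq h
    rw [LinearMap.ker_eq_top, sub_eq_zero] at h3
    exact h3
  have h3 := (Nat.modEq_iff_dvd' h2.le).mp h1.symm
  have h4 := Nat.le_of_dvd (by omega) h3
  omega

end

end Cfsg.Agent.H99
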