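import Mathlib
import Cfsg.Agent.H99.SympPlanes

set_option autoImplicit false

/-! Hyperbolic pairs in a symplectic space adapted to an isometry (helper99). -/

namespace Cfsg.Agent.H99

open Module

section
variable {F V : Type*} [Field F] [AddCommGroup V] [Module F V]

/-- A system of pairwise orthogonal pairs `(v i, u i)` with `B (v i) (u i) ≠ 0`, satisfying `R`. -/
structure HypSys (B : V → V → F) (R : V → V → Prop) (W : Submodule F V) (ι : Type) (v u : ι → V) : Prop where
  vmem : ∀ i, v i ∈ W
  umem : ∀ i, u i ∈ W
  ne : ∀ i, B (v i) (u i) ≠ 0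
  rel : ∀ i, R (v i) (u i)
  vv : ∀ i j, i ≠ j → B (v i) (v j) = 0
  vu : ∀ i j, i ≠ j → B (v i) (u j) = 0
  uu : ∀ i j, i ≠ j → B (u i) (u j) = 0

variable [FiniteDimensional F V]

theorem exists_hypSys {B : V → V → F} (hA : AltForm B) (R : V → V → Prop) (x : V →ₗ[F] V)
    (hxo : ∀ u v, B u v = 0 → B (x u) (x v) = 0)
    (hstep : ∀ W : Submodule F V, W ≠ ⊥ → ND B W → (∀ w ∈ W, x w ∈ W) →
      ∃ v ∈ W, ∃ u ∈ W, B v u ≠ 0 ∧ R v u ∧
        Submodule.span F {v, u} ≤ (Submodule.span F {v, u}).map x) (n : ℕ) :
    ∀ W : Submodule F V, finrank F W = n → ND B W → (∀ w ∈ W, x w ∈ W) →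
    ∃ (ι : Type) (_ : Fintype ι) (_ : DecidableEq ι) (v u : ι → V),
      HypSys B R W ι v u ∧ 2 * Fintype.card ι = n := by
  induction n using Nat.strong_induction_on with
  | _ n ih =>
    intro W hWn hW hxW
    have hB := hA.oform
    by_cases hbot : W = ⊥
    · refine ⟨Empty, inferInstance, inferInstance, fun e => e.elim, fun e => e.elim,
        ⟨fun e => e.elim, fun e => e.elim, fun e => e.elim, fun e => e.elim, fun e => e.elim,
          fun e => e.elim, fun e => e.elim⟩, ?_⟩
      subst hbot
      rw [finrank_bot] at hWn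
      simp [← hWn]
    · obtain ⟨v, hv, u, hu, hvu, hR, hmap⟩ := hstep W hbot hW hxW
      have hPW : Submodule.span F {v, u} ≤ W := by
        rw [Submodule.span_le]
        rintro w hw
        rcases hw with rfl | hw
        · exact hv
        · rw [Set.mem_singleton_iff.mp hw]; exact hu
      have hPN := plane_ND hA hvu
      have h1 := split_finrank hB hPN hPW
      rw [plane_finrank hA hvu] at h1
      obtain ⟨ι', _, _, v', u', hS, hc⟩ := ih (finrank F ↥(W ⊓ orth hB (Submodule.span F {v, u}))) (by omega)
        (W ⊓ orth hB (Submodule.span F {v, u})) rfl (split_ND_compl hB hW hPN hPW)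
        (fun w hw => ⟨hxW w hw.1, orth_invariant hB x hxo hmap w hw.2⟩)
      have hvP : v ∈ Submodule.span F {v, u} := Submodule.subset_span (by simp)
      have huP : u ∈ Submodule.span F {v, u} := Submodule.subset_span (by simp)
      refine ⟨Unit ⊕ ι', inferInstance, inferInstance, Sum.elim (fun _ => v) v', Sum.elim (fun _ => u) u',
        ⟨?_, ?_, ?_, ?_, ?_, ?_, ?_⟩, ?_⟩
      · rintro (i | i)
        · exact hv
        · exact (hS.vmem i).1
      · rintro (i | i)
        · exact hu
        · exact (hS.umem i).1
      · rintro (i | i)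
        · exact hvu
        · exact hS.ne i
      · rintro (i | i)
        · exact hR
        · exact hS.rel i
      · rintro (i | i) (j | j) hij
        · exact absurd rfl hij
        · exact hB.refl _ _ ((hS.vmem j).2 v hvP)
        · exact (hS.vmem i).2 v hvP
        · exact hS.vv i j (fun h => hij (by rw [h]))
      · rintro (i | i) (j | j) hij
        · exact absurd rfl hij
        · exact hB.refl _ _ ((hS.umem j).2 v hvP)
        · exact (hS.vmem i).2 u huP
        · exact hS.vu i j (fun h => hij (by rw [h]))
      · rintro (i | i) (j | j) hij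
        · exact absurd rfl hij
        · exact hB.refl _ _ ((hS.umem j).2 u huP)
        · exact (hS.umem i).2 u huP
        · exact hS.uu i j (fun h => hij (by rw [h]))
      · rw [Fintype.card_sum, Fintype.card_unit]; omega

section consequences
variable {B : V → V → F} (hA : AltForm B) {R : V → V → Prop} {ι : Type} [Fintype ι] [DecidableEq ι]
  {v u : ι → V}

include hA in
omit [FiniteDimensional F V] in
lemma span_range_isotropic {w : ι → V} (hw : ∀ i j, i ≠ j → B (w i) (w j) = 0) :
    ∀ a ∈ Submodule.span F (Set.range w), ∀ b ∈ Submodule.span F (Set.range w), B a b = 0 := by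
  have hB := hA.oform
  intro a ha
  have : a ∈ orth hB (Submodule.span F (Set.range w)) := by
    have h2 : Submodule.span F (Set.range w) ≤ orth hB (Submodule.span F (Set.range w)) := by
      rw [Submodule.span_le]
      rintro _ ⟨i, rfl⟩
      show w i ∈ orth hB _
      rw [mem_orth_span]
      rintro _ ⟨j, rfl⟩
      by_cases hij : i = j
      · rw [hij]; exact hA.alt _
      · exact hw i j hij
    exact h2 ha
  exact this

include hA in
/-- the spans of the two halves of a full hyperbolic system are complementary -/
lemma hypSys_isCompl (hS : HypSys B R ⊤ ι v u) (hc : 2 * Fintype.card ι = finrank F V)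
    (hND : ND B (⊤ : Submodule F V)) :
    IsCompl (Submodule.span F (Set.range v)) (Submodule.span F (Set.range u)) := by
  have hB := hA.oform
  set P : ι → Submodule F V := fun i => Submodule.span F {v i, u i} with hP
  have hPo : ∀ i j, i ≠ j → P i ≤ orth hB (P j) := by
    intro i j hij
    rw [hP]
    rw [Submodule.span_le]
    intro w hw
    show w ∈ orth hB _
    rw [mem_orth_span]
    intro y hy
    rcases hw with rfl | hw
    · rcases hy with rfl | hy
      · exact hS.vv i j hij
      · rw [Set.mem_singleton_iff.mp hy]; exact hS.vu i j hij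
    · rw [Set.mem_singleton_iff.mp hw]
      rcases hy with rfl | hy
      · exact hB.refl _ _ (hS.vu j i hij.symm)
      · rw [Set.mem_singleton_iff.mp hy]; exact hS.uu i j hij
  have hPN : ∀ i, ND B (P i) := fun i => plane_ND hA (hS.ne i)
  have htop : (⨆ i ∈ (Finset.univ : Finset ι), P i) = ⊤ := by
    apply Submodule.eq_top_of_finrank_eq
    rw [finrank_iSup_orth hB P hPo hPN, Finset.sum_congr rfl (fun i _ => plane_finrank hA (hS.ne i)),
      Finset.sum_const, smul_eq_mul, Finset.card_univ, mul_comm, hc]
  have hcod : Submodule.span F (Set.range v) ⊔ Submodule.span F (Set.range u) = ⊤ := by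
    rw [eq_top_iff, ← htop]
    refine iSup₂_le fun i _ => ?_
    rw [hP, Submodule.span_le]
    intro w hw
    rcases hw with rfl | hw
    · exact Submodule.mem_sup_left (Submodule.subset_span ⟨i, rfl⟩)
    · rw [Set.mem_singleton_iff.mp hw]
      exact Submodule.mem_sup_right (Submodule.subset_span ⟨i, rfl⟩)
  refine ⟨?_, codisjoint_iff.mpr hcod⟩
  rw [Submodule.disjoint_def]
  intro w hw hw'
  apply hND w Submodule.mem_top
  intro y _
  have hy : y ∈ Submodule.span F (Set.range v) ⊔ Submodule.span F (Set.range u) := by rw [hcod]; trivial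
  obtain ⟨a, ha, b, hb, rfl⟩ := Submodule.mem_sup.mp hy
  rw [hA.add_right, span_range_isotropic hA hS.vv w hw a ha, span_range_isotropic hA hS.uu w hw' b hb, add_zero]

end consequences

end

end Cfsg.Agent.H99
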