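import Mathlib
import Cfsg.Agent.H99.HypSys

set_option autoImplicit false

/-! Symplectic bases and blockwise similarities (helper99). -/

namespace Cfsg.Agent.H99

open Module

section
variable {F V : Type*} [Field F] [AddCommGroup V] [Module F V]

structure SympBasis (B : V → V → F) {ι : Type} [DecidableEq ι] (b : Basis (ι ⊕ ι) F V) : Prop where
  ll : ∀ i j, B (b (Sum.inl i)) (b (Sum.inl j)) = 0
  rr : ∀ i j, B (b (Sum.inr i)) (b (Sum.inr j)) = 0
  lr : ∀ i j, B (b (Sum.inl i)) (b (Sum.inr j)) = if i = j then 1 else 0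

lemma AltForm.sum_left {B : V → V → F} (hA : AltForm B) {ι : Type*} (s : Finset ι) (a : ι → F) (w : ι → V) (y : V) :
    B (∑ i ∈ s, a i • w i) y = ∑ i ∈ s, a i * B (w i) y := by
  classical
  induction s using Finset.induction_on with
  | empty => simp [hA.oform.zero_left]
  | insert i s hi ih => rw [Finset.sum_insert hi, Finset.sum_insert hi, hA.add_left, hA.smul_left, ih]

theorem exists_sympBasis [FiniteDimensional F V] {B : V → V → F} (hA : AltForm B) (hND : ND B (⊤ : Submodule F V)) :
    ∃ (ι : Type) (_ : Fintype ι) (_ : DecidableEq ι) (b : Basis (ι ⊕ ι) F V), SympBasis B b := by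
  obtain ⟨ι, _, _, v, u, hS, hc⟩ := exists_hypSys hA (fun v u => B v u = 1) LinearMap.id
    (fun u v h => h) (by
      intro W hW hWN _
      obtain ⟨w, hw, hw0⟩ := Submodule.exists_mem_ne_zero_of_ne_bot hW
      have : ∃ y ∈ W, B w y ≠ 0 := by
        by_contra hcon
        push Not at hcon
        exact hw0 (hWN w hw hcon)
      obtain ⟨y, hy, hwy⟩ := this
      refine ⟨w, hw, (B w y)⁻¹ • y, W.smul_mem _ hy, ?_, ?_, ?_⟩
      · rw [hA.smul_right, inv_mul_cancel₀ hwy]; exact one_ne_zero
      · rw [hA.smul_right, inv_mul_cancel₀ hwy]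
      · rw [Submodule.map_id]) (finrank F V) ⊤ (finrank_top F V) hND (fun _ _ => Submodule.mem_top)
  have hrel : ∀ i, B (v i) (u i) = 1 := hS.rel
  have hli : LinearIndependent F (Sum.elim v u) := by
    rw [Fintype.linearIndependent_iff]
    intro g hg
    have h0 : ∀ y, B (∑ i, g i • Sum.elim v u i) y = 0 := fun y => by rw [hg]; exact hA.oform.zero_left y
    rintro (i | i)
    · have h1 := h0 (u i)
      rw [hA.sum_left, Fintype.sum_sum_type] at h1
      simp only [Sum.elim_inl, Sum.elim_inr] at h1
      rw [Finset.sum_eq_single i, Finset.sum_eq_zero, hrel, mul_one, add_zero] at h1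
      · exact h1
      · intro j _
        by_cases hij : j = i
        · rw [hij, hA.alt, mul_zero]
        · rw [hS.uu j i hij, mul_zero]
      · intro j _ hij
        rw [hS.vu j i hij, mul_zero]
      · intro h; exact absurd (Finset.mem_univ i) h
    · have h1 := h0 (v i)
      rw [hA.sum_left, Fintype.sum_sum_type] at h1
      simp only [Sum.elim_inl, Sum.elim_inr] at h1
      rw [Finset.sum_eq_zero, zero_add, Finset.sum_eq_single i, hA.skew, hrel] at h1
      · simpa using h1
      · intro j _ hij
        rw [hA.skew, hS.vu i j (Ne.symm hij), neg_zero, mul_zero]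
      · intro h; exact absurd (Finset.mem_univ i) h
      · intro j _
        by_cases hij : j = i
        · rw [hij, hA.alt, mul_zero]
        · rw [hS.vv j i hij, mul_zero]
  have hcard : Fintype.card (ι ⊕ ι) = finrank F V := by
    rw [Fintype.card_sum]; omega
  let b := Basis.mk hli (hli.span_eq_top_of_card_eq_finrank' hcard).ge
  have hb : ∀ i, b i = Sum.elim v u i := fun i => by simp [b]
  refine ⟨ι, inferInstance, inferInstance, b, ?_, ?_, ?_⟩
  · intro i j
    rw [hb, hb]
    by_cases hij : i = j
    · rw [hij]; exact hA.alt _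
    · exact hS.vv i j hij
  · intro i j
    rw [hb, hb]
    by_cases hij : i = j
    · rw [hij]; exact hA.alt _
    · exact hS.uu i j hij
  · intro i j
    rw [hb, hb]
    by_cases hij : i = j
    · rw [hij, if_pos rfl]; exact hrel j
    · rw [if_neg hij]; exact hS.vu i j hij

/-- a bilinear identity may be checked on a basis -/
lemma AltForm.ext_basis {B : V → V → F} (hA : AltForm B) {κ : Type*} (b : Basis κ F V) (y : V →ₗ[F] V) (c : F)
    (h : ∀ i j, B (y (b i)) (y (b j)) = c * B (b i) (b j)) (s t : V) : B (y s) (y t) = c * B s t := by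
  let Bl : V →ₗ[F] V →ₗ[F] F := LinearMap.mk₂ F B hA.add_left hA.smul_left hA.add_right hA.smul_right
  have h1 : Bl.compl₁₂ y y = c • Bl := by
    apply b.ext
    intro i
    apply b.ext
    intro j
    simp only [LinearMap.compl₁₂_apply, LinearMap.smul_apply, Bl, LinearMap.mk₂_apply, smul_eq_mul]
    exact h i j
  have h2 := LinearMap.congr_fun (LinearMap.congr_fun h1 s) t
  simpa [Bl] using h2

/-- `y` acting blockwise with 2×2 blocks of determinant `c` is a similarity with multiplier `c`. -/
theorem SympBasis.similarity {B : V → V → F} (hA : AltForm B) {ι : Type} [DecidableEq ι] {b : Basis (ι ⊕ ι) F V}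
    (hb : SympBasis B b) (y : V →ₗ[F] V) (c : F) (α β γ δ : ι → F)
    (h1 : ∀ i, y (b (Sum.inl i)) = α i • b (Sum.inl i) + β i • b (Sum.inr i))
    (h2 : ∀ i, y (b (Sum.inr i)) = γ i • b (Sum.inl i) + δ i • b (Sum.inr i))
    (hd : ∀ i, α i * δ i - β i * γ i = c) (s t : V) : B (y s) (y t) = c * B s t := by
  have hrl : ∀ i j, B (b (Sum.inr i)) (b (Sum.inl j)) = if i = j then -1 else 0 := by
    intro i j
    rw [hA.skew, hb.lr]
    by_cases hij : i = j
    · rw [if_pos hij, if_pos hij.symm]
    · rw [if_neg hij, if_neg (Ne.symm hij), neg_zero]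
  apply hA.ext_basis b
  rintro (i | i) (j | j)
  · rw [h1, h1]
    simp only [hA.add_left, hA.smul_left, hA.add_right, hA.smul_right, hb.ll, hb.rr, hb.lr, hrl]
    by_cases hij : i = j
    · subst hij; simp; ring
    · simp [hij]
  · rw [h1, h2]
    simp only [hA.add_left, hA.smul_left, hA.add_right, hA.smul_right, hb.ll, hb.rr, hb.lr, hrl]
    by_cases hij : i = j
    · subst hij
      have := hd i
      simp only [if_true, mul_zero, mul_one, zero_add, add_zero]
      linear_combination this
    · simp [hij]
  · rw [h1, h2]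
    simp only [hA.add_left, hA.smul_left, hA.add_right, hA.smul_right, hb.ll, hb.rr, hb.lr, hrl]
    by_cases hij : i = j
    · subst hij
      have := hd i
      simp only [if_true, mul_zero, mul_one, zero_add, add_zero]
      linear_combination -this
    · simp [hij]
  · rw [h2, h2]
    simp only [hA.add_left, hA.smul_left, hA.add_right, hA.smul_right, hb.ll, hb.rr, hb.lr, hrl]
    by_cases hij : i = j
    · subst hij; simp; ring
    · simp [hij]

end

end Cfsg.Agent.H99
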