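import Mathlib
import Cfsg.Prelude.Def_ClassicalGeometry
import Cfsg.Agent.H99.SympPlanes

set_option autoImplicit false

/-! The standard symplectic form `Cfsg.sympForm`: it is alternating, non-degenerate and preserved by the
symplectic group (helper99). -/

namespace Cfsg.Agent.H99

open Matrix

variable {F : Type*} [Field F] (d : ℕ)

lemma sympForm_eq (u v : Fin d ⊕ Fin d → F) :
    Cfsg.sympForm d F u v = ∑ i, (u (.inr i) * v (.inl i) - u (.inl i) * v (.inr i)) := by
  unfold Cfsg.sympForm Matrix.J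
  rw [Matrix.fromBlocks_mulVec]
  simp only [dotProduct, Fintype.sum_sum_type, Sum.elim_inl, Sum.elim_inr, Matrix.zero_mulVec, Matrix.neg_mulVec,
    Matrix.one_mulVec, Pi.add_apply, Pi.neg_apply, Pi.zero_apply, Function.comp_apply, zero_add, add_zero]
  rw [← Finset.sum_add_distrib]
  refine Finset.sum_congr rfl fun i _ => ?_
  ring

lemma sympForm_altForm : AltForm (Cfsg.sympForm d F) where
  add_left x y v := by
    rw [sympForm_eq, sympForm_eq, sympForm_eq, ← Finset.sum_add_distrib]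
    refine Finset.sum_congr rfl fun i _ => ?_
    simp only [Pi.add_apply]; ring
  smul_left c x v := by
    rw [sympForm_eq, sympForm_eq, Finset.mul_sum]
    refine Finset.sum_congr rfl fun i _ => ?_
    simp only [Pi.smul_apply, smul_eq_mul]; ring
  alt x := by
    rw [sympForm_eq]
    refine Finset.sum_eq_zero fun i _ => ?_
    ring
  skew x y := by
    rw [sympForm_eq, sympForm_eq, ← Finset.sum_neg_distrib]
    refine Finset.sum_congr rfl fun i _ => ?_
    ring

lemma sympForm_ND : ND (Cfsg.sympForm d F) (⊤ : Submodule F (Fin d ⊕ Fin d → F)) := by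
  intro u _ h
  funext j
  rcases j with j | j
  · have := h (Pi.single (.inr j) 1) Submodule.mem_top
    rw [sympForm_eq] at this
    simpa [Pi.single_apply] using this
  · have := h (Pi.single (.inl j) 1) Submodule.mem_top
    rw [sympForm_eq] at this
    simpa [Pi.single_apply] using this

lemma sympForm_mulVec {A : Matrix (Fin d ⊕ Fin d) (Fin d ⊕ Fin d) F} (hA : A ∈ Matrix.symplecticGroup (Fin d) F)
    (u v : Fin d ⊕ Fin d → F) : Cfsg.sympForm d F (A *ᵥ u) (A *ᵥ v) = Cfsg.sympForm d F u v := by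
  unfold Cfsg.sympForm
  rw [SymplecticGroup.mem_iff'] at hA
  rw [← Matrix.vecMul_transpose, ← Matrix.dotProduct_mulVec, Matrix.mulVec_mulVec, Matrix.mulVec_mulVec, hA]

lemma sympForm_toLin' {A : Matrix (Fin d ⊕ Fin d) (Fin d ⊕ Fin d) F} (hA : A ∈ Matrix.symplecticGroup (Fin d) F)
    (u v : Fin d ⊕ Fin d → F) :
    Cfsg.sympForm d F (Matrix.toLin' A u) (Matrix.toLin' A v) = Cfsg.sympForm d F u v := by
  rw [Matrix.toLin'_apply, Matrix.toLin'_apply, sympForm_mulVec d hA]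

lemma symp_coe_pow (x : ↥(Matrix.symplecticGroup (Fin d) F)) (r : ℕ) :
    ((x ^ r : ↥(Matrix.symplecticGroup (Fin d) F)) : Matrix (Fin d ⊕ Fin d) (Fin d ⊕ Fin d) F) =
      (x : Matrix (Fin d ⊕ Fin d) (Fin d ⊕ Fin d) F) ^ r :=
  SubmonoidClass.coe_pow x r

/-- If `x ^ 2` is the scalar `z`, then `z ≠ 0`. -/
lemma symp_scalar_ne_zero (hd : 0 < d) (x : ↥(Matrix.symplecticGroup (Fin d) F)) (r : ℕ) (z : F)
    (hz : ((x ^ r : ↥(Matrix.symplecticGroup (Fin d) F)) : Matrix (Fin d ⊕ Fin d) (Fin d ⊕ Fin d) F) =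
      z • (1 : Matrix (Fin d ⊕ Fin d) (Fin d ⊕ Fin d) F)) : z ≠ 0 := by
  rintro rfl
  have h1 := SymplecticGroup.symplectic_det (x ^ r).2
  have : Nonempty (Fin d ⊕ Fin d) := ⟨Sum.inl ⟨0, by omega⟩⟩
  rw [hz, zero_smul, Matrix.det_zero] at h1
  exact not_isUnit_zero h1

lemma symp_sq_apply (x : ↥(Matrix.symplecticGroup (Fin d) F)) (z : F)
    (hz : ((x ^ 2 : ↥(Matrix.symplecticGroup (Fin d) F)) : Matrix (Fin d ⊕ Fin d) (Fin d ⊕ Fin d) F) =
      z • (1 : Matrix (Fin d ⊕ Fin d) (Fin d ⊕ Fin d) F)) (v : Fin d ⊕ Fin d → F) :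
    Matrix.toLin' (x : Matrix (Fin d ⊕ Fin d) (Fin d ⊕ Fin d) F)
      (Matrix.toLin' (x : Matrix (Fin d ⊕ Fin d) (Fin d ⊕ Fin d) F) v) = z • v := by
  rw [Matrix.toLin'_apply, Matrix.toLin'_apply, Matrix.mulVec_mulVec, ← pow_two, ← symp_coe_pow, hz,
    Matrix.smul_mulVec, Matrix.one_mulVec]

end Cfsg.Agent.H99
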