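import Mathlib
import Cfsg.Prelude.Def_GeometricClasses
import Cfsg.Agent.H99.SympBasis
import Cfsg.Agent.H99.SympForm
import Cfsg.Agent.H99.SubCount
import Cfsg.Agent.H99.SLOrder
import Cfsg.Agent.ClassSp.Order
import Cfsg.Agent.H4.CardSL

set_option autoImplicit false

/-! Symplectic spaces: coordinates, orders (helper99). -/

namespace Cfsg.Agent.H99

open Module Matrix

section
variable {F V : Type*} [Field F] [AddCommGroup V] [Module F V]

/-- two alternating forms agreeing on a basis are equal -/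
lemma AltForm.eq_of_basis {B B' : V → V → F} (hA : AltForm B) (hA' : AltForm B') {κ : Type*} (b : Basis κ F V)
    (h : ∀ i j, B (b i) (b j) = B' (b i) (b j)) (s t : V) : B s t = B' s t := by
  let Bl : V →ₗ[F] V →ₗ[F] F := LinearMap.mk₂ F B hA.add_left hA.smul_left hA.add_right hA.smul_right
  let Bl' : V →ₗ[F] V →ₗ[F] F := LinearMap.mk₂ F B' hA'.add_left hA'.smul_left hA'.add_right hA'.smul_right
  have h1 : Bl = Bl' := by
    apply b.ext
    intro i
    apply b.ext
    intro j
    exact h i j
  exact LinearMap.congr_fun (LinearMap.congr_fun h1 s) t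

/-- restriction along a linear map -/
lemma AltForm.comp {W : Type*} [AddCommGroup W] [Module F W] {B : V → V → F} (hA : AltForm B) (E : W →ₗ[F] V) :
    AltForm (fun u v => B (E u) (E v)) where
  add_left x y v := by rw [map_add, hA.add_left]
  smul_left c x v := by rw [map_smul, hA.smul_left]
  alt x := hA.alt _
  skew x y := hA.skew _ _

/-- an alternating non-degenerate space has even dimension -/
theorem AltForm.even_finrank [FiniteDimensional F V] {B : V → V → F} (hA : AltForm B) (hND : ND B (⊤ : Submodule F V)) :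
    Even (finrank F V) := by
  obtain ⟨ι, _, _, b, hb⟩ := exists_sympBasis hA hND
  rw [finrank_eq_card_basis b, Fintype.card_sum]
  exact ⟨_, rfl⟩

/-- version for subspaces -/
theorem AltForm.even_finrank_sub [FiniteDimensional F V] {B : V → V → F} (hA : AltForm B) {W : Submodule F V} (hND : ND B W) :
    Even (finrank F W) := by
  apply AltForm.even_finrank (hA.comp W.subtype)
  intro u _ hu
  apply Subtype.ext
  exact hND u u.2 (fun v hv => hu ⟨v, hv⟩ Submodule.mem_top)

/-- every non-degenerate alternating form is the standard one -/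
theorem exists_equiv_sympForm [FiniteDimensional F V] {B : V → V → F} (hA : AltForm B) (hND : ND B (⊤ : Submodule F V))
    {m : ℕ} (hm : finrank F V = 2 * m) :
    ∃ E : (Fin m ⊕ Fin m → F) ≃ₗ[F] V, ∀ u v, B (E u) (E v) = Cfsg.sympForm m F u v := by
  obtain ⟨ι, _, _, b, hb⟩ := exists_sympBasis hA hND
  have hc : Fintype.card ι = m := by
    have := finrank_eq_card_basis b
    rw [Fintype.card_sum] at this
    omega
  let ε : ι ≃ Fin m := Fintype.equivFinOfCardEq hc
  let b' : Basis (Fin m ⊕ Fin m) F V := b.reindex ((Equiv.sumComm ι ι).trans (Equiv.sumCongr ε ε))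
  have hl : ∀ i, b' (Sum.inl i) = b (Sum.inr (ε.symm i)) := fun i => by
    rw [Basis.reindex_apply]
    rfl
  have hr : ∀ i, b' (Sum.inr i) = b (Sum.inl (ε.symm i)) := fun i => by
    rw [Basis.reindex_apply]
    rfl
  let E : (Fin m ⊕ Fin m → F) ≃ₗ[F] V := b'.equivFun.symm
  have hE : ∀ x, E (Pi.single x 1) = b' x := fun x => by
    rw [LinearEquiv.symm_apply_eq]
    funext y
    rw [Basis.equivFun_self, Pi.single_apply]
    by_cases h : x = y
    · rw [if_pos h, if_pos h.symm]
    · rw [if_neg h, if_neg (Ne.symm h)]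
  refine ⟨E, ?_⟩
  intro u v
  apply AltForm.eq_of_basis (hA.comp E.toLinearMap) (sympForm_altForm m) (Pi.basisFun F (Fin m ⊕ Fin m))
  intro x y
  simp only [Pi.basisFun_apply, LinearEquiv.coe_coe, hE]
  rw [sympForm_eq]
  have hrl : ∀ i j, B (b (Sum.inr i)) (b (Sum.inl j)) = if i = j then -1 else 0 := by
    intro i j
    rw [hA.skew, hb.lr]
    by_cases hij : i = j
    · rw [if_pos hij, if_pos hij.symm]
    · rw [if_neg hij, if_neg (Ne.symm hij), neg_zero]
  rcases x with i | i <;> rcases y with j | j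
  · rw [hl, hl, hb.rr]
    simp [Pi.single_apply]
  · rw [hl, hr, hrl]
    by_cases hij : i = j
    · subst hij
      simp [Pi.single_apply]
    · have : ε.symm i ≠ ε.symm j := fun h => hij (ε.symm.injective h)
      simp [Pi.single_apply, this, Ne.symm hij]
  · rw [hr, hl, hb.lr]
    by_cases hij : i = j
    · subst hij
      simp [Pi.single_apply]
    · have : ε.symm i ≠ ε.symm j := fun h => hij (ε.symm.injective h)
      simp [Pi.single_apply, this, Ne.symm hij]
  · rw [hr, hr, hb.ll]
    simp [Pi.single_apply]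

end

section
variable {F : Type*} [Field F] {n m : ℕ}

lemma altForm_of_symplectic {f : (Fin n → F) → (Fin n → F) → F} (hf : Cfsg.Geo.IsSymplecticForm f) : AltForm f where
  add_left := hf.bilinear.add_left
  smul_left := hf.bilinear.smul_left
  alt := hf.alternating
  skew := hf.skew

lemma ND_of_symplectic {f : (Fin n → F) → (Fin n → F) → F} (hf : Cfsg.Geo.IsSymplecticForm f) :
    ND f (⊤ : Submodule F (Fin n → F)) := by
  intro u _ hu
  by_contra hne
  obtain ⟨v, hv⟩ := (hf.nondegenerate u hne).2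
  exact hv (hu v Submodule.mem_top)

/-- the symplectic group embeds in the similarities of determinant one -/
theorem card_sp_dvd {f : (Fin n → F) → (Fin n → F) → F} (hf : Cfsg.Geo.IsSymplecticForm f) (hm : n = 2 * m) :
    Nat.card (Matrix.symplecticGroup (Fin m) F) ∣
      Nat.card ((Cfsg.Geo.similarityGroup f).comap (Matrix.SpecialLinearGroup.toGL : Matrix.SpecialLinearGroup (Fin n) F →* GL (Fin n) F)) := by
  have hA := altForm_of_symplectic hf
  obtain ⟨E, hE⟩ := exists_equiv_sympForm hA (ND_of_symplectic hf) (m := m) (by simp [hm])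
  let c : Matrix (Fin m ⊕ Fin m) (Fin m ⊕ Fin m) F → Matrix (Fin n) (Fin n) F := fun g =>
    LinearMap.toMatrix' (E.toLinearMap ∘ₗ Matrix.toLin' g ∘ₗ E.symm.toLinearMap)
  have hc : ∀ g v, c g *ᵥ (E v) = E (g *ᵥ v) := by
    intro g v
    rw [← Matrix.toLin'_apply, Matrix.toLin'_toMatrix']
    simp
  have hc1 : c 1 = 1 := by
    apply Matrix.toLin'.injective
    rw [Matrix.toLin'_toMatrix', Matrix.toLin'_one, Matrix.toLin'_one]
    ext v
    simp
  have hcm : ∀ g h, c (g * h) = c g * c h := by
    intro g h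
    apply Matrix.toLin'.injective
    rw [Matrix.toLin'_mul, Matrix.toLin'_toMatrix', Matrix.toLin'_toMatrix', Matrix.toLin'_toMatrix', Matrix.toLin'_mul]
    apply LinearMap.ext
    intro v
    simp
  have hcd : ∀ g, (c g).det = g.det := by
    intro g
    have h1 := LinearMap.det_conj (Matrix.toLin' g) E
    rw [LinearMap.det_toMatrix', h1, LinearMap.det_toLin']
  have hci : Function.Injective c := by
    intro g h hgh
    apply Matrix.toLin'.injective
    apply LinearMap.ext
    intro v
    apply E.injective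
    rw [Matrix.toLin'_apply, Matrix.toLin'_apply, ← hc, ← hc, hgh]
  let φ : Matrix.symplecticGroup (Fin m) F →* Matrix.SpecialLinearGroup (Fin n) F :=
    { toFun := fun g => ⟨c g, by rw [hcd]; exact SymplecticGroup.det_eq_one g.2⟩
      map_one' := Subtype.ext hc1
      map_mul' := fun g h => Subtype.ext (hcm g h) }
  have hφ : ∀ g, φ g ∈ (Cfsg.Geo.similarityGroup f).comap (Matrix.SpecialLinearGroup.toGL : Matrix.SpecialLinearGroup (Fin n) F →* GL (Fin n) F) := by
    intro g
    rw [Subgroup.mem_comap]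
    refine ⟨1, ?_⟩
    intro u v
    change f (c g *ᵥ u) (c g *ᵥ v) = _
    obtain ⟨u, rfl⟩ := E.surjective u
    obtain ⟨v, rfl⟩ := E.surjective v
    rw [hc, hc, hE, hE, sympForm_mulVec m g.2, Units.val_one, one_mul]
  let ψ := φ.codRestrict _ hφ
  apply Subgroup.card_dvd_of_injective ψ
  intro g h hgh
  have h1 := congrArg Subtype.val hgh
  have h2 := congrArg Subtype.val h1
  exact Subtype.ext (hci h2)

end

section
variable {F : Type*} [Field F] [Fintype F] {p : ℕ} [Fact p.Prime] [CharP F p] {r : ℕ} [Fact r.Prime] {n m : ℕ}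

omit [Fintype F] in
lemma qfac_two_mul (q m : ℕ) : qfac q (2 * m) = (∏ i ∈ Finset.range m, (q ^ (2 * i + 1) - 1)) * ∏ i ∈ Finset.range m, (q ^ (2 * (i + 1)) - 1) := by
  induction m with
  | zero => simp [qfac]
  | succ m ih =>
    rw [Finset.prod_range_succ, Finset.prod_range_succ, show 2 * (m + 1) = 2 * m + 1 + 1 by ring, qfac_succ, qfac_succ, ih]
    ring

omit [Fact p.Prime] [CharP F p] [Fact r.Prime] in
lemma card_GL_qfac : Nat.card (GL (Fin n) F) = Fintype.card F ^ (∑ j ∈ Finset.range n, j) * qfac (Fintype.card F) n := by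
  have h1 := prod_sub_mul_qfac (q := Fintype.card F) (Fintype.one_lt_card) n n le_rfl
  rw [Nat.sub_self] at h1
  have h2 : qfac (Fintype.card F) 0 = 1 := by simp [qfac]
  rw [h2, mul_one] at h1
  rw [Matrix.card_GL_field, ← h1, ← Fin.prod_univ_eq_prod_range (fun j => Fintype.card F ^ n - Fintype.card F ^ j)]

/-- a prime of even order does not divide the index of the similarity group -/
theorem not_dvd_index_of_even_order {f : (Fin n → F) → (Fin n → F) → F} (hf : Cfsg.Geo.IsSymplecticForm f) (hn : 0 < n) (hm : n = 2 * m)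
    (hrp : r ≠ p) (he : Even (orderOf ((Fintype.card F : ℕ) : ZMod r))) :
    ¬ r ∣ ((Cfsg.Geo.similarityGroup f).comap (Matrix.SpecialLinearGroup.toGL : Matrix.SpecialLinearGroup (Fin n) F →* GL (Fin n) F)).index := by
  intro hΩ
  have hr : r.Prime := Fact.out
  set H := (Cfsg.Geo.similarityGroup f).comap (Matrix.SpecialLinearGroup.toGL : Matrix.SpecialLinearGroup (Fin n) F →* GL (Fin n) F) with hH
  have hq1 : 1 < Fintype.card F := Fintype.one_lt_card
  obtain ⟨k, hk⟩ := card_sp_dvd hf hm
  have h1 := H4.card_SL_mul (F := F) n hn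
  have h2 := H.card_mul_index
  have h3 := ClassSp.card_fin (F := F) m
  set q := Fintype.card F with hq
  have hP : 0 < ∏ i ∈ Finset.range m, (q ^ (2 * (i + 1)) - 1) := by
    apply Finset.prod_pos
    intro i _
    have : 1 < q ^ (2 * (i + 1)) := Nat.one_lt_pow (by omega) hq1
    omega
  obtain ⟨j, hj⟩ := hΩ
  rw [← h2, hk, h3, hj, card_GL_qfac, hm, qfac_two_mul, ← hq] at h1
  set P := ∏ i ∈ Finset.range m, (q ^ (2 * (i + 1)) - 1) with hP'
  set N := ∏ i ∈ Finset.range m, (q ^ (2 * i + 1) - 1) with hN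
  have h4 : (r * ((q - 1) * q ^ (m ^ 2) * k * j)) * P = (q ^ (∑ j ∈ Finset.range (2 * m), j) * N) * P := by
    calc (r * ((q - 1) * q ^ (m ^ 2) * k * j)) * P = (q - 1) * (q ^ m ^ 2 * P * k * (r * j)) := by ring
      _ = (q ^ (∑ j ∈ Finset.range (2 * m), j) * N) * P := by rw [h1]; ring
  have h5 := Nat.eq_of_mul_eq_mul_right hP h4
  have h6 : r ∣ q ^ (∑ j ∈ Finset.range (2 * m), j) * N := ⟨_, h5.symm⟩
  rcases hr.dvd_mul.mp h6 with h | h
  · exact prime_not_dvd_card hrp (hr.dvd_of_dvd_pow h)
  · obtain ⟨i, -, hi⟩ := (Nat.Prime.prime hr).exists_mem_finset_dvd h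
    rw [dvd_pow_sub_one_iff (by omega)] at hi
    obtain ⟨a, ha⟩ := he
    obtain ⟨b, hb⟩ := hi
    rw [ha, ← two_mul, mul_assoc] at hb
    omega

end

end Cfsg.Agent.H99
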