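import Mathlib
import Cfsg.Agent.H99.IsoBlock
import Cfsg.Agent.H99.SympCard
import Cfsg.Agent.ClassSp.Order
import Cfsg.Agent.ClGeo.Symp

set_option autoImplicit false
set_option linter.unusedVariables false
set_option linter.unusedSectionVars false

/-! Elements of odd prime order of symplectic groups (helper99). -/

namespace Cfsg.Agent.H99

open Module Polynomial

section glue
variable {F V : Type*} [Field F] [AddCommGroup V] [Module F V] [FiniteDimensional F V]

/-- gluing endomorphisms of complementary subspaces -/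
noncomputable def glue {U U' : Submodule F V} (h : IsCompl U U') (g : U →ₗ[F] U) (g' : U' →ₗ[F] U') : V →ₗ[F] V :=
  (Submodule.prodEquivOfIsCompl U U' h).toLinearMap ∘ₗ (g.prodMap g') ∘ₗ (Submodule.prodEquivOfIsCompl U U' h).symm.toLinearMap

lemma glue_apply {U U' : Submodule F V} (h : IsCompl U U') (g : U →ₗ[F] U) (g' : U' →ₗ[F] U') (u : U) (u' : U') :
    glue h g g' ((u : V) + (u' : V)) = (g u : V) + (g' u' : V) := by
  have h1 : (Submodule.prodEquivOfIsCompl U U' h).symm ((u : V) + (u' : V)) = (u, u') := by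
    rw [LinearEquiv.symm_apply_eq]
    rfl
  unfold glue
  rw [LinearMap.comp_apply, LinearMap.comp_apply, LinearEquiv.coe_coe, LinearEquiv.coe_coe, h1]
  rfl

lemma exists_add_of_isCompl {U U' : Submodule F V} (h : IsCompl U U') (v : V) : ∃ (u : U) (u' : U'), v = (u : V) + (u' : V) := by
  have h1 : v ∈ U ⊔ U' := by rw [h.sup_eq_top]; exact Submodule.mem_top
  obtain ⟨u, hu, u', hu', rfl⟩ := Submodule.mem_sup.mp h1
  exact ⟨⟨u, hu⟩, ⟨u', hu'⟩, rfl⟩

lemma glue_left {U U' : Submodule F V} (h : IsCompl U U') (g : U →ₗ[F] U) (g' : U' →ₗ[F] U') (u : U) :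
    glue h g g' (u : V) = (g u : V) := by
  have := glue_apply h g g' u 0
  simpa using this

lemma glue_right {U U' : Submodule F V} (h : IsCompl U U') (g : U →ₗ[F] U) (g' : U' →ₗ[F] U') (u' : U') :
    glue h g g' (u' : V) = (g' u' : V) := by
  have := glue_apply h g g' 0 u'
  simpa using this

lemma glue_pow {U U' : Submodule F V} (h : IsCompl U U') (g : U →ₗ[F] U) (g' : U' →ₗ[F] U') (k : ℕ) :
    (glue h g g') ^ k = glue h (g ^ k) (g' ^ k) := by
  ext v
  obtain ⟨u, u', rfl⟩ := exists_add_of_isCompl h v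
  rw [glue_apply]
  induction k with
  | zero => rfl
  | succ k ih => rw [pow_succ', Module.End.mul_apply, ih, glue_apply, pow_succ', pow_succ']; rfl

lemma glue_one {U U' : Submodule F V} (h : IsCompl U U') : glue h (1 : U →ₗ[F] U) (1 : U' →ₗ[F] U') = 1 := by
  ext v
  obtain ⟨u, u', rfl⟩ := exists_add_of_isCompl h v
  rw [glue_apply]
  rfl

lemma glue_isom {B : V → V → F} {σ : F →+* F} {ε : F} (hE : EForm σ ε B) {U U' : Submodule F V} (h : IsCompl U U')
    (ho : ∀ u ∈ U, ∀ v ∈ U', B u v = 0) (g : U →ₗ[F] U) (g' : U' →ₗ[F] U')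
    (hg : ∀ u v : U, B (g u : V) (g v : V) = B (u : V) (v : V)) (hg' : ∀ u v : U', B (g' u : V) (g' v : V) = B (u : V) (v : V)) (a b : V) :
    B (glue h g g' a) (glue h g g' b) = B a b := by
  obtain ⟨u, u', rfl⟩ := exists_add_of_isCompl h a
  obtain ⟨v, v', rfl⟩ := exists_add_of_isCompl h b
  have ho' : ∀ u ∈ U', ∀ v ∈ U, B u v = 0 := fun u hu v hv => hE.oform.refl _ _ (ho v hv u hu)
  rw [glue_apply, glue_apply]
  simp only [hE.add_left, hE.add_right]
  rw [hg, hg', ho _ (g u).2 _ (g' v').2, ho' _ (g' u').2 _ (g v).2, ho _ u.2 _ v'.2, ho' _ u'.2 _ v.2]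

lemma finrank_ker_glue {U U' : Submodule F V} (h : IsCompl U U') (g : U →ₗ[F] U) (g' : U' →ₗ[F] U') :
    finrank F (LinearMap.ker (glue h g g' - 1)) = finrank F (LinearMap.ker (g - 1)) + finrank F (LinearMap.ker (g' - 1)) := by
  have h1 : LinearMap.ker (glue h g g' - 1) = (LinearMap.ker (g - 1)).map U.subtype ⊔ (LinearMap.ker (g' - 1)).map U'.subtype := by
    apply le_antisymm
    · intro v hv
      obtain ⟨u, u', rfl⟩ := exists_add_of_isCompl h v
      rw [LinearMap.mem_ker, LinearMap.sub_apply, Module.End.one_apply, sub_eq_zero, glue_apply] at hv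
      have h2 : ((g u - u : U) : V) = ((u' - g' u' : U') : V) := by
        rw [Submodule.coe_sub, Submodule.coe_sub]
        rw [sub_eq_sub_iff_add_eq_add, hv, add_comm]
      have h3 : ((g u - u : U) : V) = 0 := by
        apply (Submodule.disjoint_def.mp h.disjoint) _ (g u - u).2
        rw [h2]
        exact (u' - g' u').2
      have h4 : ((u' - g' u' : U') : V) = 0 := by rw [← h2, h3]
      apply Submodule.add_mem_sup
      · refine ⟨u, ?_, rfl⟩
        rw [SetLike.mem_coe, LinearMap.mem_ker, LinearMap.sub_apply, Module.End.one_apply]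
        exact Subtype.ext h3
      · refine ⟨u', ?_, rfl⟩
        rw [SetLike.mem_coe, LinearMap.mem_ker, LinearMap.sub_apply, Module.End.one_apply]
        have h5 : u' - g' u' = 0 := Subtype.ext h4
        rw [← neg_sub, h5, neg_zero]
    · apply sup_le
      · rintro _ ⟨u, hu, rfl⟩
        rw [SetLike.mem_coe, LinearMap.mem_ker, LinearMap.sub_apply, Module.End.one_apply, sub_eq_zero] at hu
        rw [LinearMap.mem_ker, LinearMap.sub_apply, Module.End.one_apply, sub_eq_zero, Submodule.subtype_apply, glue_left, hu]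
      · rintro _ ⟨u, hu, rfl⟩
        rw [SetLike.mem_coe, LinearMap.mem_ker, LinearMap.sub_apply, Module.End.one_apply, sub_eq_zero] at hu
        rw [LinearMap.mem_ker, LinearMap.sub_apply, Module.End.one_apply, sub_eq_zero, Submodule.subtype_apply, glue_right, hu]
  have h2 := Submodule.finrank_sup_add_finrank_inf_eq ((LinearMap.ker (g - 1)).map U.subtype) ((LinearMap.ker (g' - 1)).map U'.subtype)
  have h3 : Disjoint ((LinearMap.ker (g - 1)).map U.subtype) ((LinearMap.ker (g' - 1)).map U'.subtype) :=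
    h.disjoint.mono (Submodule.map_subtype_le _ _) (Submodule.map_subtype_le _ _)
  rw [← h1, disjoint_iff.mp h3, finrank_bot, add_zero,
    ← LinearEquiv.finrank_eq (Submodule.equivMapOfInjective U.subtype U.injective_subtype _),
    ← LinearEquiv.finrank_eq (Submodule.equivMapOfInjective U'.subtype U'.injective_subtype _)] at h2
  exact h2

end glue

section
variable {F : Type*} [Field F] [Fintype F] {V : Type*} [AddCommGroup V] [Module F V] [FiniteDimensional F V]

/-- nondegenerate subspaces of every even dimension -/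
theorem AltForm.exists_ND_sub {B : V → V → F} (hA : AltForm B) (m : ℕ) :
    ∀ W : Submodule F V, ND B W → 2 * m ≤ finrank F W → ∃ U ≤ W, ND B U ∧ finrank F U = 2 * m := by
  induction m with
  | zero => intro W _ _; exact ⟨⊥, bot_le, ND_bot hA.oform, by rw [finrank_bot]⟩
  | succ m ih =>
    intro W hW hm
    have hW0 : W ≠ ⊥ := by
      rintro rfl
      rw [finrank_bot] at hm
      omega
    obtain ⟨w, hw, hw0⟩ := Submodule.exists_mem_ne_zero_of_ne_bot hW0
    have : ∃ y ∈ W, B w y ≠ 0 := by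
      by_contra hcon
      push Not at hcon
      exact hw0 (hW w hw hcon)
    obtain ⟨y, hy, hwy⟩ := this
    have h1 := plane_ND hA hwy
    have h2 := plane_finrank hA hwy
    have h3 : Submodule.span F {w, y} ≤ W := by
      rw [Submodule.span_le]
      rintro z (rfl | rfl)
      · exact hw
      · exact hy
    have h4 := split_finrank hA.oform h1 h3
    obtain ⟨U, g1, g2, g3⟩ := ih _ (split_ND_compl hA.oform hW h1 h3) (by omega)
    have h5 : Submodule.span F {w, y} ≤ orth hA.oform U := by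
      rw [le_orth_comm]
      exact g1.trans inf_le_right
    refine ⟨Submodule.span F {w, y} ⊔ U, sup_le h3 (g1.trans inf_le_left), ND_sup hA.oform h1 g2 h5, ?_⟩
    have h8 := Submodule.finrank_sup_add_finrank_inf_eq (Submodule.span F {w, y}) U
    have h9 : Disjoint (Submodule.span F {w, y}) U := ((ND_iff_disjoint hA.oform _).mp h1).mono_right (g1.trans inf_le_right)
    rw [disjoint_iff.mp h9, finrank_bot, h2, g3] at h8
    omega

variable {p : ℕ} [Fact p.Prime] [CharP F p] {r : ℕ} [Fact r.Prime]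

/-- the self-duality condition in the bilinear case -/
lemma selfDual_iff_even (hr2 : r ≠ 2) {Q : ℕ} (hQ : ¬ r ∣ Q) : SelfDual r 1 Q ↔ Even (orderOf ((Q : ℕ) : ZMod r)) := by
  have hr : r.Prime := Fact.out
  have hQ0 : ((Q : ℕ) : ZMod r) ≠ 0 := by
    rw [Ne, ZMod.natCast_eq_zero_iff]
    exact hQ
  have h2 : (2 : ZMod r) ≠ 0 := by
    have h3 : ((2 : ℕ) : ZMod r) ≠ 0 := by
      rw [Ne, ZMod.natCast_eq_zero_iff]
      intro h
      have := Nat.le_of_dvd (by norm_num) h
      have := hr.two_le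
      omega
    exact_mod_cast h3
  have hiff : ∀ j : ℕ, r ∣ 1 * Q ^ j + 1 ↔ ((Q : ℕ) : ZMod r) ^ j = -1 := by
    intro j
    rw [← ZMod.natCast_eq_zero_iff]
    push_cast
    rw [one_mul, eq_neg_iff_add_eq_zero]
  constructor
  · rintro ⟨j, hj⟩
    rw [hiff] at hj
    by_contra hodd
    rw [Nat.not_even_iff_odd] at hodd
    have h3 : orderOf ((Q : ℕ) : ZMod r) ∣ 2 * j := by
      apply orderOf_dvd_of_pow_eq_one
      rw [mul_comm, pow_mul, hj]
      ring
    have h4 : orderOf ((Q : ℕ) : ZMod r) ∣ j := by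
      apply (Nat.Coprime.dvd_mul_left _).mp h3
      exact (Nat.coprime_two_right).mpr hodd
    rw [orderOf_dvd_iff_pow_eq_one.mp h4] at hj
    apply h2
    calc (2 : ZMod r) = 1 + 1 := by norm_num
      _ = 1 + (-1) := by rw [← hj]
      _ = 0 := by ring
  · rintro ⟨k, hk⟩
    refine ⟨k, ?_⟩
    rw [hiff]
    have h3 : (((Q : ℕ) : ZMod r) ^ k) ^ 2 = 1 := by
      rw [← pow_mul, mul_two, ← hk, pow_orderOf_eq_one]
    rw [pow_two] at h3
    rcases mul_self_eq_one_iff.mp h3 with h4 | h4
    · exfalso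
      have h5 := orderOf_dvd_of_pow_eq_one h4
      have h6 := orderOf_pos_of_not_dvd hQ
      have h7 : 0 < k := by omega
      have h8 := Nat.le_of_dvd h7 h5
      omega
    · exact h4

end


section
variable {F : Type*} [Field F] [Fintype F] {p : ℕ} [Fact p.Prime] [CharP F p] {r : ℕ} [Fact r.Prime]

/-- the block size in symplectic and orthogonal groups -/
noncomputable def blk (r Q : ℕ) : ℕ := if Even (orderOf ((Q : ℕ) : ZMod r)) then orderOf ((Q : ℕ) : ZMod r) else 2 * orderOf ((Q : ℕ) : ZMod r)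

lemma blk_spec (hr2 : r ≠ 2) {Q : ℕ} (hQ : ¬ r ∣ Q) :
    (SelfDual r 1 Q ∧ blk r Q = orderOf ((Q : ℕ) : ZMod r)) ∨ (¬ SelfDual r 1 Q ∧ blk r Q = 2 * orderOf ((Q : ℕ) : ZMod r)) := by
  unfold blk
  rw [selfDual_iff_even hr2 hQ]
  split_ifs with h
  · left; exact ⟨h, rfl⟩
  · right; exact ⟨h, rfl⟩

lemma even_blk (r Q : ℕ) : Even (blk r Q) := by
  unfold blk
  split_ifs with h
  · exact h
  · exact even_two_mul _

lemma orderOf_dvd_blk (r Q : ℕ) : orderOf ((Q : ℕ) : ZMod r) ∣ blk r Q := by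
  unfold blk
  split_ifs with h
  · exact dvd_rfl
  · exact Dvd.intro_left 2 rfl

/-- a fixed-point-free isometry of order `r` of a space of dimension `blk` -/
theorem exists_alt_full (hr2 : r ≠ 2) (hrp : r ≠ p) {V : Type*} [AddCommGroup V] [Module F V] [FiniteDimensional F V] {B : V → V → F}
    (hA : AltForm B) (hND : ND B (⊤ : Submodule F V)) (hd : finrank F V = blk r (Fintype.card F)) :
    ∃ x : V →ₗ[F] V, (∀ u v, B (x u) (x v) = B u v) ∧ x ^ r = 1 ∧ finrank F (LinearMap.ker (x - 1)) = 0 := by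
  have hr : r.Prime := Fact.out
  have hQ : ¬ r ∣ Fintype.card F := prime_not_dvd_card hrp
  have hpos := orderOf_pos_of_not_dvd (r := r) hQ
  have hbpos : 0 < blk r (Fintype.card F) := by
    rcases blk_spec hr2 hQ with ⟨-, h⟩ | ⟨-, h⟩ <;> omega
  obtain ⟨m, hm⟩ := even_blk r (Fintype.card F)
  obtain ⟨E, hE⟩ := exists_equiv_sympForm hA hND (m := m) (by rw [hd, hm]; ring)
  have hdvd : r ∣ Nat.card (Matrix.symplecticGroup (Fin m) F) := by
    rw [Cfsg.Agent.ClassSp.card_fin]
    apply Dvd.dvd.mul_left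
    apply dvd_trans _ (Finset.dvd_prod_of_mem _ (Finset.mem_range.mpr (show m - 1 < m by omega)))
    rw [show 2 * (m - 1 + 1) = blk r (Fintype.card F) by omega, dvd_pow_sub_one_iff Fintype.card_pos]
    exact orderOf_dvd_blk r _
  obtain ⟨g, hg⟩ := exists_prime_orderOf_dvd_card' r hdvd
  have hgr : (g : Matrix (Fin m ⊕ Fin m) (Fin m ⊕ Fin m) F) ^ r = 1 := by
    rw [← symp_coe_pow, ← hg, pow_orderOf_eq_one]
    rfl
  set y := Matrix.toLin' (g : Matrix (Fin m ⊕ Fin m) (Fin m ⊕ Fin m) F) with hy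
  let x : V →ₗ[F] V := E.toLinearMap ∘ₗ y ∘ₗ E.symm.toLinearMap
  have hxE : ∀ v, x (E v) = E (y v) := by
    intro v
    change E (y (E.symm (E v))) = _
    rw [E.symm_apply_apply]
  have hyr : y ^ r = 1 := by
    rw [hy, ← Matrix.toLin'_pow, hgr, Matrix.toLin'_one]
    rfl
  have hxpow : ∀ k v, (x ^ k) (E v) = E ((y ^ k) v) := by
    intro k
    induction k with
    | zero => intro v; rfl
    | succ k ih => intro v; rw [pow_succ', Module.End.mul_apply, ih, hxE, pow_succ', Module.End.mul_apply]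
  have hxr : x ^ r = 1 := by
    ext v
    obtain ⟨w, rfl⟩ := E.surjective v
    rw [hxpow, hyr]
    rfl
  have hxi : ∀ u v, B (x u) (x v) = B u v := by
    intro u v
    obtain ⟨u, rfl⟩ := E.surjective u
    obtain ⟨v, rfl⟩ := E.surjective v
    rw [hxE, hxE, hE, hE, hy, sympForm_toLin' m g.2]
  refine ⟨x, hxi, hxr, ?_⟩
  obtain ⟨h1, h2, h3, h4, h5⟩ := split_fixed hrp hA.eform hxi hxr (W := ⊤) (fun _ _ => Submodule.mem_top) hND
  have h6 := (exists_isoBlocks hr2 hrp hA.eform (N := 1) ⟨0, (pow_zero p).symm⟩ (fun a => (pow_one a).symm) (blk_spec hr2 hQ) hxi hxr _ h2 h3 h4 rfl).1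
  rw [finrank_top, hd] at h5
  have h7 : finrank F (⊤ ⊓ orth hA.eform.oform (⊤ ⊓ LinearMap.ker (x - 1)) : Submodule F V) ≠ 0 := by
    intro h8
    rw [h8, add_zero] at h5
    have h9 : (⊤ ⊓ LinearMap.ker (x - 1) : Submodule F V) = ⊤ := Submodule.eq_top_of_finrank_eq (by rw [h5, hd])
    rw [top_inf_eq] at h9
    have h10 : x = 1 := by
      rw [LinearMap.ker_eq_top, sub_eq_zero] at h9
      exact h9
    have h11 : g = 1 := by
      apply Subtype.ext
      apply Matrix.toLin'.injective
      apply LinearMap.ext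
      intro v
      have h12 := hxE v
      rw [h10, Module.End.one_apply] at h12
      have h13 := E.injective h12
      rw [← hy, ← h13]
      change _ = Matrix.toLin' (1 : Matrix (Fin m ⊕ Fin m) (Fin m ⊕ Fin m) F) _
      rw [Matrix.toLin'_one]
      rfl
    rw [h11, orderOf_one] at hg
    exact hr.one_lt.ne hg
  have h8 := Nat.le_of_dvd (Nat.pos_of_ne_zero h7) h6
  have h9 : finrank F (⊤ ⊓ LinearMap.ker (x - 1) : Submodule F V) = finrank F (LinearMap.ker (x - 1)) := by rw [top_inf_eq]
  omega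

/-- isometries with a given number of blocks -/
theorem exists_alt_blocks.{v} (hr2 : r ≠ 2) (hrp : r ≠ p) (j : ℕ) : ∀ (V : Type v) [AddCommGroup V] [Module F V] [FiniteDimensional F V]
    (B : V → V → F), AltForm B → ND B (⊤ : Submodule F V) → j * blk r (Fintype.card F) ≤ finrank F V →
    ∃ x : V →ₗ[F] V, (∀ u v, B (x u) (x v) = B u v) ∧ x ^ r = 1 ∧
      finrank F (LinearMap.ker (x - 1)) + j * blk r (Fintype.card F) = finrank F V := by
  induction j with
  | zero =>
    intro V _ _ _ B hA hND _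
    refine ⟨1, fun _ _ => rfl, one_pow r, ?_⟩
    rw [sub_self, LinearMap.ker_zero, finrank_top]
    ring
  | succ j ih =>
    intro V _ _ _ B hA hND hj
    obtain ⟨m, hm⟩ := even_blk r (Fintype.card F)
    obtain ⟨U, -, hU, hUd⟩ := hA.exists_ND_sub m ⊤ hND (by rw [finrank_top, two_mul, ← hm]; rw [add_mul, one_mul] at hj; omega)
    have hUd' : finrank F U = blk r (Fintype.card F) := by omega
    have hc := isCompl_orth hA.oform hU
    have hU' : ND B (orth hA.oform U) := by
      have := split_ND_compl hA.oform hND hU le_top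
      rwa [top_inf_eq] at this
    have hd2 := Submodule.finrank_add_eq_of_isCompl hc
    have hres : ∀ W : Submodule F V, ND B W → ND (fun u v : W => B (u : V) (v : V)) (⊤ : Submodule F W) := by
      intro W hW u _ hu
      apply Subtype.ext
      exact hW u u.2 (fun v hv => hu ⟨v, hv⟩ Submodule.mem_top)
    obtain ⟨x₁, h1, h2, h3⟩ := exists_alt_full (V := U) hr2 hrp (hA.comp U.subtype) (hres U hU) hUd'
    obtain ⟨x₂, g1, g2, g3⟩ := ih (orth hA.oform U) (fun u v => B (u : V) (v : V)) (hA.comp (orth hA.oform U).subtype) (hres _ hU') (by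
      rw [add_mul, one_mul] at hj
      omega)
    refine ⟨glue hc x₁ x₂, ?_, ?_, ?_⟩
    · apply glue_isom hA.eform hc _ x₁ x₂ h1 g1
      intro u hu v hv
      exact hA.oform.refl _ _ (hv u hu)
    · rw [glue_pow, h2, g2, glue_one]
    · rw [finrank_ker_glue, h3, add_mul, one_mul]
      omega

/-- elements of symplectic groups with a given number of blocks -/
theorem exists_symp_elt (hr2 : r ≠ 2) (hrp : r ≠ p) {d : ℕ} (j : ℕ) (hj : j * blk r (Fintype.card F) ≤ 2 * d) :
    ∃ x : Matrix.symplecticGroup (Fin d) F, x ^ r = 1 ∧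
      finrank F (LinearMap.ker (Matrix.toLin' (x : Matrix (Fin d ⊕ Fin d) (Fin d ⊕ Fin d) F) - 1)) + j * blk r (Fintype.card F) = 2 * d := by
  have hfd : finrank F (Fin d ⊕ Fin d → F) = 2 * d := by
    rw [finrank_fintype_fun_eq_card, Fintype.card_sum, Fintype.card_fin]
    ring
  obtain ⟨x, h1, h2, h3⟩ := exists_alt_blocks hr2 hrp j (Fin d ⊕ Fin d → F) (Cfsg.sympForm d F) (sympForm_altForm d) (sympForm_ND d) (by rw [hfd]; exact hj)
  have hmem : LinearMap.toMatrix' x ∈ Matrix.symplecticGroup (Fin d) F := by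
    rw [Cfsg.Agent.ClGeo.mem_symplecticGroup_iff]
    intro u v
    rw [← Matrix.toLin'_apply, ← Matrix.toLin'_apply, Matrix.toLin'_toMatrix']
    exact h1 u v
  refine ⟨⟨LinearMap.toMatrix' x, hmem⟩, ?_, ?_⟩
  · apply Subtype.ext
    rw [symp_coe_pow]
    apply Matrix.toLin'.injective
    rw [Matrix.toLin'_pow, Matrix.toLin'_toMatrix', h2]
    change _ = Matrix.toLin' (1 : Matrix (Fin d ⊕ Fin d) (Fin d ⊕ Fin d) F)
    rw [Matrix.toLin'_one]
    rfl
  · rw [Matrix.toLin'_toMatrix', ← hfd]
    exact h3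

end

/-- a transitive family is as large as the index of a point stabilizer -/
lemma card_eq_index {G X : Type*} [Group G] (φ : G → X) (hφ : Function.Surjective φ) (S : Subgroup G) (h : ∀ g k, φ g = φ k ↔ g⁻¹ * k ∈ S) :
    Nat.card X = S.index := by
  unfold Subgroup.index
  apply Nat.card_congr
  symm
  refine Equiv.ofBijective (Quotient.lift φ ?_) ⟨?_, ?_⟩
  · intro a b hab
    rw [h]
    exact QuotientGroup.leftRel_apply.mp hab
  · intro a b
    refine Quotient.inductionOn₂ a b ?_
    intro a b hab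
    apply Quotient.sound
    exact QuotientGroup.leftRel_apply.mpr ((h a b).mp hab)
  · intro y
    obtain ⟨g, rfl⟩ := hφ y
    exact ⟨Quotient.mk _ g, rfl⟩

end Cfsg.Agent.H99
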