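import Mathlib
import Cfsg.Agent.H99.EForm

set_option autoImplicit false
set_option linter.unusedVariables false
set_option linter.unusedSectionVars false

/-! Dimensions of orthogonal complements (helper99). -/

namespace Cfsg.Agent.H99

open Module

section
variable {F V : Type*} [Field F] [Finite F] [AddCommGroup V] [Module F V] [FiniteDimensional F V]
variable {σ : F →+* F} {ε : F} {B : V → V → F}

theorem EForm.finrank_add_orth (hE : EForm σ ε B) (hND : ND B (⊤ : Submodule F V)) (P : Submodule F V) :
    finrank F P + finrank F (orth hE.oform P) = finrank F V := by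
  apply le_antisymm _ (finrank_le_add_orth hE.oform P)
  obtain ⟨W, hW⟩ := Submodule.exists_isCompl (orth hE.oform P)
  have h1 := Submodule.finrank_add_eq_of_isCompl hW
  let b := Module.finBasis F W
  let φ : P → (Fin (finrank F W) → F) := fun v j => B (b j : V) (v : V)
  have hinj : Function.Injective φ := by
    intro v v' h
    have h2 : ∀ u : V, B u ((v : V) - (v' : V)) = 0 := by
      have h3 : ∀ j, B (b j : V) ((v : V) - (v' : V)) = 0 := by
        intro j
        rw [hE.sub_right]
        have := congrFun h j
        change B (b j : V) (v : V) = B (b j : V) (v' : V) at this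
        rw [this, sub_self]
      have h4 : W ≤ LinearMap.ker (hE.oform.toLin ((v : V) - (v' : V))) := by
        have h5 : (⊤ : Submodule F W) ≤ (LinearMap.ker (hE.oform.toLin ((v : V) - (v' : V)))).comap W.subtype := by
          rw [← b.span_eq, Submodule.span_le]
          rintro _ ⟨j, rfl⟩
          exact h3 j
        intro w hw
        exact h5 (show (⟨w, hw⟩ : W) ∈ ⊤ from Submodule.mem_top)
      intro u
      have h5 : u ∈ orth hE.oform P ⊔ W := by rw [hW.sup_eq_top]; exact Submodule.mem_top
      obtain ⟨a, ha, c, hc, rfl⟩ := Submodule.mem_sup.mp h5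
      rw [hE.add_left]
      have h6 : B a ((v : V) - (v' : V)) = 0 := ha _ (P.sub_mem v.2 v'.2)
      have h7 : B c ((v : V) - (v' : V)) = 0 := h4 hc
      rw [h6, h7, add_zero]
    have h3 : (v : V) - (v' : V) = 0 := hND _ Submodule.mem_top (fun u _ => hE.oform.refl _ _ (h2 u))
    exact Subtype.ext (sub_eq_zero.mp h3)
  have hV : Finite V := Module.finite_of_finite F
  have h2 := Nat.card_le_card_of_injective φ hinj
  have : Fintype F := Fintype.ofFinite F
  rw [Module.natCard_eq_pow_finrank (K := F) (V := P), Module.natCard_eq_pow_finrank (K := F) (V := Fin (finrank F W) → F), finrank_fin_fun] at h2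
  have h3 : 1 < Nat.card F := by
    rw [Nat.card_eq_fintype_card]
    exact Fintype.one_lt_card
  have h4 := (Nat.pow_le_pow_iff_right h3).mp h2
  omega

/-- double orthogonal complements -/
theorem EForm.orth_orth (hE : EForm σ ε B) (hND : ND B (⊤ : Submodule F V)) (P : Submodule F V) :
    orth hE.oform (orth hE.oform P) = P := by
  symm
  apply Submodule.eq_of_le_of_finrank_eq
  · intro v hv u hu
    exact hE.oform.refl _ _ (hu v hv)
  · have h1 := hE.finrank_add_orth hND P
    have h2 := hE.finrank_add_orth hND (orth hE.oform P)
    omega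

/-- totally isotropic subspaces have at most half the dimension -/
theorem EForm.two_mul_finrank_le (hE : EForm σ ε B) (hND : ND B (⊤ : Submodule F V)) (P : Submodule F V) (hP : ∀ u ∈ P, ∀ v ∈ P, B u v = 0) :
    2 * finrank F P ≤ finrank F V := by
  have h2 := hE.finrank_add_orth hND P
  have h3 : P ≤ orth hE.oform P := fun u hu v hv => hP u hu v hv
  have h4 := Submodule.finrank_mono h3
  omega

end

end Cfsg.Agent.H99
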