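import Mathlib
import Cfsg.Agent.H99.SympElt
import Cfsg.Agent.H99.OrthDim
import Cfsg.Agent.ClGeo.SpBlocks
import Cfsg.Agent.Witt.Basic

set_option autoImplicit false
set_option linter.unusedVariables false
set_option linter.unusedSectionVars false

/-! Transitivity statements for symplectic groups (helper99). -/

namespace Cfsg.Agent.H99

open Module Polynomial Matrix

section
variable {F : Type*} [Field F] {d : ℕ}

lemma isom_injective {V : Type*} [AddCommGroup V] [Module F V] {B : V → V → F} (hB : OForm B) (hND : ND B (⊤ : Submodule F V)) (x : V →ₗ[F] V)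
    (hx : ∀ u v, B (x u) (x v) = B u v) : Function.Injective x := by
  rw [← LinearMap.ker_eq_bot, LinearMap.ker_eq_bot']
  intro u hu
  apply hND u Submodule.mem_top
  intro v _
  rw [← hx, hu, hB.zero_left]

/-- a symplectic matrix with given columns -/
theorem exists_symp_of_family (u w : Fin d → (Fin d ⊕ Fin d → F)) (hu : ∀ i j, Cfsg.sympForm d F (u i) (u j) = 0)
    (hw : ∀ i j, Cfsg.sympForm d F (w i) (w j) = 0) (hwu : ∀ i j, Cfsg.sympForm d F (w i) (u j) = if i = j then 1 else 0) :
    ∃ g : Matrix.symplecticGroup (Fin d) F, (∀ i, (g : Matrix (Fin d ⊕ Fin d) (Fin d ⊕ Fin d) F) *ᵥ Pi.single (Sum.inl i) 1 = u i) ∧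
      ∀ i, (g : Matrix (Fin d ⊕ Fin d) (Fin d ⊕ Fin d) F) *ᵥ Pi.single (Sum.inr i) 1 = w i := by
  have hA := sympForm_altForm (F := F) d
  let M : Matrix (Fin d ⊕ Fin d) (Fin d ⊕ Fin d) F := Matrix.of (fun k s => Sum.elim u w s k)
  have hM : ∀ s, M *ᵥ Pi.single s 1 = Sum.elim u w s := by
    intro s
    rw [Matrix.mulVec_single_one]
    rfl
  have hmem : M ∈ Matrix.symplecticGroup (Fin d) F := by
    rw [Cfsg.Agent.ClGeo.mem_symplecticGroup_iff]
    intro a b
    apply AltForm.eq_of_basis (hA.comp (Matrix.toLin' M)) hA (Pi.basisFun F (Fin d ⊕ Fin d))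
    intro s t
    simp only [Pi.basisFun_apply, Matrix.toLin'_apply, hM]
    rw [sympForm_eq d (Pi.single s 1)]
    rcases s with i | i <;> rcases t with j | j
    · simp only [Sum.elim_inl]
      rw [hu]
      simp [Pi.single_apply]
    · simp only [Sum.elim_inl, Sum.elim_inr]
      rw [hA.skew, hwu]
      simp [Pi.single_apply]
    · simp only [Sum.elim_inl, Sum.elim_inr]
      rw [hwu]
      simp [Pi.single_apply, eq_comm]
    · simp only [Sum.elim_inr]
      rw [hw]
      simp [Pi.single_apply]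
  exact ⟨⟨M, hmem⟩, fun i => hM _, fun i => hM _⟩

/-- dual families in complementary totally isotropic subspaces -/
theorem exists_dual_family {V : Type*} [AddCommGroup V] [Module F V] [FiniteDimensional F V] {B : V → V → F} (hA : AltForm B)
    (hND : ND B (⊤ : Submodule F V)) {U W : Submodule F V} (hc : IsCompl U W) (hW : ∀ u ∈ W, ∀ v ∈ W, B u v = 0) {m : ℕ}
    (hUd : finrank F U = m) (hWd : finrank F W = m) :
    ∃ (b : Basis (Fin m) F U) (w : Fin m → V), (∀ i, w i ∈ W) ∧ ∀ i j, B (w i) (b j : V) = if i = j then 1 else 0 := by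
  let b : Basis (Fin m) F U := (Module.finBasis F U).reindex (finCongr hUd)
  let T : W →ₗ[F] (Fin m → F) := LinearMap.pi fun j => (hA.oform.toLin (b j : V)) ∘ₗ W.subtype
  have hT : ∀ w j, T w j = B (w : V) (b j : V) := fun _ _ => rfl
  have hinj : Function.Injective T := by
    rw [← LinearMap.ker_eq_bot, LinearMap.ker_eq_bot']
    intro w hw
    apply Subtype.ext
    apply hND (w : V) Submodule.mem_top
    intro v _
    obtain ⟨u, w', rfl⟩ := exists_add_of_isCompl hc v
    rw [hA.add_right, hW _ w.2 _ w'.2, add_zero]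
    have h1 : U ≤ LinearMap.ker (hA.oform.toLin (w : V)) := by
      have h2 : (⊤ : Submodule F U) ≤ (LinearMap.ker (hA.oform.toLin (w : V))).comap U.subtype := by
        rw [← b.span_eq, Submodule.span_le]
        rintro _ ⟨j, rfl⟩
        rw [SetLike.mem_coe, Submodule.mem_comap, LinearMap.mem_ker]
        change B (b j : V) (w : V) = 0
        rw [hA.skew, ← hT, hw]
        simp
      intro u hu
      exact h2 (show (⟨u, hu⟩ : U) ∈ ⊤ from Submodule.mem_top)
    have h3 := h1 u.2
    rw [LinearMap.mem_ker] at h3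
    change B (u : V) (w : V) = 0 at h3
    rw [hA.skew, h3, neg_zero]
  have hsurj : Function.Surjective T := by
    apply (LinearMap.injective_iff_surjective_of_finrank_eq_finrank (by rw [hWd, finrank_fin_fun])).mp hinj
  choose w hw using fun i : Fin m => hsurj (Pi.single i 1)
  refine ⟨b, fun i => (w i : V), fun i => (w i).2, ?_⟩
  intro i j
  rw [← hT, hw, Pi.single_apply]
  simp [eq_comm]

/-- the standard totally isotropic subspaces -/
def topSub (d : ℕ) (F : Type*) [Field F] : Submodule F (Fin d ⊕ Fin d → F) :=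
  Submodule.span F (Set.range fun i : Fin d => Pi.single (Sum.inl i) 1)

def botSub (d : ℕ) (F : Type*) [Field F] : Submodule F (Fin d ⊕ Fin d → F) :=
  Submodule.span F (Set.range fun i : Fin d => Pi.single (Sum.inr i) 1)

lemma mem_topSub {v : Fin d ⊕ Fin d → F} : v ∈ topSub d F ↔ ∀ i, v (Sum.inr i) = 0 := by
  constructor
  · intro hv i
    have h1 : topSub d F ≤ LinearMap.ker (LinearMap.proj (R := F) (φ := fun _ => F) (Sum.inr i : Fin d ⊕ Fin d)) := by
      unfold topSub
      rw [Submodule.span_le]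
      rintro _ ⟨j, rfl⟩
      simp
    have h2 := h1 hv
    rw [LinearMap.mem_ker] at h2
    exact h2
  · intro h
    have h1 : v = ∑ i : Fin d, v (Sum.inl i) • (Pi.single (Sum.inl i) 1 : Fin d ⊕ Fin d → F) := by
      have h2 := pi_eq_sum_univ' v
      funext s
      rcases s with i | i
      · simp [Finset.sum_apply, Pi.single_apply]
      · simp [Finset.sum_apply, h i]
    rw [h1]
    exact Submodule.sum_mem _ (fun i _ => Submodule.smul_mem _ _ (Submodule.subset_span ⟨i, rfl⟩))

lemma mem_botSub {v : Fin d ⊕ Fin d → F} : v ∈ botSub d F ↔ ∀ i, v (Sum.inl i) = 0 := by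
  constructor
  · intro hv i
    have h1 : botSub d F ≤ LinearMap.ker (LinearMap.proj (R := F) (φ := fun _ => F) (Sum.inl i : Fin d ⊕ Fin d)) := by
      unfold botSub
      rw [Submodule.span_le]
      rintro _ ⟨j, rfl⟩
      simp
    have h2 := h1 hv
    rw [LinearMap.mem_ker] at h2
    exact h2
  · intro h
    have h1 : v = ∑ i : Fin d, v (Sum.inr i) • (Pi.single (Sum.inr i) 1 : Fin d ⊕ Fin d → F) := by
      funext s
      rcases s with i | i
      · simp [Finset.sum_apply, h i]
      · simp [Finset.sum_apply, Pi.single_apply]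
    rw [h1]
    exact Submodule.sum_mem _ (fun i _ => Submodule.smul_mem _ _ (Submodule.subset_span ⟨i, rfl⟩))

/-- transitivity on pairs of complementary totally isotropic subspaces -/
theorem exists_symp_map_pair {U W : Submodule F (Fin d ⊕ Fin d → F)} (hc : IsCompl U W) (hU : ∀ u ∈ U, ∀ v ∈ U, Cfsg.sympForm d F u v = 0)
    (hW : ∀ u ∈ W, ∀ v ∈ W, Cfsg.sympForm d F u v = 0) (hUd : finrank F U = d) (hWd : finrank F W = d) :
    ∃ g : Matrix.symplecticGroup (Fin d) F, (topSub d F).map (Matrix.toLin' (g : Matrix (Fin d ⊕ Fin d) (Fin d ⊕ Fin d) F)) = U ∧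
      (botSub d F).map (Matrix.toLin' (g : Matrix (Fin d ⊕ Fin d) (Fin d ⊕ Fin d) F)) = W := by
  obtain ⟨b, w, hw1, hw2⟩ := exists_dual_family (sympForm_altForm d) (sympForm_ND d) hc hW hUd hWd
  obtain ⟨g, h1, h2⟩ := exists_symp_of_family (fun i => (b i : Fin d ⊕ Fin d → F)) w (fun i j => hU _ (b i).2 _ (b j).2)
    (fun i j => hW _ (hw1 i) _ (hw1 j)) hw2
  have hinj : Function.Injective (Matrix.toLin' (g : Matrix (Fin d ⊕ Fin d) (Fin d ⊕ Fin d) F)) :=
    isom_injective (sympForm_altForm d).oform (sympForm_ND d) _ (sympForm_toLin' d g.2)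
  have h3 : (topSub d F).map (Matrix.toLin' (g : Matrix (Fin d ⊕ Fin d) (Fin d ⊕ Fin d) F)) ≤ U := by
    unfold topSub
    rw [Submodule.map_span, Submodule.span_le]
    rintro _ ⟨_, ⟨i, rfl⟩, rfl⟩
    rw [Matrix.toLin'_apply, h1]
    exact (b i).2
  have h4 : (botSub d F).map (Matrix.toLin' (g : Matrix (Fin d ⊕ Fin d) (Fin d ⊕ Fin d) F)) ≤ W := by
    unfold botSub
    rw [Submodule.map_span, Submodule.span_le]
    rintro _ ⟨_, ⟨i, rfl⟩, rfl⟩
    rw [Matrix.toLin'_apply, h2]
    exact hw1 i
  have h5 : finrank F (topSub d F) = d := by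
    unfold topSub
    rw [finrank_span_eq_card]
    · simp
    · have := (Pi.basisFun F (Fin d ⊕ Fin d)).linearIndependent.comp (Sum.inl : Fin d → Fin d ⊕ Fin d) Sum.inl_injective
      simpa [Function.comp_def] using this
  have h6 : finrank F (botSub d F) = d := by
    unfold botSub
    rw [finrank_span_eq_card]
    · simp
    · have := (Pi.basisFun F (Fin d ⊕ Fin d)).linearIndependent.comp (Sum.inr : Fin d → Fin d ⊕ Fin d) Sum.inr_injective
      simpa [Function.comp_def] using this
  refine ⟨g, ?_, ?_⟩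
  · apply Submodule.eq_of_le_of_finrank_eq h3
    rw [← LinearEquiv.finrank_eq (Submodule.equivMapOfInjective _ hinj _), h5, hUd]
  · apply Submodule.eq_of_le_of_finrank_eq h4
    rw [← LinearEquiv.finrank_eq (Submodule.equivMapOfInjective _ hinj _), h6, hWd]

/-- the action of the symplectic group on subspaces -/
@[reducible] noncomputable def spAct (d : ℕ) (F : Type*) [Field F] : MulAction (Matrix.symplecticGroup (Fin d) F) (Submodule F (Fin d ⊕ Fin d → F)) where
  smul g U := U.map (Matrix.toLin' (g : Matrix (Fin d ⊕ Fin d) (Fin d ⊕ Fin d) F))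
  one_smul U := by
    change U.map (Matrix.toLin' (1 : Matrix (Fin d ⊕ Fin d) (Fin d ⊕ Fin d) F)) = U
    rw [Matrix.toLin'_one, Submodule.map_id]
  mul_smul g k U := by
    change U.map (Matrix.toLin' ((g : Matrix (Fin d ⊕ Fin d) (Fin d ⊕ Fin d) F) * (k : Matrix (Fin d ⊕ Fin d) (Fin d ⊕ Fin d) F))) = (U.map _).map _
    rw [Matrix.toLin'_mul, Submodule.map_comp]

attribute [local instance] spAct

lemma spAct_def (g : Matrix.symplecticGroup (Fin d) F) (U : Submodule F (Fin d ⊕ Fin d → F)) :
    g • U = U.map (Matrix.toLin' (g : Matrix (Fin d ⊕ Fin d) (Fin d ⊕ Fin d) F)) := rfl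

end

/-- counting an orbit given by a predicate -/
lemma card_eq_index_stabilizer {G Y : Type*} [Group G] [MulAction G Y] {pr : Y → Prop} (y₀ : Y) (h : ∀ y, pr y ↔ y ∈ MulAction.orbit G y₀) :
    Nat.card {y // pr y} = (MulAction.stabilizer G y₀).index := by
  rw [MulAction.index_stabilizer, ← Nat.card_coe_set_eq]
  apply Nat.card_congr
  exact Equiv.subtypeEquivRight h

/-- a prime dividing the index divides the quotient by a subgroup of the stabilizer -/
lemma dvd_of_dvd_index {G L : Type*} [Group G] [Finite G] [Group L] {r a : ℕ} (S : Subgroup G) (ψ : L →* G)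
    (hψ : Function.Injective ψ) (hS : ∀ l, ψ l ∈ S) (hr : r ∣ S.index) (ha : a * Nat.card L = Nat.card G) : r ∣ a := by
  have h1 := Subgroup.index_mul_card S
  have h2 : Nat.card L ∣ Nat.card S := by
    apply Subgroup.card_dvd_of_injective (ψ.codRestrict S hS)
    intro x y hxy
    exact hψ (congrArg Subtype.val hxy)
  obtain ⟨m, hm⟩ := h2
  have hL : Finite L := Finite.of_injective ψ hψ
  have hL0 : 0 < Nat.card L := Nat.card_pos
  have h3 : a = S.index * m := by
    apply Nat.eq_of_mul_eq_mul_right hL0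
    rw [ha, ← h1, hm]
    ring
  rw [h3]
  exact hr.mul_right _

end Cfsg.Agent.H99
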