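import Mathlib
import Cfsg.Agent.H99.SympTrans

set_option autoImplicit false
set_option linter.unusedVariables false
set_option linter.unusedSectionVars false

/-! Reductions for elements of odd prime order of projective symplectic groups (helper99). -/

namespace Cfsg.Agent.H99

open Module Polynomial Matrix

section
variable {F : Type*} [Field F] {d : ℕ}

lemma finrank_symp (d : ℕ) (F : Type*) [Field F] : finrank F (Fin d ⊕ Fin d → F) = 2 * d := by
  rw [finrank_fintype_fun_eq_card, Fintype.card_sum, Fintype.card_fin]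
  ring

lemma exists_symp_ne_zero (hd : 0 < d) : ∃ u v : Fin d ⊕ Fin d → F, Cfsg.sympForm d F u v ≠ 0 := by
  by_contra hcon
  push Not at hcon
  have h3 : (⊤ : Submodule F (Fin d ⊕ Fin d → F)) = ⊥ := by
    rw [eq_bot_iff]
    intro u hu
    exact sympForm_ND d u hu (fun v _ => hcon u v)
  have h4 : finrank F (⊤ : Submodule F (Fin d ⊕ Fin d → F)) = 0 := by rw [h3, finrank_bot]
  rw [finrank_top, finrank_symp] at h4
  omega

/-- passing to an isometry of order dividing `r` -/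
theorem symp_reduce (hd : 0 < d) {r : ℕ} [Fact r.Prime] (hr2 : r ≠ 2) (x : Matrix.symplecticGroup (Fin d) F) (z : F)
    (hz : ((x ^ r : Matrix.symplecticGroup (Fin d) F) : Matrix (Fin d ⊕ Fin d) (Fin d ⊕ Fin d) F) = z • (1 : Matrix (Fin d ⊕ Fin d) (Fin d ⊕ Fin d) F)) :
    ∃ w : F, w * w = 1 ∧ (w • Matrix.toLin' (x : Matrix (Fin d ⊕ Fin d) (Fin d ⊕ Fin d) F)) ^ r = 1 ∧
      ∀ u v, Cfsg.sympForm d F ((w • Matrix.toLin' (x : Matrix (Fin d ⊕ Fin d) (Fin d ⊕ Fin d) F)) u)
        ((w • Matrix.toLin' (x : Matrix (Fin d ⊕ Fin d) (Fin d ⊕ Fin d) F)) v) = Cfsg.sympForm d F u v := by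
  have hr : r.Prime := Fact.out
  have hA := sympForm_altForm (F := F) d
  set f := Matrix.toLin' (x : Matrix (Fin d ⊕ Fin d) (Fin d ⊕ Fin d) F) with hf
  have hfi : ∀ u v, Cfsg.sympForm d F (f u) (f v) = Cfsg.sympForm d F u v := sympForm_toLin' d x.2
  have hfr : f ^ r = z • 1 := by
    rw [hf, ← Matrix.toLin'_pow, ← symp_coe_pow, hz]
    ext v
    simp
  obtain ⟨u, v, huv⟩ := exists_symp_ne_zero (F := F) hd
  have h1 := isom_pow hfi r u v
  rw [hfr] at h1
  simp only [LinearMap.smul_apply, Module.End.one_apply] at h1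
  rw [hA.smul_left, hA.smul_right] at h1
  have hz2 : z * z = 1 := by
    apply mul_right_cancel₀ huv
    rw [one_mul, mul_assoc]
    exact h1
  refine ⟨z, hz2, ?_, ?_⟩
  · obtain ⟨k, hk⟩ : Odd r := hr.eq_two_or_odd'.resolve_left hr2
    rw [_root_.smul_pow, hfr, smul_smul, ← pow_succ, hk, show 2 * k + 1 + 1 = 2 * (k + 1) by ring, pow_mul, pow_two, hz2, one_pow, one_smul]
  · intro u v
    simp only [LinearMap.smul_apply]
    rw [hA.smul_left, hA.smul_right, ← mul_assoc, hz2, one_mul, hfi]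

/-- elements with a proper fixed space are not scalar -/
theorem symp_not_scalar (hd : 0 < d) {r : ℕ} [Fact r.Prime] (hr2 : r ≠ 2) (x : Matrix.symplecticGroup (Fin d) F) (hx : x ^ r = 1)
    (hx1 : x ≠ 1) (z : F) : (x : Matrix (Fin d ⊕ Fin d) (Fin d ⊕ Fin d) F) ≠ z • (1 : Matrix (Fin d ⊕ Fin d) (Fin d ⊕ Fin d) F) := by
  intro hz
  have hr : r.Prime := Fact.out
  have hA := sympForm_altForm (F := F) d
  set f := Matrix.toLin' (x : Matrix (Fin d ⊕ Fin d) (Fin d ⊕ Fin d) F) with hf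
  have hfi : ∀ u v, Cfsg.sympForm d F (f u) (f v) = Cfsg.sympForm d F u v := sympForm_toLin' d x.2
  have h1 : f = z • 1 := by
    rw [hf, hz]
    ext v
    simp
  have hfr : f ^ r = 1 := by
    rw [hf, ← Matrix.toLin'_pow, ← symp_coe_pow, hx]
    change Matrix.toLin' (1 : Matrix (Fin d ⊕ Fin d) (Fin d ⊕ Fin d) F) = 1
    rw [Matrix.toLin'_one]
    rfl
  obtain ⟨u, v, huv⟩ := exists_symp_ne_zero (F := F) hd
  have h3 := hfi u v
  rw [h1] at h3
  simp only [LinearMap.smul_apply, Module.End.one_apply] at h3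
  rw [hA.smul_left, hA.smul_right] at h3
  have h4 : z * z = 1 := by
    apply mul_right_cancel₀ huv
    rw [one_mul, mul_assoc]
    exact h3
  have h5 : z ^ r = 1 := by
    have h6 := hfr
    rw [h1, _root_.smul_pow, one_pow] at h6
    have hw : u ≠ 0 := by
      rintro rfl
      exact huv (hA.oform.zero_left v)
    have h7 := LinearMap.congr_fun h6 u
    rw [LinearMap.smul_apply, Module.End.one_apply] at h7
    have h8 : (z ^ r - 1) • u = 0 := by rw [sub_smul, one_smul, h7, sub_self]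
    rcases smul_eq_zero.mp h8 with h9 | h9
    · exact sub_eq_zero.mp h9
    · exact absurd h9 hw
  obtain ⟨k, hk⟩ : Odd r := hr.eq_two_or_odd'.resolve_left hr2
  rw [hk, pow_succ, pow_mul, pow_two, h4, one_pow, one_mul] at h5
  apply hx1
  apply Subtype.ext
  rw [hz, h5, one_smul]
  rfl

/-- invariance under a scalar multiple -/
lemma map_le_of_smul {V : Type*} [AddCommGroup V] [Module F V] {f : V →ₗ[F] V} {w : F} (hw : w ≠ 0) {U : Submodule F V} (h : ∀ v ∈ U, (w • f) v ∈ U) :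
    U.map f ≤ U := by
  rintro _ ⟨v, hv, rfl⟩
  have h1 := U.smul_mem w⁻¹ (h v hv)
  rwa [LinearMap.smul_apply, smul_smul, inv_mul_cancel₀ hw, one_smul] at h1

/-- the order of the symplectic group and the block size -/
theorem blk_le_of_dvd_card [Fintype F] {p : ℕ} [Fact p.Prime] [CharP F p] {r : ℕ} [Fact r.Prime] (hr2 : r ≠ 2) (hrp : r ≠ p)
    (h : r ∣ Nat.card (Matrix.symplecticGroup (Fin d) F)) : blk r (Fintype.card F) ≤ 2 * d := by
  have hr : r.Prime := Fact.out
  have hQ : ¬ r ∣ Fintype.card F := prime_not_dvd_card hrp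
  rw [Cfsg.Agent.ClassSp.card_fin] at h
  rcases hr.dvd_mul.mp h with h | h
  · exact absurd (hr.dvd_of_dvd_pow h) hQ
  · obtain ⟨i, hi, h1⟩ := (Prime.dvd_finsetProd_iff hr.prime _).mp h
    rw [dvd_pow_sub_one_iff Fintype.card_pos] at h1
    rw [Finset.mem_range] at hi
    have h2 : blk r (Fintype.card F) ∣ 2 * (i + 1) := by
      unfold blk
      split_ifs with he
      · exact h1
      · rw [Nat.not_even_iff_odd] at he
        apply Nat.mul_dvd_mul_left
        apply (Nat.Coprime.dvd_mul_left _).mp h1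
        exact (Nat.coprime_two_right).mpr he
    have h3 := Nat.le_of_dvd (by omega) h2
    omega

/-- nondegenerate subspaces of the same dimension: an isometry between them -/
theorem exists_isometry_ND {V : Type*} [AddCommGroup V] [Module F V] [FiniteDimensional F V] {B : V → V → F} (hA : AltForm B)
    {U U' : Submodule F V} (hU : ND B U) (hU' : ND B U') (hd : finrank F U = finrank F U') :
    ∃ φ : U ≃ₗ[F] U', ∀ u v : U, B (φ u : V) (φ v : V) = B (u : V) (v : V) := by
  have hres : ∀ W : Submodule F V, ND B W → ND (fun u v : W => B (u : V) (v : V)) (⊤ : Submodule F W) := by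
    intro W hW u _ hu
    apply Subtype.ext
    exact hW u u.2 (fun v hv => hu ⟨v, hv⟩ Submodule.mem_top)
  obtain ⟨m, hm⟩ := hA.even_finrank_sub hU
  obtain ⟨E, hE⟩ := exists_equiv_sympForm (hA.comp U.subtype) (hres U hU) (m := m) (by omega)
  obtain ⟨E', hE'⟩ := exists_equiv_sympForm (hA.comp U'.subtype) (hres U' hU') (m := m) (by omega)
  refine ⟨E.symm.trans E', ?_⟩
  intro u v
  have h1 := hE' (E.symm u) (E.symm v)
  have h2 := hE (E.symm u) (E.symm v)
  rw [E.apply_symm_apply, E.apply_symm_apply] at h2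
  exact h1.trans h2.symm

/-- a linear isometry gives a symplectic matrix -/
theorem exists_symp_of_isometry (g : (Fin d ⊕ Fin d → F) →ₗ[F] (Fin d ⊕ Fin d → F)) (hg : ∀ u v, Cfsg.sympForm d F (g u) (g v) = Cfsg.sympForm d F u v) :
    ∃ x : Matrix.symplecticGroup (Fin d) F, Matrix.toLin' (x : Matrix (Fin d ⊕ Fin d) (Fin d ⊕ Fin d) F) = g := by
  have hmem : LinearMap.toMatrix' g ∈ Matrix.symplecticGroup (Fin d) F := by
    rw [Cfsg.Agent.ClGeo.mem_symplecticGroup_iff]
    intro u v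
    rw [← Matrix.toLin'_apply, ← Matrix.toLin'_apply, Matrix.toLin'_toMatrix']
    exact hg u v
  exact ⟨⟨_, hmem⟩, Matrix.toLin'_toMatrix' g⟩

/-- extension of isometries between subspaces -/
theorem exists_symp_extend {U U' : Submodule F (Fin d ⊕ Fin d → F)} (φ : U ≃ₗ[F] U')
    (hφ : ∀ u v : U, Cfsg.sympForm d F (φ u : Fin d ⊕ Fin d → F) (φ v : Fin d ⊕ Fin d → F) = Cfsg.sympForm d F (u : Fin d ⊕ Fin d → F) (v : Fin d ⊕ Fin d → F)) :
    ∃ x : Matrix.symplecticGroup (Fin d) F, U.map (Matrix.toLin' (x : Matrix (Fin d ⊕ Fin d) (Fin d ⊕ Fin d) F)) = U' ∧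
      ∀ u : U, Matrix.toLin' (x : Matrix (Fin d ⊕ Fin d) (Fin d ⊕ Fin d) F) u = φ u := by
  have hW := Cfsg.Agent.Witt.isWittForm_of_isAlt _ (Cfsg.Agent.ClGeo.sB_nondegenerate (F := F) d) (Cfsg.Agent.ClGeo.sB_isAlt d)
  obtain ⟨g, hg1, hg2⟩ := hW.extend U U' φ (by
    intro u v
    rw [Cfsg.Agent.ClGeo.sB_apply, Cfsg.Agent.ClGeo.sB_apply]
    exact hφ u v)
  obtain ⟨x, hx⟩ := exists_symp_of_isometry (F := F) (d := d) g.toLinearMap (by
    intro u v
    have := hg1 u v
    rw [Cfsg.Agent.ClGeo.sB_apply, Cfsg.Agent.ClGeo.sB_apply] at this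
    exact this)
  refine ⟨x, ?_, ?_⟩
  · rw [hx]
    apply le_antisymm
    · rintro _ ⟨u, hu, rfl⟩
      rw [LinearEquiv.coe_coe, hg2 ⟨u, hu⟩]
      exact (φ ⟨u, hu⟩).2
    · intro v hv
      refine ⟨(φ.symm ⟨v, hv⟩ : U), (φ.symm ⟨v, hv⟩).2, ?_⟩
      rw [LinearEquiv.coe_coe, hg2, φ.apply_symm_apply]
  · intro u
    rw [hx]
    exact hg2 u

end

end Cfsg.Agent.H99
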