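import Mathlib
import Cfsg.Agent.H99.PrimeElt

set_option autoImplicit false

/-! Jordan decomposition of nilpotent and unipotent endomorphisms (helper99). -/

namespace Cfsg.Agent.H99

open Module Polynomial

universe u

lemma CycDecomp.dvd_of_aeval_eq_zero {F V : Type*} [Field F] [AddCommGroup V] [Module F V] {f : V →ₗ[F] V} {ι : Type*}
    {P : ι → F[X]} (D : CycDecomp f P) (μ : F[X]) (h : aeval f μ = 0) (j : ι) : P j ∣ μ := by
  have hm := D.monic j
  by_cases hone : P j = 1
  · rw [hone]; exact one_dvd _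
  have h1 : (aeval f (μ %ₘ (P j))) (D.gen j) = 0 := by
    have h2 := congrArg (fun R : F[X] => (aeval f R) (D.gen j)) (modByMonic_add_div μ (P j))
    simp only [map_add, map_mul, LinearMap.add_apply, Module.End.mul_apply, h, LinearMap.zero_apply] at h2
    have h3 : (aeval f (P j)) ((aeval f (μ /ₘ (P j))) (D.gen j)) = 0 := by
      rw [← Module.End.mul_apply, ← map_mul, mul_comm, map_mul, Module.End.mul_apply, D.aeval_eq, map_zero]
    rw [h3, add_zero] at h2
    exact h2
  rw [← modByMonic_eq_zero_iff_dvd hm]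
  have hdeg : (μ %ₘ (P j)).natDegree < (P j).natDegree := natDegree_modByMonic_lt _ hm hone
  set R := μ %ₘ (P j) with hR
  rw [aeval_eq_sum_range' hdeg, LinearMap.sum_apply, Finset.sum_range] at h1
  have h2 : ∑ s : Fin (P j).natDegree, R.coeff s • D.basis ⟨j, s⟩ = 0 := by
    rw [← h1]
    apply Finset.sum_congr rfl
    intro s _
    rw [D.basis_eq]
    rfl
  have hli : LinearIndependent F (fun s : Fin (P j).natDegree => D.basis ⟨j, s⟩) :=
    D.basis.linearIndependent.comp _ (fun a b hab => by simpa using hab)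
  have h3 := Fintype.linearIndependent_iff.mp hli _ h2
  ext s
  rw [coeff_zero]
  rcases Nat.lt_or_ge s (P j).natDegree with h4 | h4
  · exact h3 ⟨s, h4⟩
  · exact coeff_eq_zero_of_natDegree_lt (by omega)

section
variable {F : Type u} {V : Type u} [Field F] [AddCommGroup V] [Module F V] [FiniteDimensional F V]

/-- Jordan decomposition of nilpotent endomorphisms -/
theorem exists_jordan (N : V →ₗ[F] V) (p : ℕ) (hN : N ^ p = 0) :
    ∃ (k : ℕ) (e : Fin k → ℕ), (∀ j, 0 < e j ∧ e j ≤ p) ∧ Nonempty (CycDecomp N (fun j => (X : F[X]) ^ e j)) := by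
  obtain ⟨k, P, e, hP, ⟨D⟩⟩ := exists_cycDecomp N
  have h1 : aeval N (X ^ p : F[X]) = 0 := by rw [map_pow, aeval_X, hN]
  have h2 : ∀ j, P j ^ e j ∣ X ^ p := fun j => D.dvd_of_aeval_eq_zero _ h1 j
  have h3 : ∀ j, P j = X := by
    intro j
    have h4 : P j ∣ X ^ p := (dvd_pow_self _ (hP j).2.2.ne').trans (h2 j)
    have h5 : P j ∣ X := (hP j).2.1.prime.dvd_of_dvd_pow h4
    exact eq_of_monic_of_associated (hP j).1 monic_X ((hP j).2.1.associated_of_dvd irreducible_X h5)
  obtain rfl : P = fun _ => X := funext h3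
  refine ⟨k, e, fun j => ⟨(hP j).2.2, ?_⟩, ⟨D⟩⟩
  have h4 := natDegree_le_of_dvd (h2 j) (pow_ne_zero _ X_ne_zero)
  simpa using h4

end

section
variable {F V : Type*} [Field F] [AddCommGroup V] [Module F V] {N : V →ₗ[F] V} {ι : Type*} [Fintype ι] {e : ι → ℕ}

omit [Fintype ι] in
lemma jordan_pow_apply (D : CycDecomp N (fun j => (X : F[X]) ^ e j)) (s : ℕ) (j : ι) (t : Fin ((X : F[X]) ^ e j).natDegree) :
    (N ^ s) (D.basis ⟨j, t⟩) = if h : (t : ℕ) + s < ((X : F[X]) ^ e j).natDegree then D.basis ⟨j, ⟨t + s, h⟩⟩ else 0 := by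
  induction s generalizing t with
  | zero =>
    have := t.2
    rw [dif_pos (by omega)]
    rfl
  | succ s ih =>
    rw [pow_succ, Module.End.mul_apply]
    rcases Nat.lt_or_ge ((t : ℕ) + 1) ((X : F[X]) ^ e j).natDegree with h | h
    · rw [D.apply_basis_lt j t h, ih]
      simp only [add_assoc, add_comm 1 s]
    · have h' : (t : ℕ) + 1 = ((X : F[X]) ^ e j).natDegree := by have := t.2; omega
      rw [D.apply_basis_last j t h', dif_neg (by omega)]
      have h0 : ∑ u : Fin ((X : F[X]) ^ e j).natDegree, ((X : F[X]) ^ e j).coeff u • D.basis ⟨j, u⟩ = 0 := by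
        apply Finset.sum_eq_zero
        intro u _
        have hu := u.2
        have : ((X : F[X]) ^ e j).coeff u = 0 := by
          rw [coeff_X_pow, if_neg]
          have h3 : ((X : F[X]) ^ e j).natDegree = e j := natDegree_X_pow _
          omega
        rw [this, zero_smul]
      rw [h0, neg_zero, map_zero]

/-- ranks of the powers -/
theorem jordan_finrank_range (D : CycDecomp N (fun j => (X : F[X]) ^ e j)) (s : ℕ) :
    finrank F (LinearMap.range (N ^ s)) = ∑ j, (e j - s) := by
  classical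
  have h1 : LinearMap.range (N ^ s) = blockSpan D.basis
      (Finset.univ.filter (fun x : (Σ j, Fin ((X : F[X]) ^ e j).natDegree) => s ≤ (x.2 : ℕ))) := by
    unfold blockSpan
    rw [LinearMap.range_eq_map, ← D.basis.span_eq, Submodule.map_span]
    apply le_antisymm
    · rw [Submodule.span_le]
      rintro _ ⟨_, ⟨⟨j, t⟩, rfl⟩, rfl⟩
      rw [jordan_pow_apply D]
      split_ifs with h
      · apply Submodule.subset_span
        refine ⟨⟨j, ⟨t + s, h⟩⟩, ?_, rfl⟩
        simp
      · exact Submodule.zero_mem _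
    · apply Submodule.span_mono
      rintro _ ⟨⟨j, t⟩, ht, rfl⟩
      rw [Finset.mem_coe, Finset.mem_filter] at ht
      have ht2 : s ≤ (t : ℕ) := ht.2
      have ht3 := t.2
      refine ⟨D.basis ⟨j, ⟨t - s, by omega⟩⟩, ⟨_, rfl⟩, ?_⟩
      rw [jordan_pow_apply D]
      have h2 : ((⟨t - s, by omega⟩ : Fin ((X : F[X]) ^ e j).natDegree) : ℕ) + s = t := by
        change (t : ℕ) - s + s = t
        omega
      rw [dif_pos (by rw [h2]; exact ht3)]
      congr 2
      exact Fin.ext h2
  rw [h1, finrank_blockSpan]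
  have h2 : (Finset.univ.filter (fun x : (Σ j, Fin ((X : F[X]) ^ e j).natDegree) => s ≤ (x.2 : ℕ)))
      = Finset.univ.sigma (fun j => Finset.univ.filter (fun t : Fin ((X : F[X]) ^ e j).natDegree => s ≤ (t : ℕ))) := by
    ext ⟨j, t⟩
    simp
  rw [h2, Finset.card_sigma]
  apply Finset.sum_congr rfl
  intro j _
  have h3 : ((X : F[X]) ^ e j).natDegree = e j := natDegree_X_pow _
  have h4 : ∀ d : ℕ, (Finset.univ.filter (fun t : Fin d => s ≤ (t : ℕ))).card = d - s := by
    intro d
    have h5 : (Finset.univ.filter (fun t : Fin d => s ≤ (t : ℕ)))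
        = Finset.univ.image (fun u : Fin (d - s) => (⟨u + s, by have := u.2; omega⟩ : Fin d)) := by
      ext t
      simp only [Finset.mem_filter, Finset.mem_univ, true_and, Finset.mem_image]
      constructor
      · intro ht
        exact ⟨⟨t - s, by have := t.2; omega⟩, Fin.ext (by simp; omega)⟩
      · rintro ⟨u, rfl⟩
        simp
    rw [h5, Finset.card_image_of_injective _ (fun a b hab => by
      rw [Fin.mk.injEq] at hab
      exact Fin.ext (by omega)), Finset.card_univ, Fintype.card_fin]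
  rw [h4, h3]

end

/-! ### multisets of block sizes -/

/-- a multiset of positive numbers is determined by its truncated sums -/
theorem multiset_eq_of_trunc {μ ν : Multiset ℕ} (hμ : ∀ a ∈ μ, 0 < a) (hν : ∀ a ∈ ν, 0 < a)
    (h : ∀ s : ℕ, (μ.map (fun a => a - s)).sum = (ν.map (fun a => a - s)).sum) : μ = ν := by
  have key : ∀ (μ : Multiset ℕ) (s : ℕ), (μ.map (fun a => a - s)).sum + (μ.map (fun a => a - (s + 2))).sum
      = 2 * (μ.map (fun a => a - (s + 1))).sum + μ.count (s + 1) := by
    intro μ s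
    induction μ using Multiset.induction with
    | empty => simp
    | cons a μ ih =>
      rw [Multiset.map_cons, Multiset.map_cons, Multiset.map_cons, Multiset.sum_cons, Multiset.sum_cons, Multiset.sum_cons,
        Multiset.count_cons]
      split_ifs with h1
      · omega
      · omega
  ext a
  rcases Nat.eq_zero_or_pos a with rfl | ha
  · rw [Multiset.count_eq_zero_of_notMem (fun h0 => lt_irrefl _ (hμ 0 h0)),
      Multiset.count_eq_zero_of_notMem (fun h0 => lt_irrefl _ (hν 0 h0))]
  · obtain ⟨s, rfl⟩ : ∃ s, a = s + 1 := ⟨a - 1, by omega⟩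
    have h1 := key μ s
    have h2 := key ν s
    have h3 := h s
    have h4 := h (s + 1)
    have h5 := h (s + 2)
    omega

/-- sub-multisets of a mapped multiset -/
lemma exists_le_of_le_map {α : Type*} (e : α → ℕ) (s : Multiset α) (ν : Multiset ℕ) (h : ν ≤ s.map e) :
    ∃ t ≤ s, t.map e = ν := by
  classical
  induction s using Multiset.induction generalizing ν with
  | empty =>
    rw [Multiset.map_zero, Multiset.le_zero] at h
    exact ⟨0, le_rfl, by simp [h]⟩
  | cons a s ih =>
    rw [Multiset.map_cons] at h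
    by_cases ha : e a ∈ ν
    · obtain ⟨ν', rfl⟩ := Multiset.exists_cons_of_mem ha
      rw [Multiset.cons_le_cons_iff] at h
      obtain ⟨t, ht, rfl⟩ := ih ν' h
      exact ⟨a ::ₘ t, Multiset.cons_le_cons a ht, Multiset.map_cons e a t⟩
    · obtain ⟨t, ht, rfl⟩ := ih ν ((Multiset.le_cons_of_notMem ha).mp h)
      exact ⟨t, ht.trans (Multiset.le_cons_self _ _), rfl⟩

lemma exists_finset_of_le_map {α : Type*} [Fintype α] (e : α → ℕ) (ν : Multiset ℕ)
    (h : ν ≤ (Finset.univ : Finset α).val.map e) : ∃ A : Finset α, A.val.map e = ν := by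
  obtain ⟨t, ht, h2⟩ := exists_le_of_le_map e _ ν h
  exact ⟨⟨t, Multiset.nodup_of_le ht Finset.univ.nodup⟩, h2⟩

section
variable {F V : Type*} [Field F] [AddCommGroup V] [Module F V] [FiniteDimensional F V]

/-- Jordan type of a direct sum -/
theorem jordan_type_add {N : V →ₗ[F] V} {U W : Submodule F V} (hUW : IsCompl U W) (hU : ∀ v ∈ U, N v ∈ U)
    (hW : ∀ v ∈ W, N v ∈ W) {a b c : ℕ} {e : Fin a → ℕ} {e₁ : Fin b → ℕ} {e₂ : Fin c → ℕ}
    (he : ∀ j, 0 < e j) (he₁ : ∀ j, 0 < e₁ j) (he₂ : ∀ j, 0 < e₂ j)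
    (D : CycDecomp N (fun j => (X : F[X]) ^ e j)) (D₁ : CycDecomp (N.restrict hU) (fun j => (X : F[X]) ^ e₁ j))
    (D₂ : CycDecomp (N.restrict hW) (fun j => (X : F[X]) ^ e₂ j)) :
    (Finset.univ : Finset (Fin a)).val.map e = (Finset.univ : Finset (Fin b)).val.map e₁ + (Finset.univ : Finset (Fin c)).val.map e₂ := by
  apply multiset_eq_of_trunc
  · intro x hx
    obtain ⟨j, _, rfl⟩ := Multiset.mem_map.mp hx
    exact he j
  · intro x hx
    rcases Multiset.mem_add.mp hx with hx | hx
    · obtain ⟨j, _, rfl⟩ := Multiset.mem_map.mp hx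
      exact he₁ j
    · obtain ⟨j, _, rfl⟩ := Multiset.mem_map.mp hx
      exact he₂ j
  · intro s
    rw [Multiset.map_add, Multiset.sum_add, Multiset.map_map, Multiset.map_map, Multiset.map_map]
    change ∑ j, (e j - s) = ∑ j, (e₁ j - s) + ∑ j, (e₂ j - s)
    rw [← jordan_finrank_range D, ← jordan_finrank_range D₁, ← jordan_finrank_range D₂]
    -- ranges
    have hpow : ∀ (U : Submodule F V) (hU : ∀ v ∈ U, N v ∈ U) (k : ℕ) (v : U), (((N.restrict hU) ^ k) v : V) = (N ^ k) v := by
      intro U hU k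
      induction k with
      | zero => intro v; rfl
      | succ k ih =>
        intro v
        rw [pow_succ, pow_succ, Module.End.mul_apply, Module.End.mul_apply, ih]
        rfl
    have h1 : ∀ (U : Submodule F V) (hU : ∀ v ∈ U, N v ∈ U),
        finrank F (LinearMap.range ((N.restrict hU) ^ s)) = finrank F (U.map (N ^ s)) ∧ U.map (N ^ s) ≤ U := by
      intro U hU
      have h2 : (LinearMap.range ((N.restrict hU) ^ s)).map U.subtype = U.map (N ^ s) := by
        ext v
        constructor
        · rintro ⟨_, ⟨w, rfl⟩, rfl⟩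
          exact ⟨w, w.2, (hpow U hU s w).symm⟩
        · rintro ⟨w, hw, rfl⟩
          exact ⟨_, ⟨⟨w, hw⟩, rfl⟩, hpow U hU s ⟨w, hw⟩⟩
      refine ⟨?_, ?_⟩
      · rw [← h2]
        exact LinearEquiv.finrank_eq (Submodule.equivMapOfInjective U.subtype U.injective_subtype _)
      · rw [← h2]
        exact Submodule.map_subtype_le _ _
    rw [(h1 U hU).1, (h1 W hW).1]
    have h2 : LinearMap.range (N ^ s) = U.map (N ^ s) ⊔ W.map (N ^ s) := by
      rw [← Submodule.map_sup, hUW.sup_eq_top, LinearMap.range_eq_map]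
    have h3 : Disjoint (U.map (N ^ s)) (W.map (N ^ s)) := hUW.disjoint.mono (h1 U hU).2 (h1 W hW).2
    have h4 := Submodule.finrank_sup_add_finrank_inf_eq (U.map (N ^ s)) (W.map (N ^ s))
    rw [h3.eq_bot, finrank_bot, add_zero] at h4
    rw [h2, h4]

end

section
variable {F : Type*} [Field F] {p : ℕ} [Fact p.Prime] [CharP F p]

/-- existence of unipotent elements of order `p` of given Jordan type -/
theorem exists_unipotent {V : Type*} [AddCommGroup V] [Module F V] [FiniteDimensional F V] {k : ℕ} (e : Fin k → ℕ)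
    (he : ∀ j, e j ≤ p) (hsum : ∑ j, e j = finrank F V) :
    ∃ f : V →ₗ[F] V, f ^ p = 1 ∧ LinearMap.det f = 1 ∧ Nonempty (CycDecomp (f - 1) (fun j => (X : F[X]) ^ e j)) := by
  have hcard : Fintype.card (Σ j : Fin k, Fin ((X : F[X]) ^ e j).natDegree) = finrank F V := by
    rw [Fintype.card_sigma, ← hsum]
    apply Finset.sum_congr rfl
    intro j _
    rw [Fintype.card_fin, natDegree_X_pow]
  let b0 := Module.finBasis F V
  let b : Basis (Σ j : Fin k, Fin ((X : F[X]) ^ e j).natDegree) F V :=
    b0.reindex (Fintype.equivOfCardEq (by rw [hcard, Fintype.card_fin]))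
  obtain ⟨N, D, -⟩ := exists_endo_cycDecomp (fun j => (X : F[X]) ^ e j) (fun j => monic_X_pow _) b
  have hN : N ^ p = 0 := by
    have h1 := D.aeval_eq_zero (X ^ p) (fun j => pow_dvd_pow _ (he j))
    rwa [map_pow, aeval_X] at h1
  have hp : p.Prime := Fact.out
  have : CharP (V →ₗ[F] V) p ∨ Subsingleton (V →ₗ[F] V) := by
    rcases subsingleton_or_nontrivial V with h | h
    · right
      infer_instance
    · left
      exact charP_of_injective_algebraMap (algebraMap F (Module.End F V)).injective p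
  have hfp : (N + 1) ^ p = 1 := by
    rcases this with h | h
    · rw [add_pow_char_of_commute p (Commute.one_right N), hN, one_pow, zero_add]
    · exact Subsingleton.elim _ _
  refine ⟨N + 1, hfp, ?_, ?_⟩
  · have h1 : LinearMap.det (N + 1) ^ p = 1 := by rw [← map_pow, hfp, map_one]
    have h2 : (LinearMap.det (N + 1) - 1) ^ p = 0 := by
      rw [sub_pow_char _ _ (p := p), h1, one_pow, sub_self]
    have h3 := pow_eq_zero_iff hp.ne_zero |>.mp h2
    exact sub_eq_zero.mp h3
  · rw [add_sub_cancel_right]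
    exact ⟨D⟩

end

end Cfsg.Agent.H99
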