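import Mathlib
import Cfsg.Agent.H99.EForm
import Cfsg.Agent.H99.OrthDim
import Cfsg.Agent.H99.Jordan

set_option autoImplicit false
set_option linter.unusedVariables false
set_option linter.unusedSectionVars false

/-! Orthogonal decompositions of unipotent isometries (helper99). -/

namespace Cfsg.Agent.H99

open Module Polynomial

section
variable {F V : Type*} [Field F] [AddCommGroup V] [Module F V] [FiniteDimensional F V]

/-- the Jordan type of a nilpotent map on a subspace -/
def JT (N : V →ₗ[F] V) (W : Submodule F V) (μ : Multiset ℕ) : Prop :=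
  (∀ a ∈ μ, 0 < a) ∧ ∀ s : ℕ, finrank F (W.map (N ^ s)) = (μ.map (fun a => a - s)).sum

lemma JT.unique {N : V →ₗ[F] V} {W : Submodule F V} {μ ν : Multiset ℕ} (h : JT N W μ) (h' : JT N W ν) : μ = ν :=
  multiset_eq_of_trunc h.1 h'.1 (fun s => by rw [← h.2 s, ← h'.2 s])

lemma JT.finrank_eq {N : V →ₗ[F] V} {W : Submodule F V} {μ : Multiset ℕ} (h : JT N W μ) : finrank F W = μ.sum := by
  have h1 := h.2 0
  rw [pow_zero] at h1
  have h2 : W.map (1 : V →ₗ[F] V) = W := Submodule.map_id W
  rw [h2] at h1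
  rw [h1]
  simp

lemma JT.bot (N : V →ₗ[F] V) : JT N ⊥ 0 := ⟨by simp, fun s => by simp⟩

lemma map_pow_le {N : V →ₗ[F] V} {W : Submodule F V} (hW : ∀ v ∈ W, N v ∈ W) (s : ℕ) : W.map (N ^ s) ≤ W := by
  rintro _ ⟨v, hv, rfl⟩
  exact pow_mem_of_invariant hW hv s

lemma JT.add {N : V →ₗ[F] V} {U W : Submodule F V} {μ ν : Multiset ℕ} (hU : ∀ v ∈ U, N v ∈ U) (hW : ∀ v ∈ W, N v ∈ W)
    (hd : Disjoint U W) (h : JT N U μ) (h' : JT N W ν) : JT N (U ⊔ W) (μ + ν) := by
  refine ⟨?_, ?_⟩
  · intro a ha
    rcases Multiset.mem_add.mp ha with ha | ha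
    · exact h.1 a ha
    · exact h'.1 a ha
  · intro s
    rw [Submodule.map_sup, Multiset.map_add, Multiset.sum_add, ← h.2 s, ← h'.2 s]
    have h1 := Submodule.finrank_sup_add_finrank_inf_eq (U.map (N ^ s)) (W.map (N ^ s))
    have h2 : Disjoint (U.map (N ^ s)) (W.map (N ^ s)) := hd.mono (map_pow_le hU s) (map_pow_le hW s)
    rw [disjoint_iff.mp h2, finrank_bot, add_zero] at h1
    exact h1

variable {σ : F →+* F} {ε : F} {B : V → V → F}

/-- adjoint of `x - 1` -/
lemma adj_sub_one (hE : EForm σ ε B) {x : V →ₗ[F] V} (hx : ∀ u v, B (x u) (x v) = B u v) (u v : V) :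
    B ((x - 1) u) (x v) = - B u ((x - 1) v) := by
  rw [LinearMap.sub_apply, LinearMap.sub_apply, Module.End.one_apply, Module.End.one_apply, hE.oform.sub_left, hE.sub_right, hx]
  ring

/-- the key computation: `B(N ^ i u, N ^ j v) = (-1) ^ i B(u, N ^ (n - 1) v)` when `i + j = n - 1` -/
lemma key_top (hE : EForm σ ε B) {x : V →ₗ[F] V} (hx : ∀ u v, B (x u) (x v) = B u v) {W : Submodule F V} (hW : ∀ v ∈ W, x v ∈ W) {n : ℕ}
    (hn : ∀ v ∈ W, ((x - 1) ^ n) v = 0) (i : ℕ) : ∀ (j : ℕ) (u v : V), u ∈ W → v ∈ W →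
    (n ≤ i + j → B (((x - 1) ^ i) u) (((x - 1) ^ j) v) = 0) ∧
    (i + j + 1 = n → B (((x - 1) ^ i) u) (((x - 1) ^ j) v) = (-1) ^ i * B u (((x - 1) ^ (n - 1)) v)) := by
  have hN : ∀ v ∈ W, (x - 1) v ∈ W := fun v hv => W.sub_mem (hW v hv) hv
  have hxN : ∀ v, x v = v + (x - 1) v := fun v => by rw [LinearMap.sub_apply, Module.End.one_apply]; abel
  induction i with
  | zero =>
    intro j u v hu hv
    refine ⟨fun h => ?_, fun h => ?_⟩
    · rw [zero_add] at h
      have h1 : ((x - 1) ^ j) v = 0 := by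
        obtain ⟨k, rfl⟩ := Nat.exists_eq_add_of_le h
        rw [add_comm, pow_add, Module.End.mul_apply, hn v hv, map_zero]
      rw [h1, hE.zero_right]
    · rw [pow_zero, pow_zero, one_mul, Module.End.one_apply]
      have h1 : n - 1 = j := by omega
      rw [h1]
  | succ i ih =>
    -- downward induction on `j`
    have key : ∀ (k j : ℕ), n ≤ i + 1 + j + k → ∀ (u v : V), u ∈ W → v ∈ W →
        (n ≤ (i + 1) + j → B (((x - 1) ^ (i + 1)) u) (((x - 1) ^ j) v) = 0) ∧
        ((i + 1) + j + 1 = n → B (((x - 1) ^ (i + 1)) u) (((x - 1) ^ j) v) = (-1) ^ (i + 1) * B u (((x - 1) ^ (n - 1)) v)) := by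
      intro k j hk u v hu hv
      -- `B(N a, v) = - B(a, N v) - B(N a, N v)` where `a = N ^ i u`
      have hrec : ∀ (j : ℕ) (v : V), B (((x - 1) ^ (i + 1)) u) (((x - 1) ^ j) v) =
          - B (((x - 1) ^ i) u) (((x - 1) ^ (j + 1)) v) - B (((x - 1) ^ (i + 1)) u) (((x - 1) ^ (j + 1)) v) := by
        intro j v
        have h1 := adj_sub_one hE hx (((x - 1) ^ i) u) (((x - 1) ^ j) v)
        have e1 : (x - 1) (((x - 1) ^ i) u) = ((x - 1) ^ (i + 1)) u := by rw [pow_succ']; rfl
        have e2 : (x - 1) (((x - 1) ^ j) v) = ((x - 1) ^ (j + 1)) v := by rw [pow_succ']; rfl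
        rw [e1, hxN (((x - 1) ^ j) v), hE.add_right, e2] at h1
        linear_combination h1
      have hzero : ∀ (k j : ℕ), n ≤ j + k → n ≤ (i + 1) + j → B (((x - 1) ^ (i + 1)) u) (((x - 1) ^ j) v) = 0 := by
        intro k
        induction k with
        | zero =>
          intro j h1 _
          have h2 : ((x - 1) ^ j) v = 0 := by
            rw [add_zero] at h1
            obtain ⟨k, rfl⟩ := Nat.exists_eq_add_of_le h1
            rw [add_comm, pow_add, Module.End.mul_apply, hn v hv, map_zero]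
          rw [h2, hE.zero_right]
        | succ k ihk =>
          intro j h1 h2
          rw [hrec, ihk (j + 1) (by omega) (by omega), (ih (j + 1) u v hu hv).1 (by omega)]
          ring
      refine ⟨fun h => hzero n j (by omega) h, fun h => ?_⟩
      rw [hrec, hzero n (j + 1) (by omega) (by omega), (ih (j + 1) u v hu hv).2 (by omega), pow_succ]
      ring
    intro j u v hu hv
    exact key n j (by omega) u v hu hv

/-- cyclic subspaces of nilpotent maps: a spanning set -/
lemma cyc_eq_span {N : V →ₗ[F] V} {u : V} {n : ℕ} (hn : (N ^ n) u = 0) :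
    cyc N u = Submodule.span F (Set.range fun i : Fin n => (N ^ (i : ℕ)) u) := by
  apply le_antisymm
  · have hinv : ∀ v ∈ Submodule.span F (Set.range fun i : Fin n => (N ^ (i : ℕ)) u), N v ∈ Submodule.span F (Set.range fun i : Fin n => (N ^ (i : ℕ)) u) := by
      have h1 : (Submodule.span F (Set.range fun i : Fin n => (N ^ (i : ℕ)) u)).map N ≤ Submodule.span F (Set.range fun i : Fin n => (N ^ (i : ℕ)) u) := by
        rw [Submodule.map_span, Submodule.span_le]
        rintro _ ⟨_, ⟨i, rfl⟩, rfl⟩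
        simp only
        rw [← Module.End.mul_apply, ← pow_succ']
        rcases Nat.lt_or_ge ((i : ℕ) + 1) n with h | h
        · exact Submodule.subset_span ⟨⟨i + 1, h⟩, rfl⟩
        · have h2 : (i : ℕ) + 1 = n := by have := i.2; omega
          rw [h2, hn]
          exact Submodule.zero_mem _
      intro v hv
      exact h1 ⟨v, hv, rfl⟩
    rcases Nat.eq_zero_or_pos n with h0 | h0
    · subst h0
      have hu : u = 0 := hn
      subst hu
      intro v hv
      obtain ⟨f, rfl⟩ := mem_cyc.mp hv
      rw [map_zero]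
      exact Submodule.zero_mem _
    · apply cyc_le hinv
      exact Submodule.subset_span ⟨⟨0, h0⟩, rfl⟩
  · rw [Submodule.span_le]
    rintro _ ⟨i, rfl⟩
    exact pow_mem_cyc N u i

/-- homogeneous nondegenerate pieces -/
theorem exists_piece (hE : EForm σ ε B) {x : V →ₗ[F] V} (hx : ∀ u v, B (x u) (x v) = B u v) {W : Submodule F V} (hW : ∀ v ∈ W, x v ∈ W) {n : ℕ}
    (hn0 : 0 < n) (hn : ∀ v ∈ W, ((x - 1) ^ n) v = 0) {κ : Type} [Fintype κ] (g : κ → V) (hg : ∀ k, g k ∈ W)
    (hβ : ∀ c : κ → F, (∀ l, ∑ k, c k * B (g k) (((x - 1) ^ (n - 1)) (g l)) = 0) → c = 0) :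
    ∃ U ≤ W, (∀ v ∈ U, x v ∈ U) ∧ ND B U ∧ finrank F U = Fintype.card κ * n ∧ JT (x - 1) U (Multiset.replicate (Fintype.card κ) n) := by
  classical
  have hN : ∀ v ∈ W, (x - 1) v ∈ W := fun v hv => W.sub_mem (hW v hv) hv
  have hxN : ∀ v, x v = v + (x - 1) v := fun v => by rw [LinearMap.sub_apply, Module.End.one_apply]; abel
  let e : Fin n × κ → V := fun s => ((x - 1) ^ (s.1 : ℕ)) (g s.2)
  have heW : ∀ s, e s ∈ W := fun s => pow_mem_of_invariant hN (hg s.2) _
  -- the main computation
  have hmain : ∀ a : Fin n × κ → F, (∀ s, B (∑ t, a t • e t) (e s) = 0) → a = 0 := by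
    intro a ha
    have hj : ∀ j : ℕ, ∀ (hj : j < n) (k : κ), a (⟨j, hj⟩, k) = 0 := by
      intro j
      induction j using Nat.strong_induction_on with
      | _ j ih =>
        intro hj k
        have h1 : (fun k => a (⟨j, hj⟩, k)) = 0 := by
          apply hβ
          intro l
          have h2 := ha (⟨n - 1 - j, by omega⟩, l)
          have hsumleft : ∀ (s : Finset (Fin n × κ)) (y : V), B (∑ t ∈ s, a t • e t) y = ∑ t ∈ s, a t * B (e t) y := by
            intro s y
            induction s using Finset.induction_on with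
            | empty => simp [hE.oform.zero_left]
            | insert t s hts ihs => rw [Finset.sum_insert hts, Finset.sum_insert hts, hE.add_left, hE.smul_left, ihs]
          rw [hsumleft, Fintype.sum_prod_type] at h2
          rw [Finset.sum_eq_single (⟨j, hj⟩ : Fin n)] at h2
          · have h3 : ∀ k, B (e (⟨j, hj⟩, k)) (e (⟨n - 1 - j, by omega⟩, l)) = (-1) ^ j * B (g k) (((x - 1) ^ (n - 1)) (g l)) := by
              intro k
              exact (key_top hE hx hW hn j (n - 1 - j) (g k) (g l) (hg k) (hg l)).2 (by omega)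
            simp only [h3] at h2
            have h4 : (-1 : F) ^ j * ∑ k, a (⟨j, hj⟩, k) * B (g k) (((x - 1) ^ (n - 1)) (g l)) = 0 := by
              rw [← h2, Finset.mul_sum]
              apply Finset.sum_congr rfl
              intro k _
              ring
            rcases mul_eq_zero.mp h4 with h5 | h5
            · exact absurd h5 (pow_ne_zero _ (neg_ne_zero.mpr one_ne_zero))
            · exact h5
          · intro i _ hij
            apply Finset.sum_eq_zero
            intro k _
            rcases Nat.lt_or_ge (i : ℕ) j with h3 | h3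
            · rw [ih i h3 i.2 k, zero_mul]
            · have h4 : j < (i : ℕ) := by
                rcases Nat.lt_or_ge j i with h4 | h4
                · exact h4
                · exfalso
                  apply hij
                  apply Fin.ext
                  change (i : ℕ) = j
                  omega
              have h5 := (key_top hE hx hW hn i (n - 1 - j) (g k) (g l) (hg k) (hg l)).1 (by omega)
              change a (i, k) * B (((x - 1) ^ (i : ℕ)) (g k)) (((x - 1) ^ (n - 1 - j)) (g l)) = 0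
              rw [h5, mul_zero]
          · intro h
            exact absurd (Finset.mem_univ _) h
        exact congrFun h1 k
    funext s
    exact hj s.1 s.1.2 s.2
  have hli : LinearIndependent F e := by
    rw [Fintype.linearIndependent_iff]
    intro a ha s
    have h1 := hmain a (fun s => by rw [ha, hE.oform.zero_left])
    rw [h1]
    rfl
  set U : Submodule F V := Submodule.span F (Set.range e) with hU
  have hUW : U ≤ W := by
    rw [hU, Submodule.span_le]
    rintro _ ⟨s, rfl⟩
    exact heW s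
  have heU : ∀ s, e s ∈ U := fun s => Submodule.subset_span ⟨s, rfl⟩
  have hNe : ∀ (s : ℕ) (t : Fin n × κ), ((x - 1) ^ s) (e t) = if h : (t.1 : ℕ) + s < n then e (⟨t.1 + s, h⟩, t.2) else 0 := by
    intro s t
    have h1 : ((x - 1) ^ s) (e t) = ((x - 1) ^ ((t.1 : ℕ) + s)) (g t.2) := by
      rw [add_comm, pow_add]
      rfl
    rw [h1]
    split_ifs with h
    · rfl
    · push Not at h
      obtain ⟨k, hk⟩ := Nat.exists_eq_add_of_le h
      rw [hk, add_comm, pow_add, Module.End.mul_apply, hn _ (hg t.2), map_zero]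
  have hNU : ∀ v ∈ U, (x - 1) v ∈ U := by
    have h1 : U.map (x - 1) ≤ U := by
      rw [hU, Submodule.map_span, Submodule.span_le]
      rintro _ ⟨_, ⟨s, rfl⟩, rfl⟩
      have h2 := hNe 1 s
      rw [pow_one] at h2
      rw [h2]
      split_ifs with h
      · exact heU _
      · exact Submodule.zero_mem _
    intro v hv
    exact h1 ⟨v, hv, rfl⟩
  refine ⟨U, hUW, ?_, ?_, ?_, ?_, ?_⟩
  · intro v hv
    rw [hxN]
    exact U.add_mem hv (hNU v hv)
  · intro w hw hw2
    obtain ⟨a, rfl⟩ := (Submodule.mem_span_range_iff_exists_fun F).mp hw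
    have h1 := hmain a (fun s => hw2 _ (heU s))
    rw [h1]
    simp
  · rw [hU, finrank_span_eq_card hli, Fintype.card_prod, Fintype.card_fin, mul_comm]
  · intro a ha
    rw [Multiset.eq_of_mem_replicate ha]
    exact hn0
  · intro s
    rw [Multiset.map_replicate, Multiset.sum_replicate, smul_eq_mul]
    let e' : Fin (n - s) × κ → V := fun t => e (⟨t.1 + s, by have := t.1.2; omega⟩, t.2)
    have hli' : LinearIndependent F e' := by
      apply hli.comp (fun t : Fin (n - s) × κ => ((⟨t.1 + s, by have := t.1.2; omega⟩, t.2) : Fin n × κ))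
      rintro ⟨i, k⟩ ⟨i', k'⟩ h
      simp only [Prod.mk.injEq, Fin.mk.injEq, add_left_inj] at h
      exact Prod.ext (Fin.ext h.1) h.2
    have h1 : U.map ((x - 1) ^ s) = Submodule.span F (Set.range e') := by
      rw [hU, Submodule.map_span]
      apply le_antisymm
      · rw [Submodule.span_le]
        rintro _ ⟨_, ⟨t, rfl⟩, rfl⟩
        rw [hNe]
        split_ifs with h
        · apply Submodule.subset_span
          refine ⟨(⟨t.1, by omega⟩, t.2), rfl⟩
        · exact Submodule.zero_mem _
      · rw [Submodule.span_le]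
        rintro _ ⟨t, rfl⟩
        apply Submodule.subset_span
        refine ⟨e (⟨t.1, by have := t.1.2; omega⟩, t.2), ⟨_, rfl⟩, ?_⟩
        rw [hNe, dif_pos (by have := t.1.2; change (t.1 : ℕ) + s < n; omega)]
    rw [h1, finrank_span_eq_card hli', Fintype.card_prod, Fintype.card_fin, mul_comm]

/-- the orthogonal decomposition of a unipotent isometry; `sgl n` says that single blocks of size `n` occur -/
theorem exists_unip_decomp (hE : EForm σ ε B) {x : V →ₗ[F] V} (hinj : Function.Injective x) (hx : ∀ u v, B (x u) (x v) = B u v) {P : ℕ} (sgl : ℕ → Prop)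
    (hs1 : ∀ (W : Submodule F V) (n : ℕ), (∀ v ∈ W, x v ∈ W) → (∀ v ∈ W, ((x - 1 : V →ₗ[F] V) ^ n) v = 0) → 0 < n → sgl n →
      (∀ w ∈ W, B w (((x - 1 : V →ₗ[F] V) ^ (n - 1)) w) = 0) → ∀ u ∈ W, ∀ w ∈ W, B u (((x - 1 : V →ₗ[F] V) ^ (n - 1)) w) = 0)
    (hs2 : ∀ (W : Submodule F V) (n : ℕ), (∀ v ∈ W, x v ∈ W) → (∀ v ∈ W, ((x - 1 : V →ₗ[F] V) ^ n) v = 0) → 0 < n → ¬ sgl n →
      (∀ w ∈ W, B w (((x - 1 : V →ₗ[F] V) ^ (n - 1)) w) = 0) ∧
      ∀ u ∈ W, ∀ w ∈ W, B w (((x - 1 : V →ₗ[F] V) ^ (n - 1)) u) = 0 → B u (((x - 1 : V →ₗ[F] V) ^ (n - 1)) w) = 0)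
    (N : ℕ) : ∀ W : Submodule F V, (∀ v ∈ W, x v ∈ W) → ND B W → (∀ v ∈ W, ((x - 1 : V →ₗ[F] V) ^ P) v = 0) → finrank F W = N →
    ∃ μ : Multiset ℕ, (∀ a ∈ μ, a ≤ P) ∧ (∀ a, ¬ sgl a → Even (μ.count a)) ∧ JT (x - 1) W μ ∧
      ∀ ν ≤ μ, (∀ a, ¬ sgl a → Even (ν.count a)) → ∃ U ≤ W, (∀ v ∈ U, x v ∈ U) ∧ ND B U ∧ JT (x - 1) U ν := by
  induction N using Nat.strong_induction_on with
  | _ N ih =>
    intro W hW hND hP hN
    have hNinv : ∀ v ∈ W, (x - 1) v ∈ W := fun v hv => W.sub_mem (hW v hv) hv
    by_cases hW0 : W = ⊥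
    · subst hW0
      refine ⟨0, by simp, by simp, JT.bot _, ?_⟩
      intro ν hν _
      rw [Multiset.le_zero] at hν
      subst hν
      exact ⟨⊥, le_rfl, hW, hND, JT.bot _⟩
    -- the nilpotency index
    classical
    have hex : ∃ n : ℕ, ∀ v ∈ W, ((x - 1 : V →ₗ[F] V) ^ n) v = 0 := ⟨P, hP⟩
    set n := Nat.find hex with hn
    have hn1 : ∀ v ∈ W, ((x - 1) ^ n) v = 0 := Nat.find_spec hex
    have hn2 : n ≤ P := Nat.find_min' hex hP
    have hn0 : 0 < n := by
      rw [Nat.pos_iff_ne_zero]
      intro h0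
      rw [h0] at hn1
      apply hW0
      rw [eq_bot_iff]
      intro v hv
      exact hn1 v hv
    have hn3 : ∃ v ∈ W, ((x - 1) ^ (n - 1)) v ≠ 0 := by
      have h1 := Nat.find_min hex (show n - 1 < n by omega)
      push Not at h1
      exact h1
    obtain ⟨v₀, hv₀, hv₀0⟩ := hn3
    have hβ : ∃ u ∈ W, B u (((x - 1) ^ (n - 1)) v₀) ≠ 0 := by
      by_contra hcon
      push Not at hcon
      apply hv₀0
      apply hND _ (pow_mem_of_invariant hNinv hv₀ _)
      intro u hu
      exact hE.oform.refl _ _ (hcon u hu)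
    obtain ⟨u₀, hu₀, hu₀0⟩ := hβ
    -- a piece
    have hpiece : ∃ (m : ℕ) (U : Submodule F V), 0 < m ∧ (m = 1 ∧ sgl n ∨ m = 2 ∧ ¬ sgl n) ∧ U ≤ W ∧ (∀ v ∈ U, x v ∈ U) ∧ ND B U ∧
        finrank F U = m * n ∧ JT (x - 1) U (Multiset.replicate m n) := by
      by_cases hs : sgl n
      · have h1 : ∃ w ∈ W, B w (((x - 1) ^ (n - 1)) w) ≠ 0 := by
          by_contra hcon
          push Not at hcon
          exact hu₀0 (hs1 W n hW hn1 hn0 hs hcon u₀ hu₀ v₀ hv₀)
        obtain ⟨w, hw, hw0⟩ := h1
        obtain ⟨U, h2, h3, h4, h5, h6⟩ := exists_piece hE hx hW hn0 hn1 (κ := Fin 1) (fun _ => w) (fun _ => hw) (by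
          intro c hc
          have h2 := hc 0
          rw [Fin.sum_univ_one] at h2
          funext k
          rw [Subsingleton.elim k 0]
          exact (mul_eq_zero.mp h2).resolve_right hw0)
        rw [Fintype.card_fin] at h5 h6
        exact ⟨1, U, one_pos, Or.inl ⟨rfl, hs⟩, h2, h3, h4, h5, h6⟩
      · obtain ⟨h1, h2⟩ := hs2 W n hW hn1 hn0 hs
        have h3 : B v₀ (((x - 1) ^ (n - 1)) u₀) ≠ 0 := fun h => hu₀0 (h2 u₀ hu₀ v₀ hv₀ h)
        obtain ⟨U, h2, h3, h4, h5, h6⟩ := exists_piece hE hx hW hn0 hn1 (κ := Fin 2) ![u₀, v₀] (by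
          intro k
          fin_cases k
          · exact hu₀
          · exact hv₀) (by
          intro c hc
          have h4 := hc 0
          have h5 := hc 1
          rw [Fin.sum_univ_two] at h4 h5
          simp only [Matrix.cons_val_zero, Matrix.cons_val_one] at h4 h5
          rw [h1 u₀ hu₀, mul_zero, zero_add] at h4
          rw [h1 v₀ hv₀, mul_zero, add_zero] at h5
          funext k
          fin_cases k
          · exact (mul_eq_zero.mp h5).resolve_right hu₀0
          · exact (mul_eq_zero.mp h4).resolve_right h3)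
        rw [Fintype.card_fin] at h5 h6
        exact ⟨2, U, two_pos, Or.inr ⟨rfl, hs⟩, h2, h3, h4, h5, h6⟩
    obtain ⟨m, U, hm0, hm, hUW, hUi, hUN, hUd, hUJ⟩ := hpiece
    have hUN' : ∀ v ∈ U, (x - 1) v ∈ U := fun v hv => U.sub_mem (hUi v hv) hv
    have h1 := split_finrank hE.oform hUN hUW
    have h2 := split_ND_compl hE.oform hND hUN hUW
    have h3 : ∀ v ∈ W ⊓ orth hE.oform U, x v ∈ W ⊓ orth hE.oform U := by
      rintro v ⟨hv1, hv2⟩
      refine ⟨hW v hv1, ?_⟩
      apply orth_invariant hE.oform x (fun u v h => by rw [hx, h]) _ v hv2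
      have h4 : U.map x = U := by
        apply Submodule.eq_of_le_of_finrank_eq
        · rintro _ ⟨u, hu, rfl⟩
          exact hUi u hu
        · exact (LinearEquiv.finrank_eq (Submodule.equivMapOfInjective x hinj U)).symm
      exact h4.ge
    have h4 : 0 < m * n := Nat.mul_pos hm0 hn0
    obtain ⟨μ', g1, g2, g3, g4⟩ := ih (finrank F (W ⊓ orth hE.oform U : Submodule F V)) (by omega) _ h3 h2 (fun v hv => hP v hv.1) rfl
    have h5 : Disjoint U (W ⊓ orth hE.oform U) := split_disjoint hE.oform hUN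
    have h6 : ∀ v ∈ W ⊓ orth hE.oform U, (x - 1) v ∈ W ⊓ orth hE.oform U := fun v hv => (W ⊓ orth hE.oform U).sub_mem (h3 v hv) hv
    refine ⟨Multiset.replicate m n + μ', ?_, ?_, ?_, ?_⟩
    · intro a ha
      rcases Multiset.mem_add.mp ha with ha | ha
      · rw [Multiset.eq_of_mem_replicate ha]
        exact hn2
      · exact g1 a ha
    · intro a ha
      rw [Multiset.count_add, Multiset.count_replicate]
      apply Even.add _ (g2 a ha)
      split_ifs with h
      · rcases hm with ⟨-, h7⟩ | ⟨h7, -⟩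
        · rw [h] at h7
          exact absurd h7 ha
        · rw [h7]
          exact even_two
      · exact Even.zero
    · have h7 := JT.add hUN' h6 h5 hUJ g3
      rw [split_ND hE.oform hUN hUW] at h7
      exact h7
    · intro ν hν hνe
      by_cases hc : ν.count n ≤ μ'.count n
      · -- the piece is not needed
        have h7 : ν ≤ μ' := by
          rw [Multiset.le_iff_count]
          intro a
          have h8 := (Multiset.le_iff_count.mp hν) a
          rw [Multiset.count_add, Multiset.count_replicate] at h8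
          by_cases ha : n = a
          · rw [← ha]
            exact hc
          · rw [if_neg ha, zero_add] at h8
            exact h8
        obtain ⟨U', k1, k2, k3, k4⟩ := g4 ν h7 hνe
        exact ⟨U', k1.trans inf_le_left, k2, k3, k4⟩
      · push Not at hc
        have hle : Multiset.replicate m n ≤ ν := by
          rw [← Multiset.le_count_iff_replicate_le]
          rcases hm with ⟨h7, -⟩ | ⟨h7, h8⟩
          · omega
          · have h9 := hνe n h8
            have h10 := g2 n h8
            obtain ⟨a, ha⟩ := h9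
            obtain ⟨b, hb⟩ := h10
            omega
        obtain ⟨ν', rfl⟩ := Multiset.le_iff_exists_add.mp hle
        have h7 : ν' ≤ μ' := by
          exact (Multiset.add_le_add_iff_left).mp hν
        obtain ⟨U', k1, k2, k3, k4⟩ := g4 ν' h7 (by
          intro a ha
          have h8 := hνe a ha
          rw [Multiset.count_add, Multiset.count_replicate] at h8
          have h9 : Even (if n = a then m else 0) := by
            split_ifs with h
            · rcases hm with ⟨-, h7⟩ | ⟨h7, -⟩
              · rw [h] at h7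
                exact absurd h7 ha
              · rw [h7]
                exact even_two
            · exact Even.zero
          exact (Nat.even_add.mp h8).mp h9)
        have h8 : U ≤ orth hE.oform U' := by
          rw [le_orth_comm]
          exact k1.trans inf_le_right
        refine ⟨U ⊔ U', sup_le hUW (k1.trans inf_le_left), ?_, ND_sup hE.oform hUN k3 h8, ?_⟩
        · intro v hv
          obtain ⟨a, ha, b, hb, rfl⟩ := Submodule.mem_sup.mp hv
          rw [map_add]
          exact Submodule.add_mem_sup (hUi a ha) (k2 b hb)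
        · exact JT.add hUN' (fun v hv => U'.sub_mem (k2 v hv) hv) (h5.mono_right k1) hUJ k4

end

end Cfsg.Agent.H99
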