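import Mathlib
import Cfsg.Agent.H99.Unip
import Cfsg.Agent.H99.SympElt
import Cfsg.Agent.H99.SympRed

set_option autoImplicit false
set_option linter.unusedVariables false
set_option linter.unusedSectionVars false

/-! Involutions of symplectic groups modulo scalars (helper99). -/

namespace Cfsg.Agent.H99

open Module Polynomial Matrix

section
variable {F : Type*} [Field F] [Fintype F] {V : Type*} [AddCommGroup V] [Module F V] [FiniteDimensional F V] {B : V → V → F}

lemma orth_inv_of_isom (hB : OForm B) {x : V →ₗ[F] V} (hinj : Function.Injective x) (hx : ∀ u v, B (x u) (x v) = B u v) {P : Submodule F V}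
    (hP : ∀ v ∈ P, x v ∈ P) : ∀ v ∈ orth hB P, x v ∈ orth hB P := by
  have h1 : P.map x = P := by
    apply Submodule.eq_of_le_of_finrank_eq
    · rintro _ ⟨u, hu, rfl⟩
      exact hP u hu
    · exact (LinearEquiv.finrank_eq (Submodule.equivMapOfInjective x hinj P)).symm
  exact orth_invariant hB x (fun u v h => by rw [hx, h]) h1.ge

theorem exists_inv_of_planes (hA : AltForm B) (hND : ND B (⊤ : Submodule F V)) {x : V →ₗ[F] V} (hx : ∀ u v, B (x u) (x v) = B u v)
    (hpl : ∀ W : Submodule F V, (∀ v ∈ W, x v ∈ W) → ND B W → W ≠ ⊥ → ∃ P ≤ W, (∀ v ∈ P, x v ∈ P) ∧ ND B P ∧ finrank F P = 2) (k : ℕ) :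
    ∀ W : Submodule F V, (∀ v ∈ W, x v ∈ W) → ND B W → 2 * k ≤ finrank F W → ∃ U ≤ W, (∀ v ∈ U, x v ∈ U) ∧ ND B U ∧ finrank F U = 2 * k := by
  have hinj := isom_injective hA.oform hND x hx
  induction k with
  | zero =>
    intro W _ _ _
    refine ⟨⊥, bot_le, ?_, ND_bot hA.oform, by rw [finrank_bot]⟩
    intro v hv
    rw [(Submodule.mem_bot F).mp hv, map_zero]
    exact Submodule.zero_mem _
  | succ k ih =>
    intro W hW hWN hk
    have hW0 : W ≠ ⊥ := by
      rintro rfl
      rw [finrank_bot] at hk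
      omega
    obtain ⟨P, h1, h2, h3, h4⟩ := hpl W hW hWN hW0
    have h5 := split_finrank hA.oform h3 h1
    have h6 := split_ND_compl hA.oform hWN h3 h1
    have h7 : ∀ v ∈ W ⊓ orth hA.oform P, x v ∈ W ⊓ orth hA.oform P := by
      rintro v ⟨hv1, hv2⟩
      exact ⟨hW v hv1, orth_inv_of_isom hA.oform hinj hx h2 v hv2⟩
    obtain ⟨U, g1, g2, g3, g4⟩ := ih _ h7 h6 (by omega)
    have h8 : P ≤ orth hA.oform U := by
      rw [le_orth_comm]
      exact g1.trans inf_le_right
    refine ⟨P ⊔ U, sup_le h1 (g1.trans inf_le_left), ?_, ND_sup hA.oform h3 g3 h8, ?_⟩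
    · intro v hv
      obtain ⟨a, ha, b, hb, rfl⟩ := Submodule.mem_sup.mp hv
      rw [map_add]
      exact Submodule.add_mem_sup (h2 a ha) (g2 b hb)
    · have h9 := Submodule.finrank_sup_add_finrank_inf_eq P U
      have h10 := (split_disjoint hA.oform h3 (W := W)).mono_right g1
      rw [disjoint_iff.mp h10, finrank_bot, add_zero, h4, g4] at h9
      omega

lemma exists_plane_neg (hA : AltForm B) (hND : ND B (⊤ : Submodule F V)) (h2 : (2 : F) ≠ 0) {x : V →ₗ[F] V} (hx : ∀ u v, B (x u) (x v) = B u v)
    (hx2 : ∀ v, x (x v) = - v) {W : Submodule F V} (hW : ∀ v ∈ W, x v ∈ W) (hWN : ND B W) (hW0 : W ≠ ⊥) :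
    ∃ P ≤ W, (∀ v ∈ P, x v ∈ P) ∧ ND B P ∧ finrank F P = 2 := by
  have hex : ∃ v ∈ W, B v (x v) ≠ 0 := by
    by_contra hcon
    push Not at hcon
    obtain ⟨w, hw, hw0⟩ := Submodule.exists_mem_ne_zero_of_ne_bot hW0
    apply hw0
    apply hWN w hw
    intro v hv
    have h1 : B w (x (x v)) = 0 := by
      have h3 := hcon (w + x v) (W.add_mem hw (hW v hv))
      rw [map_add, hA.add_left, hA.add_right, hA.add_right, hcon w hw, hcon (x v) (hW v hv)] at h3
      have h4 : B (x v) (x w) = B w (x (x v)) := by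
        rw [hx, hx2, hA.eform.neg_right, hA.skew]
      rw [h4] at h3
      have h5 : 2 * B w (x (x v)) = 0 := by linear_combination h3
      exact (mul_eq_zero.mp h5).resolve_left h2
    rw [hx2, hA.eform.neg_right, neg_eq_zero] at h1
    exact h1
  obtain ⟨v, hv, hv0⟩ := hex
  refine ⟨Submodule.span F {v, x v}, ?_, ?_, plane_ND hA hv0, plane_finrank hA hv0⟩
  · rw [Submodule.span_le]
    rintro z (rfl | rfl)
    · exact hv
    · exact hW v hv
  · have h1 : (Submodule.span F {v, x v}).map x ≤ Submodule.span F {v, x v} := by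
      rw [Submodule.map_span, Submodule.span_le]
      rintro _ ⟨z, (rfl | rfl), rfl⟩
      · exact Submodule.subset_span (Or.inr rfl)
      · rw [hx2]
        exact Submodule.neg_mem _ (Submodule.subset_span (Or.inl rfl))
    intro z hz
    exact h1 ⟨z, hz, rfl⟩

lemma exists_plane_pos (hA : AltForm B) (hND : ND B (⊤ : Submodule F V)) (h2 : (2 : F) ≠ 0) {x : V →ₗ[F] V} (hx : ∀ u v, B (x u) (x v) = B u v)
    (hx2 : ∀ v, x (x v) = v) {W : Submodule F V} (hW : ∀ v ∈ W, x v ∈ W) (hWN : ND B W) (hW0 : W ≠ ⊥) :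
    ∃ P ≤ W, (∀ v ∈ P, x v ∈ P) ∧ ND B P ∧ finrank F P = 2 := by
  obtain ⟨w, hw, hw0⟩ := Submodule.exists_mem_ne_zero_of_ne_bot hW0
  have hex : ∃ s : F, s * s = 1 ∧ w + s • x w ≠ 0 := by
    by_contra hcon
    push Not at hcon
    have h1 := hcon 1 (by ring)
    have h3 := hcon (-1) (by ring)
    apply hw0
    have h4 : (2 : F) • w = 0 := by
      rw [two_smul]
      calc w + w = (w + (1 : F) • x w) + (w + (-1 : F) • x w) := by rw [one_smul, neg_one_smul]; abel
        _ = 0 := by rw [h1, h3, add_zero]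
    exact (smul_eq_zero.mp h4).resolve_left h2
  obtain ⟨s, hs, hs0⟩ := hex
  set u := w + s • x w with hu
  have huW : u ∈ W := W.add_mem hw (W.smul_mem _ (hW w hw))
  have hxu : x u = s • u := by
    rw [hu, map_add, map_smul, hx2, smul_add, smul_smul, hs, one_smul, add_comm]
  have : ∃ v ∈ W, B u v ≠ 0 := by
    by_contra hcon
    push Not at hcon
    exact hs0 (hWN u huW hcon)
  obtain ⟨v, hv, hv0⟩ := this
  have h1 : B u (v + s • x v) = 2 * B u v := by
    have h3 : B u (x v) = s * B u v := by
      have h4 := hx u v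
      rw [hxu, hA.smul_left] at h4
      rw [← h4, ← mul_assoc, hs, one_mul]
    rw [hA.add_right, hA.smul_right, h3, ← mul_assoc, hs]
    ring
  have h3 : B u (v + s • x v) ≠ 0 := by rw [h1]; exact mul_ne_zero h2 hv0
  have hxv : x (v + s • x v) = s • (v + s • x v) := by
    rw [map_add, map_smul, hx2, smul_add, smul_smul, hs, one_smul, add_comm]
  refine ⟨Submodule.span F {u, v + s • x v}, ?_, ?_, plane_ND hA h3, plane_finrank hA h3⟩
  · rw [Submodule.span_le]
    rintro z (rfl | rfl)
    · exact huW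
    · exact W.add_mem hv (W.smul_mem _ (hW v hv))
  · have h4 : (Submodule.span F {u, v + s • x v}).map x ≤ Submodule.span F {u, v + s • x v} := by
      rw [Submodule.map_span, Submodule.span_le]
      rintro _ ⟨z, (rfl | rfl), rfl⟩
      · rw [SetLike.mem_coe, hxu]
        exact Submodule.smul_mem _ _ (Submodule.subset_span (Or.inl rfl))
      · rw [SetLike.mem_coe, hxv]
        exact Submodule.smul_mem _ _ (Submodule.subset_span (Or.inr rfl))
    intro z hz
    exact h4 ⟨z, hz, rfl⟩

/-- involutions in characteristic two -/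
theorem exists_inv_char_two [CharP F 2] (hA : AltForm B) (hND : ND B (⊤ : Submodule F V)) {x : V →ₗ[F] V} (hx : ∀ u v, B (x u) (x v) = B u v)
    (hx2 : ∀ v, x (x v) = v) (N : ℕ) : ∀ W : Submodule F V, (∀ v ∈ W, x v ∈ W) → ND B W → finrank F W = N → ∀ m, Even m → m ≤ N →
    (m % 4 = 0 ∨ N % 4 = 2) → ∃ U ≤ W, (∀ v ∈ U, x v ∈ U) ∧ ND B U ∧ finrank F U = m := by
  have hinj := isom_injective hA.oform hND x hx
  have hinv : ∀ {P : Submodule F V}, (∀ v ∈ P, x v ∈ P) → ∀ v ∈ orth hA.oform P, x v ∈ orth hA.oform P := by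
    intro P hP
    exact orth_inv_of_isom hA.oform hinj hx hP
  have hadd : ∀ {P U W : Submodule F V}, P ≤ W → (∀ v ∈ P, x v ∈ P) → ND B P → U ≤ W ⊓ orth hA.oform P → (∀ v ∈ U, x v ∈ U) → ND B U →
      P ⊔ U ≤ W ∧ (∀ v ∈ P ⊔ U, x v ∈ P ⊔ U) ∧ ND B (P ⊔ U) ∧ finrank F (P ⊔ U : Submodule F V) = finrank F P + finrank F U := by
    intro P U W h1 h2 h3 g1 g2 g3
    have h8 : P ≤ orth hA.oform U := by
      rw [le_orth_comm]
      exact g1.trans inf_le_right
    refine ⟨sup_le h1 (g1.trans inf_le_left), ?_, ND_sup hA.oform h3 g3 h8, ?_⟩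
    · intro v hv
      obtain ⟨a, ha, b, hb, rfl⟩ := Submodule.mem_sup.mp hv
      rw [map_add]
      exact Submodule.add_mem_sup (h2 a ha) (g2 b hb)
    · have h9 := Submodule.finrank_sup_add_finrank_inf_eq P U
      have h10 := (split_disjoint hA.oform h3 (W := W)).mono_right g1
      rw [disjoint_iff.mp h10, finrank_bot, add_zero] at h9
      exact h9
  induction N using Nat.strong_induction_on with
  | _ N ih =>
    intro W hW hWN hN m hm hmN hm4
    -- trivial cases
    rcases Nat.eq_or_lt_of_le hmN with hmN' | hmN'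
    · exact ⟨W, le_rfl, hW, hWN, by rw [hN, hmN']⟩
    have hNe : Even N := hN ▸ hA.even_finrank_sub hWN
    by_cases hns : ∃ v ∈ W, B v (x v) ≠ 0
    · obtain ⟨v, hv, hv0⟩ := hns
      set P := Submodule.span F {v, x v} with hP
      have h1 : P ≤ W := by
        rw [hP, Submodule.span_le]
        rintro z (rfl | rfl)
        · exact hv
        · exact hW v hv
      have h2 : ∀ z ∈ P, x z ∈ P := by
        have h1 : P.map x ≤ P := by
          rw [hP, Submodule.map_span, Submodule.span_le]
          rintro _ ⟨z, (rfl | rfl), rfl⟩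
          · exact Submodule.subset_span (Or.inr rfl)
          · rw [hx2]
            exact Submodule.subset_span (Or.inl rfl)
        intro z hz
        exact h1 ⟨z, hz, rfl⟩
      have h3 : ND B P := plane_ND hA hv0
      have h4 : finrank F P = 2 := plane_finrank hA hv0
      have h5 := split_finrank hA.oform h3 h1
      have h6 := split_ND_compl hA.oform hWN h3 h1
      have h7 : ∀ v ∈ W ⊓ orth hA.oform P, x v ∈ W ⊓ orth hA.oform P := fun v hv => ⟨hW v hv.1, hinv h2 v hv.2⟩
      rcases Nat.lt_or_ge (m % 4) 1 with hmod | hmod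
      · obtain ⟨U, g1, g2, g3, g4⟩ := ih (N - 2) (by omega) _ h7 h6 (by omega) m hm (by
          obtain ⟨a, ha⟩ := hm
          obtain ⟨b, hb⟩ := hNe
          omega) (Or.inl (by omega))
        exact ⟨U, g1.trans inf_le_left, g2, g3, g4⟩
      · have hm2 : m % 4 = 2 := by
          obtain ⟨a, ha⟩ := hm
          omega
        obtain ⟨U, g1, g2, g3, g4⟩ := ih (N - 2) (by omega) _ h7 h6 (by omega) (m - 2) (by
          obtain ⟨a, ha⟩ := hm
          exact ⟨a - 1, by omega⟩) (by omega) (Or.inl (by omega))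
        obtain ⟨k1, k2, k3, k4⟩ := hadd h1 h2 h3 g1 g2 g3
        exact ⟨P ⊔ U, k1, k2, k3, by rw [k4, h4, g4]; omega⟩
    · push Not at hns
      by_cases htriv : ∀ v ∈ W, x v = v
      · -- `x` is trivial on `W`
        obtain ⟨a, ha⟩ := hm
        obtain ⟨U, h1, h2, h3⟩ := hA.exists_ND_sub a W hWN (by omega)
        refine ⟨U, h1, ?_, h2, by omega⟩
        intro v hv
        rw [htriv v (h1 hv)]
        exact hv
      · push Not at htriv
        obtain ⟨v, hv, hv0⟩ := htriv
        have hn : ∀ w ∈ W, ((x - 1 : V →ₗ[F] V) ^ 2) w = 0 := by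
          intro w _
          rw [pow_two, Module.End.mul_apply, LinearMap.sub_apply, LinearMap.sub_apply, Module.End.one_apply, Module.End.one_apply, map_sub, hx2]
          have h1 : (w - x w) - (x w - w) = (2 : F) • (w - x w) := by rw [two_smul]; abel
          rw [h1, CharTwo.two_eq_zero, zero_smul]
        have hex : ∃ u ∈ W, B u ((x - 1) v) ≠ 0 := by
          by_contra hcon
          push Not at hcon
          apply hv0
          have h1 : (x - 1) v = 0 := by
            apply hWN _ (W.sub_mem (hW v hv) hv)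
            intro w hw
            exact hA.oform.refl _ _ (hcon w hw)
          rw [LinearMap.sub_apply, Module.End.one_apply, sub_eq_zero] at h1
          exact h1
        obtain ⟨u, hu, hu0⟩ := hex
        have hself : ∀ w ∈ W, B w ((x - 1) w) = 0 := by
          intro w hw
          rw [LinearMap.sub_apply, Module.End.one_apply, hA.eform.sub_right, hns w hw, hA.alt, sub_zero]
        have hu0' : B v ((x - 1) u) ≠ 0 := by
          have h1 := hself (u + v) (W.add_mem hu hv)
          rw [map_add, hA.add_left, hA.add_right, hA.add_right, hself u hu, hself v hv, zero_add, add_zero] at h1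
          intro h2
          rw [h2, add_zero] at h1
          exact hu0 h1
        obtain ⟨P, h1, h2, h3, h4, h5⟩ := exists_piece hA.eform hx hW two_pos hn (κ := Fin 2) ![u, v] (by
          intro k
          fin_cases k
          · exact hu
          · exact hv) (by
          intro c hc
          have h4 := hc 0
          have h5 := hc 1
          rw [Fin.sum_univ_two] at h4 h5
          simp only [Matrix.cons_val_zero, Matrix.cons_val_one, show 2 - 1 = 1 from rfl, pow_one] at h4 h5
          rw [hself u hu, mul_zero, zero_add] at h4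
          rw [hself v hv, mul_zero, add_zero] at h5
          funext k
          fin_cases k
          · exact (mul_eq_zero.mp h5).resolve_right hu0
          · exact (mul_eq_zero.mp h4).resolve_right hu0')
        rw [Fintype.card_fin] at h4
        have h6 := split_finrank hA.oform h3 h1
        have h7 := split_ND_compl hA.oform hWN h3 h1
        have h8 : ∀ v ∈ W ⊓ orth hA.oform P, x v ∈ W ⊓ orth hA.oform P := fun v hv => ⟨hW v hv.1, hinv h2 v hv.2⟩
        have hle := Submodule.finrank_mono h1
        rcases Nat.lt_or_ge m (N - 3) with hm' | hm'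
        · obtain ⟨U, g1, g2, g3, g4⟩ := ih (N - 4) (by omega) _ h8 h7 (by omega) m hm (by omega) (by omega)
          exact ⟨U, g1.trans inf_le_left, g2, g3, g4⟩
        · have h9 : 4 ≤ m := by
            obtain ⟨a, ha⟩ := hm
            obtain ⟨b, hb⟩ := hNe
            omega
          obtain ⟨U, g1, g2, g3, g4⟩ := ih (N - 4) (by omega) _ h8 h7 (by omega) (m - 4) (by
            obtain ⟨a, ha⟩ := hm
            exact ⟨a - 2, by omega⟩) (by omega) (by omega)
          obtain ⟨k1, k2, k3, k4⟩ := hadd h1 h2 h3 g1 g2 g3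
          exact ⟨P ⊔ U, k1, k2, k3, by rw [k4, h4, g4]; omega⟩

/-- an involution with `β` alternating and large commutator space: invariant nondegenerate subspaces have dimension divisible by four -/
theorem dvd_four_of_inv (hA : AltForm B) (hND : ND B (⊤ : Submodule F V)) {x : V →ₗ[F] V} (hx : ∀ u v, B (x u) (x v) = B u v)
    (hn : ∀ v, (x - 1) ((x - 1) v) = 0) (hβ : ∀ v, B v ((x - 1) v) = 0) (hk : 2 * finrank F (LinearMap.ker (x - 1)) = finrank F V)
    {U : Submodule F V} (hU : ∀ v ∈ U, x v ∈ U) (hUN : ND B U) : finrank F U % 4 = 0 := by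
  have hinj := isom_injective hA.oform hND x hx
  have h1 := split_finrank hA.oform hUN le_top
  have h2 := split_ND_compl hA.oform hND hUN le_top
  have h3 := split_disjoint hA.oform hUN (W := ⊤)
  have h4 := split_ND hA.oform hUN (le_top : U ≤ ⊤)
  rw [top_inf_eq] at h1 h2 h3 h4
  rw [finrank_top] at h1
  have hU' : ∀ v ∈ orth hA.oform U, x v ∈ orth hA.oform U := by
    exact orth_inv_of_isom hA.oform hinj hx hU
  have hhalf : ∀ W : Submodule F V, (∀ v ∈ W, x v ∈ W) → finrank F W ≤ 2 * finrank F (W ⊓ LinearMap.ker (x - 1) : Submodule F V) := by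
    intro W hW
    have h5 := LinearMap.finrank_range_add_finrank_ker ((x - 1).domRestrict W)
    have h6 : LinearMap.range ((x - 1).domRestrict W) ≤ W ⊓ LinearMap.ker (x - 1) := by
      rintro _ ⟨w, rfl⟩
      refine ⟨W.sub_mem (hW w w.2) w.2, ?_⟩
      rw [SetLike.mem_coe, LinearMap.mem_ker, LinearMap.domRestrict_apply]
      exact hn w
    have h7 := Submodule.finrank_mono h6
    have h8 : finrank F (LinearMap.ker ((x - 1).domRestrict W)) = finrank F (W ⊓ LinearMap.ker (x - 1) : Submodule F V) := by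
      rw [← Submodule.finrank_map_subtype_eq]
      have h9 : (LinearMap.ker ((x - 1).domRestrict W)).map W.subtype = W ⊓ LinearMap.ker (x - 1) := by
        apply le_antisymm
        · rintro _ ⟨w, hw, rfl⟩
          exact ⟨w.2, hw⟩
        · rintro w ⟨hw1, hw2⟩
          exact ⟨⟨w, hw1⟩, hw2, rfl⟩
      rw [h9]
    omega
  have h5 := hhalf U hU
  have h6 := hhalf _ hU'
  -- the kernels add up
  have h7 : finrank F (U ⊓ LinearMap.ker (x - 1) : Submodule F V) + finrank F (orth hA.oform U ⊓ LinearMap.ker (x - 1) : Submodule F V) ≤ finrank F (LinearMap.ker (x - 1)) := by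
    have h8 := Submodule.finrank_sup_add_finrank_inf_eq (U ⊓ LinearMap.ker (x - 1)) (orth hA.oform U ⊓ LinearMap.ker (x - 1))
    have h9 : Disjoint (U ⊓ LinearMap.ker (x - 1)) (orth hA.oform U ⊓ LinearMap.ker (x - 1)) := h3.mono inf_le_left inf_le_left
    rw [disjoint_iff.mp h9, finrank_bot, add_zero] at h8
    rw [← h8]
    exact Submodule.finrank_mono (sup_le inf_le_right inf_le_right)
  have h8 : finrank F U = 2 * finrank F (U ⊓ LinearMap.ker (x - 1) : Submodule F V) := by omega
  -- a complement
  obtain ⟨C, hC⟩ := Submodule.exists_isCompl ((U ⊓ LinearMap.ker (x - 1)).comap U.subtype)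
  have hCdim : finrank F C = finrank F (U ⊓ LinearMap.ker (x - 1) : Submodule F V) := by
    have h9 := Submodule.finrank_add_eq_of_isCompl hC
    have h10 : finrank F ((U ⊓ LinearMap.ker (x - 1)).comap U.subtype) = finrank F (U ⊓ LinearMap.ker (x - 1) : Submodule F V) :=
      LinearEquiv.finrank_eq (Submodule.comapSubtypeEquivOfLe inf_le_left)
    omega
  -- the form `β`
  let β : U → U → F := fun u v => B (u : V) ((x - 1) (v : V))
  have hβskew : ∀ u v : V, B u ((x - 1) v) = - B v ((x - 1) u) := by
    intro u v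
    have h9 := hβ (u + v)
    rw [map_add, hA.add_left, hA.add_right, hA.add_right, hβ u, hβ v, zero_add, add_zero] at h9
    exact eq_neg_of_add_eq_zero_left h9
  have hβA : AltForm β := {
    add_left := fun a b v => hA.add_left _ _ _
    smul_left := fun c a v => hA.smul_left _ _ _
    alt := fun v => hβ v
    skew := fun a b => hβskew _ _ }
  have hβC : ND β C := by
    intro c hc hc2
    have h9 : ∀ u : U, β c u = 0 := by
      intro u
      have h10 : u ∈ ((U ⊓ LinearMap.ker (x - 1)).comap U.subtype) ⊔ C := by rw [hC.sup_eq_top]; exact Submodule.mem_top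
      obtain ⟨a, ha, b, hb, rfl⟩ := Submodule.mem_sup.mp h10
      change B (c : V) ((x - 1) ((a : V) + (b : V))) = 0
      have h11 : (x - 1) (a : V) = 0 := ha.2
      rw [map_add, h11, zero_add]
      exact hc2 b hb
    have h10 : (x - 1) (c : V) = 0 := by
      apply hUN _ (U.sub_mem (hU c c.2) c.2)
      intro v hv
      apply hA.oform.refl
      have h11 := h9 ⟨v, hv⟩
      have h12 := hβskew (c : V) v
      change B (c : V) ((x - 1) v) = 0 at h11
      rw [h11] at h12
      exact neg_eq_zero.mp h12.symm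
    have h11 : c ∈ ((U ⊓ LinearMap.ker (x - 1)).comap U.subtype) := ⟨c.2, h10⟩
    exact (Submodule.disjoint_def.mp hC.disjoint) c h11 hc
  obtain ⟨k, hk'⟩ := hβA.even_finrank_sub hβC
  omega

end

section
variable {F : Type*} [Field F] [Fintype F]

lemma exists_invol_alt [CharP F 2] {d : ℕ} (hde : Even d) : ∃ x : Matrix.symplecticGroup (Fin d) F,
    (∀ v, (Matrix.toLin' (x : Matrix (Fin d ⊕ Fin d) (Fin d ⊕ Fin d) F) - 1) ((Matrix.toLin' (x : Matrix (Fin d ⊕ Fin d) (Fin d ⊕ Fin d) F) - 1) v) = 0) ∧
    (∀ v, Cfsg.sympForm d F v ((Matrix.toLin' (x : Matrix (Fin d ⊕ Fin d) (Fin d ⊕ Fin d) F) - 1) v) = 0) ∧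
    2 * finrank F (LinearMap.ker (Matrix.toLin' (x : Matrix (Fin d ⊕ Fin d) (Fin d ⊕ Fin d) F) - 1)) = 2 * d := by
  have hA := sympForm_altForm (F := F) d
  let f : (Fin d ⊕ Fin d → F) →ₗ[F] (Fin d ⊕ Fin d → F) := {
    toFun := fun v s => Sum.elim (fun i => v (Sum.inl i) + v (Sum.inr i.rev)) (fun i => v (Sum.inr i)) s
    map_add' := by
      intro u v
      funext s
      rcases s with i | i
      · simp only [Sum.elim_inl, Pi.add_apply]; ring
      · simp only [Sum.elim_inr, Pi.add_apply]
    map_smul' := by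
      intro c v
      funext s
      rcases s with i | i
      · simp only [Sum.elim_inl, Pi.smul_apply, smul_eq_mul, RingHom.id_apply]; ring
      · simp only [Sum.elim_inr, Pi.smul_apply, smul_eq_mul, RingHom.id_apply] }
  have hfl : ∀ v i, f v (Sum.inl i) = v (Sum.inl i) + v (Sum.inr i.rev) := fun v i => rfl
  have hfr : ∀ v i, f v (Sum.inr i) = v (Sum.inr i) := fun v i => rfl
  have hgl : ∀ v i, (f - 1) v (Sum.inl i) = v (Sum.inr i.rev) := fun v i => by
    change f v (Sum.inl i) - v (Sum.inl i) = _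
    rw [hfl]; ring
  have hgr : ∀ v i, (f - 1) v (Sum.inr i) = 0 := fun v i => by
    change f v (Sum.inr i) - v (Sum.inr i) = _
    rw [hfr]; ring
  obtain ⟨x, hx⟩ := exists_symp_of_isometry f (by
    intro u v
    rw [sympForm_eq, sympForm_eq]
    simp only [hfl, hfr]
    have h1 : ∑ i : Fin d, (u (Sum.inr i) * v (Sum.inr i.rev)) = ∑ i : Fin d, u (Sum.inr i.rev) * v (Sum.inr i) := by
      rw [← Equiv.sum_comp Fin.revPerm (fun i : Fin d => u (Sum.inr i) * v (Sum.inr i.rev))]
      apply Finset.sum_congr rfl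
      intro i _
      rw [Fin.revPerm_apply, Fin.rev_rev]
    rw [← sub_eq_zero, ← Finset.sum_sub_distrib]
    rw [← sub_eq_zero, ← Finset.sum_sub_distrib] at h1
    first
    | (rw [← h1]; apply Finset.sum_congr rfl; intro i _; ring)
    | (rw [← neg_eq_zero, ← h1, ← Finset.sum_neg_distrib]; apply Finset.sum_congr rfl; intro i _; ring))
  refine ⟨x, ?_, ?_, ?_⟩
  · rw [hx]
    intro v
    funext s
    rcases s with i | i
    · rw [hgl, hgr]; rfl
    · rw [hgr]; rfl
  · rw [hx]
    intro v
    rw [sympForm_eq]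
    simp only [hgl, hgr]
    have hzero : ∑ i : Fin d, v (Sum.inr i) * v (Sum.inr i.rev) = 0 := by
      refine Finset.sum_involution (fun i _ => i.rev) ?_ ?_ (fun i _ => Finset.mem_univ _) (fun i _ => Fin.rev_rev i)
      · intro i _
        rw [Fin.rev_rev, mul_comm (v (Sum.inr i.rev)), ← two_mul, CharTwo.two_eq_zero, zero_mul]
      · intro i _ _ h
        have h1 := congrArg Fin.val h
        rw [Fin.val_rev] at h1
        obtain ⟨e, he⟩ := hde
        have := i.2
        omega
    simp only [mul_zero, sub_zero]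
    exact hzero
  · rw [hx]
    congr 1
    have h1 : LinearMap.ker (f - 1) = LinearMap.range (LinearMap.pi (R := F) (M₂ := Fin d → F) (φ := fun _ : Fin d ⊕ Fin d => F)
        (fun s => Sum.elim (fun i => LinearMap.proj i) (fun _ => 0) s)) := by
      apply le_antisymm
      · intro v hv
        refine ⟨fun i => v (Sum.inl i), ?_⟩
        funext s
        rcases s with i | i
        · rfl
        · have h2 := congrFun (LinearMap.mem_ker.mp hv) (Sum.inl i.rev)
          rw [hgl, Fin.rev_rev] at h2
          rw [h2]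
          rfl
      · rintro _ ⟨w, rfl⟩
        rw [LinearMap.mem_ker]
        funext s
        rcases s with i | i
        · rw [hgl]; rfl
        · rw [hgr]; rfl
    rw [h1, LinearMap.finrank_range_of_inj, finrank_fintype_fun_eq_card, Fintype.card_fin]
    intro v w h
    funext i
    exact congrFun h (Sum.inl i)

end

end Cfsg.Agent.H99
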