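import Mathlib
import Cfsg.Agent.H99.Unip

set_option autoImplicit false
set_option linter.unusedVariables false
set_option linter.unusedSectionVars false

/-! Models of unipotent isometries of a given Jordan type (helper99). -/

namespace Cfsg.Agent.H99

open Module Polynomial

universe u

/-- a space with a nondegenerate form and a skew-adjoint nilpotent map of a given Jordan type -/
def SModel {F : Type u} [Field F] (σ : F →+* F) (ε : F) (μ : Multiset ℕ) : Prop :=
  ∃ (W : Type u) (_ : AddCommGroup W) (_ : Module F W) (_ : FiniteDimensional F W) (B : W → W → F) (T : W →ₗ[F] W),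
    EForm σ ε B ∧ ND B (⊤ : Submodule F W) ∧ (∀ u v, B (T u) v = - B u (T v)) ∧ JT T ⊤ μ

section
variable {F : Type u} [Field F] {σ : F →+* F} {ε : F}

/-- the shift -/
def shiftMap (F : Type u) [Field F] (n : ℕ) : (Fin n → F) →ₗ[F] (Fin n → F) where
  toFun v i := if h : 0 < (i : ℕ) then v ⟨i - 1, by omega⟩ else 0
  map_add' v w := by
    funext i
    simp only [Pi.add_apply]
    split_ifs <;> simp
  map_smul' c v := by
    funext i
    simp only [Pi.smul_apply, RingHom.id_apply, smul_eq_mul]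
    split_ifs <;> simp

lemma shiftMap_apply (n : ℕ) (v : Fin n → F) (i : Fin n) :
    shiftMap F n v i = if h : 0 < (i : ℕ) then v ⟨i - 1, by omega⟩ else 0 := rfl

lemma shiftMap_pow_apply (n s : ℕ) (v : Fin n → F) (i : Fin n) :
    ((shiftMap F n) ^ s) v i = if h : s ≤ (i : ℕ) then v ⟨i - s, by omega⟩ else 0 := by
  induction s generalizing i with
  | zero => simp
  | succ s ih =>
    rw [pow_succ', Module.End.mul_apply, shiftMap_apply]
    split_ifs with h1 h2 h2
    · rw [ih, dif_pos (by change s ≤ (i : ℕ) - 1; omega)]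
      congr 1
      apply Fin.ext
      change (i : ℕ) - 1 - s = i - (s + 1)
      omega
    · rw [ih, dif_neg (by change ¬ s ≤ (i : ℕ) - 1; omega)]
    · omega
    · rfl

/-- the inclusion of a truncated space -/
def shiftIn (F : Type u) [Field F] (n s : ℕ) : (Fin (n - s) → F) →ₗ[F] (Fin n → F) where
  toFun v i := if h : s ≤ (i : ℕ) then v ⟨i - s, by have := i.2; omega⟩ else 0
  map_add' v w := by
    funext i
    simp only [Pi.add_apply]
    split_ifs <;> simp
  map_smul' c v := by
    funext i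
    simp only [Pi.smul_apply, RingHom.id_apply, smul_eq_mul]
    split_ifs <;> simp

lemma shift_JT (n : ℕ) (hn : 0 < n) : JT (shiftMap F n) ⊤ {n} := by
  refine ⟨by simpa using hn, fun s => ?_⟩
  rw [Multiset.map_singleton, Multiset.sum_singleton, Submodule.map_top]
  have h1 : LinearMap.range ((shiftMap F n) ^ s) = LinearMap.range (shiftIn F n s) := by
    apply le_antisymm
    · rintro _ ⟨v, rfl⟩
      refine ⟨fun i => v ⟨i, by have := i.2; omega⟩, ?_⟩
      funext i
      rw [shiftMap_pow_apply]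
      rfl
    · rintro _ ⟨v, rfl⟩
      refine ⟨fun i => if h : (i : ℕ) < n - s then v ⟨i, h⟩ else 0, ?_⟩
      funext i
      rw [shiftMap_pow_apply]
      change _ = if h : s ≤ (i : ℕ) then v ⟨i - s, _⟩ else 0
      split_ifs with h2 h3
      · rfl
      · exfalso
        apply h3
        change (i : ℕ) - s < n - s
        have := i.2
        omega
      · rfl
  have h2 : Function.Injective (shiftIn F n s) := by
    rw [← LinearMap.ker_eq_bot, LinearMap.ker_eq_bot']
    intro v hv
    funext i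
    have h3 := congrFun hv ⟨i + s, by have := i.2; omega⟩
    change (if h : s ≤ (i : ℕ) + s then v ⟨i + s - s, _⟩ else 0) = 0 at h3
    rw [dif_pos (by omega)] at h3
    rw [Pi.zero_apply, ← h3]
    congr 1
    apply Fin.ext
    change (i : ℕ) = i + s - s
    omega
  rw [h1, LinearMap.finrank_range_of_inj h2, finrank_fintype_fun_eq_card, Fintype.card_fin]

/-- the single block -/
theorem smodel_base (hσσ : ∀ a, σ (σ a) = a) (n : ℕ) (hn : 0 < n) : SModel σ ((-1 : F) ^ (n - 1)) {n} := by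
  refine ⟨Fin n → F, inferInstance, inferInstance, inferInstance, fun u v => ∑ i : Fin n, (-1) ^ (i : ℕ) * (u i * σ (v i.rev)),
    shiftMap F n, ?_, ?_, ?_, shift_JT n hn⟩
  · refine ⟨?_, ?_, ?_, ?_⟩
    · intro x y v
      rw [← Finset.sum_add_distrib]
      apply Finset.sum_congr rfl
      intro i _
      rw [Pi.add_apply]
      ring
    · intro c x v
      rw [Finset.mul_sum]
      apply Finset.sum_congr rfl
      intro i _
      rw [Pi.smul_apply, smul_eq_mul]
      ring
    · intro x y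
      rw [map_sum, Finset.mul_sum]
      rw [← Equiv.sum_comp Fin.revPerm (fun i : Fin n => (-1 : F) ^ (n - 1) * σ ((-1) ^ (i : ℕ) * (x i * σ (y i.rev))))]
      apply Finset.sum_congr rfl
      intro i _
      rw [Fin.revPerm_apply, map_mul, map_mul, hσσ, Fin.rev_rev, map_pow, map_neg, map_one]
      have h1 : (-1 : F) ^ (i : ℕ) = (-1) ^ (n - 1) * (-1) ^ (i.rev : ℕ) := by
        rw [← pow_add, Fin.val_rev]
        have h2 : n - 1 + (n - (↑i + 1)) = (i : ℕ) + 2 * (n - 1 - i) := by have := i.2; omega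
        rw [h2, pow_add, pow_mul]
        simp
      rw [h1]
      ring
    · rw [← pow_add, ← two_mul, pow_mul]
      simp
  · intro u _ hu
    funext i
    have h1 : ∑ j : Fin n, (-1) ^ (j : ℕ) * (u j * σ ((Pi.single i.rev 1 : Fin n → F) j.rev)) = 0 := hu (Pi.single i.rev 1) Submodule.mem_top
    rw [Finset.sum_eq_single i] at h1
    · rw [Pi.single_eq_same, map_one, mul_one] at h1
      exact (mul_eq_zero.mp h1).resolve_left (pow_ne_zero _ (neg_ne_zero.mpr one_ne_zero))
    · intro j _ hj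
      rw [Pi.single_eq_of_ne, map_zero, mul_zero, mul_zero]
      intro h
      exact hj (Fin.rev_injective h)
    · intro h
      exact absurd (Finset.mem_univ _) h
  · intro u v
    obtain ⟨n, rfl⟩ : ∃ k, n = k + 1 := ⟨n - 1, by omega⟩
    beta_reduce
    rw [Fin.sum_univ_succ, Fin.sum_univ_castSucc]
    have h1 : shiftMap F (n + 1) u 0 = 0 := by rw [shiftMap_apply, dif_neg (by simp)]
    have h2 : shiftMap F (n + 1) v (Fin.rev (Fin.last n)) = 0 := by
      rw [Fin.rev_last, shiftMap_apply, dif_neg (by simp)]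
    rw [h1, h2, map_zero, zero_mul, mul_zero, mul_zero, mul_zero, zero_add, add_zero, ← Finset.sum_neg_distrib]
    apply Finset.sum_congr rfl
    intro i _
    rw [shiftMap_apply, shiftMap_apply, dif_pos (by simp), dif_pos (by rw [Fin.val_rev, Fin.val_castSucc]; have := i.2; omega)]
    have h3 : (⟨(i.succ : ℕ) - 1, by omega⟩ : Fin (n + 1)) = i.castSucc := by
      apply Fin.ext
      simp
    have h4 : (⟨(i.castSucc.rev : ℕ) - 1, by omega⟩ : Fin (n + 1)) = i.succ.rev := by
      apply Fin.ext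
      change (i.castSucc.rev : ℕ) - 1 = (i.succ.rev : ℕ)
      rw [Fin.val_rev, Fin.val_rev, Fin.val_castSucc, Fin.val_succ]
      omega
    rw [h3, h4, Fin.val_succ, Fin.val_castSucc, pow_succ]
    ring

lemma JT.prod {W₁ W₂ : Type*} [AddCommGroup W₁] [Module F W₁] [FiniteDimensional F W₁] [AddCommGroup W₂] [Module F W₂] [FiniteDimensional F W₂]
    {T₁ : W₁ →ₗ[F] W₁} {T₂ : W₂ →ₗ[F] W₂} {μ ν : Multiset ℕ} (h : JT T₁ ⊤ μ) (h' : JT T₂ ⊤ ν) :
    JT (T₁.prodMap T₂) (⊤ : Submodule F (W₁ × W₂)) (μ + ν) := by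
  refine ⟨?_, ?_⟩
  · intro a ha
    rcases Multiset.mem_add.mp ha with ha | ha
    · exact h.1 a ha
    · exact h'.1 a ha
  · intro s
    have h1 : (T₁.prodMap T₂) ^ s = (T₁ ^ s).prodMap (T₂ ^ s) := by
      induction s with
      | zero => rfl
      | succ s ih => rw [pow_succ, ih, pow_succ, pow_succ]; rfl
    have h2 := h.2 s
    have h3 := h'.2 s
    rw [Submodule.map_top] at h2 h3 ⊢
    rw [Multiset.map_add, Multiset.sum_add, ← h2, ← h3, h1]
    have h4 := LinearMap.finrank_range_add_finrank_ker ((T₁ ^ s).prodMap (T₂ ^ s))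
    have h5 := LinearMap.finrank_range_add_finrank_ker (T₁ ^ s)
    have h6 := LinearMap.finrank_range_add_finrank_ker (T₂ ^ s)
    have h7 : finrank F (LinearMap.ker ((T₁ ^ s).prodMap (T₂ ^ s))) = finrank F (LinearMap.ker (T₁ ^ s)) + finrank F (LinearMap.ker (T₂ ^ s)) := by
      rw [LinearMap.ker_prodMap, ← finrank_prod]
      apply LinearEquiv.finrank_eq
      exact {
        toFun := fun v => (⟨v.1.1, v.2.1⟩, ⟨v.1.2, v.2.2⟩)
        invFun := fun v => ⟨(v.1.1, v.2.1), ⟨v.1.2, v.2.2⟩⟩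
        map_add' := fun _ _ => rfl
        map_smul' := fun _ _ => rfl
        left_inv := fun _ => rfl
        right_inv := fun _ => rfl }
    rw [finrank_prod] at h4
    omega

theorem SModel.add {μ ν : Multiset ℕ} (h : SModel σ ε μ) (h' : SModel σ ε ν) : SModel σ ε (μ + ν) := by
  obtain ⟨W₁, _, _, _, B₁, T₁, hE₁, hN₁, hs₁, hJ₁⟩ := h
  obtain ⟨W₂, _, _, _, B₂, T₂, hE₂, hN₂, hs₂, hJ₂⟩ := h'
  refine ⟨W₁ × W₂, inferInstance, inferInstance, inferInstance, fun u v => B₁ u.1 v.1 + B₂ u.2 v.2, T₁.prodMap T₂, ⟨?_, ?_, ?_, ?_⟩, ?_, ?_, hJ₁.prod hJ₂⟩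
  · intro x y v
    simp only [Prod.fst_add, Prod.snd_add, hE₁.add_left, hE₂.add_left]
    ring
  · intro c x v
    simp only [Prod.smul_fst, Prod.smul_snd, hE₁.smul_left, hE₂.smul_left]
    ring
  · intro x y
    rw [hE₁.symm x.1, hE₂.symm x.2, map_add]
    ring
  · exact hE₁.eps
  · intro u _ hu
    apply Prod.ext
    · apply hN₁ _ Submodule.mem_top
      intro v _
      have : B₁ u.1 v + B₂ u.2 0 = 0 := hu (v, 0) Submodule.mem_top
      rwa [hE₂.zero_right, add_zero] at this
    · apply hN₂ _ Submodule.mem_top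
      intro v _
      have : B₁ u.1 0 + B₂ u.2 v = 0 := hu (0, v) Submodule.mem_top
      rwa [hE₁.zero_right, zero_add] at this
  · intro u v
    rw [LinearMap.prodMap_apply, LinearMap.prodMap_apply]
    simp only [hs₁, hs₂]
    ring

/-- doubling -/
theorem SModel.double {η : F} (hεσ : σ ε = ε) (hησ : σ η = η) (hσσ : ∀ a, σ (σ a) = a) (hε : ε * ε = 1) {μ : Multiset ℕ} (h : SModel σ η μ) : SModel σ ε (μ + μ) := by
  obtain ⟨W, _, _, _, B, T, hE, hN, hs, hJ⟩ := h
  have hη := hE.eps
  refine ⟨W × W, inferInstance, inferInstance, inferInstance, fun u v => B u.1 v.2 + (ε * η) * B u.2 v.1, T.prodMap T, ⟨?_, ?_, ?_, hε⟩, ?_, ?_, hJ.prod hJ⟩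
  · intro x y v
    simp only [Prod.fst_add, Prod.snd_add, hE.add_left]
    ring
  · intro c x v
    simp only [Prod.smul_fst, Prod.smul_snd, hE.smul_left]
    ring
  · intro x y
    rw [hE.symm x.2 y.1, hE.symm x.1 y.2, map_add, map_mul, map_mul, hεσ, hησ]
    linear_combination (σ (B x.1 y.2) * ε) * hη - (η * σ (B x.2 y.1)) * hε
  · have hεη : ε * η ≠ 0 := by
      intro h
      have h1 : (ε * η) * (ε * η) = 1 := by
        calc (ε * η) * (ε * η) = (ε * ε) * (η * η) := by ring
          _ = 1 := by rw [hε, hη, one_mul]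
      rw [h, zero_mul] at h1
      exact one_ne_zero h1.symm
    intro u _ hu
    apply Prod.ext
    · apply hN _ Submodule.mem_top
      intro v _
      have : B u.1 v + ε * η * B u.2 0 = 0 := hu (0, v) Submodule.mem_top
      rwa [hE.zero_right, mul_zero, add_zero] at this
    · apply hN _ Submodule.mem_top
      intro v _
      have : B u.1 0 + ε * η * B u.2 v = 0 := hu (v, 0) Submodule.mem_top
      rw [hE.zero_right, zero_add] at this
      exact (mul_eq_zero.mp this).resolve_left hεη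
  · intro u v
    rw [LinearMap.prodMap_apply, LinearMap.prodMap_apply]
    simp only [hs]
    ring

/-- rescaling -/
theorem SModel.scale {η c : F} (hc : c ≠ 0) (hcη : c * η = ε * σ c) (hε : ε * ε = 1) {μ : Multiset ℕ} (h : SModel σ η μ) : SModel σ ε μ := by
  obtain ⟨W, _, _, _, B, T, hE, hN, hs, hJ⟩ := h
  refine ⟨W, inferInstance, inferInstance, inferInstance, fun u v => c * B u v, T, ⟨?_, ?_, ?_, hε⟩, ?_, ?_, hJ⟩
  · intro x y v
    simp only [hE.add_left]
    ring
  · intro a x v
    simp only [hE.smul_left]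
    ring
  · intro x y
    rw [hE.symm x y, map_mul]
    linear_combination (σ (B x y)) * hcη
  · intro u _ hu
    apply hN _ Submodule.mem_top
    intro v hv
    exact (mul_eq_zero.mp (hu v hv)).resolve_left hc
  · intro u v
    simp only [hs]
    ring

theorem SModel.zero (hε : ε * ε = 1) : SModel σ ε (0 : Multiset ℕ) := by
  refine ⟨PUnit, inferInstance, inferInstance, inferInstance, fun _ _ => 0, 0, ⟨?_, ?_, ?_, hε⟩, ?_, ?_, ?_⟩
  · simp
  · simp
  · simp
  · intro u _ _
    rfl
  · simp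
  · refine ⟨by simp, fun s => ?_⟩
    exact finrank_zero_of_subsingleton

/-- models of all Jordan types satisfying the parity condition -/
theorem exists_smodel (hεσ : σ ε = ε) (hσσ : ∀ a, σ (σ a) = a) (hε : ε * ε = 1) (sgl : ℕ → Prop)
    (hs : ∀ n, 0 < n → sgl n → SModel σ ε {n}) (k : ℕ) : ∀ μ : Multiset ℕ, Multiset.card μ = k → (∀ a ∈ μ, 0 < a) →
    (∀ a, ¬ sgl a → Even (μ.count a)) → SModel σ ε μ := by
  induction k using Nat.strong_induction_on with
  | _ k ih =>
    intro μ hk hpos hμ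
    by_cases h0 : μ = 0
    · subst h0
      exact SModel.zero hε
    obtain ⟨a, ha⟩ := Multiset.exists_mem_of_ne_zero h0
    by_cases hsa : sgl a
    · obtain ⟨ν, rfl⟩ := Multiset.exists_cons_of_mem ha
      rw [Multiset.card_cons] at hk
      rw [← Multiset.singleton_add]
      apply SModel.add (hs a (hpos a ha) hsa)
      apply ih _ (by omega) ν rfl (fun b hb => hpos b (Multiset.mem_cons_of_mem hb))
      intro b hb
      have h1 := hμ b hb
      rw [Multiset.count_cons] at h1
      rw [if_neg (by rintro rfl; exact hb hsa), add_zero] at h1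
      exact h1
    · have h1 := hμ a hsa
      have h2 : 0 < μ.count a := Multiset.count_pos.mpr ha
      have h3 : Multiset.replicate 2 a ≤ μ := by
        rw [← Multiset.le_count_iff_replicate_le]
        obtain ⟨c, hc⟩ := h1
        omega
      obtain ⟨ν, rfl⟩ := Multiset.le_iff_exists_add.mp h3
      rw [Multiset.card_add, Multiset.card_replicate] at hk
      have h4 : SModel σ ε (Multiset.replicate 2 a) := by
        have h5 : Multiset.replicate 2 a = ({a} : Multiset ℕ) + {a} := rfl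
        rw [h5]
        apply SModel.double (η := (-1 : F) ^ (a - 1)) hεσ _ hσσ hε (smodel_base hσσ a (hpos a ha))
        rw [map_pow, map_neg, map_one]
      apply SModel.add h4
      apply ih _ (by omega) ν rfl (fun b hb => hpos b (Multiset.mem_add.mpr (Or.inr hb)))
      intro b hb
      have h5 := hμ b hb
      rw [Multiset.count_add, Multiset.count_replicate] at h5
      have h6 : Even (if a = b then 2 else 0) := by
        split_ifs
        · exact even_two
        · exact Even.zero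
      exact (Nat.even_add.mp h5).mp h6

end

section cayley
variable {F : Type u} [Field F] {σ : F →+* F} {ε : F}

lemma JT.pow_eq_zero {V : Type*} [AddCommGroup V] [Module F V] [FiniteDimensional F V] {T : V →ₗ[F] V} {μ : Multiset ℕ} (h : JT T ⊤ μ) {P : ℕ}
    (hP : ∀ a ∈ μ, a ≤ P) : T ^ P = 0 := by
  have h1 := h.2 P
  have h2 : (μ.map (fun a => a - P)).sum = 0 := by
    rw [Multiset.sum_eq_zero_iff]
    intro b hb
    obtain ⟨a, ha, rfl⟩ := Multiset.mem_map.mp hb
    have := hP a ha
    omega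
  rw [h2] at h1
  have h3 := Submodule.finrank_eq_zero.mp h1
  rw [Submodule.map_top] at h3
  exact LinearMap.range_eq_bot.mp h3

/-- the Cayley transform -/
theorem exists_cayley {V : Type*} [AddCommGroup V] [Module F V] [FiniteDimensional F V] {B : V → V → F} (hE : EForm σ ε B) (h2 : (2 : F) ≠ 0)
    {T : V →ₗ[F] V} (hT : ∀ u v, B (T u) v = - B u (T v)) {P : ℕ} (hP : T ^ P = 0) :
    ∃ x : V →ₗ[F] V, (∀ u v, B (x u) (x v) = B u v) ∧ (x - 1) ^ P = 0 ∧ ∀ μ, JT T ⊤ μ → JT (x - 1) ⊤ μ := by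
  have hnil : IsNilpotent T := ⟨P, hP⟩
  have hunit : IsUnit (1 - T) := hnil.isUnit_one_sub
  obtain ⟨w, hw⟩ := hunit
  have hcomm : Commute T (w : V →ₗ[F] V) := by
    rw [hw]
    exact (Commute.one_right T).sub_right (Commute.refl T)
  have hcomm' : Commute T ((w⁻¹ : (V →ₗ[F] V)ˣ) : V →ₗ[F] V) := hcomm.units_inv_right
  have hw1 : (w : V →ₗ[F] V) * ((w⁻¹ : (V →ₗ[F] V)ˣ) : V →ₗ[F] V) = 1 := w.mul_inv
  refine ⟨(1 + T) * ((w⁻¹ : (V →ₗ[F] V)ˣ) : V →ₗ[F] V), ?_, ?_, ?_⟩
  · intro u v
    have h3 : ∀ a, a = (1 - T) (((w⁻¹ : (V →ₗ[F] V)ˣ) : V →ₗ[F] V) a) := by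
      intro a
      rw [← hw, ← Module.End.mul_apply, hw1, Module.End.one_apply]
    conv_rhs => rw [h3 u, h3 v]
    rw [Module.End.mul_apply, Module.End.mul_apply]
    generalize ((w⁻¹ : (V →ₗ[F] V)ˣ) : V →ₗ[F] V) u = u'
    generalize ((w⁻¹ : (V →ₗ[F] V)ˣ) : V →ₗ[F] V) v = v'
    simp only [LinearMap.add_apply, LinearMap.sub_apply, Module.End.one_apply, hE.add_left, hE.add_right, hE.oform.sub_left, hE.sub_right, hT]
    ring
  · have h3 : (1 + T) * ((w⁻¹ : (V →ₗ[F] V)ˣ) : V →ₗ[F] V) - 1 = (2 : F) • (T * ((w⁻¹ : (V →ₗ[F] V)ˣ) : V →ₗ[F] V)) := by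
      nth_rw 2 [← hw1]
      rw [hw, ← sub_mul, ← smul_mul_assoc]
      congr 1
      rw [two_smul]
      abel
    rw [h3, _root_.smul_pow, hcomm'.mul_pow, hP, zero_mul, smul_zero]
  · intro μ hμ
    refine ⟨hμ.1, fun s => ?_⟩
    rw [← hμ.2 s]
    have h3 : (1 + T) * ((w⁻¹ : (V →ₗ[F] V)ˣ) : V →ₗ[F] V) - 1 = (2 : F) • (T * ((w⁻¹ : (V →ₗ[F] V)ˣ) : V →ₗ[F] V)) := by
      nth_rw 2 [← hw1]
      rw [hw, ← sub_mul, ← smul_mul_assoc]
      congr 1
      rw [two_smul]
      abel
    rw [h3, _root_.smul_pow, hcomm'.mul_pow]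
    have h4 : Submodule.map ((2 : F) ^ s • (T ^ s * ((w⁻¹ : (V →ₗ[F] V)ˣ) : V →ₗ[F] V) ^ s)) (⊤ : Submodule F V) = Submodule.map (T ^ s) ⊤ := by
      rw [Submodule.map_top, Submodule.map_top]
      apply le_antisymm
      · rintro _ ⟨v, rfl⟩
        rw [LinearMap.smul_apply, Module.End.mul_apply]
        exact Submodule.smul_mem _ _ ⟨_, rfl⟩
      · rintro _ ⟨v, rfl⟩
        refine ⟨((2 : F) ^ s)⁻¹ • ((w : V →ₗ[F] V) ^ s) v, ?_⟩
        rw [LinearMap.smul_apply, map_smul, smul_smul, mul_inv_cancel₀ (pow_ne_zero s h2), one_smul, Module.End.mul_apply,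
          ← Module.End.mul_apply (((w⁻¹ : (V →ₗ[F] V)ˣ) : V →ₗ[F] V) ^ s), ← Units.val_pow_eq_pow_val, ← Units.val_pow_eq_pow_val, inv_pow,
          Units.inv_mul, Module.End.one_apply]
    rw [h4]

end cayley

end Cfsg.Agent.H99
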