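import Mathlib
import Cfsg.Agent.H99.UnipModel
import Cfsg.Agent.H99.SympRed
import Cfsg.Agent.H99.SympCard

set_option autoImplicit false
set_option linter.unusedVariables false
set_option linter.unusedSectionVars false

/-! Unipotent elements of symplectic groups, odd characteristic (helper99). -/

namespace Cfsg.Agent.H99

open Module Polynomial Matrix

universe u

lemma JT.transfer {F : Type*} [Field F] {V W : Type*} [AddCommGroup V] [Module F V] [FiniteDimensional F V] [AddCommGroup W] [Module F W]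
    [FiniteDimensional F W] (E : V ≃ₗ[F] W) {T : V →ₗ[F] V} {μ : Multiset ℕ} (h : JT T ⊤ μ) {S : W →ₗ[F] W} (hS : ∀ v, S (E v) = E (T v)) :
    JT S ⊤ μ := by
  refine ⟨h.1, fun s => ?_⟩
  rw [← h.2 s]
  have h1 : ∀ v, (S ^ s) (E v) = E ((T ^ s) v) := by
    intro v
    induction s with
    | zero => rfl
    | succ s ih => rw [pow_succ', Module.End.mul_apply, ih, hS, ← Module.End.mul_apply, ← pow_succ']
  have h2 : (⊤ : Submodule F W).map (S ^ s) = ((⊤ : Submodule F V).map (T ^ s)).map E.toLinearMap := by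
    apply le_antisymm
    · rintro _ ⟨w, _, rfl⟩
      obtain ⟨v, rfl⟩ := E.surjective w
      exact ⟨(T ^ s) v, ⟨v, Submodule.mem_top, rfl⟩, (h1 v).symm⟩
    · rintro _ ⟨_, ⟨v, _, rfl⟩, rfl⟩
      exact ⟨E v, Submodule.mem_top, h1 v⟩
  rw [h2]
  exact LinearEquiv.finrank_map_eq E _

lemma altForm_of_eform {F V : Type*} [Field F] [AddCommGroup V] [Module F V] {B : V → V → F} (h2 : (2 : F) ≠ 0) (hE : EForm (RingHom.id F) (-1) B) : AltForm B where
  add_left := hE.add_left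
  smul_left := hE.smul_left
  alt v := by
    have h1 := hE.symm v v
    rw [RingHom.id_apply] at h1
    have h3 : 2 * B v v = 0 := by linear_combination h1
    exact (mul_eq_zero.mp h3).resolve_left h2
  skew x y := by rw [hE.symm y x, RingHom.id_apply, neg_one_mul]

variable {F : Type u} [Field F] {d : ℕ}

theorem exists_symp_jordan (h2 : (2 : F) ≠ 0) (μ : Multiset ℕ) (hpos : ∀ a ∈ μ, 0 < a) (hodd : ∀ a, Odd a → Even (μ.count a)) (hsum : μ.sum = 2 * d)
    {P : ℕ} (hP : ∀ a ∈ μ, a ≤ P) :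
    ∃ x : Matrix.symplecticGroup (Fin d) F, (Matrix.toLin' (x : Matrix (Fin d ⊕ Fin d) (Fin d ⊕ Fin d) F) - 1) ^ P = 0 ∧
      JT (Matrix.toLin' (x : Matrix (Fin d ⊕ Fin d) (Fin d ⊕ Fin d) F) - 1) ⊤ μ := by
  have hm : SModel (RingHom.id F) (-1) μ := by
    apply exists_smodel (by simp) (fun a => rfl) (by ring) Even _ (Multiset.card μ) μ rfl hpos
    · intro a ha
      exact hodd a (Nat.not_even_iff_odd.mp ha)
    · intro n hn he
      have h3 := smodel_base (σ := RingHom.id F) (fun a => rfl) n hn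
      have h4 : Odd (n - 1) := by
        obtain ⟨k, hk⟩ := he
        exact ⟨k - 1, by omega⟩
      rwa [h4.neg_one_pow] at h3
  obtain ⟨W, _, _, _, B, T, hE, hN, hs, hJ⟩ := hm
  obtain ⟨x, h3, h4, h5⟩ := exists_cayley hE h2 hs (hJ.pow_eq_zero hP)
  have h6 := h5 μ hJ
  have hA := altForm_of_eform h2 hE
  have hdim : finrank F W = 2 * d := by
    rw [← finrank_top F W, hJ.finrank_eq, hsum]
  obtain ⟨E, hE'⟩ := exists_equiv_sympForm hA hN hdim
  obtain ⟨g, hg⟩ := exists_symp_of_isometry (d := d) (E.symm.toLinearMap ∘ₗ x ∘ₗ E.toLinearMap) (by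
    intro u v
    rw [← hE', ← hE']
    simp [h3])
  refine ⟨g, ?_, ?_⟩
  · rw [hg]
    have h7 : ∀ (k : ℕ) v, ((E.symm.toLinearMap ∘ₗ x ∘ₗ E.toLinearMap - 1 : (Fin d ⊕ Fin d → F) →ₗ[F] (Fin d ⊕ Fin d → F)) ^ k) v = E.symm (((x - 1) ^ k) (E v)) := by
      intro k v
      induction k with
      | zero => simp
      | succ k ih =>
        rw [pow_succ', Module.End.mul_apply, ih, pow_succ', Module.End.mul_apply]
        simp
    ext1 v
    ext1
    rw [LinearMap.comp_apply, LinearMap.comp_apply, h7, h4]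
    simp
  · rw [hg]
    apply h6.transfer E.symm
    intro v
    simp

theorem symp_unip_decomp {V : Type*} [AddCommGroup V] [Module F V] [FiniteDimensional F V] {B : V → V → F} (h2 : (2 : F) ≠ 0) (hA : AltForm B)
    (hND : ND B (⊤ : Submodule F V)) {x : V →ₗ[F] V} (hx : ∀ u v, B (x u) (x v) = B u v) {P : ℕ}
    {W : Submodule F V} (hW : ∀ v ∈ W, x v ∈ W) (hWN : ND B W) (hP : (x - 1) ^ P = 0) :
    ∃ μ : Multiset ℕ, (∀ a ∈ μ, a ≤ P) ∧ (∀ a, Odd a → Even (μ.count a)) ∧ JT (x - 1) W μ ∧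
      ∀ ν ≤ μ, (∀ a, Odd a → Even (ν.count a)) → ∃ U ≤ W, (∀ v ∈ U, x v ∈ U) ∧ ND B U ∧ JT (x - 1) U ν := by
  have hE := hA.eform
  have hsymm : ∀ (W : Submodule F V) (n : ℕ), (∀ v ∈ W, x v ∈ W) → (∀ v ∈ W, ((x - 1 : V →ₗ[F] V) ^ n) v = 0) → 0 < n →
      ∀ u ∈ W, ∀ w ∈ W, B w (((x - 1 : V →ₗ[F] V) ^ (n - 1)) u) = (-1) ^ n * B u (((x - 1 : V →ₗ[F] V) ^ (n - 1)) w) := by
    intro W n hW hn hn0 u hu w hw
    have h3 := (key_top hE hx hW hn (n - 1) 0 u w hu hw).2 (by omega)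
    rw [pow_zero, Module.End.one_apply] at h3
    rw [hE.symm, RingHom.id_apply, h3, ← mul_assoc]
    congr 1
    obtain ⟨k, rfl⟩ : ∃ k, n = k + 1 := ⟨n - 1, by omega⟩
    rw [Nat.add_sub_cancel, pow_succ]
    ring
  obtain ⟨μ, h3, h4, h5, h6⟩ := exists_unip_decomp hE (isom_injective hA.oform hND x hx) hx (P := P) Even (by
    intro W n hW hn hn0 he h u hu w hw
    have h3 := h (u + w) (W.add_mem hu hw)
    rw [map_add, hE.add_left, hE.add_right, hE.add_right, h u hu, h w hw, hsymm W n hW hn hn0 u hu w hw, he.neg_one_pow] at h3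
    have h4 : 2 * B u (((x - 1 : V →ₗ[F] V) ^ (n - 1)) w) = 0 := by linear_combination h3
    exact (mul_eq_zero.mp h4).resolve_left h2) (by
    intro W n hW hn hn0 he
    rw [Nat.not_even_iff_odd] at he
    refine ⟨fun w hw => ?_, fun u hu w hw h => ?_⟩
    · have h3 := hsymm W n hW hn hn0 w hw w hw
      rw [he.neg_one_pow] at h3
      have h4 : 2 * B w (((x - 1 : V →ₗ[F] V) ^ (n - 1)) w) = 0 := by linear_combination h3
      exact (mul_eq_zero.mp h4).resolve_left h2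
    · have h3 := hsymm W n hW hn hn0 w hw u hu
      rw [h3, h, mul_zero]) (finrank F W) W hW hWN (fun v _ => by rw [hP]; rfl) rfl
  exact ⟨μ, h3, fun a ha => h4 a (Nat.not_even_iff_odd.mpr ha), h5, fun ν hν hνo => h6 ν hν (fun a ha => hνo a (Nat.not_even_iff_odd.mp ha))⟩

end Cfsg.Agent.H99
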