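import Mathlib
import Cfsg.Agent.H99.SympUnip
import Cfsg.Agent.H99.SympInvol
import Cfsg.Agent.Orth.Diag
import Cfsg.Agent.Orth.Types
import Cfsg.Agent.Orth.Homs

set_option autoImplicit false
set_option linter.unusedVariables false
set_option linter.unusedSectionVars false

/-! Unipotent elements of orthogonal groups, odd characteristic (helper99). -/

namespace Cfsg.Agent.H99

open Module Matrix Polynomial
open QuadraticMap (polar polarBilin)

universe u

section
variable {F : Type u} [Field F] {V : Type*} [AddCommGroup V] [Module F V]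

lemma polar_eform (Q : QuadraticForm F V) : EForm (RingHom.id F) 1 (fun u v : V => polar Q u v) where
  add_left x y v := Orth.pal Q x y v
  smul_left c x v := Orth.psl Q c x v
  symm x y := by rw [one_mul, RingHom.id_apply]; exact Orth.pc Q y x
  eps := by ring

lemma ND_polar {Q : QuadraticForm F V} (hQ : (polarBilin Q).Nondegenerate) : ND (fun u v : V => polar Q u v) (⊤ : Submodule F V) := by
  intro u _ hu
  exact hQ.1 u (fun v => hu v Submodule.mem_top)

lemma nondegenerate_of_ND {Q : QuadraticForm F V} (h : ND (fun u v : V => polar Q u v) (⊤ : Submodule F V)) : (polarBilin Q).Nondegenerate := by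
  constructor
  · intro u hu
    exact h u Submodule.mem_top (fun v _ => hu v)
  · intro u hu
    exact h u Submodule.mem_top (fun v _ => by
      change polar Q u v = 0
      rw [Orth.pc]
      exact hu v)

variable [FiniteDimensional F V] {B : V → V → F}

lemma orth_inv_of_isom' (hB : OForm B) {x : V →ₗ[F] V} (hinj : Function.Injective x) (hx : ∀ u v, B (x u) (x v) = B u v) {P : Submodule F V}
    (hP : ∀ v ∈ P, x v ∈ P) : ∀ v ∈ orth hB P, x v ∈ orth hB P := by
  have h1 : P.map x = P := by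
    apply Submodule.eq_of_le_of_finrank_eq
    · rintro _ ⟨u, hu, rfl⟩
      exact hP u hu
    · exact (LinearEquiv.finrank_eq (Submodule.equivMapOfInjective x hinj P)).symm
  exact orth_invariant hB x (fun u v h => by rw [hx, h]) h1.ge

/-- symmetry of the top form -/
lemma top_symm (hE : EForm (RingHom.id F) 1 B) {x : V →ₗ[F] V} (hx : ∀ u v, B (x u) (x v) = B u v) {W : Submodule F V} {n : ℕ} (hW : ∀ v ∈ W, x v ∈ W)
    (hn : ∀ v ∈ W, ((x - 1 : V →ₗ[F] V) ^ n) v = 0) (hn0 : 0 < n) :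
    ∀ u ∈ W, ∀ w ∈ W, B w (((x - 1 : V →ₗ[F] V) ^ (n - 1)) u) = (-1) ^ (n - 1) * B u (((x - 1 : V →ₗ[F] V) ^ (n - 1)) w) := by
  intro u hu w hw
  have h3 := (key_top hE hx hW hn (n - 1) 0 u w hu hw).2 (by omega)
  rw [pow_zero, Module.End.one_apply] at h3
  rw [hE.symm, RingHom.id_apply, h3, one_mul]

theorem orth_unip_decomp (h2 : (2 : F) ≠ 0) (hE : EForm (RingHom.id F) 1 B)
    {x : V →ₗ[F] V} (hinj : Function.Injective x) (hx : ∀ u v, B (x u) (x v) = B u v) {P : ℕ}
    {W : Submodule F V} (hW : ∀ v ∈ W, x v ∈ W) (hWN : ND B W) (hP : (x - 1) ^ P = 0) :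
    ∃ μ : Multiset ℕ, (∀ a ∈ μ, a ≤ P) ∧ (∀ a, Even a → Even (μ.count a)) ∧ JT (x - 1) W μ ∧
      ∀ ν ≤ μ, (∀ a, Even a → Even (ν.count a)) → ∃ U ≤ W, (∀ v ∈ U, x v ∈ U) ∧ ND B U ∧ JT (x - 1) U ν := by
  obtain ⟨μ, h3, h4, h5, h6⟩ := exists_unip_decomp hE hinj hx (P := P) Odd (by
    intro W n hW hn hn0 he h u hu w hw
    have h3 := h (u + w) (W.add_mem hu hw)
    have he' : Even (n - 1) := by
      obtain ⟨k, hk⟩ := he
      exact ⟨k, by omega⟩
    rw [map_add, hE.add_left, hE.add_right, hE.add_right, h u hu, h w hw, top_symm hE hx hW hn hn0 u hu w hw, he'.neg_one_pow] at h3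
    have h4 : 2 * B u (((x - 1 : V →ₗ[F] V) ^ (n - 1)) w) = 0 := by linear_combination h3
    exact (mul_eq_zero.mp h4).resolve_left h2) (by
    intro W n hW hn hn0 he
    rw [Nat.not_odd_iff_even] at he
    have he' : Odd (n - 1) := by
      obtain ⟨k, hk⟩ := he
      exact ⟨k - 1, by omega⟩
    refine ⟨fun w hw => ?_, fun u hu w hw h => ?_⟩
    · have h3 := top_symm hE hx hW hn hn0 w hw w hw
      rw [he'.neg_one_pow] at h3
      have h4 : 2 * B w (((x - 1 : V →ₗ[F] V) ^ (n - 1)) w) = 0 := by linear_combination h3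
      exact (mul_eq_zero.mp h4).resolve_left h2
    · have h3 := top_symm hE hx hW hn hn0 w hw u hu
      rw [h3, h, mul_zero]) (finrank F W) W hW hWN (fun v _ => by rw [hP]; rfl) rfl
  exact ⟨μ, h3, fun a ha => h4 a (Nat.not_odd_iff_even.mpr ha), h5, fun ν hν hνo => h6 ν hν (fun a ha => hνo a (Nat.not_odd_iff_even.mp ha))⟩

/-- spaces on which all Jordan blocks have even size are hyperbolic -/
theorem exists_ts_half (h2 : (2 : F) ≠ 0) (hE : EForm (RingHom.id F) 1 B)
    {x : V →ₗ[F] V} (hinj : Function.Injective x) (hx : ∀ u v, B (x u) (x v) = B u v) {P : ℕ} (hP : (x - 1) ^ P = 0) (k : ℕ) :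
    ∀ (W : Submodule F V) (μ : Multiset ℕ), (∀ v ∈ W, x v ∈ W) → ND B W → JT (x - 1) W μ → (∀ a ∈ μ, Even a) → Multiset.card μ = k →
    ∃ L ≤ W, (∀ u ∈ L, ∀ v ∈ L, B u v = 0) ∧ 2 * finrank F L = finrank F W := by
  induction k using Nat.strong_induction_on with
  | _ k ih =>
    intro W μ hW hWN hJ he hk
    by_cases h0 : μ = 0
    · subst h0
      have h1 := hJ.finrank_eq
      rw [Multiset.sum_zero] at h1
      refine ⟨⊥, bot_le, ?_, by rw [h1, finrank_bot, mul_zero]⟩
      intro u hu v _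
      rw [(Submodule.mem_bot F).mp hu]
      exact hE.oform.zero_left v
    · obtain ⟨a, ha⟩ := Multiset.exists_mem_of_ne_zero h0
      have hae := he a ha
      have ha0 := hJ.1 a ha
      obtain ⟨μ', -, h3, h4, h5⟩ := orth_unip_decomp h2 hE hinj hx hW hWN hP
      have h6 := hJ.unique h4
      subst h6
      have h7 : Multiset.replicate 2 a ≤ μ := by
        rw [← Multiset.le_count_iff_replicate_le]
        have h8 : 0 < μ.count a := Multiset.count_pos.mpr ha
        obtain ⟨c, hc⟩ := h3 a hae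
        omega
      obtain ⟨U, g1, g2, g3, g4⟩ := h5 _ h7 (by
        intro b _
        rw [Multiset.count_replicate]
        split_ifs
        · exact even_two
        · exact Even.zero)
      -- the totally isotropic part of `U`
      have g5 : finrank F U = 2 * a := by
        rw [g4.finrank_eq, Multiset.sum_replicate, smul_eq_mul]
      have g6 : ∀ v ∈ U, ((x - 1 : V →ₗ[F] V) ^ a) v = 0 := by
        intro v hv
        have h8 := g4.2 a
        rw [Multiset.map_replicate, Multiset.sum_replicate, Nat.sub_self, smul_zero] at h8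
        have h9 := Submodule.finrank_eq_zero.mp h8
        have h10 : ((x - 1 : V →ₗ[F] V) ^ a) v ∈ U.map ((x - 1 : V →ₗ[F] V) ^ a) := ⟨v, hv, rfl⟩
        rw [h9] at h10
        exact (Submodule.mem_bot F).mp h10
      have g7 : finrank F (U.map ((x - 1 : V →ₗ[F] V) ^ (a / 2))) = a := by
        rw [g4.2 (a / 2), Multiset.map_replicate, Multiset.sum_replicate, smul_eq_mul]
        obtain ⟨c, hc⟩ := hae
        omega
      have g8 : ∀ u ∈ U.map ((x - 1 : V →ₗ[F] V) ^ (a / 2)), ∀ v ∈ U.map ((x - 1 : V →ₗ[F] V) ^ (a / 2)), B u v = 0 := by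
        rintro _ ⟨u, hu, rfl⟩ _ ⟨v, hv, rfl⟩
        exact (key_top hE hx g2 g6 (a / 2) (a / 2) u v hu hv).1 (by
          obtain ⟨c, hc⟩ := hae
          omega)
      have g9 : U.map ((x - 1 : V →ₗ[F] V) ^ (a / 2)) ≤ U := map_pow_le (fun v hv => U.sub_mem (g2 v hv) hv) _
      -- the complement
      have k1 := split_finrank hE.oform g3 g1
      have k2 := split_ND_compl hE.oform hWN g3 g1
      have k3 := split_disjoint hE.oform g3 (W := W)
      have k4 := split_ND hE.oform g3 g1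
      have k5 : ∀ v ∈ W ⊓ orth hE.oform U, x v ∈ W ⊓ orth hE.oform U := fun v hv => ⟨hW v hv.1, orth_inv_of_isom' hE.oform hinj hx g2 v hv.2⟩
      obtain ⟨μ', -, -, k6, -⟩ := orth_unip_decomp h2 hE hinj hx k5 k2 hP
      have k7 := JT.add (fun v hv => U.sub_mem (g2 v hv) hv) (fun v hv => Submodule.sub_mem _ (k5 v hv) hv) k3 g4 k6
      rw [k4] at k7
      have k8 := hJ.unique k7
      have k9 : Multiset.card μ' < k := by
        rw [← hk, k8, Multiset.card_add, Multiset.card_replicate]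
        omega
      obtain ⟨L, l1, l2, l3⟩ := ih _ k9 _ μ' k5 k2 k6 (fun b hb => he b (by rw [k8]; exact Multiset.mem_add.mpr (Or.inr hb))) rfl
      refine ⟨U.map ((x - 1 : V →ₗ[F] V) ^ (a / 2)) ⊔ L, sup_le (g9.trans g1) (l1.trans inf_le_left), ?_, ?_⟩
      · intro u hu v hv
        obtain ⟨u1, hu1, u2, hu2, rfl⟩ := Submodule.mem_sup.mp hu
        obtain ⟨v1, hv1, v2, hv2, rfl⟩ := Submodule.mem_sup.mp hv
        have e1 : B u1 v2 = 0 := hE.oform.refl _ _ ((l1 hv2).2 u1 (g9 hu1))
        have e2 : B u2 v1 = 0 := (l1 hu2).2 v1 (g9 hv1)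
        rw [hE.add_left, hE.add_right, hE.add_right, g8 u1 hu1 v1 hv1, e1, e2, l2 u2 hu2 v2 hv2]
        ring
      · have h9 := Submodule.finrank_sup_add_finrank_inf_eq (U.map ((x - 1 : V →ₗ[F] V) ^ (a / 2))) L
        have h10 : Disjoint (U.map ((x - 1 : V →ₗ[F] V) ^ (a / 2))) L := k3.mono g9 l1
        rw [disjoint_iff.mp h10, finrank_bot, add_zero, g7] at h9
        omega

/-- the quadratic form of a symmetric form -/
noncomputable def qOf {W : Type*} [AddCommGroup W] [Module F W] {B : W → W → F} (hE : EForm (RingHom.id F) 1 B) : QuadraticForm F W :=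
  (2⁻¹ : F) • (LinearMap.BilinMap.toQuadraticMap (LinearMap.mk₂ F B hE.add_left hE.smul_left hE.add_right (fun c v x => by rw [hE.smul_right]; rfl)))

lemma qOf_apply {W : Type*} [AddCommGroup W] [Module F W] {B : W → W → F} (hE : EForm (RingHom.id F) 1 B) (w : W) : qOf hE w = 2⁻¹ * B w w := rfl

lemma polar_qOf {W : Type*} [AddCommGroup W] [Module F W] {B : W → W → F} (h2 : (2 : F) ≠ 0) (hE : EForm (RingHom.id F) 1 B) (u v : W) : polar (qOf hE) u v = B u v := by
  unfold polar
  rw [qOf_apply, qOf_apply, qOf_apply, hE.add_left, hE.add_right, hE.add_right]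
  have h1 : B v u = B u v := by rw [hE.symm u v, one_mul, RingHom.id_apply]
  rw [h1]
  field_simp
  ring

end

section
variable {F : Type u} [Field F] [Finite F]

/-- unipotent isometries of a given Jordan type with an odd part -/
theorem exists_orth_jordan {V : Type u} [AddCommGroup V] [Module F V] [FiniteDimensional F V] (h2 : (2 : F) ≠ 0) {Q : QuadraticForm F V} (hQ : (polarBilin Q).Nondegenerate)
    (μ : Multiset ℕ) (hpos : ∀ a ∈ μ, 0 < a) (heven : ∀ a, Even a → Even (μ.count a)) (hsum : μ.sum = finrank F V)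
    {P : ℕ} (hP : ∀ a ∈ μ, a ≤ P) (hodd : ∃ a ∈ μ, Odd a) :
    ∃ x : V →ₗ[F] V, (∀ v, Q (x v) = Q v) ∧ (x - 1) ^ P = 0 ∧ JT (x - 1) ⊤ μ := by
  classical
  obtain ⟨a, ha, hao⟩ := hodd
  obtain ⟨μ', hμ'⟩ := Multiset.exists_cons_of_mem ha
  have hmodel : ∀ n, 0 < n → Odd n → SModel (RingHom.id F) (1 : F) {n} := by
    intro n hn he
    have h3 := smodel_base (σ := RingHom.id F) (fun a => rfl) n hn
    have h4 : Even (n - 1) := by
      obtain ⟨k, hk⟩ := he
      exact ⟨k, by omega⟩
    rwa [h4.neg_one_pow] at h3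
  obtain ⟨W₁, _, _, _, B₁, T₁, hE₁, hN₁, hs₁, hJ₁⟩ := hmodel a (hpos a ha) hao
  have hm' : SModel (RingHom.id F) (1 : F) μ' := by
    apply exists_smodel (by simp) (fun a => rfl) (by ring) Odd _ (Multiset.card μ') μ' rfl
    · intro b hb
      exact hpos b (by rw [hμ']; exact Multiset.mem_cons_of_mem hb)
    · intro b hb
      have h3 := heven b (Nat.not_odd_iff_even.mp hb)
      rw [hμ', Multiset.count_cons, if_neg (by rintro rfl; exact hb hao), add_zero] at h3
      exact h3
    · exact hmodel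
  obtain ⟨W₂, _, _, _, B₂, T₂, hE₂, hN₂, hs₂, hJ₂⟩ := hm'
  have hd₁ : finrank F W₁ = a := by rw [← finrank_top F W₁, hJ₁.finrank_eq, Multiset.sum_singleton]
  have hd₂ : finrank F W₂ = μ'.sum := by rw [← finrank_top F W₂, hJ₂.finrank_eq]
  let b₁ := Module.finBasis F W₁
  let b₂ := Module.finBasis F W₂
  let b := Module.finBasis F V
  have hq₁ : (polarBilin (qOf hE₁)).Nondegenerate := nondegenerate_of_ND (by
    intro u hu hu2
    exact hN₁ u hu (fun v hv => by rw [← polar_qOf h2 hE₁]; exact hu2 v hv))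
  have hq₂ : (polarBilin (qOf hE₂)).Nondegenerate := nondegenerate_of_ND (by
    intro u hu hu2
    exact hN₂ u hu (fun v hv => by rw [← polar_qOf h2 hE₂]; exact hu2 v hv))
  have hg := Orth.gram_det_ne_zero hQ b
  have hg₁ := Orth.gram_det_ne_zero hq₁ b₁
  have hg₂ := Orth.gram_det_ne_zero hq₂ b₂
  set c : F := (Orth.gram Q b).det * (Orth.gram (qOf hE₁) b₁).det * (Orth.gram (qOf hE₂) b₂).det with hc
  have hc0 : c ≠ 0 := mul_ne_zero (mul_ne_zero hg hg₁) hg₂
  -- the scaled form
  let B : W₁ × W₂ → W₁ × W₂ → F := fun u v => c * B₁ u.1 v.1 + B₂ u.2 v.2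
  have hE : EForm (RingHom.id F) 1 B := by
    refine ⟨?_, ?_, ?_, by ring⟩
    · intro x y v
      simp only [B, Prod.fst_add, Prod.snd_add, hE₁.add_left, hE₂.add_left]
      ring
    · intro c x v
      simp only [B, Prod.smul_fst, Prod.smul_snd, hE₁.smul_left, hE₂.smul_left]
      ring
    · intro x y
      simp only [B]
      rw [hE₁.symm x.1, hE₂.symm x.2, map_add]
      simp only [RingHom.id_apply]
      ring
  have hN : ND B (⊤ : Submodule F (W₁ × W₂)) := by
    intro u _ hu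
    apply Prod.ext
    · apply hN₁ _ Submodule.mem_top
      intro v _
      have : c * B₁ u.1 v + B₂ u.2 0 = 0 := hu (v, 0) Submodule.mem_top
      rw [hE₂.zero_right, add_zero] at this
      exact (mul_eq_zero.mp this).resolve_left hc0
    · apply hN₂ _ Submodule.mem_top
      intro v _
      have : c * B₁ u.1 0 + B₂ u.2 v = 0 := hu (0, v) Submodule.mem_top
      rwa [hE₁.zero_right, mul_zero, zero_add] at this
  have hs : ∀ u v, B ((T₁.prodMap T₂) u) v = - B u ((T₁.prodMap T₂) v) := by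
    intro u v
    simp only [B]
    rw [LinearMap.prodMap_apply, LinearMap.prodMap_apply]
    simp only [hs₁, hs₂]
    ring
  have hJ : JT (T₁.prodMap T₂) (⊤ : Submodule F (W₁ × W₂)) μ := by
    rw [hμ', ← Multiset.singleton_add]
    exact hJ₁.prod hJ₂
  have hq : (polarBilin (qOf hE)).Nondegenerate := nondegenerate_of_ND (by
    intro u hu hu2
    exact hN u hu (fun v hv => by rw [← polar_qOf h2 hE]; exact hu2 v hv))
  have hgram : (Orth.gram (qOf hE) (b₁.prod b₂)).det = c ^ a * (Orth.gram (qOf hE₁) b₁).det * (Orth.gram (qOf hE₂) b₂).det := by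
    have h3 : Orth.gram (qOf hE) (b₁.prod b₂) = Matrix.fromBlocks (c • Orth.gram (qOf hE₁) b₁) 0 0 (Orth.gram (qOf hE₂) b₂) := by
      ext i j
      rcases i with i | i <;> rcases j with j | j
      · simp only [Orth.gram, Matrix.of_apply, Matrix.fromBlocks_apply₁₁, Matrix.smul_apply, smul_eq_mul, polar_qOf h2]
        simp [B, hE₂.zero_right]
      · simp only [Orth.gram, Matrix.of_apply, Matrix.fromBlocks_apply₁₂, polar_qOf h2]
        simp [B, hE₁.zero_right, hE₂.oform.zero_left]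
      · simp only [Orth.gram, Matrix.of_apply, Matrix.fromBlocks_apply₂₁, polar_qOf h2]
        simp [B, hE₂.zero_right, hE₁.oform.zero_left]
      · simp only [Orth.gram, Matrix.of_apply, Matrix.fromBlocks_apply₂₂, polar_qOf h2]
        simp [B, hE₁.zero_right]
    rw [h3, Matrix.det_fromBlocks_zero₂₁, Matrix.det_smul, Fintype.card_fin]
    have h4 : c ^ finrank F W₁ = c ^ a := by rw [hd₁]
    rw [h4]
  obtain ⟨g, hgq⟩ := Orth.exists_isom_of_disc h2 hQ hq (by rw [finrank_prod, hd₁, hd₂, ← hsum, hμ', Multiset.sum_cons]) b (b₁.prod b₂) (by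
    rw [hgram]
    have h3 : (Orth.gram Q b).det * (c ^ a * (Orth.gram (qOf hE₁) b₁).det * (Orth.gram (qOf hE₂) b₂).det) = c ^ (a + 1) := by
      rw [pow_succ]
      nth_rw 3 [hc]
      ring
    rw [h3]
    obtain ⟨k, hk⟩ := hao
    exact ⟨c ^ (k + 1), by rw [← pow_add]; congr 1; omega⟩)
  obtain ⟨x, h3, h4, h5⟩ := exists_cayley hE h2 hs (hJ.pow_eq_zero hP)
  have h6 := h5 μ hJ
  refine ⟨g.symm.toLinearMap ∘ₗ x ∘ₗ g.toLinearMap, ?_, ?_, ?_⟩
  · intro v
    rw [← hgq]
    simp only [LinearMap.comp_apply, LinearEquiv.coe_coe, LinearEquiv.apply_symm_apply]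
    rw [qOf_apply, h3, ← qOf_apply hE, hgq]
  · have h7 : ∀ (k : ℕ) v, ((g.symm.toLinearMap ∘ₗ x ∘ₗ g.toLinearMap - 1 : V →ₗ[F] V) ^ k) v = g.symm (((x - 1) ^ k) (g v)) := by
      intro k v
      induction k with
      | zero => simp
      | succ k ih =>
        rw [pow_succ', Module.End.mul_apply, ih, pow_succ', Module.End.mul_apply]
        simp
    apply LinearMap.ext
    intro v
    rw [h7, h4]
    simp
  · apply h6.transfer g.symm
    intro v
    simp

/-- unipotent isometries with all blocks of even size in spaces of plus type -/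
theorem exists_orth_jordan_plus (h2 : (2 : F) ≠ 0) {m : ℕ} (hm : 1 ≤ m)
    (μ : Multiset ℕ) (hpos : ∀ a ∈ μ, 0 < a) (heven : ∀ a, Even a → Even (μ.count a)) (hsum : μ.sum = 2 * m)
    {P : ℕ} (hP : ∀ a ∈ μ, a ≤ P) (hall : ∀ a ∈ μ, Even a) :
    ∃ x : (Fin m ⊕ Fin m → F) →ₗ[F] (Fin m ⊕ Fin m → F), (∀ v, Orth.qfPlus m F (x v) = Orth.qfPlus m F v) ∧ (x - 1) ^ P = 0 ∧ JT (x - 1) ⊤ μ := by
  classical
  have hm' : SModel (RingHom.id F) (1 : F) μ := by
    apply exists_smodel (by simp) (fun a => rfl) (by ring) (fun _ => False) (fun _ _ h => absurd h id) (Multiset.card μ) μ rfl hpos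
    intro b _
    by_cases hb : b ∈ μ
    · exact heven b (hall b hb)
    · rw [Multiset.count_eq_zero_of_notMem hb]
      exact Even.zero
  obtain ⟨W, _, _, _, B, T, hE, hN, hs, hJ⟩ := hm'
  obtain ⟨x, h3, h4, h5⟩ := exists_cayley hE h2 hs (hJ.pow_eq_zero hP)
  have h6 := h5 μ hJ
  have hd : finrank F W = 2 * m := by rw [← finrank_top F W, hJ.finrank_eq, hsum]
  have hinj : Function.Injective x := isom_injective hE.oform hN x h3
  obtain ⟨L, -, hL1, hL2⟩ := exists_ts_half h2 hE hinj h3 h4 _ ⊤ μ (fun _ _ => Submodule.mem_top) hN h6 hall rfl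
  have hq : (polarBilin (qOf hE)).Nondegenerate := nondegenerate_of_ND (by
    intro u hu hu2
    exact hN u hu (fun v hv => by rw [← polar_qOf h2 hE]; exact hu2 v hv))
  obtain ⟨g, hgq⟩ := Orth.exists_isom_plus hm hd hq (U := L) (fun v hv => by rw [qOf_apply, hL1 v hv v hv, mul_zero]) (by rw [finrank_top, hd] at hL2; omega)
  refine ⟨g.toLinearMap ∘ₗ x ∘ₗ g.symm.toLinearMap, ?_, ?_, ?_⟩
  · intro v
    have h7 : Orth.qfPlus m F v = qOf hE (g.symm v) := by rw [← hgq, g.apply_symm_apply]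
    simp only [LinearMap.comp_apply, LinearEquiv.coe_coe]
    rw [hgq, qOf_apply, h3, ← qOf_apply hE, h7]
  · have h7 : ∀ (k : ℕ) v, ((g.toLinearMap ∘ₗ x ∘ₗ g.symm.toLinearMap - 1 : (Fin m ⊕ Fin m → F) →ₗ[F] (Fin m ⊕ Fin m → F)) ^ k) v = g (((x - 1) ^ k) (g.symm v)) := by
      intro k v
      induction k with
      | zero => simp
      | succ k ih =>
        rw [pow_succ', Module.End.mul_apply, ih, pow_succ', Module.End.mul_apply]
        simp
    apply LinearMap.ext
    intro v
    rw [h7, h4]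
    simp
  · apply h6.transfer g
    intro v
    simp

/-- isometries of odd order lie in `Ω` -/
theorem exists_mem_omegaGL {ι : Type} [Fintype ι] [DecidableEq ι] (h2 : (2 : F) ≠ 0) {Q : QuadraticForm F (ι → F)} (hQ : (polarBilin Q).Nondegenerate)
    (hd : 2 ≤ finrank F (ι → F)) {x : (ι → F) →ₗ[F] (ι → F)} (hx : ∀ v, Q (x v) = Q v) {p : ℕ} (hp : Odd p) (hxp : x ^ p = 1) :
    ∃ g : GL ι F, g ∈ Cfsg.Geo.omegaGL (⇑Q) ∧ g ^ p = 1 ∧ Matrix.toLin' (g : Matrix ι ι F) = x := by
  have hinj := Orth.injective_of_isom hQ hx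
  let e : (ι → F) ≃ₗ[F] (ι → F) := LinearEquiv.ofInjectiveEndo x hinj
  have he : ∀ v, e v = x v := fun v => rfl
  let h : Orth.OGrp Q := ⟨e, fun v => hx v⟩
  let g := (Orth.bridge Q).symm h
  have hg : Orth.bridge Q g = h := (Orth.bridge Q).apply_symm_apply h
  have hgx : Matrix.toLin' ((g : GL ι F) : Matrix ι ι F) = x := by
    apply LinearMap.ext
    intro v
    rw [Matrix.toLin'_apply]
    exact (Orth.bridge_eq_iff Q g h).mp hg v
  have hgp : g ^ p = 1 := by
    apply Subtype.ext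
    apply Units.ext
    apply Matrix.toLin'.injective
    have h3 : (((g ^ p : ↥(Cfsg.isometryGroup F ⇑Q)) : GL ι F) : Matrix ι ι F) = ((g : GL ι F) : Matrix ι ι F) ^ p := by
      rw [SubmonoidClass.coe_pow, Units.val_pow_eq_pow_val]
    rw [h3, Matrix.toLin'_pow, hgx, hxp]
    rw [OneMemClass.coe_one, Units.val_one, Matrix.toLin'_one]
    rfl
  have hidx : (Cfsg.Omega F ⇑Q).index = 4 := by
    rw [Orth.index_Omega, Orth.index_commutator_odd hQ h2 hd]
  have h4 : g ^ 4 ∈ Cfsg.Omega F ⇑Q := by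
    rw [← hidx]
    exact Subgroup.pow_index_mem _ g
  have h5 : g ∈ Cfsg.Omega F ⇑Q := by
    have hcop : Nat.Coprime 4 p := by
      have : Nat.Coprime 2 p := Nat.coprime_two_left.mpr hp
      exact Nat.Coprime.pow_left 2 this
    have h6 : g ^ (Nat.gcd 4 p : ℤ) ∈ Cfsg.Omega F ⇑Q := by
      rw [Nat.gcd_eq_gcd_ab, _root_.zpow_add, _root_.zpow_mul, _root_.zpow_mul]
      apply Subgroup.mul_mem
      · apply Subgroup.zpow_mem
        exact_mod_cast h4
      · rw [zpow_natCast, hgp, _root_.one_zpow]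
        exact Subgroup.one_mem _
    rw [hcop] at h6
    simpa using h6
  refine ⟨(g : GL ι F), ⟨g, h5, rfl⟩, ?_, hgx⟩
  have := congrArg Subtype.val hgp
  exact this

/-- the Jordan type of an invariant nondegenerate subspace -/
theorem exists_sub_type {V : Type*} [AddCommGroup V] [Module F V] [FiniteDimensional F V] {B : V → V → F} (h2 : (2 : F) ≠ 0) (hE : EForm (RingHom.id F) 1 B)
    (hND : ND B (⊤ : Submodule F V)) {x : V →ₗ[F] V} (hinj : Function.Injective x) (hx : ∀ u v, B (x u) (x v) = B u v) {P : ℕ} (hP : (x - 1) ^ P = 0)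
    {μ : Multiset ℕ} (hJ : JT (x - 1) ⊤ μ) {W : Submodule F V} (hW : ∀ v ∈ W, x v ∈ W) (hWN : ND B W) :
    ∃ ν ≤ μ, (∀ a, Even a → Even (ν.count a)) ∧ JT (x - 1) W ν := by
  have hWi' := orth_inv_of_isom' hE.oform hinj hx hW
  have h1 := split_ND_compl hE.oform hND hWN le_top
  have h2' := split_disjoint hE.oform hWN (W := ⊤)
  have h3 := split_ND hE.oform hWN (le_top : W ≤ ⊤)
  rw [top_inf_eq] at h1 h2' h3
  obtain ⟨μ₁, -, s1, s2, -⟩ := orth_unip_decomp h2 hE hinj hx hW hWN hP
  obtain ⟨μ₂, -, t1, t2, -⟩ := orth_unip_decomp h2 hE hinj hx hWi' h1 hP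
  have h4 := JT.add (fun v hv => W.sub_mem (hW v hv) hv) (fun v hv => Submodule.sub_mem _ (hWi' v hv) hv) h2' s2 t2
  rw [h3] at h4
  have h5 := hJ.unique h4
  exact ⟨μ₁, by rw [h5]; exact Multiset.le_add_right _ _, s1, s2⟩

/-- unipotent elements of `Ω` -/
theorem exists_omega_elt {ι : Type} [Fintype ι] [DecidableEq ι] (h2 : (2 : F) ≠ 0) {Q : QuadraticForm F (ι → F)} (hQ : (polarBilin Q).Nondegenerate)
    (hd : 2 ≤ finrank F (ι → F)) {p : ℕ} [Fact p.Prime] [CharP F p] (hp : Odd p) {x : (ι → F) →ₗ[F] (ι → F)} (hx : ∀ v, Q (x v) = Q v)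
    (hxp : (x - 1) ^ p = 0) {μ : Multiset ℕ} (hJ : JT (x - 1) ⊤ μ) (hμ : ∃ a ∈ μ, a ≠ 1) :
    ∃ g : GL ι F, g ∈ Cfsg.Geo.omegaGL (⇑Q) ∧ g ^ p = 1 ∧ g ≠ 1 ∧ (∀ z : F, (g : Matrix ι ι F) ≠ z • (1 : Matrix ι ι F)) ∧ Matrix.toLin' (g : Matrix ι ι F) = x := by
  have hnt : Nontrivial (ι → F) := Module.nontrivial_of_finrank_pos (R := F) (by omega)
  have hpr : p.Prime := Fact.out
  have hxp' : x ^ p = 1 := by
    have : CharP ((ι → F) →ₗ[F] (ι → F)) p :=
      charP_of_injective_algebraMap (algebraMap F ((ι → F) →ₗ[F] (ι → F))).injective p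
    rw [sub_pow_char_of_commute p (Commute.one_right x), one_pow, sub_eq_zero] at hxp
    exact hxp
  obtain ⟨g, h1, h2', h3⟩ := exists_mem_omegaGL h2 hQ hd hx hp hxp'
  have hx1 : x ≠ 1 := by
    rintro rfl
    obtain ⟨a, ha, ha1⟩ := hμ
    have h4 := hJ.2 1
    rw [sub_self, pow_one, Submodule.map_zero, finrank_bot] at h4
    have h5 := Multiset.sum_eq_zero_iff.mp h4.symm (a - 1) (Multiset.mem_map_of_mem _ ha)
    have := hJ.1 a ha
    omega
  have hns : ∀ z : F, (g : Matrix ι ι F) ≠ z • (1 : Matrix ι ι F) := by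
    intro z hz
    have h4 : x = z • 1 := by
      rw [← h3, hz, map_smul, Matrix.toLin'_one]
      rfl
    apply hx1
    have h5 : x - 1 = (z - 1) • (1 : (ι → F) →ₗ[F] (ι → F)) := by
      apply LinearMap.ext
      intro v
      rw [h4, LinearMap.sub_apply, LinearMap.smul_apply, LinearMap.smul_apply, Module.End.one_apply, sub_smul, one_smul]
    rw [h5, _root_.smul_pow, one_pow] at hxp
    obtain ⟨v, hv⟩ := exists_ne (0 : ι → F)
    have h6 : (z - 1) ^ p • v = 0 := by
      have := congrArg (fun f : (ι → F) →ₗ[F] (ι → F) => f v) hxp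
      simpa using this
    have h7 : z - 1 = 0 := pow_eq_zero_iff hpr.ne_zero |>.mp ((smul_eq_zero.mp h6).resolve_right hv)
    rw [h7, zero_smul] at h5
    exact sub_eq_zero.mp h5
  refine ⟨g, h1, h2', ?_, hns, h3⟩
  rintro rfl
  exact hns 1 (by rw [one_smul]; rfl)

end

lemma odd_char {F : Type*} [Field F] [Fintype F] {p : ℕ} [Fact p.Prime] [CharP F p] (h : Odd (Fintype.card F)) : Odd p ∧ (2 : F) ≠ 0 := by
  have hp : p.Prime := Fact.out
  have hp2 : p ≠ 2 := by
    rintro rfl
    obtain ⟨n, -, hn⟩ := FiniteField.card F 2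
    rw [hn] at h
    have h1 : Even (2 ^ (n : ℕ)) := Even.pow_of_ne_zero even_two n.pos.ne'
    exact (Nat.not_even_iff_odd.mpr h) h1
  refine ⟨hp.odd_of_ne_two hp2, ?_⟩
  intro h3
  have h4 : ((2 : ℕ) : F) = 0 := by exact_mod_cast h3
  rw [CharP.cast_eq_zero_iff F p] at h4
  have h5 := Nat.le_of_dvd (by norm_num) h4
  have := hp.two_le
  omega

/-! ### multisets -/

lemma sum_count_of_le {μ ν : Multiset ℕ} (h : ν ≤ μ) (s : Finset ℕ) (hs : ∀ a ∈ μ, a ∈ s) : ν.sum = ∑ i ∈ s, ν.count i * i := by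
  rw [Finset.sum_multiset_count_of_subset ν s (fun a ha => hs a (Multiset.subset_of_le h (Multiset.mem_toFinset.mp ha)))]
  rfl

/-- replacing two equal even parts -/
theorem exists_sub_of_swap {p m : ℕ} (hp : Odd p) (hm : Even m) {μ : Multiset ℕ} (hμ1 : ∀ e ∈ μ, 0 < e ∧ e ≤ p) (hμ2 : ∀ e, Even e → Even (μ.count e))
    (hall : ∀ e ∈ μ, Even e) (hne : μ ≠ 0)
    (h : ∀ ρ : Multiset ℕ, (∀ e ∈ ρ, 0 < e ∧ e ≤ p) → (∀ e, Even e → Even (ρ.count e)) → ρ.sum = μ.sum → (∃ e ∈ ρ, Odd e) →
      ∃ ν, ν ≤ ρ ∧ ν.sum = m ∧ ∀ e, Even e → Even (ν.count e)) :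
    ∃ ν, ν ≤ μ ∧ ν.sum = m ∧ ∀ e, Even e → Even (ν.count e) := by
  classical
  obtain ⟨a, ha⟩ := Multiset.exists_mem_of_ne_zero hne
  have hae := hall a ha
  obtain ⟨ha0, hap⟩ := hμ1 a ha
  have ha2 : 2 ≤ a := by
    obtain ⟨k, hk⟩ := hae
    omega
  have hap' : a + 1 ≤ p := by
    obtain ⟨k, hk⟩ := hae
    obtain ⟨l, hl⟩ := hp
    omega
  have h7 : Multiset.replicate 2 a ≤ μ := by
    rw [← Multiset.le_count_iff_replicate_le]
    have h8 : 0 < μ.count a := Multiset.count_pos.mpr ha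
    obtain ⟨c, hc⟩ := hμ2 a hae
    omega
  obtain ⟨μ', hμ'⟩ := Multiset.le_iff_exists_add.mp h7
  have hodd1 : Odd (a - 1) := by
    obtain ⟨k, hk⟩ := hae
    exact ⟨k - 1, by omega⟩
  have hodd2 : Odd (a + 1) := by
    obtain ⟨k, hk⟩ := hae
    exact ⟨k, by omega⟩
  have hμ'e : ∀ e ∈ μ', Even e := fun e he => hall e (by rw [hμ']; exact Multiset.mem_add.mpr (Or.inr he))
  set A : Multiset ℕ := {a - 1, a + 1} with hA
  have hAodd : ∀ e ∈ A, Odd e := by
    intro e he
    rw [hA, Multiset.insert_eq_cons, Multiset.mem_cons, Multiset.mem_singleton] at he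
    rcases he with rfl | rfl
    · exact hodd1
    · exact hodd2
  obtain ⟨ν, hν1, hν2, hν3⟩ := h (A + μ') (by
    intro e he
    rcases Multiset.mem_add.mp he with he | he
    · rw [hA, Multiset.insert_eq_cons, Multiset.mem_cons, Multiset.mem_singleton] at he
      rcases he with rfl | rfl <;> omega
    · exact hμ1 e (by rw [hμ']; exact Multiset.mem_add.mpr (Or.inr he))) (by
    intro e he
    have h8 := hμ2 e he
    rw [hμ', Multiset.count_add, Multiset.count_replicate] at h8
    rw [Multiset.count_add, Multiset.count_eq_zero_of_notMem (fun h => (Nat.not_even_iff_odd.mpr (hAodd e h)) he), zero_add]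
    have h9 : Even (if a = e then 2 else 0) := by
      split_ifs
      · exact even_two
      · exact Even.zero
    exact (Nat.even_add.mp h8).mp h9) (by
    rw [hμ', Multiset.sum_add, Multiset.sum_add, hA, Multiset.insert_eq_cons, Multiset.sum_cons, Multiset.sum_singleton, Multiset.sum_replicate, smul_eq_mul]
    omega) ⟨a - 1, Multiset.mem_add.mpr (Or.inl (by rw [hA, Multiset.insert_eq_cons]; exact Multiset.mem_cons_self _ _)), hodd1⟩
  -- split `ν`
  have hsplit := Multiset.filter_add_not (fun e => Odd e) ν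
  have ho : ν.filter (fun e => Odd e) ≤ A := by
    have h8 := Multiset.filter_le_filter (fun e => Odd e) hν1
    rw [Multiset.filter_add] at h8
    have h9 : Multiset.filter (fun e => Odd e) μ' = 0 := by
      rw [Multiset.filter_eq_nil]
      intro e he
      exact Nat.not_odd_iff_even.mpr (hμ'e e he)
    rw [h9, add_zero] at h8
    exact h8.trans (Multiset.filter_le _ _)
  have he : ν.filter (fun e => ¬ Odd e) ≤ μ' := by
    have h8 := Multiset.filter_le_filter (fun e => ¬ Odd e) hν1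
    rw [Multiset.filter_add] at h8
    have h9 : Multiset.filter (fun e => ¬ Odd e) A = 0 := by
      rw [Multiset.filter_eq_nil]
      intro e he
      exact not_not.mpr (hAodd e he)
    rw [h9, zero_add] at h8
    exact h8.trans (Multiset.filter_le _ _)
  have hes : Even (ν.filter (fun e => ¬ Odd e)).sum := by
    rw [even_iff_two_dvd]
    apply Multiset.dvd_sum
    intro e he
    exact even_iff_two_dvd.mp (Nat.not_odd_iff_even.mp (Multiset.mem_filter.mp he).2)
  have hsum : (ν.filter (fun e => Odd e)).sum + (ν.filter (fun e => ¬ Odd e)).sum = m := by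
    rw [← Multiset.sum_add, hsplit, hν2]
  have hos : Even (ν.filter (fun e => Odd e)).sum := by
    rw [← hsum] at hm
    exact (Nat.even_add.mp hm).mpr hes
  have hcnt : ∀ e, Even e → Even ((ν.filter (fun e => ¬ Odd e)).count e) := by
    intro e he
    have h8 : (ν.filter (fun e => ¬ Odd e)).count e = ν.count e := by
      rw [Multiset.count_filter, if_pos (Nat.not_odd_iff_even.mpr he)]
    rw [h8]
    exact hν3 e he
  have hcard := Multiset.card_le_card ho
  have hAc : Multiset.card A = 2 := rfl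
  rw [hAc] at hcard
  have hcases : Multiset.card (ν.filter (fun e => Odd e)) = 0 ∨ Multiset.card (ν.filter (fun e => Odd e)) = 1 ∨ Multiset.card (ν.filter (fun e => Odd e)) = 2 := by omega
  rcases hcases with hc | hc | hc
  · rw [Multiset.card_eq_zero] at hc
    rw [hc, Multiset.sum_zero, zero_add] at hsum
    refine ⟨_, he.trans (by rw [hμ']; exact Multiset.le_add_left _ _), hsum, hcnt⟩
  · exfalso
    obtain ⟨b, hb⟩ := Multiset.card_eq_one.mp hc
    rw [hb, Multiset.sum_singleton] at hos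
    have : b ∈ ν.filter (fun e => Odd e) := by rw [hb]; exact Multiset.mem_singleton_self b
    exact (Nat.not_even_iff_odd.mpr (Multiset.mem_filter.mp this).2) hos
  · have h8 := Multiset.eq_of_le_of_card_le ho (by rw [hAc, hc])
    refine ⟨Multiset.replicate 2 a + ν.filter (fun e => ¬ Odd e), ?_, ?_, ?_⟩
    · rw [hμ']
      exact add_le_add_right he _
    · rw [h8, hA, Multiset.insert_eq_cons, Multiset.sum_cons, Multiset.sum_singleton] at hsum
      rw [Multiset.sum_add, Multiset.sum_replicate, smul_eq_mul]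
      omega
    · intro e he
      rw [Multiset.count_add, Multiset.count_replicate]
      apply Even.add _ (hcnt e he)
      split_ifs
      · exact even_two
      · exact Even.zero

end Cfsg.Agent.H99
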