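import Mathlib
import Cfsg.Agent.H99.OrthUnip
import Cfsg.Agent.H99.SympElt
import Cfsg.Agent.Orth.Levi
import Cfsg.Agent.Orth.PlusStd
import Cfsg.Agent.OrthCount.Orders

set_option autoImplicit false
set_option linter.unusedVariables false
set_option linter.unusedSectionVars false

/-! Quadratic forms in even characteristic: counting zeros, elements of prime order (helper99). -/

namespace Cfsg.Agent.H99

open Module Matrix Polynomial
open QuadraticMap (polar polarBilin)

universe u

section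
variable {F : Type u} [Field F] [Finite F]

lemma card_zeros_congr {V V' : Type*} [AddCommGroup V] [Module F V] [AddCommGroup V'] [Module F V'] {Q : V → F} {Q' : V' → F}
    (g : V ≃ₗ[F] V') (hg : ∀ v, Q' (g v) = Q v) : Nat.card {v // Q v = 0} = Nat.card {v // Q' v = 0} :=
  Nat.card_congr (Equiv.subtypeEquiv g.toEquiv (fun v => by
    change Q v = 0 ↔ Q' (g v) = 0
    rw [hg]))

theorem zeros_plus' {V : Type*} [AddCommGroup V] [Module F V] [FiniteDimensional F V] {m : ℕ} (hm : 1 ≤ m) (hV : finrank F V = 2 * m)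
    {Q : QuadraticForm F V} (hQ : (polarBilin Q).Nondegenerate) {U : Submodule F V} (hU : Orth.TS Q U) (hUm : finrank F U = m) :
    Nat.card F * Nat.card {v // Q v = 0} + Nat.card F ^ m = Nat.card F ^ (2 * m) + Nat.card F ^ (m + 1) := by
  obtain ⟨g, hg⟩ := Orth.exists_isom_plus hm hV hQ hU hUm
  rw [card_zeros_congr g hg]
  exact OrthCount.zeros_plus m

theorem zeros_minus' {V : Type*} [AddCommGroup V] [Module F V] [FiniteDimensional F V] {m : ℕ} (hm : 1 ≤ m) (hV : finrank F V = 2 * m)
    {Q : QuadraticForm F V} (hQ : (polarBilin Q).Nondegenerate) (hU : ∀ U : Submodule F V, Orth.TS Q U → finrank F U < m) :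
    Nat.card F * Nat.card {v // Q v = 0} + Nat.card F ^ (m + 1) = Nat.card F ^ (2 * m) + Nat.card F ^ m := by
  rcases Orth.classify_even hm hV hQ with ⟨g, hg⟩ | ⟨ζ, h0, g, hg⟩
  · exfalso
    have h1 := hU _ ((Orth.TS_U0 m F).map_isom g.symm (fun v => by rw [← hg, g.apply_symm_apply]))
    rw [LinearEquiv.finrank_map_eq, Orth.finrank_U0] at h1
    omega
  · rw [card_zeros_congr g hg]
    have h1 := OrthCount.zeros_minus (F := F) (m - 1) (a := 1) (b := ζ) (OrthCount.aniso_of (Orth.aniso_of_root h0))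
    have e1 : m - 1 + 2 = m + 1 := by omega
    have e2 : 2 * (m - 1) + 2 = 2 * m := by omega
    have e3 : m - 1 + 1 = m := by omega
    rw [e1, e2, e3] at h1
    exact h1

/-- counting nonsingular points -/
theorem card_points {V : Type*} [AddCommGroup V] [Module F V] [FiniteDimensional F V] {Q : V → F} (hQ : ∀ (c : F) v, Q (c • v) = c ^ 2 * Q v) :
    Nat.card {W : Submodule F V // finrank F W = 1 ∧ ∃ v ∈ W, Q v ≠ 0} * (Nat.card F - 1) = Nat.card {v // Q v ≠ 0} := by
  classical
  have : Finite V := Module.finite_of_finite F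
  have hQ0 : Q 0 = 0 := by
    have := hQ 0 0
    rwa [zero_smul, zero_pow two_ne_zero, zero_mul] at this
  have hne : ∀ v : {v // Q v ≠ 0}, (v : V) ≠ 0 := fun v h => v.2 (by rw [h, hQ0])
  let f : {v // Q v ≠ 0} → {W : Submodule F V // finrank F W = 1 ∧ ∃ v ∈ W, Q v ≠ 0} := fun v =>
    ⟨Submodule.span F {(v : V)}, finrank_span_singleton (hne v), v, Submodule.mem_span_singleton_self _, v.2⟩
  have : Fintype {W : Submodule F V // finrank F W = 1 ∧ ∃ v ∈ W, Q v ≠ 0} := Fintype.ofFinite _
  rw [← Nat.card_congr (Equiv.sigmaFiberEquiv f), Nat.card_sigma]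
  have hfib : ∀ W, Nat.card {v // f v = W} = Nat.card F - 1 := by
    rintro ⟨W, hW1, w, hw, hQw⟩
    have hw0 : w ≠ 0 := by rintro rfl; exact hQw hQ0
    have hWs : Submodule.span F {w} = W := by
      apply Submodule.eq_of_le_of_finrank_eq
      · rw [Submodule.span_singleton_le_iff_mem]
        exact hw
      · rw [finrank_span_singleton hw0, hW1]
    have e : {v // f v = (⟨W, hW1, w, hw, hQw⟩ : {W : Submodule F V // finrank F W = 1 ∧ ∃ v ∈ W, Q v ≠ 0})} ≃ Fˣ := by
      symm
      refine Equiv.ofBijective (fun c => ⟨⟨(c : F) • w, ?_⟩, ?_⟩) ⟨?_, ?_⟩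
      · rw [hQ]
        exact mul_ne_zero (pow_ne_zero 2 c.ne_zero) hQw
      · apply Subtype.ext
        change Submodule.span F {(c : F) • w} = W
        rw [Submodule.span_singleton_smul_eq c.isUnit, hWs]
      · intro c c' h
        have h1 : (c : F) • w = (c' : F) • w := congrArg (fun s => ((s.1 : {v // Q v ≠ 0}) : V)) h
        exact Units.ext (smul_left_injective F hw0 h1)
      · rintro ⟨⟨v, hv⟩, h⟩
        have h1 : Submodule.span F {v} = W := congrArg Subtype.val h
        have h2 : v ∈ Submodule.span F {w} := by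
          rw [hWs, ← h1]
          exact Submodule.mem_span_singleton_self v
        obtain ⟨c, hc⟩ := Submodule.mem_span_singleton.mp h2
        have hc0 : c ≠ 0 := by
          rintro rfl
          rw [zero_smul] at hc
          exact hv (by rw [← hc, hQ0])
        exact ⟨Units.mk0 c hc0, by
          apply Subtype.ext
          apply Subtype.ext
          exact hc⟩
    rw [Nat.card_congr e, Nat.card_units]
  rw [Finset.sum_congr rfl (fun W _ => hfib W), Finset.sum_const, Finset.card_univ, smul_eq_mul, Nat.card_eq_fintype_card]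

lemma card_ne_zero_add {V : Type*} [AddCommGroup V] [Module F V] [FiniteDimensional F V] {Q : V → F} :
    Nat.card {v // Q v ≠ 0} + Nat.card {v // Q v = 0} = Nat.card F ^ finrank F V := by
  classical
  have : Finite V := Module.finite_of_finite F
  rw [← Module.natCard_eq_pow_finrank (K := F) (V := V), ← Nat.card_sum]
  exact (Nat.card_congr ((Equiv.sumComm _ _).trans (Equiv.sumCompl (fun v => Q v = 0))))

lemma exists_sub_finrank {V : Type*} [AddCommGroup V] [Module F V] [FiniteDimensional F V] (U : Submodule F V) {m : ℕ} (h : m ≤ finrank F U) :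
    ∃ U' ≤ U, finrank F U' = m := by
  let b := Module.finBasis F U
  have hli : LinearIndependent F (fun i : Fin m => (b (Fin.castLE h i) : V)) :=
    (b.linearIndependent.map' U.subtype (Submodule.ker_subtype U)).comp _ (Fin.castLE_injective h)
  refine ⟨Submodule.span F (Set.range fun i : Fin m => (b (Fin.castLE h i) : V)), ?_, ?_⟩
  · rw [Submodule.span_le]
    rintro _ ⟨i, rfl⟩
    exact (b _).2
  · rw [finrank_span_eq_card hli, Fintype.card_fin]

/-- the number of zeros modulo `r` -/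
theorem zeros_mod {V : Type*} [AddCommGroup V] [Module F V] [FiniteDimensional F V] {Q : V → F} (hQ0 : Q 0 = 0) {x : V →ₗ[F] V} (hx : ∀ v, Q (x v) = Q v)
    {r : ℕ} [Fact r.Prime] (hr : x ^ r = 1) (hfix : ∀ v, x v = v → v = 0) : Nat.card {v // Q v = 0} ≡ 1 [MOD r] := by
  classical
  have : Finite V := Module.finite_of_finite F
  have : Fintype {v // Q v = 0} := Fintype.ofFinite _
  let f : Function.End {v // Q v = 0} := fun v => ⟨x v, by rw [hx]; exact v.2⟩
  have hf : ∀ (k : ℕ) v, ((f ^ k) v : V) = (x ^ k) v := by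
    intro k
    induction k with
    | zero => intro v; rfl
    | succ k ih =>
      intro v
      rw [pow_succ', pow_succ', Module.End.mul_apply, ← ih]
      rfl
  have hf1 : f ^ r ^ 1 = 1 := by
    funext v
    apply Subtype.ext
    rw [hf, pow_one, hr]
    rfl
  have h := Equiv.Perm.card_fixedPoints_modEq (f := f) (p := r) (n := 1) hf1
  rw [Nat.card_eq_fintype_card]
  refine h.trans ?_
  have h2 : Fintype.card f.fixedPoints = 1 := by
    rw [Fintype.card_eq_one_iff]
    refine ⟨⟨⟨0, hQ0⟩, ?_⟩, ?_⟩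
    · apply Subtype.ext
      change x 0 = 0
      exact map_zero x
    · rintro ⟨v, hv⟩
      apply Subtype.ext
      apply Subtype.ext
      apply hfix
      exact congrArg Subtype.val hv
  rw [h2]

/-- a fixed point free isometry of order dividing `q ^ m + 1` lives on a space of minus type -/
theorem minus_of_fixfree {V : Type*} [AddCommGroup V] [Module F V] [FiniteDimensional F V] {m : ℕ} (hm : 1 ≤ m) (hV : finrank F V = 2 * m)
    {Q : QuadraticForm F V} (hQ : (polarBilin Q).Nondegenerate) {x : V →ₗ[F] V} (hx : ∀ v, Q (x v) = Q v)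
    {r : ℕ} [Fact r.Prime] (hr2 : r ≠ 2) (hr : x ^ r = 1) (hfix : ∀ v, x v = v → v = 0) (hrm : r ∣ Nat.card F ^ m + 1) :
    ∀ U : Submodule F V, Orth.TS Q U → finrank F U < m := by
  have hrp : r.Prime := Fact.out
  intro U hU
  by_contra hcon
  push Not at hcon
  obtain ⟨U', hU', hU'm⟩ := exists_sub_finrank U hcon
  have h1 := zeros_plus' hm hV hQ (hU.mono hU') hU'm
  have h2 := zeros_mod (Q := Q) (QuadraticMap.map_zero Q) hx hr hfix
  rw [← ZMod.natCast_eq_natCast_iff] at h2
  have h3 : ((Nat.card F ^ m + 1 : ℕ) : ZMod r) = 0 := (ZMod.natCast_eq_zero_iff _ _).mpr hrm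
  have h4 : ((Nat.card F : ℕ) : ZMod r) ^ m = -1 := by
    push_cast at h3
    exact eq_neg_of_add_eq_zero_left h3
  have h5 := congrArg (fun n : ℕ => (n : ZMod r)) h1
  simp only [Nat.cast_add, Nat.cast_mul, Nat.cast_pow] at h5
  have e1 : ((Nat.card F : ℕ) : ZMod r) ^ (2 * m) = 1 := by rw [pow_mul', h4]; ring
  have e2 : ((Nat.card F : ℕ) : ZMod r) ^ (m + 1) = - ((Nat.card F : ℕ) : ZMod r) := by rw [pow_succ, h4]; ring
  rw [h2, h4, e1, e2, Nat.cast_one] at h5
  have h2' : (2 : ZMod r) ≠ 0 := by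
    intro h
    have h6 : ((2 : ℕ) : ZMod r) = 0 := by exact_mod_cast h
    rw [ZMod.natCast_eq_zero_iff] at h6
    have := Nat.le_of_dvd (by norm_num) h6
    have := hrp.two_le
    omega
  have h6 : (2 : ZMod r) * (((Nat.card F : ℕ) : ZMod r) - 1) = 0 := by linear_combination h5
  have h7 := (mul_eq_zero.mp h6).resolve_left h2'
  rw [sub_eq_zero] at h7
  rw [h7, one_pow] at h4
  apply h2'
  linear_combination h4

end

section
variable {F : Type u} [Field F]

/-- averaging a quadratic form -/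
theorem exists_average [CharP F 2] {V : Type*} [AddCommGroup V] [Module F V] (Q₀ : QuadraticForm F V) {x : V →ₗ[F] V}
    (hx : ∀ u v, polar Q₀ (x u) (x v) = polar Q₀ u v) {r : ℕ} (hro : Odd r) (hr : x ^ r = 1) :
    ∃ Q : QuadraticForm F V, (∀ u v, polar Q u v = polar Q₀ u v) ∧ ∀ v, Q (x v) = Q v := by
  have hpol : ∀ (k : ℕ) u v, polar Q₀ ((x ^ k) u) ((x ^ k) v) = polar Q₀ u v := by
    intro k
    induction k with
    | zero => intro u v; rfl
    | succ k ih =>
      intro u v
      rw [pow_succ', Module.End.mul_apply, Module.End.mul_apply, hx, ih]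
  refine ⟨∑ k ∈ Finset.range r, Q₀.comp (x ^ k), ?_, ?_⟩
  · intro u v
    have h1 : polar (∑ k ∈ Finset.range r, Q₀.comp (x ^ k) : QuadraticForm F V) u v = ∑ k ∈ Finset.range r, polar Q₀ ((x ^ k) u) ((x ^ k) v) := by
      unfold QuadraticMap.polar
      simp only [_root_.sum_apply, QuadraticMap.comp_apply, map_add]
      rw [← Finset.sum_sub_distrib, ← Finset.sum_sub_distrib]
    rw [h1]
    simp only [hpol]
    rw [Finset.sum_const, Finset.card_range, nsmul_eq_mul]
    obtain ⟨k, hk⟩ := hro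
    rw [hk]
    push_cast
    rw [CharTwo.two_eq_zero, zero_mul, zero_add, one_mul]
  · intro v
    rw [_root_.sum_apply, _root_.sum_apply]
    simp only [QuadraticMap.comp_apply]
    have h1 : ∀ k, (x ^ k) (x v) = (x ^ (k + 1)) v := fun k => by rw [pow_succ]; rfl
    simp only [h1]
    have h2 := Finset.sum_range_succ (fun k => Q₀ ((x ^ k) v)) r
    have h3 := Finset.sum_range_succ' (fun k => Q₀ ((x ^ k) v)) r
    rw [h2, hr, pow_zero] at h3
    exact (add_right_cancel h3).symm

lemma polar_qfPlus_eq [CharP F 2] (d : ℕ) (u v : Fin d ⊕ Fin d → F) : polar (Orth.qfPlus d F) u v = Cfsg.sympForm d F u v := by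
  rw [Orth.polar_qfPlus, sympForm_eq]
  apply Finset.sum_congr rfl
  intro i _
  have h2 : (2 : F) = 0 := CharTwo.two_eq_zero
  linear_combination (u (Sum.inl i) * v (Sum.inr i)) * h2

end

section
variable {F : Type u} [Field F] [Fintype F]

/-- fixed point free elements of order dividing `q ^ m + 1` -/
theorem exists_fixfree_form [CharP F 2] {m : ℕ} (hm : 1 ≤ m) {r : ℕ} [Fact r.Prime] (hr2 : r ≠ 2) (hrm : r ∣ Fintype.card F ^ m + 1) :
    ∃ (Q : QuadraticForm F (Fin m ⊕ Fin m → F)) (x : (Fin m ⊕ Fin m → F) →ₗ[F] (Fin m ⊕ Fin m → F)), (∀ u v, polar Q u v = Cfsg.sympForm m F u v) ∧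
      (∀ v, Q (x v) = Q v) ∧ x ^ r = 1 ∧ (∀ v, x v = v → v = 0) ∧ ∀ U : Submodule F (Fin m ⊕ Fin m → F), Orth.TS Q U → finrank F U < m := by
  have hr : r.Prime := Fact.out
  have : Fact (Nat.Prime 2) := ⟨Nat.prime_two⟩
  have hQr : ¬ r ∣ Fintype.card F := by
    intro h
    have h1 : r ∣ Fintype.card F ^ m := h.trans (dvd_pow_self _ (by omega))
    have h2 := (Nat.dvd_add_right h1).mp hrm
    exact hr.one_lt.ne' (Nat.dvd_one.mp h2)
  have h4 : ((Fintype.card F : ℕ) : ZMod r) ^ m = -1 := by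
    have h3 : ((Fintype.card F ^ m + 1 : ℕ) : ZMod r) = 0 := (ZMod.natCast_eq_zero_iff _ _).mpr hrm
    push_cast at h3
    exact eq_neg_of_add_eq_zero_left h3
  have h2' : (2 : ZMod r) ≠ 0 := by
    intro h
    have h6 : ((2 : ℕ) : ZMod r) = 0 := by exact_mod_cast h
    rw [ZMod.natCast_eq_zero_iff] at h6
    have := Nat.le_of_dvd (by norm_num) h6
    have := hr.two_le
    omega
  have hdvd : orderOf ((Fintype.card F : ℕ) : ZMod r) ∣ 2 * m := by
    rw [orderOf_dvd_iff_pow_eq_one, mul_comm, pow_mul, h4]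
    ring
  have hev : Even (orderOf ((Fintype.card F : ℕ) : ZMod r)) := by
    by_contra hodd
    rw [Nat.not_even_iff_odd] at hodd
    have h5 : orderOf ((Fintype.card F : ℕ) : ZMod r) ∣ m :=
      (Nat.Coprime.dvd_mul_left (Nat.Coprime.symm (Nat.coprime_two_left.mpr hodd))).mp hdvd
    rw [orderOf_dvd_iff_pow_eq_one, h4] at h5
    apply h2'
    linear_combination -h5
  have hblk : blk r (Fintype.card F) = orderOf ((Fintype.card F : ℕ) : ZMod r) := by
    unfold blk
    rw [if_pos hev]
  obtain ⟨j, hj⟩ := hdvd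
  obtain ⟨g, hg1, hg2⟩ := exists_symp_elt (F := F) (p := 2) hr2 hr2 (d := m) j (by rw [hblk, mul_comm, ← hj])
  rw [hblk, mul_comm j, ← hj] at hg2
  set x := Matrix.toLin' (g : Matrix (Fin m ⊕ Fin m) (Fin m ⊕ Fin m) F) with hx
  have hxr : x ^ r = 1 := by
    rw [hx, ← Matrix.toLin'_pow]
    have h3 : (g : Matrix (Fin m ⊕ Fin m) (Fin m ⊕ Fin m) F) ^ r = 1 := congrArg Subtype.val hg1
    rw [h3]
    exact Matrix.toLin'_one
  have hker : LinearMap.ker (x - 1) = ⊥ := Submodule.finrank_eq_zero.mp (by omega)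
  have hfix : ∀ v, x v = v → v = 0 := by
    intro v hv
    have h5 : v ∈ LinearMap.ker (x - 1) := by
      rw [LinearMap.mem_ker, LinearMap.sub_apply, Module.End.one_apply, hv, sub_self]
    rw [hker] at h5
    exact (Submodule.mem_bot F).mp h5
  have hro : Odd r := hr.odd_of_ne_two hr2
  obtain ⟨Q, hQ1, hQ2⟩ := exists_average (Orth.qfPlus m F) (x := x) (fun u v => by
    rw [polar_qfPlus_eq, polar_qfPlus_eq]
    exact sympForm_toLin' m g.2 u v) hro hxr
  have hQp : ∀ u v, polar Q u v = Cfsg.sympForm m F u v := fun u v => by rw [hQ1, polar_qfPlus_eq]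
  have hQN : (polarBilin Q).Nondegenerate := nondegenerate_of_ND (by
    intro u hu hu2
    exact sympForm_ND m u hu (fun v hv => by rw [← hQp]; exact hu2 v hv))
  refine ⟨Q, x, hQp, hQ2, hxr, hfix, ?_⟩
  exact minus_of_fixfree hm (finrank_symp m F) hQN hQ2 hr2 hxr hfix (by rw [Nat.card_eq_fintype_card]; exact hrm)

/-- isometries of odd order lie in `Ω` (even characteristic) -/
theorem exists_mem_omegaGL_two {ι : Type} [Fintype ι] [DecidableEq ι] [CharP F 2] {Q : QuadraticForm F (ι → F)} (hQ : (polarBilin Q).Nondegenerate)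
    (hd : 5 ≤ finrank F (ι → F)) {x : (ι → F) →ₗ[F] (ι → F)} (hx : ∀ v, Q (x v) = Q v) {p : ℕ} (hp : Odd p) (hxp : x ^ p = 1) :
    ∃ g : GL ι F, g ∈ Cfsg.Geo.omegaGL (⇑Q) ∧ g ^ p = 1 ∧ Matrix.toLin' (g : Matrix ι ι F) = x := by
  have hinj := Orth.injective_of_isom hQ hx
  let e : (ι → F) ≃ₗ[F] (ι → F) := LinearEquiv.ofInjectiveEndo x hinj
  have he : ∀ v, e v = x v := fun v => rfl
  let h : Orth.OGrp Q := ⟨e, fun v => hx v⟩
  let g := (Orth.bridge Q).symm h
  have hg : Orth.bridge Q g = h := (Orth.bridge Q).apply_symm_apply h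
  have hgx : Matrix.toLin' ((g : GL ι F) : Matrix ι ι F) = x := by
    apply LinearMap.ext
    intro v
    rw [Matrix.toLin'_apply]
    exact (Orth.bridge_eq_iff Q g h).mp hg v
  have hgp : g ^ p = 1 := by
    apply Subtype.ext
    apply Units.ext
    apply Matrix.toLin'.injective
    have h3 : (((g ^ p : ↥(Cfsg.isometryGroup F ⇑Q)) : GL ι F) : Matrix ι ι F) = ((g : GL ι F) : Matrix ι ι F) ^ p := by
      rw [SubmonoidClass.coe_pow, Units.val_pow_eq_pow_val]
    rw [h3, Matrix.toLin'_pow, hgx, hxp]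
    rw [OneMemClass.coe_one, Units.val_one, Matrix.toLin'_one]
    rfl
  have hR := Orth.RGrp_eq_top hQ (Or.inr (by omega))
  have hidx : (Cfsg.Omega F ⇑Q).index = 2 := by
    rw [Orth.index_Omega, Orth.index_commutator_even hQ CharTwo.two_eq_zero (by omega) hR]
  have h4 : g ^ 2 ∈ Cfsg.Omega F ⇑Q := by
    rw [← hidx]
    exact Subgroup.pow_index_mem _ g
  have h5 : g ∈ Cfsg.Omega F ⇑Q := by
    have hcop : Nat.Coprime 2 p := Nat.coprime_two_left.mpr hp
    have h6 : g ^ (Nat.gcd 2 p : ℤ) ∈ Cfsg.Omega F ⇑Q := by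
      rw [Nat.gcd_eq_gcd_ab, _root_.zpow_add, _root_.zpow_mul, _root_.zpow_mul]
      apply Subgroup.mul_mem
      · apply Subgroup.zpow_mem
        exact_mod_cast h4
      · rw [zpow_natCast, hgp, _root_.one_zpow]
        exact Subgroup.one_mem _
    rw [hcop] at h6
    simpa using h6
  refine ⟨(g : GL ι F), ⟨g, h5, rfl⟩, ?_, hgx⟩
  have := congrArg Subtype.val hgp
  exact this

/-- scalars in orthogonal groups of even characteristic -/
lemma scalar_eq_one_of_isom [CharP F 2] {V : Type*} {z : F} (h : z ^ 2 = 1) : z = 1 := by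
  have h3 : (z - 1) * (z - 1) = 0 := by
    have h2 : (2 : F) = 0 := CharTwo.two_eq_zero
    linear_combination h - (z - 1) * h2
  exact sub_eq_zero.mp (mul_self_eq_zero.mp h3)

lemma isom_of_mem_omegaGL {ι : Type} [Fintype ι] [DecidableEq ι] {Q : (ι → F) → F} {x : GL ι F} (hx : x ∈ Cfsg.Geo.omegaGL Q) (v : ι → F) :
    Q (Matrix.toLin' (x : Matrix ι ι F) v) = Q v := by
  obtain ⟨g, -, rfl⟩ := hx
  exact g.2 v v

/-- a nonsingular point fixed by an isometry is spanned by a fixed vector -/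
lemma fixed_of_point [CharP F 2] {V : Type*} [AddCommGroup V] [Module F V] {Q : V → F} (hQ : ∀ (c : F) v, Q (c • v) = c ^ 2 * Q v)
    {x : V →ₗ[F] V} (hx : ∀ v, Q (x v) = Q v) {W : Submodule F V} (hW : finrank F W = 1) {v : V} (hv : v ∈ W) (hQv : Q v ≠ 0) (hxW : W.map x ≤ W) : x v = v := by
  have hQ0 : Q 0 = 0 := by
    have := hQ 0 0
    rwa [zero_smul, zero_pow two_ne_zero, zero_mul] at this
  have hv0 : v ≠ 0 := by rintro rfl; exact hQv hQ0
  have : FiniteDimensional F W := Module.finite_of_finrank_pos (by omega)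
  obtain ⟨c, hc⟩ := (finrank_eq_one_iff_of_nonzero' (⟨v, hv⟩ : W) (by intro h; exact hv0 (congrArg Subtype.val h))).mp hW ⟨x v, hxW ⟨v, hv, rfl⟩⟩
  have h1 : c • v = x v := congrArg Subtype.val hc
  have h2 : c ^ 2 * Q v = Q v := by rw [← hQ, h1, hx]
  have h3 : c ^ 2 = 1 := by
    have h4 : (c ^ 2 - 1) * Q v = 0 := by linear_combination h2
    exact sub_eq_zero.mp ((mul_eq_zero.mp h4).resolve_right hQv)
  rw [← h1, scalar_eq_one_of_isom (V := V) h3, one_smul]

/-- involutions: the fixed space has at least half the dimension -/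
lemma invol_ker [CharP F 2] {V : Type*} [AddCommGroup V] [Module F V] [FiniteDimensional F V] {x : V →ₗ[F] V} (hx : ∀ v, x (x v) = v) :
    (∀ v, (x - 1) ((x - 1) v) = 0) ∧ finrank F V ≤ 2 * finrank F (LinearMap.ker (x - 1)) := by
  have h1 : ∀ v, (x - 1) ((x - 1) v) = 0 := by
    intro v
    rw [LinearMap.sub_apply, LinearMap.sub_apply, Module.End.one_apply, Module.End.one_apply, map_sub, hx]
    have h2 : (v - x v) - (x v - v) = (2 : F) • (v - x v) := by rw [two_smul]; abel
    rw [h2, CharTwo.two_eq_zero, zero_smul]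
  refine ⟨h1, ?_⟩
  have h2 := LinearMap.finrank_range_add_finrank_ker (x - 1)
  have h3 : LinearMap.range (x - 1) ≤ LinearMap.ker (x - 1) := by
    rintro _ ⟨v, rfl⟩
    exact h1 v
  have h4 := Submodule.finrank_mono h3
  omega

end

end Cfsg.Agent.H99
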