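import Mathlib
import Cfsg.Agent.H99.IsoBlock
import Cfsg.Agent.H99.FinFieldTwo
import Cfsg.Agent.H99.OrthDim

set_option autoImplicit false
set_option linter.unusedVariables false
set_option linter.unusedSectionVars false

/-! Isotropic subspaces invariant under isometries of prime order (helper99). -/

namespace Cfsg.Agent.H99

open Module Polynomial

/-- norms in finite fields, in terms of a power map of order two -/
lemma exists_norm_eq {K : Type*} [Field K] [Fintype K] {p : ℕ} [hp : Fact p.Prime] [CharP K p] (e : ℕ)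
    (h2 : ∀ a : K, (a ^ p ^ e) ^ p ^ e = a) (h1 : ∃ a : K, a ^ p ^ e ≠ a) {γ : K} (hγ : γ ^ p ^ e = γ) :
    ∃ α : K, α ^ (p ^ e + 1) = γ := by
  by_cases hγ0 : γ = 0
  · exact ⟨0, by rw [hγ0, zero_pow (Nat.succ_ne_zero _)]⟩
  obtain ⟨f, hf0, hf⟩ : ∃ f : ℕ, 0 < f ∧ Fintype.card K = p ^ f := by
    obtain ⟨f', hf'⟩ := FiniteField.card K p
    exact ⟨f', f'.2, hf'.2⟩
  have hred : ∀ (s t : ℕ) (a : K), a ^ p ^ (f * s + t) = a ^ p ^ t := by
    intro s
    induction s with
    | zero => intro t a; rw [mul_zero, zero_add]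
    | succ s ih =>
      intro t a
      rw [mul_add, mul_one, add_assoc, ih, pow_add p f t, pow_mul, ← hf, FiniteField.pow_card]
  set e₀ := e % f with he₀
  have hee : e = f * (e / f) + e₀ := (Nat.div_add_mod e f).symm
  have hpe : ∀ a : K, a ^ p ^ e = a ^ p ^ e₀ := by
    intro a
    rw [hee]
    exact hred _ _ a
  have he₀f : e₀ < f := Nat.mod_lt _ hf0
  have he₀0 : 0 < e₀ := by
    rw [Nat.pos_iff_ne_zero]
    intro h
    obtain ⟨a, ha⟩ := h1
    apply ha
    rw [hpe, h, pow_zero, pow_one]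
  have h22 : ∀ a : K, a ^ p ^ (2 * e₀) = a := by
    intro a
    have h3 := h2 a
    rw [hpe, hpe, ← pow_mul, ← pow_add] at h3
    rw [two_mul]
    exact h3
  obtain ⟨g, hg0, hg1, hg2⟩ := exists_generator (F := K)
  have hsmall : ∀ t, 0 < t → t < f → (∀ a : K, a ^ p ^ t = a) → False := by
    intro t ht0 htf ht
    have h3 : p ^ t = p ^ t - 1 + 1 := (Nat.sub_add_cancel (Nat.one_le_pow _ _ hp.out.pos)).symm
    have h4 : g ^ (p ^ t - 1) = 1 := by
      have h5 := ht g
      rw [h3, pow_succ] at h5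
      exact mul_right_cancel₀ hg0 (by rw [h5, one_mul])
    rw [hg1, hf] at h4
    have h5 : p ^ t < p ^ f := Nat.pow_lt_pow_right hp.out.one_lt htf
    have h6 : 1 < p ^ t := Nat.one_lt_pow ht0.ne' hp.out.one_lt
    have h7 := Nat.le_of_dvd (by omega) h4
    omega
  have hfe : f = 2 * e₀ := by
    rcases lt_trichotomy (2 * e₀) f with h | h | h
    · exact (hsmall _ (by omega) h h22).elim
    · exact h.symm
    · exfalso
      apply hsmall (2 * e₀ - f) (by omega) (by omega)
      intro a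
      have h3 := h22 a
      have h4 : 2 * e₀ = f * 1 + (2 * e₀ - f) := by omega
      rw [h4, hred] at h3
      exact h3
  have hcard : Fintype.card K - 1 = (p ^ e₀ - 1) * (p ^ e₀ + 1) := by
    rw [hf, hfe, two_mul, pow_add]
    obtain ⟨n, hn⟩ : ∃ n, p ^ e₀ = n + 1 := ⟨p ^ e₀ - 1, (Nat.sub_add_cancel (Nat.one_le_pow _ _ hp.out.pos)).symm⟩
    rw [hn, Nat.add_sub_cancel]
    have : (n + 1) * (n + 1) = n * (n + 1 + 1) + 1 := by ring
    rw [this, Nat.add_sub_cancel]
  obtain ⟨k, hk⟩ := hg2 γ hγ0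
  have h3 : g ^ (k * (p ^ e₀ - 1)) = 1 := by
    rw [hpe, hk, ← pow_mul] at hγ
    have h4 : k * p ^ e₀ = k * (p ^ e₀ - 1) + k := by
      rw [← Nat.mul_succ, Nat.succ_eq_add_one, Nat.sub_add_cancel (Nat.one_le_pow _ _ hp.out.pos)]
    rw [h4, pow_add] at hγ
    exact mul_right_cancel₀ (pow_ne_zero k hg0) (by rw [hγ, one_mul])
  rw [hg1, hcard, mul_comm k] at h3
  have h6 : 1 < p ^ e₀ := Nat.one_lt_pow he₀0.ne' hp.out.one_lt
  obtain ⟨j, hj⟩ := Nat.dvd_of_mul_dvd_mul_left (by omega) h3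
  refine ⟨g ^ j, ?_⟩
  rw [pow_succ, hpe, ← pow_succ, ← pow_mul, hk, hj, mul_comm]

section
variable {F V : Type*} [Field F] [Fintype F] [AddCommGroup V] [Module F V] [FiniteDimensional F V]
variable {p : ℕ} [Fact p.Prime] [CharP F p] {r : ℕ} [Fact r.Prime]
variable {σ : F →+* F} {ε : F} {B : V → V → F}

/-- evaluation at a vector killed by `P` -/
noncomputable def evK (x : V →ₗ[F] V) {P : F[X]} (hPm : P.Monic) (w : V) : AdjoinRoot P →ₗ[F] V :=
  (LinearMap.applyₗ w) ∘ₗ (aeval x : F[X] →ₐ[F] (V →ₗ[F] V)).toLinearMap ∘ₗ AdjoinRoot.modByMonicHom hPm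

lemma evK_mk (x : V →ₗ[F] V) {P : F[X]} (hPm : P.Monic) {w : V} (hw : aeval x P w = 0) (f : F[X]) :
    evK x hPm w (AdjoinRoot.mk P f) = aeval x f w := by
  unfold evK
  rw [LinearMap.comp_apply, LinearMap.comp_apply, AdjoinRoot.modByMonicHom_mk]
  change aeval x (f %ₘ P) w = aeval x f w
  conv_rhs => rw [← modByMonic_add_div f P]
  rw [map_add, LinearMap.add_apply, mul_comm P, map_mul, Module.End.mul_apply, hw, map_zero, add_zero]

lemma evK_mul (x : V →ₗ[F] V) {P : F[X]} (hPm : P.Monic) {w : V} (hw : aeval x P w = 0) (f : F[X]) (α : AdjoinRoot P) :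
    evK x hPm w (AdjoinRoot.mk P f * α) = aeval x f (evK x hPm w α) := by
  obtain ⟨g, rfl⟩ := AdjoinRoot.mk_surjective α
  rw [← map_mul, evK_mk x hPm hw, evK_mk x hPm hw, map_mul, Module.End.mul_apply]

lemma evK_eq_zero (x : V →ₗ[F] V) {P : F[X]} (hPm : P.Monic) (hPi : Irreducible P) {w : V} (hw : aeval x P w = 0) (hw0 : w ≠ 0)
    {α : AdjoinRoot P} (h : evK x hPm w α = 0) : α = 0 := by
  obtain ⟨f, rfl⟩ := AdjoinRoot.mk_surjective α
  rw [evK_mk x hPm hw] at h
  rw [AdjoinRoot.mk_eq_zero]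
  by_contra hcon
  obtain ⟨a, b, hab⟩ := (hPi.coprime_iff_not_dvd).mpr hcon
  apply hw0
  have h1 : aeval x (a * P + b * f) w = w := by rw [hab, map_one]; rfl
  rw [map_add, LinearMap.add_apply, map_mul, map_mul, Module.End.mul_apply, Module.End.mul_apply, hw, h, map_zero, map_zero, add_zero] at h1
  exact h1.symm

/-- the adjoint is a power in the self-dual situation -/
theorem exists_adj_pow (hE : EForm σ ε B) (hsd : SelfDualE p r σ) {x : V →ₗ[F] V} (hx : ∀ u v, B (x u) (x v) = B u v) (hr : x ^ r = 1) :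
    ∃ e : ℕ, r ∣ p ^ e + 1 ∧ (∀ a : F, σ a = a ^ (p ^ e)) ∧ ∀ (f : F[X]) (u v : V), B u (aeval x f v) = B (aeval x (f ^ p ^ e) u) v := by
  obtain ⟨e, he, hσ⟩ := hsd
  refine ⟨e, he, hσ, ?_⟩
  intro P u v
  have hr0 : 0 < r := (Fact.out : r.Prime).pos
  have h1 : σ = iterateFrobenius F p e := by
    ext a
    rw [hσ, iterateFrobenius_def]
  have h2 : x ^ (r - 1) = x ^ (p ^ e) := by
    obtain ⟨m, hm⟩ := he
    have h3 : r - 1 + r * (m - 1) = p ^ e := by
      rcases Nat.eq_zero_or_pos m with h | h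
      · rw [h, mul_zero] at hm
        omega
      · obtain ⟨m', rfl⟩ : ∃ m', m = m' + 1 := ⟨m - 1, by omega⟩
        rw [Nat.add_sub_cancel]
        rw [mul_add, mul_one] at hm
        omega
    rw [← h3, pow_add, pow_mul, hr, one_pow, mul_one]
  have h3 : aeval x ((P.map σ).comp (X ^ (r - 1))) = aeval x (P ^ (p ^ e)) := by
    rw [aeval_comp, map_pow, aeval_X, h2, ← map_iterateFrobenius_expand p P e, map_expand, expand_aeval, ← h1]
  rw [adj_aeval hE hx hr0 hr, h3]

/-- `σ` is an involution when the form is not zero -/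
lemma sigma_sigma (hE : EForm σ ε B) {a b : V} (hab : B a b ≠ 0) (c : F) : σ (σ c) = c := by
  have h1 : ∀ u v, σ (σ (B u v)) = B u v := by
    intro u v
    have h2 := hE.symm u v
    have h3 := hE.symm v u
    rw [h2, map_mul, ← mul_assoc] at h3
    -- B u v = ε * σ ε * σ σ (B u v)
    have h4 : σ ε = ε := by
      have h5 : (ε - 1) * (ε + 1) = 0 := by linear_combination hE.eps
      rcases mul_eq_zero.mp h5 with h6 | h6
      · rw [sub_eq_zero.mp h6, map_one]
      · rw [eq_neg_of_add_eq_zero_left h6, map_neg, map_one]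
    rw [h4, hE.eps, one_mul] at h3
    exact h3.symm
  have h2 := h1 ((c / B a b) • a) b
  rw [hE.smul_left, div_mul_cancel₀ _ hab] at h2
  exact h2

/-- two orthogonal blocks of the same type contain an isotropic one -/
theorem exists_iso_pair (hrp : r ≠ p) (hr2 : r ≠ 2) (hE : EForm σ ε B) (hsd : SelfDualE p r σ) {x : V →ₗ[F] V} (hx : ∀ u v, B (x u) (x v) = B u v)
    (hr : x ^ r = 1) {P : F[X]} (hPm : P.Monic) (hPi : Irreducible P) (hPc : P ∣ cyclotomic r F)
    {u u' : V} (hu0 : u ≠ 0) (hu : aeval x P u = 0) (hu'0 : u' ≠ 0) (hu' : aeval x P u' = 0) (hN : ND B (cyc x u)) (hN' : ND B (cyc x u'))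
    (ho : ∀ a ∈ cyc x u, ∀ b ∈ cyc x u', B a b = 0) :
    ∃ v ∈ cyc x u ⊔ cyc x u', v ≠ 0 ∧ aeval x P v = 0 ∧ ∀ a ∈ cyc x v, ∀ b ∈ cyc x v, B a b = 0 := by
  classical
  obtain ⟨e, he, hσ, hadj⟩ := exists_adj_pow hE hsd hx hr
  have hrp' : r.Prime := Fact.out
  have hfact : Fact (Irreducible P) := ⟨hPi⟩
  let K := AdjoinRoot P
  have hKc : CharP K p := charP_of_injective_algebraMap (algebraMap F K).injective p
  have hKfd : FiniteDimensional F K := (AdjoinRoot.powerBasis' hPm).finite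
  have hKf : Finite K := Module.finite_of_finite F
  have hKft : Fintype K := Fintype.ofFinite K
  set N := p ^ e with hNe
  have ho' : ∀ a ∈ cyc x u', ∀ b ∈ cyc x u, B a b = 0 := fun a ha b hb => hE.oform.refl _ _ (ho b hb a ha)
  have hmem : ∀ w (hw : aeval x P w = 0) (α : K), evK x hPm w α ∈ cyc x w := by
    intro w hw α
    obtain ⟨g, rfl⟩ := AdjoinRoot.mk_surjective α
    rw [evK_mk x hPm hw]
    exact mem_cyc.mpr ⟨g, rfl⟩
  have hex : ∀ w (hw : aeval x P w = 0), ∀ b ∈ cyc x w, ∃ α : K, evK x hPm w α = b := by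
    intro w hw b hb
    obtain ⟨f, hf⟩ := mem_cyc.mp hb
    exact ⟨AdjoinRoot.mk P f, by rw [evK_mk x hPm hw, hf]⟩
  -- the functionals
  let L : V → (K →ₗ[F] F) := fun w => (hE.oform.toLin w) ∘ₗ (evK x hPm w)
  have hL : ∀ w (α : K), L w α = B (evK x hPm w α) w := fun w α => rfl
  have hLsym : ∀ w (hw : aeval x P w = 0) (α : K), L w α = ε * σ (L w (α ^ N)) := by
    intro w hw α
    obtain ⟨f, rfl⟩ := AdjoinRoot.mk_surjective α
    rw [hL, hL, ← map_pow, evK_mk x hPm hw, evK_mk x hPm hw, ← hadj, ← hE.symm]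
  let G : K →ₗ[F] (K →ₗ[F] F) := (LinearMap.mul F K).compr₂ (L u')
  have hG : ∀ γ α : K, G γ α = L u' (γ * α) := fun γ α => rfl
  have hGinj : Function.Injective G := by
    rw [← LinearMap.ker_eq_bot, LinearMap.ker_eq_bot']
    intro γ hγ
    by_contra hγ0
    apply hu'0
    apply hN' u' (self_mem_cyc x u')
    intro b hb
    apply hE.oform.refl
    obtain ⟨α, rfl⟩ := hex u' hu' b hb
    have h1 := LinearMap.congr_fun hγ (γ⁻¹ * α)
    rw [hG, hL, mul_inv_cancel_left₀ hγ0] at h1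
    exact h1
  have hGsurj : Function.Surjective G := by
    apply (LinearMap.injective_iff_surjective_of_finrank_eq_finrank _).mp hGinj
    exact (Subspace.dual_finrank_eq (K := F) (V := K)).symm
  obtain ⟨γ, hγ⟩ := hGsurj (- L u)
  have hγ' : ∀ α : K, L u' (γ * α) = - L u α := fun α => LinearMap.congr_fun hγ α
  -- the power map on `K`
  have hroot : (AdjoinRoot.root P : K) ^ r = 1 := by
    have h1 : P ∣ X ^ r - 1 := hPc.trans (Dvd.intro _ (cyclotomic_prime_mul_X_sub_one F r))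
    have h2 : (AdjoinRoot.mk P (X ^ r - 1 : F[X])) = 0 := by rw [AdjoinRoot.mk_eq_zero]; exact h1
    rw [map_sub, map_pow, AdjoinRoot.mk_X, map_one, sub_eq_zero] at h2
    exact h2
  have hroot1 : (AdjoinRoot.root P : K) ≠ 1 := by
    intro h1
    have h2 : (AdjoinRoot.mk P (cyclotomic r F)) = 0 := by rw [AdjoinRoot.mk_eq_zero]; exact hPc
    rw [← AdjoinRoot.aeval_eq, h1] at h2
    have h3 : aeval (1 : K) (cyclotomic r F) = ((eval 1 (cyclotomic r F) : F) : K) := by
      have := aeval_algebraMap_apply_eq_algebraMap_eval (A := K) (1 : F) (cyclotomic r F)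
      rw [map_one] at this
      exact this
    rw [h3, eval_one_cyclotomic_prime] at h2
    have h4 : (r : F) = 0 := by
      apply (AdjoinRoot.of P).injective
      rw [map_zero]
      exact h2
    exact natCast_ne_zero_of_ne hrp' hrp h4
  have hrN : (AdjoinRoot.root P : K) ^ (N + 1) = 1 := by
    obtain ⟨m, hm⟩ := he
    rw [hm, pow_mul, hroot, one_pow]
  obtain ⟨a₀, b₀, hab₀⟩ : ∃ a b : V, B a b ≠ 0 := by
    by_contra hcon
    push Not at hcon
    exact hu0 (hN u (self_mem_cyc x u) (fun v _ => hcon u v))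
  have hNN : ∀ a : K, (a ^ N) ^ N = a := by
    intro a
    obtain ⟨f, rfl⟩ := AdjoinRoot.mk_surjective a
    rw [← AdjoinRoot.aeval_eq, ← pow_mul]
    have h1 : N * N = p ^ (2 * e) := by rw [hNe, ← pow_add, two_mul]
    rw [h1]
    change iterateFrobenius K p (2 * e) (eval₂ (AdjoinRoot.of P) (AdjoinRoot.root P) f) = eval₂ (AdjoinRoot.of P) (AdjoinRoot.root P) f
    rw [hom_eval₂]
    congr 1
    · ext c
      rw [RingHom.comp_apply, iterateFrobenius_def, ← map_pow]
      congr 1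
      have h2 := sigma_sigma hE hab₀ c
      rw [hσ, hσ, ← pow_mul, ← pow_add, ← two_mul] at h2
      exact h2
    · rw [iterateFrobenius_def, ← h1]
      have h2 : N * N + r * 0 = N * N := by ring
      obtain ⟨m, hm⟩ := he
      have hN1 : 1 ≤ N := Nat.one_le_pow _ _ (Fact.out : p.Prime).pos
      have h3 : N * N = (N + 1) * (N - 1) + 1 := by
        obtain ⟨s, hs⟩ : ∃ s, N = s + 1 := ⟨N - 1, by omega⟩
        rw [hs, Nat.add_sub_cancel]
        ring
      rw [h3, pow_succ, pow_mul, hrN, one_pow, one_mul]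
  have hN1 : ∃ a : K, a ^ N ≠ a := by
    refine ⟨AdjoinRoot.root P, ?_⟩
    intro h1
    rw [pow_succ, h1, ← pow_two] at hrN
    apply hroot1
    have hodd : r % 2 = 1 := hrp'.eq_two_or_odd.resolve_left hr2
    have h2 : r = 2 * (r / 2) + 1 := by omega
    rw [h2, pow_succ, pow_mul, hrN, one_pow, one_mul] at hroot
    exact hroot
  have hγN : γ ^ N = γ := by
    have h1 : ∀ α : K, L u' (γ ^ N * α) = L u' (γ * α) := by
      intro α
      rw [hLsym u' hu', mul_pow, hNN, hγ', map_neg, hγ', hLsym u hu α]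
      ring
    have h2 : G (γ ^ N) = G γ := LinearMap.ext h1
    exact hGinj h2
  obtain ⟨α, hα⟩ := exists_norm_eq (K := K) e hNN hN1 hγN
  obtain ⟨g, hg⟩ := AdjoinRoot.mk_surjective α
  have hγ0 : γ ≠ 0 := by
    rintro rfl
    apply hu0
    apply hN u (self_mem_cyc x u)
    intro b hb
    apply hE.oform.refl
    obtain ⟨β, rfl⟩ := hex u hu b hb
    have h1 := hγ' β
    rw [zero_mul, map_zero] at h1
    rw [← hL]
    linear_combination h1
  -- the isotropic vector
  set v := u + aeval x g u' with hv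
  have hvP : aeval x P v = 0 := by
    rw [hv, map_add, hu, zero_add, ← Module.End.mul_apply, ← map_mul, mul_comm, map_mul, Module.End.mul_apply, hu', map_zero]
  have hv0 : v ≠ 0 := by
    intro h1
    apply hu0
    apply hN u (self_mem_cyc x u)
    intro b hb
    have h2 : u = - aeval x g u' := eq_neg_of_add_eq_zero_left h1
    rw [h2, hE.oform.neg_left, ho' _ (mem_cyc.mpr ⟨g, rfl⟩) b hb, neg_zero]
  refine ⟨v, ?_, hv0, hvP, ?_⟩
  · exact Submodule.add_mem_sup (self_mem_cyc x u) (mem_cyc.mpr ⟨g, rfl⟩)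
  have hkey : ∀ f : F[X], B (aeval x f v) v = 0 := by
    intro f
    have h1 : B (aeval x f v) v = B (aeval x f u) u + B (aeval x (f * g ^ (N + 1)) u') u' := by
      rw [hv, map_add, hE.add_left, hE.add_right, hE.add_right, ho _ (mem_cyc.mpr ⟨f, rfl⟩) _ (mem_cyc.mpr ⟨g, rfl⟩),
        ← Module.End.mul_apply, ← map_mul, ho' _ (mem_cyc.mpr ⟨f * g, rfl⟩) _ (self_mem_cyc x u), hadj]
      have h2 : g ^ N * (f * g) = f * g ^ (N + 1) := by rw [pow_succ]; ring
      rw [← Module.End.mul_apply, ← map_mul, h2]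
      ring
    have h2 : B (aeval x (f * g ^ (N + 1)) u') u' = L u' (γ * AdjoinRoot.mk P f) := by
      rw [hL, ← hα, ← hg, ← map_pow, ← map_mul, evK_mk x hPm hu', mul_comm f]
    have h3 : B (aeval x f u) u = L u (AdjoinRoot.mk P f) := by rw [hL, evK_mk x hPm hu]
    rw [h1, h2, h3, hγ', add_neg_cancel]
  intro a ha b hb
  obtain ⟨f, rfl⟩ := mem_cyc.mp ha
  obtain ⟨f', rfl⟩ := mem_cyc.mp hb
  rw [hadj, ← Module.End.mul_apply, ← map_mul]
  exact hkey _

/-- the `P`-parts generate -/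
lemma finrank_le_sum_parts (T : Finset F[X]) (hT : (T : Set F[X]).Pairwise IsCoprime) {x : V →ₗ[F] V} :
    ∀ {W : Submodule F V} (hW : ∀ v ∈ W, x v ∈ W), (∀ v ∈ W, aeval x (∏ P ∈ T, P) v = 0) →
      finrank F W ≤ ∑ P ∈ T, finrank F (W ⊓ LinearMap.ker (aeval x P) : Submodule F V) := by
  classical
  induction T using Finset.induction_on with
  | empty =>
    intro W hW h
    have : W = ⊥ := by
      rw [eq_bot_iff]
      intro v hv
      have := h v hv
      rw [Finset.prod_empty, map_one] at this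
      exact (Submodule.mem_bot F).mpr this
    rw [this, finrank_bot]
    exact Nat.zero_le _
  | insert P T hP ih =>
    intro W hW h
    rw [Finset.sum_insert hP]
    have hcop : IsCoprime P (∏ Q ∈ T, Q) := by
      apply IsCoprime.prod_right
      intro Q hQ
      exact hT (Finset.mem_coe.mpr (Finset.mem_insert_self P T)) (Finset.mem_coe.mpr (Finset.mem_insert_of_mem hQ)) (by rintro rfl; exact hP hQ)
    set W' : Submodule F V := W ⊓ LinearMap.ker (aeval x (∏ Q ∈ T, Q)) with hW'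
    have hcomm : ∀ (f g : F[X]) v, aeval x f (aeval x g v) = aeval x g (aeval x f v) := by
      intro f g v
      rw [← Module.End.mul_apply, ← map_mul, mul_comm, map_mul, Module.End.mul_apply]
    have hle : W ≤ (W ⊓ LinearMap.ker (aeval x P)) ⊔ W' := by
      intro w hw
      obtain ⟨a, b, hab⟩ := hcop
      have h1 : w = aeval x (b * ∏ Q ∈ T, Q) w + aeval x (a * P) w := by
        rw [← LinearMap.add_apply, ← map_add, add_comm, hab, map_one]; rfl
      rw [h1]
      have h2 := h w hw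
      rw [Finset.prod_insert hP] at h2
      apply Submodule.add_mem_sup
      · refine ⟨aeval_mem_of_invariant hW hw _, ?_⟩
        rw [SetLike.mem_coe, LinearMap.mem_ker, ← Module.End.mul_apply, ← map_mul, mul_left_comm, map_mul, Module.End.mul_apply, h2, map_zero]
      · refine ⟨aeval_mem_of_invariant hW hw _, ?_⟩
        rw [SetLike.mem_coe, LinearMap.mem_ker, ← Module.End.mul_apply, ← map_mul, mul_comm, mul_assoc, map_mul, Module.End.mul_apply, h2, map_zero]
    have hW'i : ∀ v ∈ W', x v ∈ W' := by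
      rintro v ⟨hv1, hv2⟩
      refine ⟨hW v hv1, ?_⟩
      rw [SetLike.mem_coe, LinearMap.mem_ker] at hv2 ⊢
      have h3 := hcomm X (∏ Q ∈ T, Q) v
      rw [aeval_X, hv2, map_zero] at h3
      exact h3.symm
    have h1 := Submodule.finrank_mono hle
    have h2 := Submodule.finrank_add_le_finrank_add_finrank (W ⊓ LinearMap.ker (aeval x P)) W'
    have h3 := ih (hT.mono (by rw [Finset.coe_insert]; exact Set.subset_insert _ _)) hW'i (fun v hv => by
      have := hv.2
      rwa [SetLike.mem_coe, LinearMap.mem_ker] at this)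
    have h4 : ∑ Q ∈ T, finrank F (W' ⊓ LinearMap.ker (aeval x Q) : Submodule F V) ≤ ∑ Q ∈ T, finrank F (W ⊓ LinearMap.ker (aeval x Q) : Submodule F V) :=
      Finset.sum_le_sum (fun Q _ => Submodule.finrank_mono (inf_le_inf_right _ inf_le_left))
    omega

open Classical UniqueFactorizationMonoid in
/-- the set of irreducible factors of the cyclotomic polynomial -/
noncomputable def cycFac (r : ℕ) (F : Type*) [Field F] : Finset F[X] :=
  (normalizedFactors (cyclotomic r F)).toFinset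

lemma mem_cycFac {P : F[X]} : P ∈ cycFac r F ↔ P.Monic ∧ Irreducible P ∧ P ∣ cyclotomic r F := by
  classical
  unfold cycFac
  rw [Multiset.mem_toFinset, UniqueFactorizationMonoid.mem_normalizedFactors_iff' (cyclotomic_ne_zero r F)]
  constructor
  · rintro ⟨h1, h2, h3⟩
    refine ⟨?_, h1, h3⟩
    rw [← h2]
    exact monic_normalize h1.ne_zero
  · rintro ⟨h1, h2, h3⟩
    exact ⟨h2, h1.normalize_eq_self, h3⟩

lemma natDegree_of_mem_cycFac (hrp : r ≠ p) {P : F[X]} (hP : P ∈ cycFac r F) : P.natDegree = orderOf ((Fintype.card F : ℕ) : ZMod r) := by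
  rw [mem_cycFac] at hP
  obtain ⟨e, he⟩ := FiniteField.card F p
  have hc : p.Coprime r := by
    rw [Nat.coprime_primes Fact.out Fact.out]
    exact hrp.symm
  rw [natDegree_of_dvd_cyclotomic_of_irreducible he.2 hc hP.2.2 hP.2.1, ← orderOf_units]
  congr 1
  rw [ZMod.coe_unitOfCoprime, he.2]

lemma card_cycFac (hrp : r ≠ p) : (cycFac r F).card * orderOf ((Fintype.card F : ℕ) : ZMod r) = r - 1 := by
  classical
  obtain ⟨e, he⟩ := FiniteField.card F p
  have hc : p.Coprime r := by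
    rw [Nat.coprime_primes Fact.out Fact.out]
    exact hrp.symm
  have h1 : (cycFac r F).card = (UniqueFactorizationMonoid.normalizedFactors (cyclotomic r F)).toFinset.card := by
    rfl
  have h2 : orderOf ((Fintype.card F : ℕ) : ZMod r) = orderOf (ZMod.unitOfCoprime _ (hc.pow_left e)) := by
    rw [← orderOf_units]
    congr 1
    rw [ZMod.coe_unitOfCoprime, he.2]
  rw [h1, normalizedFactors_cyclotomic_card he.2 hc, Nat.totient_prime Fact.out, h2]
  apply Nat.div_mul_cancel
  have h3 := ZMod.card_units r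
  rw [← h3]
  exact orderOf_dvd_card

lemma prod_cycFac (hrp : r ≠ p) : (∏ P ∈ cycFac r F, P) = cyclotomic r F := by
  classical
  have hr0 : (r : F) ≠ 0 := natCast_ne_zero_of_ne (Fact.out : r.Prime) hrp
  have : NeZero (r : F) := ⟨hr0⟩
  have hnd : (UniqueFactorizationMonoid.normalizedFactors (cyclotomic r F)).Nodup := by
    rw [← UniqueFactorizationMonoid.squarefree_iff_nodup_normalizedFactors (cyclotomic_ne_zero r F)]
    exact squarefree_cyclotomic r F
  have h1 : (∏ P ∈ cycFac r F, P) = (UniqueFactorizationMonoid.normalizedFactors (cyclotomic r F)).prod := by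
    have h2 : cycFac r F = (UniqueFactorizationMonoid.normalizedFactors (cyclotomic r F)).toFinset := by
      rfl
    rw [h2, Finset.prod, Multiset.toFinset_val, Multiset.dedup_eq_self.mpr hnd, Multiset.map_id']
  rw [h1, UniqueFactorizationMonoid.prod_normalizedFactors_eq (cyclotomic_ne_zero r F)]
  exact (cyclotomic.monic r F).normalize_eq_self

lemma coprime_cycFac : (cycFac r F : Set F[X]).Pairwise IsCoprime := by
  intro P hP Q hQ hPQ
  rw [Finset.mem_coe, mem_cycFac] at hP hQ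
  rw [hP.2.1.coprime_iff_not_dvd]
  intro h
  apply hPQ
  exact eq_of_monic_of_associated hP.1 hQ.1 (hP.2.1.associated_of_dvd hQ.2.1 h)

lemma aeval_cyclotomic_of_fix {x : V →ₗ[F] V} (hr : x ^ r = 1) {W : Submodule F V} (hW : ∀ v ∈ W, x v ∈ W) (hfix : ∀ v ∈ W, x v = v → v = 0) :
    ∀ v ∈ W, aeval x (cyclotomic r F) v = 0 := by
  intro w hw
  apply hfix _ (aeval_mem_of_invariant hW hw _)
  have h1 := cyclotomic_prime_mul_X_sub_one F r
  have h2 : aeval x (X ^ r - 1 : F[X]) w = 0 := by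
    rw [map_sub, map_pow, aeval_X, hr, map_one, sub_self]
    rfl
  rw [← h1, mul_comm, map_mul, Module.End.mul_apply, map_sub, aeval_X, map_one, LinearMap.sub_apply, Module.End.one_apply, sub_eq_zero] at h2
  exact h2

/-- maximal isotropic invariant subspaces, self-dual case -/
theorem exists_max_iso (hrp : r ≠ p) (hr2 : r ≠ 2) (hE : EForm σ ε B) (hsd : SelfDualE p r σ) {x : V →ₗ[F] V} (hx : ∀ u v, B (x u) (x v) = B u v)
    (hr : x ^ r = 1) (n : ℕ) : ∀ {W : Submodule F V} (hW : ∀ v ∈ W, x v ∈ W) (hND : ND B W) (hfix : ∀ v ∈ W, x v = v → v = 0), finrank F W = n →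
    ∃ S ≤ W, (∀ v ∈ S, x v ∈ S) ∧ (∀ a ∈ S, ∀ b ∈ S, B a b = 0) ∧ finrank F W ≤ 2 * finrank F S + (r - 1) := by
  classical
  have hpos := orderOf_pos_of_not_dvd (r := r) (prime_not_dvd_card (F := F) hrp)
  induction n using Nat.strong_induction_on with
  | _ n ih =>
    intro W hW hND hfix hn
    by_cases hall : ∀ P ∈ cycFac r F, finrank F (W ⊓ LinearMap.ker (aeval x P) : Submodule F V) ≤ orderOf ((Fintype.card F : ℕ) : ZMod r)
    · refine ⟨⊥, bot_le, ?_, ?_, ?_⟩
      · intro v hv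
        rw [Submodule.mem_bot] at hv ⊢
        rw [hv, map_zero]
      · intro a ha b _
        rw [(Submodule.mem_bot F).mp ha, hE.oform.zero_left]
      · rw [finrank_bot, mul_zero, zero_add, ← card_cycFac hrp (F := F)]
        have h1 := finrank_le_sum_parts (cycFac r F) coprime_cycFac hW (by
          rw [prod_cycFac hrp]
          exact aeval_cyclotomic_of_fix hr hW hfix)
        have h2 := Finset.sum_le_card_nsmul (cycFac r F) _ _ hall
        rw [smul_eq_mul] at h2
        omega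
    · push Not at hall
      obtain ⟨P, hP, hPd⟩ := hall
      have hPdeg := natDegree_of_mem_cycFac (p := p) hrp hP
      rw [mem_cycFac] at hP
      obtain ⟨hPm, hPi, hPc⟩ := hP
      set WP := W ⊓ LinearMap.ker (aeval x P) with hWP
      have hWPi : ∀ v ∈ WP, x v ∈ WP := by
        rintro v ⟨hv1, hv2⟩
        refine ⟨hW v hv1, ?_⟩
        rw [SetLike.mem_coe, LinearMap.mem_ker] at hv2 ⊢
        have h1 : aeval x P (x v) = x (aeval x P v) := by
          have h2 : aeval x (P * X) v = aeval x (X * P) v := by rw [mul_comm]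
          rw [map_mul, map_mul, aeval_X, Module.End.mul_apply, Module.End.mul_apply] at h2
          exact h2
        rw [h1, hv2, map_zero]
      have hWPN := ND_part hrp hE hsd hx hr hW hND hPc
      have hkill : ∀ v ∈ WP, aeval x P v = 0 := fun v hv => by
        have := hv.2
        rwa [SetLike.mem_coe, LinearMap.mem_ker] at this
      have hne : ∀ A : Submodule F V, 0 < finrank F A → ∃ u ∈ A, u ≠ 0 := by
        intro A hA
        apply Submodule.exists_mem_ne_zero_of_ne_bot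
        rintro rfl
        rw [finrank_bot] at hA
        exact lt_irrefl _ hA
      have hfixP : ∀ v ∈ WP, x v = v → v = 0 := fun v hv => hfix v hv.1
      -- the first block
      obtain ⟨w, hw, hw0⟩ := hne WP (by omega)
      obtain ⟨U, hUW, hUi, hUN, hUd, -⟩ := exists_ND_min hr2 hrp hE hsd hx hr hWPi hWPN hfixP hPm hPc hPdeg ⟨w, hw, hw0, hkill w hw⟩
      set W₂ := WP ⊓ orth hE.oform U with hW₂
      have h2d : finrank F U + finrank F W₂ = finrank F WP := split_finrank hE.oform hUN hUW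
      have h2N := split_ND_compl hE.oform hWPN hUN hUW
      have h2i : ∀ v ∈ W₂, x v ∈ W₂ := by
        rintro v ⟨hv1, hv2⟩
        exact ⟨hWPi v hv1, orth_inter_invariant hE hx hr hUi v hv2⟩
      obtain ⟨w', hw', hw'0⟩ := hne W₂ (by omega)
      obtain ⟨U', hU'W, hU'i, hU'N, hU'd, -⟩ := exists_ND_min hr2 hrp hE hsd hx hr h2i h2N (fun v hv => hfixP v hv.1) hPm hPc hPdeg ⟨w', hw', hw'0, hkill w' hw'.1⟩
      obtain ⟨u, hu, hu0⟩ := hne U (by omega)
      obtain ⟨u', hu', hu'0⟩ := hne U' (by omega)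
      have hcyc : ∀ (A : Submodule F V), A ≤ WP → (∀ v ∈ A, x v ∈ A) → finrank F A = orderOf ((Fintype.card F : ℕ) : ZMod r) → ∀ a ∈ A, a ≠ 0 → cyc x a = A := by
        intro A hAW hAi hAd a ha ha0
        obtain ⟨h1, h2, h3⟩ := cyc_min hrp hr hAi (fun v hv => hfixP v (hAW hv)) hPm hPdeg ha ha0 (hkill a (hAW ha))
        exact Submodule.eq_of_le_of_finrank_eq h1 (by rw [h3, hAd])
      have hcu := hcyc U hUW hUi hUd u hu hu0
      have hcu' := hcyc U' (hU'W.trans inf_le_left) hU'i hU'd u' hu' hu'0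
      have hUU' : ∀ a ∈ U, ∀ b ∈ U', B a b = 0 := fun a ha b hb => hE.oform.refl _ _ ((hU'W hb).2 a ha)
      obtain ⟨v, hv, hv0, hvP, hvi⟩ := exists_iso_pair hrp hr2 hE hsd hx hr hPm hPi hPc hu0 (hkill u (hUW hu)) hu'0 (hkill u' (hU'W hu').1)
        (by rw [hcu]; exact hUN) (by rw [hcu']; exact hU'N) (by rw [hcu, hcu']; exact hUU')
      rw [hcu, hcu'] at hv
      have hle : U ⊔ U' ≤ W := sup_le (hUW.trans inf_le_left) ((hU'W.trans inf_le_left).trans inf_le_left)
      have hSN : ND B (U ⊔ U') := ND_sup hE.oform hUN hU'N (by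
        intro a ha b hb
        exact hUU' a ha b hb)
      have hSi : ∀ v ∈ U ⊔ U', x v ∈ U ⊔ U' := by
        intro v hv
        obtain ⟨a, ha, b, hb, rfl⟩ := Submodule.mem_sup.mp hv
        rw [map_add]
        exact Submodule.add_mem_sup (hUi a ha) (hU'i b hb)
      have hSd : finrank F (U ⊔ U' : Submodule F V) = 2 * orderOf ((Fintype.card F : ℕ) : ZMod r) := by
        have h8 := Submodule.finrank_sup_add_finrank_inf_eq U U'
        have h9 : Disjoint U U' := ((ND_iff_disjoint hE.oform U).mp hUN).mono_right (hU'W.trans inf_le_right)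
        rw [disjoint_iff.mp h9, finrank_bot, hUd, hU'd] at h8
        omega
      have h3d := split_finrank hE.oform hSN hle
      have h3N := split_ND_compl hE.oform hND hSN hle
      have h3i : ∀ v ∈ W ⊓ orth hE.oform (U ⊔ U'), x v ∈ W ⊓ orth hE.oform (U ⊔ U') := by
        rintro v ⟨hv1, hv2⟩
        exact ⟨hW v hv1, orth_inter_invariant hE hx hr hSi v hv2⟩
      obtain ⟨S, hS1, hS2, hS3, hS4⟩ := ih (finrank F (W ⊓ orth hE.oform (U ⊔ U') : Submodule F V)) (by omega) h3i h3N (fun v hv => hfix v hv.1) rfl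
      obtain ⟨g1, g2, g3⟩ := cyc_min hrp hr hW hfix hPm hPdeg (hle hv) hv0 hvP
      have hvS : cyc x v ≤ U ⊔ U' := cyc_le hSi hv
      have hdisj : Disjoint (cyc x v) S := ((ND_iff_disjoint hE.oform _).mp hSN).mono hvS (hS1.trans inf_le_right)
      refine ⟨cyc x v ⊔ S, sup_le g1 (hS1.trans inf_le_left), ?_, ?_, ?_⟩
      · intro v hv
        obtain ⟨a, ha, b, hb, rfl⟩ := Submodule.mem_sup.mp hv
        rw [map_add]
        exact Submodule.add_mem_sup (g2 a ha) (hS2 b hb)
      · intro a ha b hb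
        obtain ⟨a₁, ha₁, a₂, ha₂, rfl⟩ := Submodule.mem_sup.mp ha
        obtain ⟨b₁, hb₁, b₂, hb₂, rfl⟩ := Submodule.mem_sup.mp hb
        rw [hE.add_left, hE.add_right, hE.add_right, hvi a₁ ha₁ b₁ hb₁, hS3 a₂ ha₂ b₂ hb₂, (hS1 ha₂).2 b₁ (hvS hb₁),
          hE.oform.refl _ _ ((hS1 hb₂).2 a₁ (hvS ha₁))]
        ring
      · have h8 := Submodule.finrank_sup_add_finrank_inf_eq (cyc x v) S
        rw [disjoint_iff.mp hdisj, finrank_bot, g3] at h8
        omega

/-- maximal isotropic invariant subspaces, non-self-dual case -/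
theorem exists_max_iso' (hrp : r ≠ p) (hE : EForm σ ε B) {N : ℕ} (hN : ∃ e0, N = p ^ e0) (hσ : ∀ a : F, σ a = a ^ N)
    (hsd : ¬ SelfDual r N (Fintype.card F)) {x : V →ₗ[F] V} (hx : ∀ u v, B (x u) (x v) = B u v)
    (hr : x ^ r = 1) (n : ℕ) : ∀ {W : Submodule F V} (hW : ∀ v ∈ W, x v ∈ W) (hND : ND B W) (hfix : ∀ v ∈ W, x v = v → v = 0), finrank F W = n →
    ∃ S ≤ W, (∀ v ∈ S, x v ∈ S) ∧ (∀ a ∈ S, ∀ b ∈ S, B a b = 0) ∧ finrank F W = 2 * finrank F S := by
  classical
  have hpos := orderOf_pos_of_not_dvd (r := r) (prime_not_dvd_card (F := F) hrp)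
  induction n using Nat.strong_induction_on with
  | _ n ih =>
    intro W hW hND hfix hn
    by_cases hW0 : W = ⊥
    · refine ⟨⊥, bot_le, ?_, ?_, ?_⟩
      · intro v hv
        rw [Submodule.mem_bot] at hv ⊢
        rw [hv, map_zero]
      · intro a ha b _
        rw [(Submodule.mem_bot F).mp ha, hE.oform.zero_left]
      · rw [hW0, finrank_bot, mul_zero]
    · obtain ⟨w, hw, hw0⟩ := Submodule.exists_mem_ne_zero_of_ne_bot hW0
      obtain ⟨P, u, h1, h2, h3, h4, h5, h6, h7⟩ := exists_factor hrp hr hW hfix hw hw0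
      obtain ⟨g1, g2, g3⟩ := cyc_min hrp hr hW hfix h1 h4 h5 h6 h7
      obtain ⟨A', k1, k2, k3, k4, k5, k6, hSN⟩ := exists_pair_min hrp hE hN hσ hsd hx hr hW hND hfix g1 g2 g3
      have hle : cyc x u ⊔ A' ≤ W := sup_le g1 k1
      have hSi : ∀ v ∈ cyc x u ⊔ A', x v ∈ cyc x u ⊔ A' := by
        intro v hv
        obtain ⟨a, ha, b, hb, rfl⟩ := Submodule.mem_sup.mp hv
        rw [map_add]
        exact Submodule.add_mem_sup (g2 a ha) (k2 b hb)
      have hSd : finrank F (cyc x u ⊔ A' : Submodule F V) = 2 * orderOf ((Fintype.card F : ℕ) : ZMod r) := by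
        have h8 := Submodule.finrank_sup_add_finrank_inf_eq (cyc x u) A'
        rw [disjoint_iff.mp k6, finrank_bot, g3, k3] at h8
        omega
      have h3d := split_finrank hE.oform hSN hle
      have h3N := split_ND_compl hE.oform hND hSN hle
      have h3i : ∀ v ∈ W ⊓ orth hE.oform (cyc x u ⊔ A'), x v ∈ W ⊓ orth hE.oform (cyc x u ⊔ A') := by
        rintro v ⟨hv1, hv2⟩
        exact ⟨hW v hv1, orth_inter_invariant hE hx hr hSi v hv2⟩
      obtain ⟨S, hS1, hS2, hS3, hS4⟩ := ih (finrank F (W ⊓ orth hE.oform (cyc x u ⊔ A') : Submodule F V)) (by omega) h3i h3N (fun v hv => hfix v hv.1) rfl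
      have hvS : cyc x u ≤ cyc x u ⊔ A' := le_sup_left
      have hdisj : Disjoint (cyc x u) S := ((ND_iff_disjoint hE.oform _).mp hSN).mono hvS (hS1.trans inf_le_right)
      refine ⟨cyc x u ⊔ S, sup_le g1 (hS1.trans inf_le_left), ?_, ?_, ?_⟩
      · intro v hv
        obtain ⟨a, ha, b, hb, rfl⟩ := Submodule.mem_sup.mp hv
        rw [map_add]
        exact Submodule.add_mem_sup (g2 a ha) (hS2 b hb)
      · intro a ha b hb
        obtain ⟨a₁, ha₁, a₂, ha₂, rfl⟩ := Submodule.mem_sup.mp ha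
        obtain ⟨b₁, hb₁, b₂, hb₂, rfl⟩ := Submodule.mem_sup.mp hb
        rw [hE.add_left, hE.add_right, hE.add_right, k4 a₁ ha₁ b₁ hb₁, hS3 a₂ ha₂ b₂ hb₂, (hS1 ha₂).2 b₁ (hvS hb₁),
          hE.oform.refl _ _ ((hS1 hb₂).2 a₁ (hvS ha₁))]
        ring
      · have h8 := Submodule.finrank_sup_add_finrank_inf_eq (cyc x u) S
        rw [disjoint_iff.mp hdisj, finrank_bot, g3] at h8
        omega

/-- invariant subspaces of every admissible dimension -/
theorem exists_inv_sub (hrp : r ≠ p) {x : V →ₗ[F] V} (hr : x ^ r = 1) {S : Submodule F V} (hS : ∀ v ∈ S, x v ∈ S)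
    (hfix : ∀ v ∈ S, x v = v → v = 0) (j : ℕ) (hj : j * orderOf ((Fintype.card F : ℕ) : ZMod r) ≤ finrank F S) :
    ∃ S' ≤ S, (∀ v ∈ S', x v ∈ S') ∧ finrank F S' = j * orderOf ((Fintype.card F : ℕ) : ZMod r) := by
  have hr0 : 0 < r := (Fact.out : r.Prime).pos
  have hrF : (r : F) ≠ 0 := natCast_ne_zero_of_ne (Fact.out : r.Prime) hrp
  have hpos := orderOf_pos_of_not_dvd (r := r) (prime_not_dvd_card (F := F) hrp)
  induction j with
  | zero =>
    refine ⟨⊥, bot_le, ?_, by rw [finrank_bot, zero_mul]⟩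
    intro v hv
    rw [Submodule.mem_bot] at hv ⊢
    rw [hv, map_zero]
  | succ j ih =>
    rw [add_mul, one_mul] at hj
    obtain ⟨S', h1, h2, h3⟩ := ih (by omega)
    obtain ⟨A', k1, k2, k3, k4⟩ := exists_invariant_compl_in hr0 hr hrF S' S h2 hS h1
    have hA0 : A' ≠ ⊥ := by
      rintro rfl
      rw [sup_bot_eq] at k4
      rw [k4] at h3
      omega
    obtain ⟨w, hw, hw0⟩ := Submodule.exists_mem_ne_zero_of_ne_bot hA0
    obtain ⟨P, u, g1, g2, g3, g4, g5, g6, g7⟩ := exists_factor hrp hr k1 (fun v hv => hfix v (k2 hv)) hw hw0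
    obtain ⟨l1, l2, l3⟩ := cyc_min hrp hr k1 (fun v hv => hfix v (k2 hv)) g1 g4 g5 g6 g7
    refine ⟨S' ⊔ cyc x u, sup_le h1 (l1.trans k2), ?_, ?_⟩
    · intro v hv
      obtain ⟨a, ha, b, hb, rfl⟩ := Submodule.mem_sup.mp hv
      rw [map_add]
      exact Submodule.add_mem_sup (h2 a ha) (l2 b hb)
    · have h8 := Submodule.finrank_sup_add_finrank_inf_eq S' (cyc x u)
      rw [disjoint_iff.mp (k3.mono_right l1), finrank_bot, h3, l3] at h8
      rw [add_mul, one_mul]
      omega

end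

end Cfsg.Agent.H99
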