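import Mathlib
import Cfsg.Agent.H99.IsoSub
import Cfsg.Agent.H99.SympElt

set_option autoImplicit false
set_option linter.unusedVariables false
set_option linter.unusedSectionVars false

/-! Isometries of prime order with prescribed types (helper99). -/

namespace Cfsg.Agent.H99

open Module Polynomial

section glue2
variable {F V : Type*} [Field F] [AddCommGroup V] [Module F V] [FiniteDimensional F V]

lemma finrank_ker_glue' {U U' : Submodule F V} (h : IsCompl U U') (g : U →ₗ[F] U) (g' : U' →ₗ[F] U') :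
    finrank F (LinearMap.ker (glue h g g')) = finrank F (LinearMap.ker g) + finrank F (LinearMap.ker g') := by
  have h1 : glue h (g + 1) (g' + 1) - 1 = glue h g g' := by
    ext v
    obtain ⟨u, u', rfl⟩ := exists_add_of_isCompl h v
    rw [LinearMap.sub_apply, glue_apply, glue_apply, Module.End.one_apply]
    simp only [LinearMap.add_apply, Module.End.one_apply, Submodule.coe_add]
    abel
  have h2 := finrank_ker_glue h (g + 1) (g' + 1)
  rw [h1, add_sub_cancel_right, add_sub_cancel_right] at h2
  exact h2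

lemma aeval_glue {U U' : Submodule F V} (h : IsCompl U U') (g : U →ₗ[F] U) (g' : U' →ₗ[F] U') (Q : F[X]) :
    aeval (glue h g g') Q = glue h (aeval g Q) (aeval g' Q) := by
  induction Q using Polynomial.induction_on' with
  | add P Q hP hQ =>
    ext v
    obtain ⟨u, u', rfl⟩ := exists_add_of_isCompl h v
    rw [map_add (aeval (glue h g g')), map_add (aeval g), map_add (aeval g'), hP, hQ, LinearMap.add_apply, glue_apply, glue_apply, glue_apply]
    simp only [LinearMap.add_apply, Submodule.coe_add]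
    abel
  | monomial k a =>
    ext v
    obtain ⟨u, u', rfl⟩ := exists_add_of_isCompl h v
    rw [aeval_monomial, aeval_monomial, aeval_monomial, Module.End.mul_apply, Module.algebraMap_end_apply, glue_pow, glue_apply, glue_apply,
      Module.End.mul_apply, Module.algebraMap_end_apply, Module.End.mul_apply, Module.algebraMap_end_apply, smul_add]
    rfl

end glue2

section
variable {F : Type*} [Field F] [Fintype F] {p : ℕ} [Fact p.Prime] [CharP F p] {r : ℕ} [Fact r.Prime]
variable {σ : F →+* F} {ε : F}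

/-- powers realise every type -/
theorem exists_pow_type {V : Type*} [AddCommGroup V] [Module F V] [FiniteDimensional F V] (hrp : r ≠ p) {x : V →ₗ[F] V} (hr : x ^ r = 1)
    (hfix : ∀ v, x v = v → v = 0) (hd : finrank F V = orderOf ((Fintype.card F : ℕ) : ZMod r)) {Q : F[X]} (hQ : Q ∈ cycFac r F) :
    ∃ k : ℕ, aeval (x ^ k) Q = 0 := by
  classical
  have hrp' : r.Prime := Fact.out
  obtain ⟨P, u, hPm, hPi, hPc, hPd, -, hu0, hcu, hPV⟩ := exists_factor_min hrp hr (A := (⊤ : Submodule F V)) (fun _ _ => Submodule.mem_top) (fun v _ => hfix v) (by rw [finrank_top, hd])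
  have hP0 : aeval x P = 0 := LinearMap.ext (fun v => hPV v Submodule.mem_top)
  rw [mem_cycFac] at hQ
  obtain ⟨hQm, hQi, hQc⟩ := hQ
  have hfact : Fact (Irreducible P) := ⟨hPi⟩
  let K := AdjoinRoot P
  have hroot : (AdjoinRoot.root P : K) ^ r = 1 := by
    have h1 : P ∣ X ^ r - 1 := hPc.trans (Dvd.intro _ (cyclotomic_prime_mul_X_sub_one F r))
    have h2 : (AdjoinRoot.mk P (X ^ r - 1 : F[X])) = 0 := by rw [AdjoinRoot.mk_eq_zero]; exact h1
    rw [map_sub, map_pow, AdjoinRoot.mk_X, map_one, sub_eq_zero] at h2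
    exact h2
  have hroot1 : (AdjoinRoot.root P : K) ≠ 1 := by
    intro h1
    have h2 : (AdjoinRoot.mk P (cyclotomic r F)) = 0 := by rw [AdjoinRoot.mk_eq_zero]; exact hPc
    rw [← AdjoinRoot.aeval_eq, h1] at h2
    have h3 : aeval (1 : K) (cyclotomic r F) = ((eval 1 (cyclotomic r F) : F) : K) := by
      have := aeval_algebraMap_apply_eq_algebraMap_eval (A := K) (1 : F) (cyclotomic r F)
      rw [map_one] at this
      exact this
    rw [h3, eval_one_cyclotomic_prime] at h2
    have h4 : (r : F) = 0 := by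
      apply (AdjoinRoot.of P).injective
      rw [map_zero]
      exact h2
    exact natCast_ne_zero_of_ne hrp' hrp h4
  have hprim : IsPrimitiveRoot (AdjoinRoot.root P : K) r := by
    rw [IsPrimitiveRoot.iff_orderOf]
    exact orderOf_eq_prime hroot hroot1
  have hspl : (cyclotomic r K).Splits := by
    rw [cyclotomic_eq_prod_X_sub_primitiveRoots hprim]
    exact Splits.prod (fun _ _ => Splits.X_sub_C _)
  have hQK : (Q.map (algebraMap F K)) ∣ cyclotomic r K := by
    rw [← map_cyclotomic r (algebraMap F K)]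
    exact Polynomial.map_dvd _ hQc
  have hQspl := hspl.of_dvd (cyclotomic_ne_zero r K) hQK
  obtain ⟨μ, hμ⟩ := hQspl.exists_eval_eq_zero (by
    rw [degree_map]
    exact hQi.degree_pos.ne')
  have hμr : μ ^ r = 1 := by
    obtain ⟨G, hG⟩ := hQK
    have h1 : eval μ (cyclotomic r K) = 0 := by rw [hG, eval_mul, hμ, zero_mul]
    have h2 := congrArg (eval μ) (cyclotomic_prime_mul_X_sub_one K r)
    rw [eval_mul, h1, zero_mul, eval_sub, eval_pow, eval_X, eval_one] at h2
    exact (sub_eq_zero.mp h2.symm)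
  have : NeZero r := ⟨hrp'.ne_zero⟩
  obtain ⟨k, -, hk⟩ := hprim.eq_pow_of_pow_eq_one hμr
  refine ⟨k, ?_⟩
  have h1 : P ∣ Q.comp (X ^ k) := by
    rw [← AdjoinRoot.mk_eq_zero, ← AdjoinRoot.aeval_eq, aeval_comp, map_pow, aeval_X, hk, ← eval_map_algebraMap]
    exact hμ
  obtain ⟨G, hG⟩ := h1
  have h2 : aeval x (Q.comp (X ^ k)) = 0 := by rw [hG, map_mul, hP0, zero_mul]
  rw [aeval_comp, map_pow, aeval_X] at h2
  exact h2

lemma ker_aeval_bot {V : Type*} [AddCommGroup V] [Module F V] {x : V →ₗ[F] V} {P Q : F[X]} (hcop : IsCoprime P Q) (hP : aeval x P = 0) :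
    LinearMap.ker (aeval x Q) = ⊥ := by
  rw [LinearMap.ker_eq_bot']
  intro v hv
  obtain ⟨a, b, hab⟩ := hcop
  have h1 : aeval x (a * P + b * Q) v = v := by rw [hab, map_one]; rfl
  rw [map_add, LinearMap.add_apply, map_mul, map_mul, Module.End.mul_apply, Module.End.mul_apply, hP, hv, map_zero, LinearMap.zero_apply, map_zero, add_zero] at h1
  exact h1.symm

/-- isometries with pairwise different types -/
theorem exists_alt_types.{v} (hr2 : r ≠ 2) (hrp : r ≠ p) (hev : Even (orderOf ((Fintype.card F : ℕ) : ZMod r))) (T : Finset F[X]) (hT : T ⊆ cycFac r F) :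
    ∀ (V : Type v) [AddCommGroup V] [Module F V] [FiniteDimensional F V]
    (B : V → V → F), AltForm B → ND B (⊤ : Submodule F V) → T.card * orderOf ((Fintype.card F : ℕ) : ZMod r) ≤ finrank F V →
    ∃ x : V →ₗ[F] V, (∀ u v, B (x u) (x v) = B u v) ∧ x ^ r = 1 ∧
      finrank F (LinearMap.ker (x - 1)) + T.card * orderOf ((Fintype.card F : ℕ) : ZMod r) = finrank F V ∧
      ∀ Q ∈ cycFac r F, finrank F (LinearMap.ker (aeval x Q)) ≤ orderOf ((Fintype.card F : ℕ) : ZMod r) ∧ (Q ∉ T → finrank F (LinearMap.ker (aeval x Q)) = 0) := by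
  classical
  have hblk : blk r (Fintype.card F) = orderOf ((Fintype.card F : ℕ) : ZMod r) := by
    unfold blk
    rw [if_pos hev]
  have hpos := orderOf_pos_of_not_dvd (r := r) (prime_not_dvd_card (F := F) hrp)
  induction T using Finset.induction_on with
  | empty =>
    intro V _ _ _ B hA hND _
    refine ⟨1, fun _ _ => rfl, one_pow r, ?_, ?_⟩
    · rw [sub_self, LinearMap.ker_zero, finrank_top, Finset.card_empty, zero_mul, add_zero]
    · intro Q hQ
      have h0 : finrank F (LinearMap.ker (aeval (1 : V →ₗ[F] V) Q)) = 0 := by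
        rw [mem_cycFac] at hQ
        have h1 : eval 1 Q ≠ 0 := by
          intro h1
          obtain ⟨G, hG⟩ := hQ.2.2
          have h2 := congrArg (eval 1) hG
          rw [eval_mul, h1, zero_mul, eval_one_cyclotomic_prime] at h2
          exact natCast_ne_zero_of_ne (Fact.out : r.Prime) hrp h2
        have h2 : aeval (1 : V →ₗ[F] V) Q = algebraMap F _ (eval 1 Q) := by
          have := aeval_algebraMap_apply_eq_algebraMap_eval (A := V →ₗ[F] V) (1 : F) Q
          rw [map_one] at this
          exact this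
        rw [h2]
        have h3 : LinearMap.ker (algebraMap F (V →ₗ[F] V) (eval 1 Q)) = ⊥ := by
          rw [LinearMap.ker_eq_bot']
          intro v hv
          rw [Module.algebraMap_end_apply, smul_eq_zero] at hv
          exact hv.resolve_left h1
        rw [h3, finrank_bot]
      exact ⟨by rw [h0]; exact Nat.zero_le _, fun _ => h0⟩
  | insert P T hP ih =>
    intro V _ _ _ B hA hND hj
    rw [Finset.card_insert_of_notMem hP, add_mul, one_mul] at hj ⊢
    obtain ⟨m, hm⟩ := hev
    obtain ⟨U, -, hU, hUd⟩ := hA.exists_ND_sub m ⊤ hND (by rw [finrank_top, two_mul, ← hm]; omega)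
    have hUd' : finrank F U = orderOf ((Fintype.card F : ℕ) : ZMod r) := by omega
    have hc := isCompl_orth hA.oform hU
    have hU' : ND B (orth hA.oform U) := by
      have := split_ND_compl hA.oform hND hU le_top
      rwa [top_inf_eq] at this
    have hd2 := Submodule.finrank_add_eq_of_isCompl hc
    have hres : ∀ W : Submodule F V, ND B W → ND (fun u v : W => B (u : V) (v : V)) (⊤ : Submodule F W) := by
      intro W hW u _ hu
      apply Subtype.ext
      exact hW u u.2 (fun v hv => hu ⟨v, hv⟩ Submodule.mem_top)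
    obtain ⟨x₁, h1, h2, h3⟩ := exists_alt_full (V := U) hr2 hrp (hA.comp U.subtype) (hres U hU) (by rw [hblk]; exact hUd')
    obtain ⟨x₂, g1, g2, g3, g4⟩ := ih (fun _ h => hT (Finset.mem_insert_of_mem h)) (orth hA.oform U) (fun u v => B (u : V) (v : V)) (hA.comp (orth hA.oform U).subtype) (hres _ hU') (by omega)
    have hPc : P ∈ cycFac r F := hT (Finset.mem_insert_self P T)
    have hfix1 : ∀ v : U, x₁ v = v → v = 0 := by
      intro v hv
      have h4 : v ∈ LinearMap.ker (x₁ - 1) := by rw [LinearMap.mem_ker, LinearMap.sub_apply, Module.End.one_apply, hv, sub_self]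
      rw [Submodule.finrank_eq_zero.mp h3] at h4
      exact (Submodule.mem_bot F).mp h4
    obtain ⟨k, hk⟩ := exists_pow_type hrp h2 hfix1 hUd' hPc
    have hyr : (x₁ ^ k) ^ r = 1 := by rw [← pow_mul, mul_comm, pow_mul, h2, one_pow]
    have hyker : finrank F (LinearMap.ker (x₁ ^ k - 1)) = 0 := by
      rw [mem_cycFac] at hPc
      have hcop : IsCoprime P (X - 1 : F[X]) := by
        rw [hPc.2.1.coprime_iff_not_dvd]
        intro h4
        have h5 : eval 1 P = 0 := by
          have h6 : (X - 1 : F[X]) ∣ P := by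
            have h7 : Irreducible (X - 1 : F[X]) := by
              have := irreducible_X_sub_C (1 : F)
              rwa [C_1] at this
            exact (hPc.2.1.associated_of_dvd h7 h4).symm.dvd
          obtain ⟨G, hG⟩ := h6
          rw [hG, eval_mul, eval_sub, eval_X, eval_one, sub_self, zero_mul]
        obtain ⟨G, hG⟩ := hPc.2.2
        have h2 := congrArg (eval 1) hG
        rw [eval_mul, h5, zero_mul, eval_one_cyclotomic_prime] at h2
        exact natCast_ne_zero_of_ne (Fact.out : r.Prime) hrp h2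
      have h5 := ker_aeval_bot hcop hk
      rw [map_sub, aeval_X, map_one] at h5
      rw [h5, finrank_bot]
    refine ⟨glue hc (x₁ ^ k) x₂, ?_, ?_, ?_, ?_⟩
    · apply glue_isom hA.eform hc _ (x₁ ^ k) x₂ _ g1
      · intro u hu v hv
        exact hA.oform.refl _ _ (hv u hu)
      · exact isom_pow (B := fun u v : U => B (u : V) (v : V)) h1 k
    · rw [glue_pow, hyr, g2, glue_one]
    · rw [finrank_ker_glue, hyker]
      omega
    · intro Q hQ
      rw [aeval_glue, finrank_ker_glue']
      obtain ⟨g5, g6⟩ := g4 Q hQ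
      by_cases hQP : Q = P
      · subst hQP
        have h4 := g6 hP
        have h5 := Submodule.finrank_le (LinearMap.ker (aeval (x₁ ^ k) Q))
        rw [hUd'] at h5
        refine ⟨by omega, fun h => absurd (Finset.mem_insert_self Q T) h⟩
      · have hcop := coprime_cycFac (Finset.mem_coe.mpr hPc) (Finset.mem_coe.mpr hQ) (fun h => hQP h.symm)
        have h4 : finrank F (LinearMap.ker (aeval (x₁ ^ k) Q)) = 0 := by
          rw [ker_aeval_bot hcop hk, finrank_bot]
        rw [h4, zero_add]
        exact ⟨g5, fun h => g6 (fun h' => h (Finset.mem_insert_of_mem h'))⟩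

/-- isotropic invariant subspaces of multiplicity-free isometries are fixed -/
theorem le_ker_of_types {V : Type*} [AddCommGroup V] [Module F V] [FiniteDimensional F V] {B : V → V → F} (hrp : r ≠ p) (hE : EForm σ ε B)
    (hND : ND B (⊤ : Submodule F V)) (hsd : SelfDualE p r σ) {x : V →ₗ[F] V} (hx : ∀ u v, B (x u) (x v) = B u v) (hr : x ^ r = 1)
    (hmul : ∀ Q ∈ cycFac r F, finrank F (LinearMap.ker (aeval x Q)) ≤ orderOf ((Fintype.card F : ℕ) : ZMod r))
    {W : Submodule F V} (hW : ∀ v ∈ W, x v ∈ W) (hiso : ∀ a ∈ W, ∀ b ∈ W, B a b = 0) : W ≤ LinearMap.ker (x - 1) := by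
  have hr0 : 0 < r := (Fact.out : r.Prime).pos
  have hrF : (r : F) ≠ 0 := natCast_ne_zero_of_ne (Fact.out : r.Prime) hrp
  have hmemker : ∀ v, v ∈ LinearMap.ker (x - 1) ↔ x v = v := by
    intro v
    rw [LinearMap.mem_ker, LinearMap.sub_apply, Module.End.one_apply, sub_eq_zero]
  have hCi : ∀ v ∈ W ⊓ LinearMap.ker (x - 1), x v ∈ W ⊓ LinearMap.ker (x - 1) := by
    rintro v ⟨hv1, hv2⟩
    rw [SetLike.mem_coe, hmemker] at hv2
    rw [hv2]
    exact ⟨hv1, by rw [SetLike.mem_coe, hmemker]; exact hv2⟩
  obtain ⟨A, h1, h2, h3, h4⟩ := exists_invariant_compl_in hr0 hr hrF (W ⊓ LinearMap.ker (x - 1)) W hCi hW inf_le_left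
  have hfix : ∀ v ∈ A, x v = v → v = 0 := by
    intro v hv hvx
    exact (Submodule.disjoint_def.mp h3) v ⟨h2 hv, by rw [SetLike.mem_coe, hmemker]; exact hvx⟩ hv
  have hA : A = ⊥ := by
    by_contra hA0
    obtain ⟨w, hw, hw0⟩ := Submodule.exists_mem_ne_zero_of_ne_bot hA0
    obtain ⟨P, u, g1, g2, g3, g4, g5, g6, g7⟩ := exists_factor hrp hr h1 hfix hw hw0
    obtain ⟨l1, l2, l3⟩ := cyc_min hrp hr h1 hfix g1 g4 g5 g6 g7
    have h5 := hmul P (mem_cycFac.mpr ⟨g1, g2, g3⟩)
    have h6 : cyc x u ≤ LinearMap.ker (aeval x P) := by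
      intro v hv
      rw [LinearMap.mem_ker]
      exact aeval_eq_zero_of_mem_cyc g7 hv
    have h7 : cyc x u = LinearMap.ker (aeval x P) := Submodule.eq_of_le_of_finrank_le h6 (by rw [l3]; exact h5)
    have h8 := ND_part hrp hE hsd hx hr (W := ⊤) (fun _ _ => Submodule.mem_top) hND g3
    rw [top_inf_eq, ← h7] at h8
    apply g6
    apply h8 u (self_mem_cyc x u)
    intro v hv
    exact hiso u (h2 g5) v (h2 (l1 hv))
  rw [hA, sup_bot_eq] at h4
  rw [← h4]
  exact inf_le_right

end

end Cfsg.Agent.H99
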