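import Mathlib
import Cfsg.Agent.H99.SubCount
import Cfsg.Agent.H99.OrthDim

set_option autoImplicit false
set_option linter.unusedVariables false
set_option linter.unusedSectionVars false

/-! Counting isotropic subspaces (helper99). -/

namespace Cfsg.Agent.H99

open Module

section
variable {F V : Type*} [Field F] [Finite F] [AddCommGroup V] [Module F V] [FiniteDimensional F V]

/-- frames of subspaces with a property -/
def frames (T : Submodule F V → Prop) (k : ℕ) : Type _ :=
  {s : Fin k → V // LinearIndependent F s ∧ T (Submodule.span F (Set.range s))}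

/-- a frame is a shorter frame and a vector -/
noncomputable def framesSucc (T : Submodule F V → Prop) (hT : ∀ U W, U ≤ W → T W → T U) (k : ℕ) :
    frames T (k + 1) ≃ Σ s : frames T k, {w : V // w ∉ Submodule.span F (Set.range s.1) ∧ T (Submodule.span F (Set.range s.1) ⊔ Submodule.span F {w})} where
  toFun s := ⟨⟨Fin.tail s.1, by
      have h := s.2.1
      rw [← Fin.cons_self_tail s.1, linearIndependent_finCons] at h
      exact h.1, hT _ _ (Submodule.span_mono (by
        rintro _ ⟨j, rfl⟩
        exact ⟨j.succ, rfl⟩)) s.2.2⟩, ⟨s.1 0, by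
      have h := s.2.1
      rw [← Fin.cons_self_tail s.1, linearIndependent_finCons] at h
      exact h.2, hT _ _ (by
        rw [← Submodule.span_union]
        apply Submodule.span_mono
        rintro _ (⟨j, rfl⟩ | hw)
        · exact ⟨j.succ, rfl⟩
        · exact ⟨0, hw.symm⟩) s.2.2⟩⟩
  invFun x := ⟨Fin.cons x.2.1 x.1.1, by
      rw [linearIndependent_finCons]
      exact ⟨x.1.2.1, x.2.2.1⟩, by
      rw [Fin.range_cons, Set.insert_eq, Submodule.span_union, sup_comm]
      exact x.2.2.2⟩
  left_inv s := Subtype.ext (Fin.cons_self_tail s.1)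
  right_inv x := by
    obtain ⟨⟨s, hs⟩, ⟨w, hw⟩⟩ := x
    rfl

/-- frames spanning a given subspace -/
noncomputable def framesFiberEquiv (T : Submodule F V → Prop) (m : ℕ) (W : {W : Submodule F V // finrank F W = m ∧ T W}) :
    {s : frames T m // Submodule.span F (Set.range s.1) = W.1} ≃
      {s : Fin m → W.1 // LinearIndependent F s} where
  toFun s := ⟨fun j => ⟨s.1.1 j, s.2.le (Submodule.subset_span ⟨j, rfl⟩)⟩, by
      have h := s.1.2.1
      rw [← LinearMap.linearIndependent_iff W.1.subtype (Submodule.ker_subtype _)]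
      exact h⟩
  invFun x := 
    have hspan : Submodule.span F (Set.range (fun j => (x.1 j : V))) = W.1 := by
      apply Submodule.eq_of_le_of_finrank_eq
      · rw [Submodule.span_le]
        rintro _ ⟨j, rfl⟩
        exact (x.1 j).2
      · have hs' : LinearIndependent F (fun j => (x.1 j : V)) := x.2.map' W.1.subtype (Submodule.ker_subtype _)
        rw [finrank_span_eq_card hs', Fintype.card_fin, W.2.1]
    ⟨⟨fun j => (x.1 j : V), x.2.map' W.1.subtype (Submodule.ker_subtype _), by
      rw [hspan]
      exact W.2.2⟩, hspan⟩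
  left_inv s := rfl
  right_inv s := rfl

theorem card_frames_eq (T : Submodule F V → Prop) (m : ℕ) :
    Nat.card (frames T m) = Nat.card {W : Submodule F V // finrank F W = m ∧ T W} * ∏ j ∈ Finset.range m, (Nat.card F ^ m - Nat.card F ^ j) := by
  have := Fintype.ofFinite F
  have hFV : Finite V := Module.finite_of_finite F
  have hfs : Finite (Submodule F V) := inferInstance
  have hfW : Fintype {W : Submodule F V // finrank F W = m ∧ T W} := Fintype.ofFinite _
  let g : frames T m → {W : Submodule F V // finrank F W = m ∧ T W} := fun s =>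
    ⟨Submodule.span F (Set.range s.1), by rw [finrank_span_eq_card s.2.1, Fintype.card_fin], s.2.2⟩
  have hfr : Finite (frames T m) := by unfold frames; infer_instance
  rw [← Nat.card_congr (Equiv.sigmaFiberEquiv g), Nat.card_sigma]
  have h2 : ∀ W : {W : Submodule F V // finrank F W = m ∧ T W}, Nat.card {s : Fin m → W.1 // LinearIndependent F s}
      = ∏ j ∈ Finset.range m, (Nat.card F ^ m - Nat.card F ^ j) := by
    intro W
    rw [card_linearIndependent (K := F) (V := W.1) (k := m) (by rw [W.2.1])]
    rw [W.2.1, ← Fin.prod_univ_eq_prod_range (fun j => Nat.card F ^ m - Nat.card F ^ j), Nat.card_eq_fintype_card]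
  have h3 : ∀ W : {W : Submodule F V // finrank F W = m ∧ T W}, Nat.card {s : frames T m // g s = W}
      = ∏ j ∈ Finset.range m, (Nat.card F ^ m - Nat.card F ^ j) := by
    intro W
    rw [← h2 W, ← Nat.card_congr (framesFiberEquiv T m W)]
    apply Nat.card_congr
    apply Equiv.subtypeEquivRight
    intro s
    exact Subtype.ext_iff
  rw [Finset.sum_congr rfl (fun W _ => h3 W), Finset.sum_const, smul_eq_mul, Finset.card_univ, ← Nat.card_eq_fintype_card]

theorem card_frames_eq_prod (T : Submodule F V → Prop) (hT : ∀ U W, U ≤ W → T W → T U) (h0 : T ⊥) (N : ℕ → ℕ) (m : ℕ)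
    (hN : ∀ k < m, ∀ U : Submodule F V, T U → finrank F U = k → Nat.card {w : V // w ∉ U ∧ T (U ⊔ Submodule.span F {w})} = N k) :
    Nat.card (frames T m) = ∏ k ∈ Finset.range m, N k := by
  have := Fintype.ofFinite F
  have hFV : Finite V := Module.finite_of_finite F
  induction m with
  | zero =>
    rw [Finset.prod_range_zero]
    rw [Nat.card_eq_one_iff_unique]
    constructor
    · constructor
      rintro ⟨s, hs⟩ ⟨t, ht⟩
      apply Subtype.ext
      exact Subsingleton.elim _ _
    · refine ⟨⟨Fin.elim0, linearIndependent_empty_type, ?_⟩⟩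
      rw [Set.range_eq_empty, Submodule.span_empty]
      exact h0
  | succ m ih =>
    have hfr : Finite (frames T m) := by unfold frames; infer_instance
    have hff : Fintype (frames T m) := Fintype.ofFinite _
    rw [Nat.card_congr (framesSucc T hT m), Nat.card_sigma, Finset.prod_range_succ, ← ih (fun k hk => hN k (by omega))]
    rw [Finset.sum_congr rfl (fun s _ => hN m (by omega) _ s.2.2 (by rw [finrank_span_eq_card s.2.1, Fintype.card_fin]))]
    rw [Finset.sum_const, smul_eq_mul, Finset.card_univ, Nat.card_eq_fintype_card]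

/-- counting subspaces with a hereditary property -/
theorem card_sub_eq (T : Submodule F V → Prop) (hT : ∀ U W, U ≤ W → T W → T U) (h0 : T ⊥) (M : ℕ → ℕ) (m : ℕ)
    (hN : ∀ k < m, ∀ U : Submodule F V, T U → finrank F U = k → Nat.card {w : V // w ∉ U ∧ T (U ⊔ Submodule.span F {w})} = Nat.card F ^ k * M k) :
    Nat.card {W : Submodule F V // finrank F W = m ∧ T W} * qfac (Nat.card F) m = ∏ k ∈ Finset.range m, M k := by
  have h1 := card_frames_eq T m
  rw [card_frames_eq_prod T hT h0 (fun k => Nat.card F ^ k * M k) m hN, Finset.prod_mul_distrib, Finset.prod_pow_eq_pow_sum] at h1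
  have hq2 : 2 ≤ Nat.card F := Finite.one_lt_card
  have h6 := prod_sub_mul_qfac hq2 m m le_rfl
  rw [Nat.sub_self] at h6
  have h7 : qfac (Nat.card F) 0 = 1 := by simp [qfac]
  rw [h7, mul_one] at h6
  rw [h6] at h1
  have h8 : 0 < Nat.card F ^ ∑ j ∈ Finset.range m, j := pow_pos (by omega) _
  apply Nat.eq_of_mul_eq_mul_left h8
  rw [h1]
  ring

/-- counting isotropic subspaces of symplectic spaces -/
theorem card_iso_alt {B : V → V → F} (hA : AltForm B) (hND : ND B (⊤ : Submodule F V)) {d : ℕ} (hd : finrank F V = 2 * d) (m : ℕ) :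
    Nat.card {W : Submodule F V // finrank F W = m ∧ (∀ u ∈ W, ∀ v ∈ W, B u v = 0)} * qfac (Nat.card F) m
      = ∏ k ∈ Finset.range m, (Nat.card F ^ (2 * (d - k)) - 1) := by
  have := Fintype.ofFinite F
  have hFV : Finite V := Module.finite_of_finite F
  apply card_sub_eq (fun W : Submodule F V => ∀ u ∈ W, ∀ v ∈ W, B u v = 0)
  · intro U W hUW h u hu v hv
    exact h u (hUW hu) v (hUW hv)
  · intro u hu v _
    rw [(Submodule.mem_bot F).mp hu, hA.oform.zero_left]
  · intro k hk U hU hUk
    have h1 := hA.eform.two_mul_finrank_le hND U hU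
    have h2 := hA.eform.finrank_add_orth hND U
    have hle : U ≤ orth hA.oform U := fun u hu v hv => hU u hu v hv
    have h3 : Nat.card {w : V // w ∉ U ∧ ∀ u ∈ U ⊔ Submodule.span F {w}, ∀ v ∈ U ⊔ Submodule.span F {w}, B u v = 0} = Nat.card (orth hA.oform U) - Nat.card U := by
      rw [← Nat.card_congr (Equiv.subtypeEquivRight (p := fun w => w ∈ ((orth hA.oform U : Set V) \ (U : Set V))) (q := fun w => w ∉ U ∧ ∀ u ∈ U ⊔ Submodule.span F {w}, ∀ v ∈ U ⊔ Submodule.span F {w}, B u v = 0) ?_)]
      · change Nat.card ((orth hA.oform U : Set V) \ (U : Set V) : Set V) = _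
        rw [Nat.card_coe_set_eq, Set.ncard_sdiff hle (Set.toFinite _)]
        rfl
      · intro w
        constructor
        · rintro ⟨hw1, hw2⟩
          refine ⟨hw2, ?_⟩
          intro u hu v hv
          obtain ⟨a, ha, b, hb, rfl⟩ := Submodule.mem_sup.mp hu
          obtain ⟨a', ha', b', hb', rfl⟩ := Submodule.mem_sup.mp hv
          obtain ⟨s, rfl⟩ := Submodule.mem_span_singleton.mp hb
          obtain ⟨s', rfl⟩ := Submodule.mem_span_singleton.mp hb'
          have hwa : ∀ a ∈ U, B w a = 0 := hw1
          have haw : ∀ a ∈ U, B a w = 0 := fun a ha => hA.oform.refl _ _ (hw1 a ha)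
          rw [hA.add_left, hA.add_right, hA.add_right, hA.smul_left, hA.smul_left, hA.smul_right, hA.smul_right, hU a ha a' ha', haw a ha, hwa a' ha', hA.alt]
          ring
        · rintro ⟨hw1, hw2⟩
          refine ⟨?_, hw1⟩
          intro u hu
          exact hw2 w (Submodule.mem_sup_right (Submodule.mem_span_singleton_self w)) u (Submodule.mem_sup_left hu)
    rw [h3, Module.natCard_eq_pow_finrank (K := F) (V := U), Module.natCard_eq_pow_finrank (K := F) (V := orth hA.oform U), hUk, Nat.mul_sub, mul_one, ← pow_add]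
    congr 2
    omega

end

end Cfsg.Agent.H99
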