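import Mathlib
import Cfsg.Agent.H99.IsoTypes
import Cfsg.Agent.H99.TICount
import Cfsg.Agent.H99.SympInvol
import Cfsg.Agent.H99.CharTwoQ
import Cfsg.Agent.Orth.Classify

set_option autoImplicit false
set_option linter.unusedVariables false
set_option linter.unusedSectionVars false

/-! Invariant isotropic subspaces (helper99). -/

namespace Cfsg.Agent.H99

open Module Polynomial

section
variable {F V : Type*} [Field F] [Fintype F] [AddCommGroup V] [Module F V] [FiniteDimensional F V]

/-- isotropic subspaces of symplectic spaces -/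
theorem AltForm.exists_iso_sub {B : V → V → F} (hA : AltForm B) (j : ℕ) :
    ∀ W : Submodule F V, ND B W → 2 * j ≤ finrank F W → ∃ U ≤ W, (∀ a ∈ U, ∀ b ∈ U, B a b = 0) ∧ finrank F U = j := by
  induction j with
  | zero =>
    intro W _ _
    refine ⟨⊥, bot_le, ?_, by rw [finrank_bot]⟩
    intro a ha b _
    rw [(Submodule.mem_bot F).mp ha, hA.oform.zero_left]
  | succ j ih =>
    intro W hW hm
    have hW0 : W ≠ ⊥ := by
      rintro rfl
      rw [finrank_bot] at hm
      omega
    obtain ⟨w, hw, hw0⟩ := Submodule.exists_mem_ne_zero_of_ne_bot hW0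
    have : ∃ y ∈ W, B w y ≠ 0 := by
      by_contra hcon
      push Not at hcon
      exact hw0 (hW w hw hcon)
    obtain ⟨y, hy, hwy⟩ := this
    have h1 := plane_ND hA hwy
    have h2 := plane_finrank hA hwy
    have h3 : Submodule.span F {w, y} ≤ W := by
      rw [Submodule.span_le]
      rintro z (rfl | rfl)
      · exact hw
      · exact hy
    have h4 := split_finrank hA.oform h1 h3
    obtain ⟨U, g1, g2, g3⟩ := ih _ (split_ND_compl hA.oform hW h1 h3) (by omega)
    have hws : w ∈ Submodule.span F {w, y} := Submodule.subset_span (by simp)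
    have hspan : Submodule.span F {w} ≤ Submodule.span F {w, y} := Submodule.span_mono (by simp)
    have h9 : Disjoint (Submodule.span F {w}) U := ((ND_iff_disjoint hA.oform _).mp h1).mono hspan (g1.trans inf_le_right)
    have hwU : ∀ u ∈ U, B u w = 0 := fun u hu => (g1 hu).2 w hws
    have hUw : ∀ u ∈ U, B w u = 0 := fun u hu => hA.oform.refl _ _ (hwU u hu)
    refine ⟨Submodule.span F {w} ⊔ U, sup_le (hspan.trans h3) (g1.trans inf_le_left), ?_, ?_⟩
    · intro a ha b hb
      obtain ⟨a₁, ha₁, a₂, ha₂, rfl⟩ := Submodule.mem_sup.mp ha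
      obtain ⟨b₁, hb₁, b₂, hb₂, rfl⟩ := Submodule.mem_sup.mp hb
      obtain ⟨s, rfl⟩ := Submodule.mem_span_singleton.mp ha₁
      obtain ⟨t, rfl⟩ := Submodule.mem_span_singleton.mp hb₁
      rw [hA.add_left, hA.add_right, hA.add_right, hA.smul_left, hA.smul_left, hA.smul_right, hA.smul_right, hA.alt, hwU a₂ ha₂, hUw b₂ hb₂, g2 a₂ ha₂ b₂ hb₂]
      ring
    · have h8 := Submodule.finrank_sup_add_finrank_inf_eq (Submodule.span F {w}) U
      rw [disjoint_iff.mp h9, finrank_bot, finrank_span_singleton hw0, g3] at h8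
      omega

lemma orth_two {B : V → V → F} (hA : AltForm B) {a b : Submodule F V} (h : ∀ u ∈ a, ∀ v ∈ b, B u v = 0)
    (ha : ∀ u ∈ a, ∀ v ∈ a, B u v = 0) (hb : ∀ u ∈ b, ∀ v ∈ b, B u v = 0) : ∀ u ∈ a ⊔ b, ∀ v ∈ a ⊔ b, B u v = 0 := by
  intro x hx y hy
  obtain ⟨a₁, ha₁, a₂, ha₂, rfl⟩ := Submodule.mem_sup.mp hx
  obtain ⟨b₁, hb₁, b₂, hb₂, rfl⟩ := Submodule.mem_sup.mp hy
  rw [hA.add_left, hA.add_right, hA.add_right, ha a₁ ha₁ b₁ hb₁, hb a₂ ha₂ b₂ hb₂, h a₁ ha₁ b₂ hb₂, hA.oform.refl _ _ (h b₁ hb₁ a₂ ha₂)]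
  ring

/-- involutions fix isotropic subspaces of every dimension -/
theorem exists_iso_of_invol {B : V → V → F} (hA : AltForm B) (hND : ND B (⊤ : Submodule F V)) (h2 : (2 : F) ≠ 0)
    {x : V →ₗ[F] V} (hx : ∀ u v, B (x u) (x v) = B u v) (hxx : ∀ v, x (x v) = v) {m : ℕ} (hm : 2 * m ≤ finrank F V) :
    ∃ U : Submodule F V, (∀ v ∈ U, x v ∈ U) ∧ (∀ a ∈ U, ∀ b ∈ U, B a b = 0) ∧ finrank F U = m := by
  have hp : ∀ v, v ∈ LinearMap.ker (x - 1) ↔ x v = v := by
    intro v
    rw [LinearMap.mem_ker, LinearMap.sub_apply, Module.End.one_apply, sub_eq_zero]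
  have hn : ∀ v, v ∈ LinearMap.ker (x + 1) ↔ x v = -v := by
    intro v
    rw [LinearMap.mem_ker, LinearMap.add_apply, Module.End.one_apply, add_eq_zero_iff_eq_neg]
  have hdec : ∀ v : V, v = (2 : F)⁻¹ • (v + x v) + (2 : F)⁻¹ • (v - x v) := by
    intro v
    rw [← smul_add]
    have : v + x v + (v - x v) = (2 : F) • v := by rw [two_smul]; abel
    rw [this, smul_smul, inv_mul_cancel₀ h2, one_smul]
  have hpm : ∀ v, v + x v ∈ LinearMap.ker (x - 1) := fun v => by rw [hp, map_add, hxx, add_comm]
  have hnm : ∀ v, v - x v ∈ LinearMap.ker (x + 1) := fun v => by rw [hn, map_sub, hxx, neg_sub]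
  have horth : ∀ u ∈ LinearMap.ker (x - 1), ∀ v ∈ LinearMap.ker (x + 1), B u v = 0 := by
    intro u hu v hv
    rw [hp] at hu
    rw [hn] at hv
    have h1 := hx u v
    rw [hu, hv] at h1
    have h3 : B u (-v) = - B u v := hA.eform.neg_right u v
    rw [h3] at h1
    have h4 : (2 : F) * B u v = 0 := by linear_combination -h1
    exact (mul_eq_zero.mp h4).resolve_left h2
  have hpN : ND B (LinearMap.ker (x - 1)) := by
    intro u hu h
    apply hND u Submodule.mem_top
    intro v _
    rw [hdec v, hA.add_right, hA.smul_right, hA.smul_right, h _ (hpm v), horth u hu _ (hnm v)]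
    ring
  have hnN : ND B (LinearMap.ker (x + 1)) := by
    intro u hu h
    apply hND u Submodule.mem_top
    intro v _
    rw [hdec v, hA.add_right, hA.smul_right, hA.smul_right, h _ (hnm v), hA.oform.refl _ _ (horth _ (hpm v) u hu)]
    ring
  have hdisj : Disjoint (LinearMap.ker (x - 1)) (LinearMap.ker (x + 1)) := by
    rw [Submodule.disjoint_def]
    intro v hv1 hv2
    rw [hp] at hv1
    rw [hn, hv1] at hv2
    have h3 : (2 : F) • v = 0 := by rw [two_smul]; nth_rewrite 1 [hv2]; rw [neg_add_cancel]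
    exact (smul_eq_zero.mp h3).resolve_left h2
  have hsup : LinearMap.ker (x - 1) ⊔ LinearMap.ker (x + 1) = ⊤ := by
    rw [eq_top_iff]
    intro v _
    rw [hdec v]
    exact Submodule.add_mem_sup (Submodule.smul_mem _ _ (hpm v)) (Submodule.smul_mem _ _ (hnm v))
  have hsum := Submodule.finrank_sup_add_finrank_inf_eq (LinearMap.ker (x - 1)) (LinearMap.ker (x + 1))
  rw [disjoint_iff.mp hdisj, finrank_bot, hsup, finrank_top, add_zero] at hsum
  obtain ⟨a, ha⟩ := hA.even_finrank_sub hpN
  obtain ⟨b, hb⟩ := hA.even_finrank_sub hnN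
  obtain ⟨U₁, g1, g2, g3⟩ := hA.exists_iso_sub (min m a) _ hpN (by omega)
  obtain ⟨U₂, k1, k2, k3⟩ := hA.exists_iso_sub (m - min m a) _ hnN (by omega)
  refine ⟨U₁ ⊔ U₂, ?_, ?_, ?_⟩
  · intro v hv
    obtain ⟨u, hu, w, hw, rfl⟩ := Submodule.mem_sup.mp hv
    rw [map_add, (hp u).mp (g1 hu), (hn w).mp (k1 hw)]
    exact Submodule.add_mem_sup hu (U₂.neg_mem hw)
  · exact orth_two hA (fun u hu v hv => horth u (g1 hu) v (k1 hv)) g2 k2
  · have h8 := Submodule.finrank_sup_add_finrank_inf_eq U₁ U₂
    rw [disjoint_iff.mp (hdisj.mono g1 k1), finrank_bot, g3, k3] at h8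
    omega

/-- square roots of `-1`, split case -/
theorem exists_iso_of_neg_split {B : V → V → F} (hA : AltForm B) (hND : ND B (⊤ : Submodule F V)) (h2 : (2 : F) ≠ 0) {ι : F} (hι : ι * ι = -1)
    {x : V →ₗ[F] V} (hx : ∀ u v, B (x u) (x v) = B u v) (hxx : ∀ v, x (x v) = -v) {m : ℕ} (hm : 2 * m ≤ finrank F V) :
    ∃ U : Submodule F V, (∀ v ∈ U, x v ∈ U) ∧ (∀ a ∈ U, ∀ b ∈ U, B a b = 0) ∧ finrank F U = m := by
  have hι0 : ι ≠ 0 := by
    rintro rfl
    rw [zero_mul] at hι
    exact one_ne_zero (neg_eq_zero.mp hι.symm)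
  have hp : ∀ (c : F) v, v ∈ LinearMap.ker (x - c • 1) ↔ x v = c • v := by
    intro c v
    rw [LinearMap.mem_ker, LinearMap.sub_apply, LinearMap.smul_apply, Module.End.one_apply, sub_eq_zero]
  have hiso : ∀ c : F, c * c = -1 → ∀ u ∈ LinearMap.ker (x - c • 1), ∀ v ∈ LinearMap.ker (x - c • 1), B u v = 0 := by
    intro c hc u hu v hv
    rw [hp] at hu hv
    have h1 := hx u v
    rw [hu, hv, hA.smul_left, hA.smul_right, ← mul_assoc, hc] at h1
    have h4 : (2 : F) * B u v = 0 := by linear_combination -h1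
    exact (mul_eq_zero.mp h4).resolve_left h2
  have h1 := hA.eform.two_mul_finrank_le hND _ (hiso ι hι)
  have h3 := hA.eform.two_mul_finrank_le hND _ (hiso (-ι) (by rw [neg_mul_neg, hι]))
  have hsup : LinearMap.ker (x - ι • 1) ⊔ LinearMap.ker (x - (-ι) • 1) = ⊤ := by
    rw [eq_top_iff]
    intro v _
    have hdec : v = (2 : F)⁻¹ • (v - ι • x v) + (2 : F)⁻¹ • (v + ι • x v) := by
      rw [← smul_add]
      have : v - ι • x v + (v + ι • x v) = (2 : F) • v := by rw [two_smul]; abel
      rw [this, smul_smul, inv_mul_cancel₀ h2, one_smul]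
    rw [hdec]
    apply Submodule.add_mem_sup
    · apply Submodule.smul_mem
      rw [hp, map_sub, map_smul, hxx, smul_sub, smul_smul, hι, neg_one_smul, smul_neg]
      abel
    · apply Submodule.smul_mem
      rw [hp, map_add, map_smul, hxx, smul_add, smul_smul, neg_mul, hι, neg_neg, one_smul, neg_smul, smul_neg]
      abel
  have hsum := Submodule.finrank_add_le_finrank_add_finrank (LinearMap.ker (x - ι • 1)) (LinearMap.ker (x - (-ι) • 1))
  rw [hsup, finrank_top] at hsum
  obtain ⟨U, hU, hUd⟩ := exists_sub_finrank (LinearMap.ker (x - ι • 1)) (show m ≤ _ by omega)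
  refine ⟨U, ?_, ?_, hUd⟩
  · intro v hv
    rw [(hp ι v).mp (hU hv)]
    exact U.smul_mem _ hv
  · intro a ha b hb
    exact hiso ι hι a (hU ha) b (hU hb)

end

section
variable {F V : Type*} [Field F] [Fintype F] [AddCommGroup V] [Module F V] [FiniteDimensional F V]

/-- zeros of quadratic forms in at least three variables -/
lemma exists_zero_quad (h2 : (2 : F) ≠ 0) (Q : QuadraticForm F V) (h3 : 3 ≤ finrank F V) : ∃ v : V, v ≠ 0 ∧ Q v = 0 := by
  by_cases hnd : (QuadraticMap.polarBilin Q).Nondegenerate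
  · exact Orth.exists_singular hnd h3
  · by_contra hcon
    push Not at hcon
    apply hnd
    constructor
    · intro u hu
      by_contra hu0
      apply hcon u hu0
      have h1 := hu u
      rw [QuadraticMap.polarBilin_apply_apply, QuadraticMap.polar_self] at h1
      rw [two_smul, ← two_mul] at h1
      exact (mul_eq_zero.mp h1).resolve_left h2
    · intro u hu
      by_contra hu0
      apply hcon u hu0
      have h1 := hu u
      rw [QuadraticMap.polarBilin_apply_apply, QuadraticMap.polar_self] at h1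
      rw [two_smul, ← two_mul] at h1
      exact (mul_eq_zero.mp h1).resolve_left h2

/-- square roots of `-1`, non-split case -/
theorem exists_iso_of_neg_nonsplit {B : V → V → F} (hA : AltForm B) (hND : ND B (⊤ : Submodule F V)) (h2 : (2 : F) ≠ 0) (hι : ∀ a b : F, a * a + b * b = 0 → a = 0 ∧ b = 0)
    {x : V →ₗ[F] V} (hx : ∀ u v, B (x u) (x v) = B u v) (hxx : ∀ v, x (x v) = -v) (j : ℕ) (hm : 4 * j ≤ finrank F V) :
    ∃ U : Submodule F V, (∀ v ∈ U, x v ∈ U) ∧ (∀ a ∈ U, ∀ b ∈ U, B a b = 0) ∧ finrank F U = 2 * j := by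
  induction j with
  | zero =>
    refine ⟨⊥, ?_, ?_, by rw [finrank_bot]⟩
    · intro v hv
      rw [Submodule.mem_bot] at hv ⊢
      rw [hv, map_zero]
    · intro a ha b _
      rw [(Submodule.mem_bot F).mp ha, hA.oform.zero_left]
  | succ j ih =>
    obtain ⟨U, g1, g2, g3⟩ := ih (by omega)
    have h1 := hA.eform.finrank_add_orth hND U
    have hle : U ≤ orth hA.oform U := fun u hu v hv => g2 u hu v hv
    obtain ⟨C, c1, c2, c3, c4⟩ := exists_invariant_compl_in (x := (1 : V →ₗ[F] V)) (r := 1) one_pos (pow_one 1) (by simp) U (orth hA.oform U) (fun v hv => hv) (fun v hv => hv) hle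
    have h3 := Submodule.finrank_sup_add_finrank_inf_eq U C
    rw [disjoint_iff.mp c3, finrank_bot, c4, g3] at h3
    -- the quadratic form `B v (x v)`
    let b : LinearMap.BilinMap F C F := LinearMap.mk₂ F (fun u v : C => B (u : V) (x (v : V)))
      (fun u v w => hA.add_left _ _ _) (fun c u v => hA.smul_left _ _ _) (fun u v w => by
        change B (u : V) (x ((v : V) + (w : V))) = _
        rw [map_add, hA.add_right]) (fun c u v => by
        change B (u : V) (x (c • (v : V))) = _
        rw [map_smul, hA.smul_right, smul_eq_mul])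
    obtain ⟨v, hv0, hv⟩ := exists_zero_quad h2 (b.toQuadraticMap) (by omega)
    rw [LinearMap.BilinMap.toQuadraticMap_apply] at hv
    change B (v : V) (x (v : V)) = 0 at hv
    have hv0' : (v : V) ≠ 0 := fun h => hv0 (Subtype.ext h)
    have hvU : (v : V) ∈ orth hA.oform U := c2 v.2
    have hinj := isom_injective hA.oform hND x hx
    have hUi := orth_inv_of_isom hA.oform hinj hx g1
    have hxvU : x (v : V) ∈ orth hA.oform U := hUi _ hvU
    set w : V := (v : V) with hw
    have hcomb : ∀ a b : F, a • w + b • x w ∈ U → a = 0 ∧ b = 0 := by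
      intro a b hab
      by_contra hcon
      have h5 := g1 _ hab
      rw [map_add, map_smul, map_smul, hxx] at h5
      have h6 : (a * a + b * b) • w ∈ U := by
        have h7 := U.sub_mem (U.smul_mem a hab) (U.smul_mem b h5)
        have h8 : a • (a • w + b • x w) - b • (a • x w + b • -w) = (a * a + b * b) • w := by
          rw [smul_add, smul_smul, smul_smul, smul_add, smul_smul, smul_neg, smul_neg, smul_smul, add_smul, mul_comm b a]
          abel
        rwa [h8] at h7
      have h7 : a * a + b * b ≠ 0 := fun h => hcon (hι a b h)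
      have h8 : w ∈ U := by
        have := U.smul_mem (a * a + b * b)⁻¹ h6
        rwa [smul_smul, inv_mul_cancel₀ h7, one_smul] at this
      exact hv0' ((Submodule.disjoint_def.mp c3) w h8 v.2)
    set P := Submodule.span F {w, x w} with hP
    have hPmem : ∀ z ∈ P, ∃ a b : F, a • w + b • x w = z := fun z hz => (mem_span_pair' w (x w) z).mp hz
    have hdisj : Disjoint U P := by
      rw [Submodule.disjoint_def]
      intro z hz1 hz2
      obtain ⟨a, b, rfl⟩ := hPmem z hz2
      obtain ⟨rfl, rfl⟩ := hcomb a b hz1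
      rw [zero_smul, zero_smul, add_zero]
    have hPd : finrank F P = 2 := by
      have hli : LinearIndependent F ![w, x w] := by
        rw [LinearIndependent.pair_iff]
        intro s t hst
        exact hcomb s t (by rw [hst]; exact U.zero_mem)
      have := finrank_span_eq_card hli
      rw [Matrix.range_cons, Matrix.range_cons, Matrix.range_empty, Set.union_empty, Fintype.card_fin] at this
      exact this
    refine ⟨U ⊔ P, ?_, ?_, ?_⟩
    · intro z hz
      obtain ⟨u, hu, y, hy, rfl⟩ := Submodule.mem_sup.mp hz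
      obtain ⟨a, b, rfl⟩ := hPmem y hy
      rw [map_add]
      apply Submodule.add_mem_sup (g1 u hu)
      rw [map_add, map_smul, map_smul, hxx]
      exact P.add_mem (P.smul_mem _ (Submodule.subset_span (by simp))) (P.smul_mem _ (P.neg_mem (Submodule.subset_span (by simp))))
    · apply orth_two hA _ g2
      · intro y hy z hz
        obtain ⟨a, b, rfl⟩ := hPmem y hy
        obtain ⟨a', b', rfl⟩ := hPmem z hz
        have h5 : B (x w) w = 0 := hA.oform.refl _ _ hv
        rw [hA.add_left, hA.add_right, hA.add_right, hA.smul_left, hA.smul_left, hA.smul_left, hA.smul_left, hA.smul_right, hA.smul_right, hA.smul_right, hA.smul_right,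
          hA.alt, hA.alt, hv, h5]
        ring
      · intro u hu z hz
        obtain ⟨a, b, rfl⟩ := hPmem z hz
        rw [hA.add_right, hA.smul_right, hA.smul_right, hA.oform.refl _ _ (hvU u hu), hA.oform.refl _ _ (hxvU u hu)]
        ring
    · have h8 := Submodule.finrank_sup_add_finrank_inf_eq U P
      rw [disjoint_iff.mp hdisj, finrank_bot, g3, hPd] at h8
      omega

/-- subspaces invariant under a square root of `-1` have even dimension -/
theorem even_of_neg_nonsplit (hι : ∀ a : F, a * a ≠ -1) {x : V →ₗ[F] V} (hxx : ∀ v, x (x v) = -v) {W : Submodule F V} (hW : ∀ v ∈ W, x v ∈ W) :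
    Even (finrank F W) := by
  by_contra hodd
  rw [Nat.not_even_iff_odd] at hodd
  set y := x.restrict hW with hy
  have h1 : y ∘ₗ y = (-1 : F) • LinearMap.id := by
    ext v
    change x (x v) = (-1 : F) • (v : V)
    rw [hxx, neg_one_smul]
  have h2 := congrArg LinearMap.det h1
  rw [LinearMap.det_comp, LinearMap.det_smul, LinearMap.det_id, mul_one, hodd.neg_one_pow] at h2
  exact hι _ h2

end

end Cfsg.Agent.H99
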