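import Mathlib
import Cfsg.Agent.H99.CentDet

set_option autoImplicit false

/-! Conjugating by matrices of determinant one (helper99). -/

namespace Cfsg.Agent.H99

open Module Matrix

section
variable {F : Type*} [Field F] {n : ℕ}

lemma det_ne_zero_of_equiv (e : (Fin n → F) ≃ₗ[F] (Fin n → F)) :
    (LinearMap.toMatrix' e.toLinearMap).det ≠ 0 := by
  have h : LinearMap.toMatrix' e.toLinearMap * LinearMap.toMatrix' e.symm.toLinearMap = 1 := by
    rw [← LinearMap.toMatrix'_comp]
    simp
  intro h0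
  have := congrArg Matrix.det h
  rw [Matrix.det_mul, h0, zero_mul, Matrix.det_one] at this
  exact zero_ne_one this

/-- If `x` is conjugate (by a linear isomorphism) to `y ∈ H` and every determinant occurs in the centralizer of `x`,
then a conjugate of `x` by a matrix of determinant one lies in `H`. -/
theorem exists_conj_mem_comap (x : Matrix.SpecialLinearGroup (Fin n) F)
    (hx : CentSurj (x : Matrix (Fin n) (Fin n) F)) (H : Subgroup (GL (Fin n) F)) (y : GL (Fin n) F)
    (hy : y ∈ H) (e : (Fin n → F) ≃ₗ[F] (Fin n → F))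
    (he : ∀ v, e ((y : Matrix (Fin n) (Fin n) F) *ᵥ v) = (x : Matrix (Fin n) (Fin n) F) *ᵥ (e v)) :
    ∃ P : Matrix.SpecialLinearGroup (Fin n) F,
      P⁻¹ * x * P ∈ H.comap (Matrix.SpecialLinearGroup.toGL : Matrix.SpecialLinearGroup (Fin n) F →* GL (Fin n) F) := by
  set P := LinearMap.toMatrix' e.toLinearMap with hP
  have hPe : ∀ v, P *ᵥ v = e v := fun v => by
    rw [hP, ← Matrix.toLin'_apply, Matrix.toLin'_toMatrix']
    rfl
  obtain ⟨S, hS⟩ := hx.exists_sl P (y : Matrix (Fin n) (Fin n) F) (det_ne_zero_of_equiv e) (by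
    apply Matrix.toLin'.injective
    apply LinearMap.ext
    intro v
    rw [Matrix.toLin'_apply, Matrix.toLin'_apply, ← Matrix.mulVec_mulVec, ← Matrix.mulVec_mulVec, hPe, hPe, he])
  refine ⟨S, ?_⟩
  rw [Subgroup.mem_comap]
  have : Matrix.SpecialLinearGroup.toGL (S⁻¹ * x * S) = y := by
    have h2 : Matrix.SpecialLinearGroup.toGL x * Matrix.SpecialLinearGroup.toGL S
        = Matrix.SpecialLinearGroup.toGL S * y := by
      apply Units.ext
      exact hS
    rw [map_mul, map_mul, mul_assoc, h2, ← mul_assoc, ← map_mul, inv_mul_cancel, map_one, one_mul]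
  rw [this]
  exact hy

/-- Same with an isomorphism from another space. -/
theorem exists_conj_mem_comap' (x : Matrix.SpecialLinearGroup (Fin n) F)
    (hx : CentSurj (x : Matrix (Fin n) (Fin n) F)) (H : Subgroup (GL (Fin n) F))
    (y : (Fin n → F) →ₗ[F] (Fin n → F))
    (hy : ∀ g : GL (Fin n) F, (∀ v, (g : Matrix (Fin n) (Fin n) F) *ᵥ v = y v) → g ∈ H)
    (e : (Fin n → F) ≃ₗ[F] (Fin n → F))
    (he : ∀ v, e (y v) = (x : Matrix (Fin n) (Fin n) F) *ᵥ (e v)) :
    ∃ P : Matrix.SpecialLinearGroup (Fin n) F,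
      P⁻¹ * x * P ∈ H.comap (Matrix.SpecialLinearGroup.toGL : Matrix.SpecialLinearGroup (Fin n) F →* GL (Fin n) F) := by
  have hdet : (LinearMap.toMatrix' y).det ≠ 0 := by
    have h1 : y = e.symm.toLinearMap ∘ₗ Matrix.toLin' (x : Matrix (Fin n) (Fin n) F) ∘ₗ e.toLinearMap := by
      apply LinearMap.ext
      intro v
      simp only [LinearMap.comp_apply, LinearEquiv.coe_coe, Matrix.toLin'_apply]
      rw [← he, LinearEquiv.symm_apply_apply]
    rw [LinearMap.det_toMatrix', h1]
    have h2 := LinearMap.det_conj (Matrix.toLin' (x : Matrix (Fin n) (Fin n) F)) e.symm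
    rw [LinearEquiv.symm_symm] at h2
    rw [h2, LinearMap.det_toLin', x.det_coe]
    exact one_ne_zero
  set g : GL (Fin n) F := Matrix.GeneralLinearGroup.mkOfDetNeZero _ hdet with hg
  have hgv : ∀ v, (g : Matrix (Fin n) (Fin n) F) *ᵥ v = y v := fun v => by
    change (LinearMap.toMatrix' y) *ᵥ v = y v
    rw [← Matrix.toLin'_apply, Matrix.toLin'_toMatrix']
  exact exists_conj_mem_comap x hx H g (hy g hgv) e (fun v => by rw [hgv, he])

end

section
variable {F V ι : Type*} [Field F] [AddCommGroup V] [Module F V] [Fintype ι] [DecidableEq ι]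

lemma det_of_eigenbasis (b : Basis ι F V) (f : V →ₗ[F] V) (c : ι → F) (h : ∀ i, f (b i) = c i • b i) :
    LinearMap.det f = ∏ i, c i := by
  rw [← LinearMap.det_toMatrix b, ← Matrix.det_diagonal]
  congr 1
  ext i j
  rw [LinearMap.toMatrix_apply, h, map_smul, Basis.repr_self, Matrix.diagonal_apply]
  simp only [Finsupp.smul_apply, smul_eq_mul, Finsupp.single_apply]
  by_cases hij : i = j
  · subst hij; simp
  · rw [if_neg (Ne.symm hij), if_neg hij, mul_zero]

lemma det_fromBlocks_swap (z : F) :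
    (Matrix.fromBlocks 0 (z • (1 : Matrix ι ι F)) 1 0).det = (-z) ^ Fintype.card ι := by
  have h1 : (Matrix.fromBlocks 1 1 0 1 : Matrix (ι ⊕ ι) (ι ⊕ ι) F) * Matrix.fromBlocks 0 (z • (1 : Matrix ι ι F)) 1 0
      = Matrix.fromBlocks 1 (z • (1 : Matrix ι ι F)) 1 0 := by
    rw [Matrix.fromBlocks_multiply]
    simp
  have h2 := congrArg Matrix.det h1
  rw [Matrix.det_mul, Matrix.det_fromBlocks_zero₂₁, Matrix.det_one, one_mul, one_mul,
    Matrix.det_fromBlocks_one₁₁] at h2
  rw [h2]
  simp [← neg_smul, Matrix.det_smul]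

lemma det_of_pairs (b : Basis (ι ⊕ ι) F V) (f : V →ₗ[F] V) (z : F)
    (h1 : ∀ i, f (b (Sum.inl i)) = b (Sum.inr i)) (h2 : ∀ i, f (b (Sum.inr i)) = z • b (Sum.inl i)) :
    LinearMap.det f = (-z) ^ Fintype.card ι := by
  rw [← LinearMap.det_toMatrix b, ← det_fromBlocks_swap]
  congr 1
  ext i j
  rw [LinearMap.toMatrix_apply]
  rcases j with j | j
  · rw [h1, Basis.repr_self]
    rcases i with i | i
    · simp
    · simp [Finsupp.single_apply, Matrix.one_apply, eq_comm]
  · rw [h2, map_smul, Basis.repr_self]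
    rcases i with i | i
    · simp [Finsupp.single_apply, Matrix.one_apply, eq_comm]
    · simp

end

end Cfsg.Agent.H99
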