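import Mathlib
import Cfsg.Agent.H59.Derange

/-!
# Counting derangements: the Cameron–Cohen identity and a pair-wise reduction
-/

set_option autoImplicit false
set_option linter.unusedSectionVars false

namespace Cfsg.Agent.H99

open MulAction Finset

section

variable {G Ω : Type*} [Group G] [Fintype G] [MulAction G Ω] [Fintype Ω]

/-- the number of fixed points, as a rational number -/
noncomputable def fx (Ω : Type*) [MulAction G Ω] (g : G) : ℚ := (Nat.card (fixedBy Ω g) : ℚ)

omit [Fintype G] in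
open Classical in
theorem fx_eq (g : G) : fx Ω g = ((univ.filter fun z : Ω => g • z = z).card : ℚ) := by
  unfold fx
  congr 1
  rw [Nat.card_eq_fintype_card, Fintype.card_subtype]
  rfl

omit [Fintype G] in
theorem fx_nonneg (g : G) : 0 ≤ fx Ω g := by unfold fx; positivity

omit [Fintype G] in
theorem fx_one : fx Ω (1 : G) = (Fintype.card Ω : ℚ) := by
  classical
  rw [fx_eq]
  simp

theorem sum_fx [IsPretransitive G Ω] [Nonempty Ω] : ∑ g : G, fx Ω g = Nat.card G := by
  have h := H59.burnside_nat G Ω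
  rw [H59.card_orbits_of_pretransitive, one_mul] at h
  rw [← h]
  push_cast
  rfl

theorem sum_fx_sq : ∑ g : G, fx Ω g ^ 2 = (Nat.card (orbitRel.Quotient G (Ω × Ω)) : ℚ) * Nat.card G := by
  have h := H59.burnside_nat G (Ω × Ω)
  rw [← Nat.cast_mul, ← h]
  push_cast
  apply Finset.sum_congr rfl
  intro g _
  rw [H59.card_fixedBy_prod]
  push_cast
  rfl

open Classical in
/-- the Cameron–Cohen identity -/
theorem cameron_cohen [IsPretransitive G Ω] [Nonempty Ω] :
    (Fintype.card Ω : ℚ) * Nat.card {g : G // ∀ ω : Ω, g • ω ≠ ω} =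
      ((Nat.card (orbitRel.Quotient G (Ω × Ω)) : ℚ) - 1) * Nat.card G +
        ∑ g : G, fx Ω g * (fx Ω g - 1) * ((Fintype.card Ω : ℚ) / fx Ω g - 1) := by
  have h1 := sum_fx (G := G) (Ω := Ω)
  have h2 := sum_fx_sq (G := G) (Ω := Ω)
  set n : ℚ := (Fintype.card Ω : ℚ) with hn
  have hD : (Nat.card {g : G // ∀ ω : Ω, g • ω ≠ ω} : ℚ) = ∑ g : G, if fx Ω g = 0 then (1 : ℚ) else 0 := by
    rw [Nat.card_eq_fintype_card, Fintype.card_subtype, Finset.card_filter]
    push_cast
    apply Finset.sum_congr rfl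
    intro g _
    have : (∀ ω : Ω, g • ω ≠ ω) ↔ fx Ω g = 0 := by
      rw [fx_eq, Nat.cast_eq_zero, Finset.card_eq_zero, Finset.filter_eq_empty_iff]
      simp
    simp only [this]
  have hG : (Nat.card G : ℚ) = ∑ g : G, (1 : ℚ) := by
    rw [Finset.sum_const, Finset.card_univ, Nat.card_eq_fintype_card, nsmul_eq_mul, mul_one]
  have hterm : ∀ g : G, fx Ω g * (fx Ω g - 1) * (n / fx Ω g - 1) = (fx Ω g - 1) * (n - fx Ω g) + n * (if fx Ω g = 0 then (1 : ℚ) else 0) := by
    intro g
    by_cases h0 : fx Ω g = 0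
    · rw [h0]; simp
    · rw [if_neg h0]
      field_simp
      ring
  rw [Finset.sum_congr rfl (fun g _ => hterm g), Finset.sum_add_distrib, ← Finset.mul_sum, ← hD]
  have h3 : ∑ g : G, (fx Ω g - 1) * (n - fx Ω g) = - ((Nat.card (orbitRel.Quotient G (Ω × Ω)) : ℚ) - 1) * Nat.card G := by
    have h4 : ∀ g : G, (fx Ω g - 1) * (n - fx Ω g) = n * fx Ω g - fx Ω g ^ 2 - n * 1 + fx Ω g := fun g => by ring
    rw [Finset.sum_congr rfl (fun g _ => h4 g), Finset.sum_add_distrib, Finset.sum_sub_distrib, Finset.sum_sub_distrib, ← Finset.mul_sum, ← Finset.mul_sum, h1, h2, ← hG]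
    ring
  rw [h3]
  ring

open Classical in
theorem pair_count (w : G → ℚ) :
    ∑ g : G, fx Ω g * (fx Ω g - 1) * w g =
      ∑ p ∈ (univ.filter fun p : Ω × Ω => p.1 ≠ p.2), ∑ g ∈ (univ.filter fun g : G => g • p.1 = p.1 ∧ g • p.2 = p.2), w g := by
  rw [Finset.sum_comm' (t' := (univ : Finset G)) (s' := fun g => univ.filter fun p : Ω × Ω => p.1 ≠ p.2 ∧ (g • p.1 = p.1 ∧ g • p.2 = p.2)) (by
    intro p g
    simp)]
  apply Finset.sum_congr rfl
  intro g _
  rw [Finset.sum_const, nsmul_eq_mul]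
  congr 1
  set S : Finset Ω := univ.filter fun z : Ω => g • z = z with hS
  have h1 : (univ.filter fun p : Ω × Ω => p.1 ≠ p.2 ∧ (g • p.1 = p.1 ∧ g • p.2 = p.2)) = S.offDiag := by
    ext p
    simp only [Finset.mem_filter, Finset.mem_univ, true_and, Finset.mem_offDiag, hS]
    tauto
  rw [h1, Finset.offDiag_card, fx_eq, Nat.cast_sub (Nat.le_mul_self _)]
  push_cast
  ring

end

end Cfsg.Agent.H99
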