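import Cfsg.Agent.H99.DerA

/-!
# The linear space of a two-transitive group
-/

set_option autoImplicit false
set_option linter.unusedSectionVars false

namespace Cfsg.Agent.H99

open MulAction Finset

section

variable {G Ω : Type*} [Group G] [Finite G] [MulAction G Ω] [Fintype Ω]

/-- two-point stabilizers -/
def st2 (G : Type*) {Ω : Type*} [Group G] [MulAction G Ω] (x y : Ω) : Subgroup G := stabilizer G x ⊓ stabilizer G y

theorem mem_st2 {x y : Ω} {g : G} : g ∈ st2 G x y ↔ g • x = x ∧ g • y = y := Iff.rfl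

theorem st2_comm (x y : Ω) : st2 G x y = st2 G y x := inf_comm _ _

open Classical in
/-- fixed points of a subgroup -/
noncomputable def Fx {G Ω : Type*} [Group G] [MulAction G Ω] [Fintype Ω] (M : Subgroup G) : Finset Ω := univ.filter (fun z => ∀ g ∈ M, g • z = z)

theorem mem_Fx {M : Subgroup G} {z : Ω} : z ∈ Fx M ↔ ∀ g ∈ M, g • z = z := by simp [Fx]

theorem Fx_anti {M M' : Subgroup G} (h : M ≤ M') : (Fx M' : Finset Ω) ⊆ Fx M :=
  fun _ hz => mem_Fx.mpr fun g hg => mem_Fx.mp hz g (h hg)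

/-- two-transitivity -/
def Two (G Ω : Type*) [Group G] [MulAction G Ω] : Prop := ∀ a b c d : Ω, a ≠ b → c ≠ d → ∃ g : G, g • a = c ∧ g • b = d

/-- the line through two points -/
noncomputable def Ln (G : Type*) {Ω : Type*} [Group G] [MulAction G Ω] [Fintype Ω] (x y : Ω) : Finset Ω := Fx (st2 G x y)

theorem left_mem_Ln (x y : Ω) : x ∈ Ln G x y := mem_Fx.mpr fun _ hg => hg.1

theorem right_mem_Ln (x y : Ω) : y ∈ Ln G x y := mem_Fx.mpr fun _ hg => hg.2

theorem Ln_comm (x y : Ω) : Ln G x y = Ln G y x := by unfold Ln; rw [st2_comm]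

theorem mem_Ln {x y z : Ω} : z ∈ Ln G x y ↔ ∀ g ∈ st2 G x y, g • z = z := mem_Fx

theorem st2_smul (g : G) (a b : Ω) (k : G) : k ∈ st2 G (g • a) (g • b) ↔ g⁻¹ * k * g ∈ st2 G a b := by
  simp only [mem_st2, mul_smul, inv_smul_eq_iff]

theorem card_st2_eq (h2 : Two G Ω) {a b c d : Ω} (hab : a ≠ b) (hcd : c ≠ d) :
    Nat.card (st2 G a b) = Nat.card (st2 G c d) := by
  obtain ⟨g, rfl, rfl⟩ := h2 a b c d hab hcd
  apply Nat.card_congr
  refine ⟨fun k => ⟨g * k * g⁻¹, ?_⟩, fun k => ⟨g⁻¹ * k * g, (st2_smul g a b k).mp k.2⟩, fun k => ?_, fun k => ?_⟩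
  · rw [st2_smul]
    have : g⁻¹ * (g * (k : G) * g⁻¹) * g = k := by group
    rw [this]
    exact k.2
  · apply Subtype.ext
    simp only
    group
  · apply Subtype.ext
    simp only
    group

theorem st2_eq_of_mem (h2 : Two G Ω) {a b u v : Ω} (hab : a ≠ b) (huv : u ≠ v) (hu : u ∈ Ln G a b) (hv : v ∈ Ln G a b) :
    st2 G u v = st2 G a b := by
  have hle : st2 G a b ≤ st2 G u v := fun g hg => ⟨mem_Ln.mp hu g hg, mem_Ln.mp hv g hg⟩
  exact (Subgroup.eq_of_le_of_card_ge hle (card_st2_eq h2 huv hab).le).symm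

theorem Ln_eq_of_mem (h2 : Two G Ω) {a b u v : Ω} (hab : a ≠ b) (huv : u ≠ v) (hu : u ∈ Ln G a b) (hv : v ∈ Ln G a b) :
    Ln G u v = Ln G a b := by
  unfold Ln
  rw [st2_eq_of_mem h2 hab huv hu hv]

theorem smul_mem_Ln {a b z : Ω} (g : G) (hz : z ∈ Ln G a b) : g • z ∈ Ln G (g • a) (g • b) := by
  rw [mem_Ln] at hz ⊢
  intro k hk
  rw [st2_smul] at hk
  have := hz _ hk
  rw [mul_smul, mul_smul, inv_smul_eq_iff] at this
  exact this

theorem card_Ln_eq (h2 : Two G Ω) {a b c d : Ω} (hab : a ≠ b) (hcd : c ≠ d) : (Ln G a b).card = (Ln G c d).card := by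
  classical
  obtain ⟨g, rfl, rfl⟩ := h2 a b c d hab hcd
  apply Finset.card_bij (fun z _ => g • z)
  · intro z hz
    exact smul_mem_Ln g hz
  · intro z _ z' _ h
    exact (MulAction.injective g) h
  · intro z hz
    refine ⟨g⁻¹ • z, ?_, by simp⟩
    have := smul_mem_Ln g⁻¹ hz
    simpa using this

/-- flats -/
def Flat (G : Type*) {Ω : Type*} [Group G] [MulAction G Ω] [Fintype Ω] (W : Finset Ω) : Prop := ∀ u ∈ W, ∀ v ∈ W, u ≠ v → Ln G u v ⊆ W

theorem flat_Fx (M : Subgroup G) : Flat G (Fx M : Finset Ω) := by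
  intro u hu v hv _ z hz
  rw [mem_Fx] at hu hv ⊢
  intro g hg
  exact mem_Ln.mp hz g ⟨hu g hg, hv g hg⟩

theorem flat_Ln (x y : Ω) : Flat G (Ln G x y) := flat_Fx _

theorem flat_univ : Flat G (univ : Finset Ω) := fun _ _ _ _ _ => Finset.subset_univ _

open Classical in
theorem star_disjoint (h2 : Two G Ω) {W : Finset Ω} (hW : Flat G W) {p : Ω} (hp : p ∉ W) :
    (W : Set Ω).PairwiseDisjoint (fun w => (Ln G p w).erase p) := by
  intro w hw w' hw' hne
  rw [Function.onFun, Finset.disjoint_left]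
  intro u hu hu'
  rw [Finset.mem_erase] at hu hu'
  have hpw : p ≠ w := fun h => hp (h ▸ hw)
  have hpw' : p ≠ w' := fun h => hp (h ▸ hw')
  have h1 : Ln G p u = Ln G p w := Ln_eq_of_mem h2 hpw hu.1.symm (left_mem_Ln p w) hu.2
  have h2' : Ln G p u = Ln G p w' := Ln_eq_of_mem h2 hpw' hu.1.symm (left_mem_Ln p w') hu'.2
  have h3 : w' ∈ Ln G p w := by rw [← h1, h2']; exact right_mem_Ln p w'
  have h4 : Ln G w w' = Ln G p w := Ln_eq_of_mem h2 hpw hne (right_mem_Ln p w) h3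
  apply hp
  apply hW w hw w' hw' hne
  rw [h4]
  exact left_mem_Ln p w

open Classical in
theorem star_card (h2 : Two G Ω) {W : Finset Ω} (hW : Flat G W) {p : Ω} (hp : p ∉ W) {f : ℕ}
    (hf : ∀ x y : Ω, x ≠ y → (Ln G x y).card = f) :
    (W.biUnion (fun w => (Ln G p w).erase p)).card = W.card * (f - 1) := by
  rw [Finset.card_biUnion (star_disjoint h2 hW hp)]
  rw [Finset.sum_congr rfl (g := fun _ => f - 1), Finset.sum_const, smul_eq_mul]
  intro w hw
  have hpw : p ≠ w := fun h => hp (h ▸ hw)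
  rw [Finset.card_erase_of_mem (left_mem_Ln p w), hf p w hpw]

open Classical in
theorem star_subset {W Γ : Finset Ω} (hWΓ : W ⊆ Γ) (hΓ : Flat G Γ) {p : Ω} (hp : p ∉ W) (hpΓ : p ∈ Γ) :
    W.biUnion (fun w => (Ln G p w).erase p) ⊆ Γ.erase p := by
  intro u hu
  rw [Finset.mem_biUnion] at hu
  obtain ⟨w, hw, hu⟩ := hu
  rw [Finset.mem_erase] at hu ⊢
  have hpw : p ≠ w := fun h => hp (h ▸ hw)
  exact ⟨hu.1, hΓ p hpΓ w (hWΓ hw) hpw hu.2⟩

theorem flat_bound (h2 : Two G Ω) {W Γ : Finset Ω} (hW : Flat G W) (hWΓ : W ⊆ Γ) (hΓ : Flat G Γ) {p : Ω} (hp : p ∉ W) (hpΓ : p ∈ Γ) {f : ℕ}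
    (hf : ∀ x y : Ω, x ≠ y → (Ln G x y).card = f) : W.card * (f - 1) + 1 ≤ Γ.card := by
  classical
  rw [← star_card h2 hW hp hf]
  have h1 := Finset.card_le_card (star_subset hWΓ hΓ hp hpΓ)
  rw [Finset.card_erase_of_mem hpΓ] at h1
  have : 0 < Γ.card := Finset.card_pos.mpr ⟨p, hpΓ⟩
  omega

theorem flat_cover (h2 : Two G Ω) {W Γ : Finset Ω} (hW : Flat G W) (hWΓ : W ⊆ Γ) (hΓ : Flat G Γ) {p : Ω} (hp : p ∉ W) (hpΓ : p ∈ Γ) {f : ℕ}
    (hf : ∀ x y : Ω, x ≠ y → (Ln G x y).card = f) (heq : W.card * (f - 1) + 1 = Γ.card) {q : Ω} (hq : q ∈ Γ) (hqp : q ≠ p) :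
    ∃ w ∈ W, q ∈ Ln G p w := by
  classical
  have h1 : W.biUnion (fun w => (Ln G p w).erase p) = Γ.erase p := by
    apply Finset.eq_of_subset_of_card_le (star_subset hWΓ hΓ hp hpΓ)
    rw [Finset.card_erase_of_mem hpΓ, star_card h2 hW hp hf]
    omega
  have h3 : q ∈ Γ.erase p := Finset.mem_erase.mpr ⟨hqp, hq⟩
  rw [← h1, Finset.mem_biUnion] at h3
  obtain ⟨w, hw, hq'⟩ := h3
  exact ⟨w, hw, (Finset.mem_erase.mp hq').2⟩

end

end Cfsg.Agent.H99
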