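import Cfsg.Agent.H99.DerB

/-!
# Lines of size three
-/

set_option autoImplicit false
set_option linter.unusedSectionVars false

namespace Cfsg.Agent.H99

open MulAction Finset

section

variable {G Ω : Type*} [Group G] [Finite G] [MulAction G Ω] [Fintype Ω]

open Classical in
theorem exists_third (h2 : Two G Ω) (hf : ∀ x y : Ω, x ≠ y → (Ln G x y).card = 3) (x y : Ω) :
    ∃ z : Ω, x ≠ y → Ln G x y = {x, y, z} ∧ z ≠ x ∧ z ≠ y := by
  by_cases hxy : x = y
  · exact ⟨x, fun h => absurd hxy h⟩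
  · have h1 : (((Ln G x y).erase x).erase y).card = 1 := by
      rw [Finset.card_erase_of_mem (Finset.mem_erase.mpr ⟨Ne.symm hxy, right_mem_Ln x y⟩), Finset.card_erase_of_mem (left_mem_Ln x y), hf x y hxy]
    obtain ⟨z, hz⟩ := Finset.card_eq_one.mp h1
    have hz' : z ∈ ((Ln G x y).erase x).erase y := by rw [hz]; exact Finset.mem_singleton_self z
    rw [Finset.mem_erase, Finset.mem_erase] at hz'
    refine ⟨z, fun _ => ⟨?_, hz'.2.1, hz'.1⟩⟩
    ext w
    simp only [Finset.mem_insert, Finset.mem_singleton]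
    constructor
    · intro hw
      by_cases hwx : w = x
      · exact Or.inl hwx
      · by_cases hwy : w = y
        · exact Or.inr (Or.inl hwy)
        · right; right
          have : w ∈ ((Ln G x y).erase x).erase y := Finset.mem_erase.mpr ⟨hwy, Finset.mem_erase.mpr ⟨hwx, hw⟩⟩
          rw [hz, Finset.mem_singleton] at this
          exact this
    · rintro (rfl | rfl | rfl)
      · exact left_mem_Ln _ _
      · exact right_mem_Ln _ _
      · exact hz'.2.2

/-- the third point of a line -/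
noncomputable def Tp (h2 : Two G Ω) (hf : ∀ x y : Ω, x ≠ y → (Ln G x y).card = 3) (x y : Ω) : Ω := (exists_third h2 hf x y).choose

variable (h2 : Two G Ω) (hf : ∀ x y : Ω, x ≠ y → (Ln G x y).card = 3)

open Classical in
theorem Tp_line {x y : Ω} (hxy : x ≠ y) : Ln G x y = {x, y, Tp h2 hf x y} := ((exists_third h2 hf x y).choose_spec hxy).1

theorem Tp_ne_left {x y : Ω} (hxy : x ≠ y) : Tp h2 hf x y ≠ x := ((exists_third h2 hf x y).choose_spec hxy).2.1

theorem Tp_ne_right {x y : Ω} (hxy : x ≠ y) : Tp h2 hf x y ≠ y := ((exists_third h2 hf x y).choose_spec hxy).2.2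

theorem Tp_mem {x y : Ω} (hxy : x ≠ y) : Tp h2 hf x y ∈ Ln G x y := by
  classical
  rw [Tp_line h2 hf hxy]
  simp

theorem mem_line_iff {x y z : Ω} (hxy : x ≠ y) : z ∈ Ln G x y ↔ z = x ∨ z = y ∨ z = Tp h2 hf x y := by
  classical
  rw [Tp_line h2 hf hxy]
  simp

theorem Tp_eq {x y z : Ω} (hxy : x ≠ y) (hz : z ∈ Ln G x y) (hzx : z ≠ x) (hzy : z ≠ y) : z = Tp h2 hf x y := by
  rcases (mem_line_iff h2 hf hxy).mp hz with h | h | h
  · exact absurd h hzx
  · exact absurd h hzy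
  · exact h

theorem Tp_comm {x y : Ω} (hxy : x ≠ y) : Tp h2 hf x y = Tp h2 hf y x := by
  apply Tp_eq h2 hf (Ne.symm hxy)
  · rw [Ln_comm]; exact Tp_mem h2 hf hxy
  · exact Tp_ne_right h2 hf hxy
  · exact Tp_ne_left h2 hf hxy

theorem Tp_Tp {x y : Ω} (hxy : x ≠ y) : Tp h2 hf x (Tp h2 hf x y) = y := by
  symm
  have hne := Tp_ne_left h2 hf hxy
  apply Tp_eq h2 hf (Ne.symm hne)
  · rw [Ln_eq_of_mem h2 hxy (Ne.symm hne) (left_mem_Ln x y) (Tp_mem h2 hf hxy)]
    exact right_mem_Ln x y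
  · exact Ne.symm hxy
  · exact Ne.symm (Tp_ne_right h2 hf hxy)

theorem smul_Tp {x y : Ω} (hxy : x ≠ y) (g : G) : g • Tp h2 hf x y = Tp h2 hf (g • x) (g • y) := by
  have hg : g • x ≠ g • y := fun h => hxy (MulAction.injective g h)
  apply Tp_eq h2 hf hg (smul_mem_Ln g (Tp_mem h2 hf hxy))
  · exact fun h => Tp_ne_left h2 hf hxy (MulAction.injective g h)
  · exact fun h => Tp_ne_right h2 hf hxy (MulAction.injective g h)

include h2 hf in
/-- the number of points of a flat is odd -/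
theorem odd_flat {Γ : Finset Ω} (hΓ : Flat G Γ) {a : Ω} (ha : a ∈ Γ) : Odd Γ.card := by
  classical
  have h1 : Even (Γ.erase a).card := by
    have : ((Γ.erase a).card : ZMod 2) = 0 := by
      rw [Finset.card_eq_sum_ones]
      push_cast
      apply Finset.sum_involution (fun x _ => Tp h2 hf a x)
      · intro x hx; decide
      · intro x hx _ h
        exact Tp_ne_right h2 hf (Ne.symm (Finset.mem_erase.mp hx).1) h
      · intro x hx
        have hxa := (Finset.mem_erase.mp hx).1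
        exact Finset.mem_erase.mpr ⟨Tp_ne_left h2 hf (Ne.symm hxa), hΓ a ha x (Finset.mem_erase.mp hx).2 (Ne.symm hxa) (Tp_mem h2 hf (Ne.symm hxa))⟩
      · intro x hx
        exact Tp_Tp h2 hf (Ne.symm (Finset.mem_erase.mp hx).1)
    exact (ZMod.natCast_eq_zero_iff_even).mp this
  rw [Finset.card_erase_of_mem ha] at h1
  have : 0 < Γ.card := Finset.card_pos.mpr ⟨a, ha⟩
  obtain ⟨k, hk⟩ := h1
  exact ⟨k, by omega⟩

/-! ### Excluding the Fano plane -/

section fano

variable {K : Subgroup G} (hK : ∀ u ∈ (Fx K : Finset Ω), ∀ v ∈ (Fx K : Finset Ω), u ≠ v → ∃ t ∈ st2 G u v, t ∉ K ∧ (∀ k ∈ K, t * k * t⁻¹ ∈ K ∧ t⁻¹ * k * t ∈ K) ∧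
    (∀ g ∈ st2 G u v, g ∉ K → t⁻¹ * g ∈ K) ∧ ∀ z ∈ (Fx K : Finset Ω), t • z = z → z ∈ Ln G u v)
  (h7 : (Fx K : Finset Ω).card = 7)

include hK in
/-- basic facts about the involutions -/
theorem fano_basic {u v : Ω} (hu : u ∈ (Fx K : Finset Ω)) (hv : v ∈ (Fx K : Finset Ω)) (huv : u ≠ v) {t : G} (ht : t ∈ st2 G u v) (htK : t ∉ K) :
    (∀ z ∈ (Fx K : Finset Ω), t • z ∈ (Fx K : Finset Ω)) ∧ (∀ z ∈ (Fx K : Finset Ω), t • z = z → z ∈ Ln G u v) ∧
    (∀ g ∈ st2 G u v, g ∉ K → ∀ z ∈ (Fx K : Finset Ω), g • z = t • z) ∧ (∀ k ∈ K, t * k * t⁻¹ ∈ K ∧ t⁻¹ * k * t ∈ K) := by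
  obtain ⟨s, hs, hsK, hsn, hss, hsf⟩ := hK u hu v hv huv
  have h1 : ∀ g ∈ st2 G u v, g ∉ K → ∀ z ∈ (Fx K : Finset Ω), g • z = s • z := by
    intro g hg hgK z hz
    have h2 := mem_Fx.mp hz _ (hss g hg hgK)
    rw [mul_smul, inv_smul_eq_iff] at h2
    exact h2
  have hsΓ : ∀ z ∈ (Fx K : Finset Ω), s • z ∈ (Fx K : Finset Ω) := by
    intro z hz
    rw [mem_Fx]
    intro k hk
    have := mem_Fx.mp hz _ (hsn k hk).2
    rw [mul_smul, mul_smul, inv_smul_eq_iff] at this
    exact this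
  refine ⟨fun z hz => by rw [h1 t ht htK z hz]; exact hsΓ z hz, fun z hz h => hsf z hz (by rw [← h1 t ht htK z hz]; exact h), fun g hg hgK z hz => by rw [h1 g hg hgK z hz, h1 t ht htK z hz], ?_⟩
  have htk := hss t ht htK
  intro k hk
  set m := s⁻¹ * t with hm
  have hts : t = s * m := by rw [hm]; group
  constructor
  · have : t * k * t⁻¹ = s * (m * k * m⁻¹) * s⁻¹ := by rw [hts]; group
    rw [this]
    exact (hsn _ (K.mul_mem (K.mul_mem htk hk) (K.inv_mem htk))).1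
  · have : t⁻¹ * k * t = m⁻¹ * (s⁻¹ * k * s) * m := by rw [hts]; group
    rw [this]
    exact K.mul_mem (K.mul_mem (K.inv_mem htk) (hsn _ hk).2) htk

/-- `c` is the center of the line `uv` -/
def IsCtr (K : Subgroup G) (u v c : Ω) : Prop :=
  c ∈ Ln G u v ∧ ∀ t ∈ st2 G u v, t ∉ K → ∀ x ∈ (Fx K : Finset Ω), x ∉ Ln G u v → t • x = Tp h2 hf c x

include hK h7 in
theorem exists_ctr {u v : Ω} (hu : u ∈ (Fx K : Finset Ω)) (hv : v ∈ (Fx K : Finset Ω)) (huv : u ≠ v) : ∃ c, IsCtr h2 hf K u v c := by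
  classical
  obtain ⟨t, ht, htK, -, -, -⟩ := hK u hu v hv huv
  obtain ⟨b1, b2, b3, b4⟩ := fano_basic hK hu hv huv ht htK
  have hflat : Flat G (Fx K : Finset Ω) := flat_Fx K
  have hBΓ : Ln G u v ⊆ (Fx K : Finset Ω) := hflat u hu v hv huv
  have htB : ∀ z ∈ Ln G u v, t • z = z := fun z hz => mem_Ln.mp hz t ht
  have htB' : ∀ z ∈ (Fx K : Finset Ω), z ∉ Ln G u v → t • z ≠ z := fun z hz hz' h => hz' (b2 z hz h)
  have htt : ∀ z ∈ (Fx K : Finset Ω), t • t • z = z := by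
    intro z hz
    by_cases hk : t * t ∈ K
    · have := mem_Fx.mp hz _ hk
      rwa [mul_smul] at this
    · exfalso
      have h3 := b3 (t * t) ((st2 G u v).mul_mem ht ht) hk
      -- then `t` fixes all of `Fx K`
      have h4 : ∀ w ∈ (Fx K : Finset Ω), t • w = w := by
        intro w hw
        have := h3 w hw
        rw [mul_smul] at this
        exact MulAction.injective t this
      have h5 : (Fx K : Finset Ω) ⊆ Ln G u v := fun w hw => b2 w hw (h4 w hw)
      have h6 := Finset.card_le_card h5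
      rw [h7, hf u v huv] at h6
      omega
  -- every two points outside the line are collinear with a point of the line
  have hcov : ∀ p ∈ (Fx K : Finset Ω), p ∉ Ln G u v → ∀ q ∈ (Fx K : Finset Ω), q ∉ Ln G u v → q ≠ p → Tp h2 hf p q ∈ Ln G u v := by
    intro p hp hpB q hq hqB hqp
    obtain ⟨w, hw, hqw⟩ := flat_cover h2 (flat_Ln u v) hBΓ hflat hpB hp hf (by rw [hf u v huv, h7]) hq hqp
    have hpw : p ≠ w := fun h => hpB (h ▸ hw)
    have hqw' : q ≠ w := fun h => hqB (h ▸ hw)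
    have h1 : Ln G p q = Ln G p w := Ln_eq_of_mem h2 hpw (Ne.symm hqp) (left_mem_Ln _ _) hqw
    have h3 : w = Tp h2 hf p q := Tp_eq h2 hf (Ne.symm hqp) (by rw [h1]; exact right_mem_Ln _ _) (Ne.symm hpw) (Ne.symm hqw')
    rw [← h3]
    exact hw
  -- choose a point outside
  obtain ⟨x, hx, hxB⟩ : ∃ x ∈ (Fx K : Finset Ω), x ∉ Ln G u v := by
    by_contra hcon
    push Not at hcon
    have h6 := Finset.card_le_card (show (Fx K : Finset Ω) ⊆ Ln G u v from hcon)
    rw [h7, hf u v huv] at h6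
    omega
  have hxne := htB' x hx hxB
  have hx'B : t • x ∉ Ln G u v := fun h => hxne (by have := htB _ h; exact MulAction.injective t this)
  have hc := hcov x hx hxB (t • x) (b1 x hx) hx'B hxne
  set c := Tp h2 hf x (t • x) with hcdef
  refine ⟨c, hc, fun t' ht' ht'K y hy hyB => ?_⟩
  rw [b3 t' ht' ht'K y hy]
  have hcy : c ≠ y := fun h => hyB (h ▸ hc)
  have hyne := htB' y hy hyB
  have hy'B : t • y ∉ Ln G u v := fun h => hyne (by have := htB _ h; exact MulAction.injective t this)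
  -- suffices `Tp y (t y) = c`
  suffices hs : Tp h2 hf y (t • y) = c by
    have h1 := Tp_Tp h2 hf (Ne.symm hyne)
    rw [hs] at h1
    rw [Tp_comm h2 hf hcy]
    exact h1.symm
  by_cases hyx : y = x
  · rw [hyx]
  by_cases hyx' : y = t • x
  · rw [hyx', htt x hx, Tp_comm h2 hf hxne]
  have hx'y : t • x ≠ y := Ne.symm hyx'
  have hxy' : x ≠ t • y := by
    intro h
    apply hyx'
    rw [h, htt y hy]
  -- d = Tp x y, e = Tp x y'
  have hd := hcov x hx hxB y hy hyB hyx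
  have he := hcov x hx hxB (t • y) (b1 y hy) hy'B (Ne.symm hxy')
  have hc' := hcov y hy hyB (t • y) (b1 y hy) hy'B hyne
  set d := Tp h2 hf x y with hddef
  set e := Tp h2 hf x (t • y) with hedef
  set c' := Tp h2 hf y (t • y) with hc'def
  -- inverse relations
  have i1 : Tp h2 hf x d = y := Tp_Tp h2 hf (Ne.symm hyx)
  have i2 : Tp h2 hf x e = t • y := Tp_Tp h2 hf hxy'
  have i3 : Tp h2 hf x c = t • x := Tp_Tp h2 hf (Ne.symm hxne)
  have hde : d ≠ e := by
    intro h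
    rw [h, i2] at i1
    exact hyne i1
  have hcd : c ≠ d := by
    intro h
    rw [h, i1] at i3
    exact hyx' i3
  have hce : c ≠ e := by
    intro h
    rw [h, i2] at i3
    exact hyx ((MulAction.injective t) i3)
  -- c' is different from d and e
  have i4 : Tp h2 hf y d = x := by
    rw [hddef, Tp_comm h2 hf (Ne.symm hyx)]
    exact Tp_Tp h2 hf hyx
  have i5 : Tp h2 hf y c' = t • y := Tp_Tp h2 hf (Ne.symm hyne)
  have hc'd : c' ≠ d := by
    intro h
    rw [h, i4] at i5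
    exact hxy' i5
  have he2 : e = Tp h2 hf (t • x) y := by
    have h1 := smul_Tp h2 hf hxy' t
    rw [htt y hy, ← hedef, htB e he] at h1
    exact h1
  have i6 : Tp h2 hf y e = t • x := by
    rw [he2, Tp_comm h2 hf hx'y]
    exact Tp_Tp h2 hf (Ne.symm hx'y)
  have hc'e : c' ≠ e := by
    intro h
    rw [h, i6] at i5
    exact hyx ((MulAction.injective t) i5).symm
  -- the line has only three points
  by_contra hcc
  have h4 : ({c, d, e, c'} : Finset Ω).card = 4 := by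
    rw [Finset.card_insert_of_notMem, Finset.card_insert_of_notMem, Finset.card_insert_of_notMem, Finset.card_singleton]
    · simpa using Ne.symm hc'e
    · simp only [Finset.mem_insert, Finset.mem_singleton, not_or]
      exact ⟨hde, Ne.symm hc'd⟩
    · simp only [Finset.mem_insert, Finset.mem_singleton, not_or]
      exact ⟨hcd, hce, fun h => hcc h.symm⟩
  have h5 : ({c, d, e, c'} : Finset Ω) ⊆ Ln G u v := by
    intro z hz
    simp only [Finset.mem_insert, Finset.mem_singleton] at hz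
    rcases hz with rfl | rfl | rfl | rfl
    · exact hc
    · exact hd
    · exact he
    · exact hc'
  have h6 := Finset.card_le_card h5
  rw [h4, hf u v huv] at h6
  omega

include hK h7 in
theorem ctr_unique {u v u' v' c c' : Ω} (hu : u ∈ (Fx K : Finset Ω)) (hv : v ∈ (Fx K : Finset Ω)) (huv : u ≠ v)
    (hc : IsCtr h2 hf K u v c) (hc' : IsCtr h2 hf K u' v' c') (hl : st2 G u v = st2 G u' v') : c = c' := by
  classical
  obtain ⟨t, ht, htK, -, -, -⟩ := hK u hu v hv huv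
  obtain ⟨x, hx, hxB⟩ : ∃ x ∈ (Fx K : Finset Ω), x ∉ Ln G u v := by
    by_contra hcon
    push Not at hcon
    have h6 := Finset.card_le_card (show (Fx K : Finset Ω) ⊆ Ln G u v from hcon)
    rw [h7, hf u v huv] at h6
    omega
  have hl' : Ln G u v = Ln G u' v' := by unfold Ln; rw [hl]
  have h1 := hc.2 t ht htK x hx hxB
  have h3 := hc'.2 t (hl ▸ ht) htK x hx (hl' ▸ hxB)
  have hcx : c ≠ x := fun h => hxB (h ▸ hc.1)
  have hcx' : c' ≠ x := fun h => hxB (by rw [hl']; exact h ▸ hc'.1)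
  have h4 : Tp h2 hf x (Tp h2 hf c x) = c := by
    rw [Tp_comm h2 hf hcx]
    exact Tp_Tp h2 hf (Ne.symm hcx)
  have h5 : Tp h2 hf x (Tp h2 hf c' x) = c' := by
    rw [Tp_comm h2 hf hcx']
    exact Tp_Tp h2 hf (Ne.symm hcx')
  rw [← h4, ← h5, ← h1, ← h3]

include hK h7 in
theorem ctr_transfer {u v u' v' c : Ω} (hu : u ∈ (Fx K : Finset Ω)) (hv : v ∈ (Fx K : Finset Ω)) (huv : u ≠ v)
    (hu' : u' ∈ (Fx K : Finset Ω)) (hv' : v' ∈ (Fx K : Finset Ω)) (hu'v' : u' ≠ v')
    (hc : IsCtr h2 hf K u v c) (hc' : c ∈ Ln G u' v') : IsCtr h2 hf K u' v' c := by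
  classical
  obtain ⟨c', hctr'⟩ := exists_ctr h2 hf hK h7 hu' hv' hu'v'
  suffices h : c' = c by rw [← h]; exact hctr'
  by_cases hsame : Ln G u v = Ln G u' v'
  · have hs : st2 G u' v' = st2 G u v := by
      apply st2_eq_of_mem h2 huv hu'v'
      · rw [hsame]; exact left_mem_Ln _ _
      · rw [hsame]; exact right_mem_Ln _ _
    exact (ctr_unique h2 hf hK h7 hu hv huv hc hctr' hs.symm).symm
  -- a point `x` of the new line outside the old one
  have hflat : Flat G (Fx K : Finset Ω) := flat_Fx K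
  have hcΓ : c ∈ (Fx K : Finset Ω) := hflat u hu v hv huv hc.1
  obtain ⟨t, ht, htK, -, -, -⟩ := hK u hu v hv huv
  obtain ⟨b1, b2, b3, b4⟩ := fano_basic hK hu hv huv ht htK
  obtain ⟨t', ht', ht'K, -, -, -⟩ := hK u' hu' v' hv' hu'v'
  obtain ⟨b1', b2', b3', b4'⟩ := fano_basic hK hu' hv' hu'v' ht' ht'K
  obtain ⟨x, hxB', hxB⟩ : ∃ x ∈ Ln G u' v', x ∉ Ln G u v := by
    by_contra hcon
    push Not at hcon
    apply hsame
    symm
    apply Finset.eq_of_subset_of_card_le hcon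
    rw [hf u v huv, hf u' v' hu'v']
  have hxΓ : x ∈ (Fx K : Finset Ω) := hflat u' hu' v' hv' hu'v' hxB'
  have hxc : c ≠ x := fun h => hxB (h ▸ hc.1)
  have htx := hc.2 t ht htK x hxΓ hxB
  have htc : t • c = c := mem_Ln.mp hc.1 t ht
  have hline : Ln G c x = Ln G u' v' := Ln_eq_of_mem h2 hu'v' hxc hc' hxB'
  have hlineS : st2 G c x = st2 G u' v' := st2_eq_of_mem h2 hu'v' hxc hc' hxB'
  have hxt : c ≠ t • x := by rw [htx]; exact Ne.symm (Tp_ne_left h2 hf hxc)
  have hlineS2 : st2 G c (t • x) = st2 G u' v' := by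
    apply st2_eq_of_mem h2 hu'v' hxt hc'
    rw [htx, ← hline]
    exact Tp_mem h2 hf hxc
  -- t t' t⁻¹ lies in the stabilizer of the new line
  have hconj : t * t' * t⁻¹ ∈ st2 G u' v' := by
    rw [← hlineS2]
    have h3 : t' ∈ st2 G c x := by rw [hlineS]; exact ht'
    refine ⟨?_, ?_⟩
    · change (t * t' * t⁻¹) • c = c
      rw [mul_smul, mul_smul, show t⁻¹ • c = c by rw [inv_smul_eq_iff, htc], show t' • c = c from h3.1, htc]
    · change (t * t' * t⁻¹) • (t • x) = t • x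
      rw [mul_smul, mul_smul, inv_smul_smul, show t' • x = x from h3.2]
  have hconjK : t * t' * t⁻¹ ∉ K := by
    intro h
    apply ht'K
    have := (b4 _ h).2
    have h3 : t⁻¹ * (t * t' * t⁻¹) * t = t' := by group
    rwa [h3] at this
  have hcomm : ∀ z ∈ (Fx K : Finset Ω), t • (t' • (t⁻¹ • z)) = t' • z := by
    intro z hz
    have := b3' _ hconj hconjK z hz
    rwa [mul_smul, mul_smul] at this
  -- t' maps the old line to itself
  have hmap : ∀ z ∈ Ln G u v, t' • z ∈ Ln G u v := by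
    intro z hz
    have hzΓ := hflat u hu v hv huv hz
    have h3 := hcomm z hzΓ
    rw [show t⁻¹ • z = z by rw [inv_smul_eq_iff, mem_Ln.mp hz t ht]] at h3
    exact b2 _ (b1' z hzΓ) h3
  -- a point z of the old line different from c
  obtain ⟨z, hzB, hzc⟩ : ∃ z ∈ Ln G u v, z ≠ c := by
    by_cases h : u = c
    · exact ⟨v, right_mem_Ln _ _, fun h' => huv (h.trans h'.symm)⟩
    · exact ⟨u, left_mem_Ln _ _, h⟩
  have hzΓ := hflat u hu v hv huv hzB
  have hzB' : z ∉ Ln G u' v' := by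
    intro h
    apply hsame
    rw [← Ln_eq_of_mem h2 huv hzc hzB hc.1, Ln_eq_of_mem h2 hu'v' hzc h hc']
  have ht'z : t' • z ≠ z := fun h => hzB' (b2' z hzΓ h)
  have ht'c : t' • c = c := mem_Ln.mp hc' t' ht'
  have ht'zc : t' • z ≠ c := fun h => hzc (MulAction.injective t' (h.trans ht'c.symm))
  have h3 := hctr'.2 t' ht' ht'K z hzΓ hzB'
  have hc'z : c' ≠ z := fun h => hzB' (h ▸ hctr'.1)
  have h4 : t' • z = Tp h2 hf c z := by
    apply Tp_eq h2 hf (Ne.symm hzc)
    · rw [Ln_eq_of_mem h2 huv (Ne.symm hzc) hc.1 hzB]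
      exact hmap z hzB
    · exact ht'zc
    · exact ht'z
  have h5 : Tp h2 hf z (Tp h2 hf c' z) = c' := by
    rw [Tp_comm h2 hf hc'z]
    exact Tp_Tp h2 hf (Ne.symm hc'z)
  have h6 : Tp h2 hf z (Tp h2 hf c z) = c := by
    rw [Tp_comm h2 hf (Ne.symm hzc)]
    exact Tp_Tp h2 hf hzc
  rw [← h5, ← h6, ← h3, ← h4]

include h2 hf hK h7 in
theorem no_fano : False := by
  classical
  have hflat : Flat G (Fx K : Finset Ω) := flat_Fx K
  obtain ⟨u, hu, v, hv, huv⟩ : ∃ u ∈ (Fx K : Finset Ω), ∃ v ∈ (Fx K : Finset Ω), u ≠ v := by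
    have : 1 < (Fx K : Finset Ω).card := by omega
    obtain ⟨u, hu, v, hv, h⟩ := Finset.one_lt_card.mp this
    exact ⟨u, hu, v, hv, h⟩
  obtain ⟨c, hc⟩ := exists_ctr h2 hf hK h7 hu hv huv
  have hcΓ : c ∈ (Fx K : Finset Ω) := hflat u hu v hv huv hc.1
  -- a line not through c
  obtain ⟨x, hx, hxB⟩ : ∃ x ∈ (Fx K : Finset Ω), x ∉ Ln G u v := by
    by_contra hcon
    push Not at hcon
    have h6 := Finset.card_le_card (show (Fx K : Finset Ω) ⊆ Ln G u v from hcon)
    rw [h7, hf u v huv] at h6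
    omega
  obtain ⟨z, hzB, hzc⟩ : ∃ z ∈ Ln G u v, z ≠ c := by
    by_cases h : u = c
    · exact ⟨v, right_mem_Ln _ _, fun h' => huv (h.trans h'.symm)⟩
    · exact ⟨u, left_mem_Ln _ _, h⟩
  have hzΓ := hflat u hu v hv huv hzB
  have hxz : x ≠ z := fun h => hxB (h ▸ hzB)
  have hcn : c ∉ Ln G x z := by
    intro h
    have h1 : Ln G c z = Ln G x z := Ln_eq_of_mem h2 hxz (Ne.symm hzc) h (right_mem_Ln _ _)
    have h3 : Ln G c z = Ln G u v := Ln_eq_of_mem h2 huv (Ne.symm hzc) hc.1 hzB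
    apply hxB
    rw [← h3, h1]
    exact left_mem_Ln _ _
  obtain ⟨c', hc'⟩ := exists_ctr h2 hf hK h7 hx hzΓ hxz
  have hc'Γ : c' ∈ (Fx K : Finset Ω) := hflat x hx z hzΓ hxz hc'.1
  have hcc' : c ≠ c' := fun h => hcn (h ▸ hc'.1)
  have e1 := ctr_transfer h2 hf hK h7 hu hv huv hcΓ hc'Γ hcc' hc (left_mem_Ln _ _)
  have e2 := ctr_transfer h2 hf hK h7 hx hzΓ hxz hcΓ hc'Γ hcc' hc' (right_mem_Ln _ _)
  exact hcc' (ctr_unique h2 hf hK h7 hcΓ hc'Γ hcc' e1 e2 rfl)

end fano

end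

end Cfsg.Agent.H99
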