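import Cfsg.Agent.H99.DerC

/-!
# Lines of size three with all suborbits of length at most two
-/

set_option autoImplicit false
set_option linter.unusedSectionVars false

namespace Cfsg.Agent.H99

open MulAction Finset

section

variable {G Ω : Type*} [Group G] [Finite G] [MulAction G Ω] [Fintype Ω]

omit [MulAction G Ω] [Fintype Ω] in
theorem idx2 {K H : Subgroup G} (hKH : K ≤ H) (hc : 2 * Nat.card K = Nat.card H) {a b : G} (ha : a ∈ H) (hb : b ∈ H) :
    a * b ∈ K ↔ (a ∈ K ↔ b ∈ K) := by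
  have h1 : (K.subgroupOf H).index = 2 := by
    have h2 := Subgroup.card_mul_index (K.subgroupOf H)
    rw [Nat.card_congr (Subgroup.subgroupOfEquivOfLe hKH).toEquiv, ← hc, mul_comm 2] at h2
    exact Nat.eq_of_mul_eq_mul_left Nat.card_pos h2
  have h3 := Subgroup.mul_mem_iff_of_index_two h1 (a := ⟨a, ha⟩) (b := ⟨b, hb⟩)
  simpa [Subgroup.mem_subgroupOf] using h3

omit [MulAction G Ω] [Fintype Ω] in
theorem card_two_mul {K H : Subgroup G} (hKH : K ≤ H) (hc : 2 * Nat.card K = Nat.card H) {M : Subgroup G} (hMH : M ≤ H) (hne : ¬ M ≤ K) :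
    2 * Nat.card (M ⊓ K : Subgroup G) = Nat.card M := by
  obtain ⟨t, htM, htK⟩ := SetLike.not_le_iff_exists.mp hne
  have h1 : ((M ⊓ K).subgroupOf M).index = 2 := by
    rw [Subgroup.index_eq_two_iff]
    refine ⟨⟨t, htM⟩, fun g => ?_⟩
    have h3 := idx2 hKH hc (hMH g.2) (hMH htM)
    simp only [Subgroup.mem_subgroupOf, Subgroup.mem_inf, Subgroup.coe_mul]
    by_cases hg : (g : G) ∈ K
    · right
      refine ⟨⟨g.2, hg⟩, ?_⟩
      rintro ⟨-, h⟩
      rw [h3] at h
      exact htK (h.mp hg)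
    · left
      refine ⟨⟨M.mul_mem g.2 htM, h3.mpr ⟨fun h => absurd h hg, fun h => absurd h htK⟩⟩, ?_⟩
      rintro ⟨-, h⟩
      exact hg h
  have h2 := Subgroup.card_mul_index ((M ⊓ K).subgroupOf M)
  rw [Nat.card_congr (Subgroup.subgroupOfEquivOfLe inf_le_left).toEquiv, h1] at h2
  rw [mul_comm]
  exact h2

variable (h2 : Two G Ω) (hf : ∀ x y : Ω, x ≠ y → (Ln G x y).card = 3)

include h2 hf in
theorem Fx_ne_seven {K : Subgroup G} {a b : Ω} (hab : a ≠ b) (hc : 2 * Nat.card K = Nat.card (st2 G a b)) : (Fx K : Finset Ω).card ≠ 7 := by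
  intro h7
  refine no_fano h2 hf (K := K) ?_ h7
  intro u hu v hv huv
  have hle : K ≤ st2 G u v := fun k hk => ⟨mem_Fx.mp hu k hk, mem_Fx.mp hv k hk⟩
  have hc' : 2 * Nat.card K = Nat.card (st2 G u v) := by rw [hc]; exact card_st2_eq h2 hab huv
  obtain ⟨t, ht, htK⟩ : ∃ t ∈ st2 G u v, t ∉ K := by
    by_contra hcon
    push Not at hcon
    have : st2 G u v = K := le_antisymm hcon hle
    rw [this] at hc'
    have : 0 < Nat.card K := Nat.card_pos
    omega
  have hti : t⁻¹ ∉ K := fun h => htK (by simpa using K.inv_mem h)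
  have hti' := (st2 G u v).inv_mem ht
  refine ⟨t, ht, htK, ?_, ?_, ?_⟩
  · intro k hk
    have h1 : t * k ∉ K := fun h => htK (((idx2 hle hc' ht (hle hk)).mp h).mpr hk)
    have h3 : t⁻¹ * k ∉ K := fun h => hti (((idx2 hle hc' hti' (hle hk)).mp h).mpr hk)
    refine ⟨(idx2 hle hc' ((st2 G u v).mul_mem ht (hle hk)) hti').mpr ⟨fun h => absurd h h1, fun h => absurd h hti⟩,
      (idx2 hle hc' ((st2 G u v).mul_mem hti' (hle hk)) ht).mpr ⟨fun h => absurd h h3, fun h => absurd h htK⟩⟩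
  · intro g hg hgK
    exact (idx2 hle hc' hti' hg).mpr ⟨fun h => absurd h hti, fun h => absurd h hgK⟩
  · intro z hz htz
    rw [mem_Ln]
    intro g hg
    by_cases hgK : g ∈ K
    · exact mem_Fx.mp hz g hgK
    · have h1 : t⁻¹ * g ∈ K := (idx2 hle hc' hti' hg).mpr ⟨fun h => absurd h hti, fun h => absurd h hgK⟩
      have h3 := mem_Fx.mp hz _ h1
      rw [mul_smul, inv_smul_eq_iff, htz] at h3
      exact h3

variable {a b : Ω} (hab : a ≠ b) (hO : ∀ x, x ∉ Ln G a b → 2 * Nat.card (st2 G a b ⊓ stabilizer G x : Subgroup G) = Nat.card (st2 G a b))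

include h2 hf hab hO in
theorem nine_le {x : Ω} (hx : x ∉ Ln G a b) : 9 ≤ (Fx (st2 G a b ⊓ stabilizer G x) : Finset Ω).card := by
  have hx' : x ∈ (Fx (st2 G a b ⊓ stabilizer G x) : Finset Ω) := mem_Fx.mpr fun g hg => hg.2
  have hsub : Ln G a b ⊆ (Fx (st2 G a b ⊓ stabilizer G x) : Finset Ω) := Fx_anti inf_le_left
  have h1 := flat_bound h2 (flat_Ln a b) hsub (flat_Fx _) hx hx' hf
  rw [hf a b hab] at h1
  have h3 := Fx_ne_seven h2 hf hab (hO x hx)
  obtain ⟨k, hk⟩ := odd_flat h2 hf (flat_Fx (st2 G a b ⊓ stabilizer G x)) hx'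
  omega

include h2 hf hab hO in
theorem chain_step [FaithfulSMul G Ω] {M : Subgroup G} (hM : M ≤ st2 G a b) (hM1 : M ≠ ⊥) :
    ∃ M' : Subgroup G, M' ≤ st2 G a b ∧ 2 * Nat.card M' = Nat.card M ∧ 2 * (Fx M : Finset Ω).card + 3 ≤ (Fx M' : Finset Ω).card := by
  classical
  obtain ⟨⟨m, hm⟩, hm1'⟩ := Subgroup.ne_bot_iff_exists_ne_one.mp hM1
  have hm1 : m ≠ 1 := fun h' => hm1' (Subtype.ext h')
  obtain ⟨x, hx⟩ : ∃ x : Ω, m • x ≠ x := by
    by_contra hcon
    push Not at hcon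
    exact hm1 (FaithfulSMul.eq_of_smul_eq_smul (α := Ω) (fun y => by rw [hcon y, one_smul]))
  set H := st2 G a b with hH
  have hxF : x ∉ Ln G a b := fun h => hx (mem_Ln.mp h m (hM hm))
  have hc := hO x hxF
  have hnle : ¬ M ≤ H ⊓ stabilizer G x := fun h => hx (h hm).2
  refine ⟨M ⊓ (H ⊓ stabilizer G x), inf_le_left.trans hM, card_two_mul inf_le_left hc hM hnle, ?_⟩
  set M' := M ⊓ (H ⊓ stabilizer G x) with hM'
  set A : Finset Ω := Fx M with hA
  set F := Ln G a b with hF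
  have hFA : F ⊆ A := Fx_anti hM
  have hxA : x ∉ A := fun h => hx (mem_Fx.mp h m hm)
  have hxM' : x ∈ (Fx M' : Finset Ω) := mem_Fx.mpr fun g hg => hg.2.2
  set C : Finset Ω := (Fx (H ⊓ stabilizer G x) : Finset Ω) \ F with hC
  set I : Finset Ω := (A \ F).image (Tp h2 hf x) with hI
  have hCcard : 6 ≤ C.card := by
    have hFs : F ⊆ (Fx (H ⊓ stabilizer G x) : Finset Ω) := Fx_anti inf_le_left
    rw [hC, Finset.card_sdiff_of_subset hFs, hf a b hab]
    have : 9 ≤ (Fx (H ⊓ stabilizer G x) : Finset Ω).card := nine_le h2 hf hab hO hxF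
    omega
  have hne : ∀ y ∈ A, x ≠ y := fun y hy h => hxA (h ▸ hy)
  have hIcard : I.card = A.card - 3 := by
    rw [hI, Finset.card_image_of_injOn, Finset.card_sdiff_of_subset hFA, hf a b hab]
    intro y hy y' hy' h
    have h1 := Tp_Tp h2 hf (hne y (Finset.mem_sdiff.mp hy).1)
    have h3 := Tp_Tp h2 hf (hne y' (Finset.mem_sdiff.mp hy').1)
    rw [← h1, h, h3]
  have hFcard : 3 ≤ A.card := by
    rw [← hf a b hab]
    exact Finset.card_le_card hFA
  have hAflat : Flat G A := flat_Fx M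
  have hCA : Disjoint A C := by
    rw [Finset.disjoint_left]
    intro z hzA hzC
    rw [hC, Finset.mem_sdiff] at hzC
    have h1 : H ⊓ stabilizer G x ≤ H ⊓ stabilizer G z := fun g hg => ⟨hg.1, mem_Fx.mp hzC.1 g hg⟩
    have h3 : H ⊓ stabilizer G x = H ⊓ stabilizer G z := by
      apply Subgroup.eq_of_le_of_card_ge h1
      have h4 := hO z hzC.2
      have h5 := hO x hxF
      omega
    apply hnle
    rw [h3]
    exact fun g hg => ⟨hM hg, mem_Fx.mp hzA g hg⟩
  have hIA : Disjoint A I := by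
    rw [Finset.disjoint_left]
    intro z hzA hzI
    rw [hI, Finset.mem_image] at hzI
    obtain ⟨y, hy, rfl⟩ := hzI
    rw [Finset.mem_sdiff] at hy
    have hxy := hne y hy.1
    apply hxA
    have hyz : y ≠ Tp h2 hf x y := Ne.symm (Tp_ne_right h2 hf hxy)
    have h1 : x ∈ Ln G y (Tp h2 hf x y) := by
      rw [Ln_eq_of_mem h2 hxy hyz (right_mem_Ln _ _) (Tp_mem h2 hf hxy)]
      exact left_mem_Ln _ _
    exact hAflat y hy.1 _ hzA hyz h1
  have hCI : Disjoint C I := by
    rw [Finset.disjoint_left]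
    intro z hzC hzI
    rw [hI, Finset.mem_image] at hzI
    obtain ⟨y, hy, rfl⟩ := hzI
    rw [Finset.mem_sdiff] at hy
    have hxy := hne y hy.1
    rw [hC, Finset.mem_sdiff] at hzC
    have hxH : x ∈ (Fx (H ⊓ stabilizer G x) : Finset Ω) := mem_Fx.mpr fun g hg => hg.2
    have hxz : x ≠ Tp h2 hf x y := Ne.symm (Tp_ne_left h2 hf hxy)
    have h1 : y ∈ Ln G x (Tp h2 hf x y) := by
      rw [Ln_eq_of_mem h2 hxy hxz (left_mem_Ln _ _) (Tp_mem h2 hf hxy)]
      exact right_mem_Ln _ _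
    have h3 : y ∈ C := by
      rw [hC, Finset.mem_sdiff]
      exact ⟨flat_Fx _ x hxH _ hzC.1 hxz h1, hy.2⟩
    exact Finset.disjoint_left.mp hCA hy.1 h3
  have hsub : (A ∪ I) ∪ C ⊆ (Fx M' : Finset Ω) := by
    apply Finset.union_subset
    · apply Finset.union_subset
      · exact Fx_anti inf_le_left
      · intro z hz
        rw [hI, Finset.mem_image] at hz
        obtain ⟨y, hy, rfl⟩ := hz
        rw [Finset.mem_sdiff] at hy
        have hxy := hne y hy.1
        exact flat_Fx M' x hxM' y (Fx_anti inf_le_left hy.1) hxy (Tp_mem h2 hf hxy)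
    · intro z hz
      rw [hC, Finset.mem_sdiff] at hz
      exact Fx_anti inf_le_right hz.1
  have h1 := Finset.card_le_card hsub
  rw [Finset.card_union_of_disjoint (Finset.disjoint_union_left.mpr ⟨hCA, hCI.symm⟩), Finset.card_union_of_disjoint hIA, hIcard] at h1
  omega

include h2 hf hab hO in
theorem chain [FaithfulSMul G Ω] (k : ℕ) : ∀ M : Subgroup G, Nat.card M = k → M ≤ st2 G a b →
    6 * Nat.card (st2 G a b) ≤ ((Fx M : Finset Ω).card + 3) * Nat.card M → 6 * Nat.card (st2 G a b) ≤ Fintype.card Ω + 3 := by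
  induction k using Nat.strong_induction_on with
  | _ k ih =>
    intro M hMk hM hP
    by_cases hM1 : M = ⊥
    · subst hM1
      rw [Subgroup.card_bot, mul_one] at hP
      exact hP.trans (Nat.add_le_add_right (Finset.card_le_univ _) 3)
    · obtain ⟨M', hM', hc, hF⟩ := chain_step h2 hf hab hO hM hM1
      have hpos : 0 < Nat.card M' := Nat.card_pos
      apply ih (Nat.card M') (by omega) M' rfl hM'
      calc 6 * Nat.card (st2 G a b) ≤ ((Fx M : Finset Ω).card + 3) * Nat.card M := hP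
        _ = (2 * (Fx M : Finset Ω).card + 6) * Nat.card M' := by rw [← hc]; ring
        _ ≤ ((Fx M' : Finset Ω).card + 3) * Nat.card M' := Nat.mul_le_mul_right _ (by omega)

include h2 hf hab hO in
theorem three_bound [FaithfulSMul G Ω] : 6 * Nat.card (st2 G a b) ≤ Fintype.card Ω + 3 := by
  apply chain h2 hf hab hO _ (st2 G a b) rfl le_rfl
  have : (Fx (st2 G a b) : Finset Ω).card = 3 := hf a b hab
  rw [this]

end

end Cfsg.Agent.H99
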