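import Cfsg.Agent.H99.DerD

/-!
# Orbit counting; lines of size two
-/

set_option autoImplicit false
set_option linter.unusedSectionVars false

namespace Cfsg.Agent.H99

open MulAction Finset

/-- a pure group lemma -/
theorem card_le_two_of_inverting {S : Type*} [Group S] [Finite S] (M P : Subgroup S)
    (hconj : ∀ t ∈ P, ∀ x ∈ M, t * x * t⁻¹ ∈ M) (hsq : ∀ t ∈ P, t * t = 1)
    (hodd : ∀ x ∈ M, x * x = 1 → x = 1)
    (hdi : ∀ x ∈ M, ∀ t ∈ P, ∀ t' ∈ P, t * x * t⁻¹ = x ∨ t' * x * t'⁻¹ = x ∨ t * x * t⁻¹ = t' * x * t'⁻¹)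
    (hfaith : ∀ t ∈ P, (∀ x ∈ M, t * x * t⁻¹ = x) → t = 1) : Nat.card P ≤ 2 := by
  by_contra hcon
  push Not at hcon
  have hinv : ∀ t ∈ P, t⁻¹ = t := fun t ht => inv_eq_of_mul_eq_one_right (hsq t ht)
  -- the inverting trick
  have key : ∀ t ∈ P, t ≠ 1 → ∃ x ∈ M, x ≠ 1 ∧ t * x * t⁻¹ = x⁻¹ := by
    intro t ht ht1
    obtain ⟨x0, hx0, hne⟩ : ∃ x0 ∈ M, t * x0 * t⁻¹ ≠ x0 := by
      by_contra h
      push Not at h
      exact ht1 (hfaith t ht h)
    refine ⟨x0⁻¹ * (t * x0 * t⁻¹), M.mul_mem (M.inv_mem hx0) (hconj t ht x0 hx0), ?_, ?_⟩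
    · intro h
      exact hne (inv_mul_eq_one.mp h).symm
    · have h1 : t * (x0⁻¹ * (t * x0 * t⁻¹)) * t⁻¹ = (t * x0 * t⁻¹)⁻¹ * ((t * t) * x0 * (t * t)⁻¹) := by group
      rw [h1, hsq t ht]
      group
  have hneinv : ∀ x ∈ M, x ≠ 1 → x⁻¹ ≠ x := by
    intro x hx hx1 h
    apply hx1
    apply hodd x hx
    nth_rw 1 [← h]
    exact inv_mul_cancel x
  -- two distinct nontrivial elements
  obtain ⟨t1, ht1, t2, ht2, h12, h1, h2⟩ : ∃ t1 ∈ P, ∃ t2 ∈ P, t1 ≠ t2 ∧ t1 ≠ 1 ∧ t2 ≠ 1 := by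
    classical
    have := Fintype.ofFinite P
    rw [Nat.card_eq_fintype_card, Fintype.two_lt_card_iff] at hcon
    obtain ⟨a, b, c, hab, hac, hbc⟩ := hcon
    by_cases ha : a = 1
    · exact ⟨b, b.2, c, c.2, fun h => hbc (Subtype.ext h), fun h => hab (by rw [ha]; exact (Subtype.ext h).symm), fun h => hac (by rw [ha]; exact (Subtype.ext h).symm)⟩
    · by_cases hb : b = 1
      · exact ⟨a, a.2, c, c.2, fun h => hac (Subtype.ext h), fun h => ha (Subtype.ext h), fun h => hbc (by rw [hb]; exact (Subtype.ext h).symm)⟩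
      · exact ⟨a, a.2, b, b.2, fun h => hab (Subtype.ext h), fun h => ha (Subtype.ext h), fun h => hb (Subtype.ext h)⟩
  obtain ⟨x, hx, hx1, hx2⟩ := key t1 ht1 h1
  have hxi := hneinv x hx hx1
  have orbx : ∀ t ∈ P, t * x * t⁻¹ = x ∨ t * x * t⁻¹ = x⁻¹ := by
    intro t ht
    rcases hdi x hx t ht t1 ht1 with h | h | h
    · exact Or.inl h
    · rw [hx2] at h; exact absurd h hxi
    · right; rw [h, hx2]
  obtain ⟨k, hk, hk1, hkx⟩ : ∃ k ∈ P, k ≠ 1 ∧ k * x * k⁻¹ = x := by
    rcases orbx t2 ht2 with h | h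
    · exact ⟨t2, ht2, h2, h⟩
    · refine ⟨t1 * t2, P.mul_mem ht1 ht2, ?_, ?_⟩
      · intro h'
        apply h12
        rw [eq_inv_of_mul_eq_one_left h', hinv t2 ht2]
      · have : t1 * t2 * x * (t1 * t2)⁻¹ = t1 * (t2 * x * t2⁻¹) * t1⁻¹ := by group
        rw [this, h]
        have : t1 * x⁻¹ * t1⁻¹ = (t1 * x * t1⁻¹)⁻¹ := by group
        rw [this, hx2, inv_inv]
  obtain ⟨y, hy, hy1, hy2⟩ := key k hk hk1
  have hyi := hneinv y hy hy1
  have orby : ∀ t ∈ P, t * y * t⁻¹ = y ∨ t * y * t⁻¹ = y⁻¹ := by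
    intro t ht
    rcases hdi y hy t ht k hk with h | h | h
    · exact Or.inl h
    · rw [hy2] at h; exact absurd h hyi
    · right; rw [h, hy2]
  obtain ⟨k', hk', hk'x, hk'y⟩ : ∃ k' ∈ P, k' * x * k'⁻¹ = x⁻¹ ∧ k' * y * k'⁻¹ = y := by
    rcases orby t1 ht1 with h | h
    · exact ⟨t1, ht1, hx2, h⟩
    · refine ⟨t1 * k, P.mul_mem ht1 hk, ?_, ?_⟩
      · have : t1 * k * x * (t1 * k)⁻¹ = t1 * (k * x * k⁻¹) * t1⁻¹ := by group
        rw [this, hkx, hx2]
      · have : t1 * k * y * (t1 * k)⁻¹ = t1 * (k * y * k⁻¹) * t1⁻¹ := by group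
        rw [this, hy2]
        have : t1 * y⁻¹ * t1⁻¹ = (t1 * y * t1⁻¹)⁻¹ := by group
        rw [this, h, inv_inv]
  have e1 : k * (x * y) * k⁻¹ = x * y⁻¹ := by
    have : k * (x * y) * k⁻¹ = (k * x * k⁻¹) * (k * y * k⁻¹) := by group
    rw [this, hkx, hy2]
  have e2 : k' * (x * y) * k'⁻¹ = x⁻¹ * y := by
    have : k' * (x * y) * k'⁻¹ = (k' * x * k'⁻¹) * (k' * y * k'⁻¹) := by group
    rw [this, hk'x, hk'y]
  rcases hdi (x * y) (M.mul_mem hx hy) k hk k' hk' with h | h | h
  · rw [e1] at h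
    exact hyi (mul_left_cancel h)
  · rw [e2] at h
    exact hxi (mul_right_cancel h)
  · rw [e1, e2] at h
    have h3 : x * x = y * y := by
      calc x * x = x * (x * y⁻¹) * y := by group
        _ = x * (x⁻¹ * y) * y := by rw [h]
        _ = y * y := by group
    have h4 : y * y = y⁻¹ * y⁻¹ := by
      calc y * y = x * x := h3.symm
        _ = (k * x * k⁻¹) * (k * x * k⁻¹) := by rw [hkx]
        _ = k * (x * x) * k⁻¹ := by group
        _ = k * (y * y) * k⁻¹ := by rw [h3]
        _ = (k * y * k⁻¹) * (k * y * k⁻¹) := by group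
        _ = y⁻¹ * y⁻¹ := by rw [hy2]
    apply hy1
    apply hodd y hy
    apply hodd (y * y) (M.mul_mem hy hy)
    nth_rw 1 [h4]
    group

section

variable {G Ω : Type*} [Group G] [Finite G] [MulAction G Ω] [Fintype Ω]

theorem two_orb_dichotomy {H : Subgroup G} {x : Ω} (hx : Nat.card (orbit H x) ≤ 2) {g g' : G} (hg : g ∈ H) (hg' : g' ∈ H) :
    g • x = x ∨ g' • x = x ∨ g • x = g' • x := by
  classical
  by_contra hcon
  push Not at hcon
  obtain ⟨h1, h2, h3⟩ := hcon
  have hfin : (orbit H x).Finite := Set.toFinite _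
  have : ({x, g • x, g' • x} : Finset Ω).card = 3 := by
    rw [Finset.card_insert_of_notMem, Finset.card_insert_of_notMem, Finset.card_singleton]
    · simpa using h3
    · simp only [Finset.mem_insert, Finset.mem_singleton, not_or]
      exact ⟨Ne.symm h1, Ne.symm h2⟩
  have hsub : (({x, g • x, g' • x} : Finset Ω) : Set Ω) ⊆ orbit H x := by
    intro z hz
    simp only [Finset.coe_insert, Finset.coe_singleton, Set.mem_insert_iff, Set.mem_singleton_iff] at hz
    rcases hz with rfl | rfl | rfl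
    · exact mem_orbit_self _
    · exact ⟨⟨g, hg⟩, rfl⟩
    · exact ⟨⟨g', hg'⟩, rfl⟩
  have h4 := Set.ncard_le_ncard hsub hfin
  rw [Set.ncard_coe_finset, this, ← Nat.card_coe_set_eq] at h4
  omega

theorem transfer_case [FaithfulSMul G Ω] (h2 : Two G Ω) {a b : Ω} (hab : a ≠ b) (hL : ∀ z, z ∈ Ln G a b → z = a ∨ z = b)
    (hle : ∀ x : Ω, Nat.card (orbit (st2 G a b) x) ≤ 2) (hev : Even (Fintype.card Ω)) : Nat.card (st2 G a b) ≤ 2 := by
  classical
  set H := st2 G a b with hH
  have hsqH : ∀ t ∈ H, t * t = 1 := by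
    intro t ht
    apply FaithfulSMul.eq_of_smul_eq_smul (α := Ω)
    intro y
    rw [one_smul]
    rcases two_orb_dichotomy (hle y) ht (H.mul_mem ht ht) with h | h | h
    · rw [mul_smul, h, h]
    · exact h
    · rw [mul_smul] at h
      have h1 : t • y = y := (MulAction.injective t h).symm
      rw [mul_smul, h1, h1]
  set S := stabilizer G a with hS
  have hHS : H ≤ S := inf_le_left
  set P0 : Subgroup S := H.subgroupOf S with hP0
  have hP0card : Nat.card P0 = Nat.card H := Nat.card_congr (Subgroup.subgroupOfEquivOfLe hHS).toEquiv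
  have hmemP : ∀ s : S, s ∈ P0 ↔ (s : G) • b = b := by
    intro s
    rw [hP0, Subgroup.mem_subgroupOf]
    exact ⟨fun h => h.2, fun h => ⟨s.2, h⟩⟩
  have hsq : ∀ t ∈ P0, t * t = 1 := fun t ht => Subtype.ext (hsqH t (Subgroup.mem_subgroupOf.mp ht))
  -- index of P0
  have hindex : P0.index = Fintype.card Ω - 1 := by
    have h1 : P0 = stabilizer S b := by
      ext s
      rw [hmemP]
      rfl
    rw [h1, index_stabilizer]
    have h3 : orbit S b = (({a}ᶜ : Finset Ω) : Set Ω) := by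
      ext z
      simp only [Finset.coe_compl, Finset.coe_singleton, Set.mem_compl_iff, Set.mem_singleton_iff]
      constructor
      · rintro ⟨s, rfl⟩ h
        have h4 : (s : G) • b = a := h
        have h5 : (s : G) • a = a := s.2
        exact hab (MulAction.injective (s : G) (h5.trans h4.symm))
      · intro hz
        obtain ⟨g, hg1, hg2⟩ := h2 a b a z hab (Ne.symm hz)
        exact ⟨⟨g, hg1⟩, hg2⟩
    rw [h3, Set.ncard_coe_finset, Finset.card_compl, Finset.card_singleton]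
  have hnpos : 0 < Fintype.card Ω := Fintype.card_pos_iff.mpr ⟨a⟩
  have hodd : Odd (Fintype.card Ω - 1) := by
    obtain ⟨k, hk⟩ := hev
    exact ⟨k - 1, by omega⟩
  have : Fact (Nat.Prime 2) := ⟨Nat.prime_two⟩
  have hPG : IsPGroup 2 P0 := by
    intro t
    exact ⟨1, by rw [pow_one, pow_two]; exact Subtype.ext (hsq t t.2)⟩
  have hni : ¬ 2 ∣ P0.index := by
    rw [hindex]
    exact hodd.not_two_dvd_nat
  set P := hPG.toSylow hni with hPdef
  have hPcoe : (P : Subgroup S) = P0 := IsPGroup.toSylow_coe hPG hni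
  have hcomm : ∀ t ∈ P0, ∀ t' ∈ P0, t * t' = t' * t := by
    intro t ht t' ht'
    have h1 := hsq _ (P0.mul_mem ht ht')
    have e1 : t⁻¹ = t := inv_eq_of_mul_eq_one_right (hsq t ht)
    have e2 : t'⁻¹ = t' := inv_eq_of_mul_eq_one_right (hsq t' ht')
    have h3 : (t * t')⁻¹ = t * t' := inv_eq_of_mul_eq_one_right h1
    rw [mul_inv_rev, e1, e2] at h3
    exact h3.symm
  have hnorm : Subgroup.normalizer ((P : Subgroup S) : Set S) ≤ Subgroup.centralizer ((P : Subgroup S) : Set S) := by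
    rw [hPcoe]
    intro s hs
    have hsP : s ∈ P0 := by
      rw [hmemP]
      have h1 : (s : G) • b ∈ Ln G a b := by
        rw [mem_Ln]
        intro g hg
        have h3 : (⟨g, hHS hg⟩ : S) ∈ P0 := Subgroup.mem_subgroupOf.mpr hg
        have h4 : s⁻¹ * (⟨g, hHS hg⟩ : S) * s ∈ P0 := (Subgroup.mem_normalizer_iff''.mp hs _).mp h3
        rw [hmemP] at h4
        have h5 : ((s : G)⁻¹ * g * (s : G)) • b = b := h4
        rw [mul_smul, mul_smul, inv_smul_eq_iff] at h5
        exact h5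
      rcases hL _ h1 with h | h
      · exfalso
        have h5 : (s : G) • a = a := s.2
        exact hab (MulAction.injective (s : G) (h5.trans h.symm))
      · exact h
    rw [Subgroup.mem_centralizer_iff]
    intro t ht
    exact hcomm t ht s hsP
  have hcompl := MonoidHom.ker_transferSylow_isComplement' P hnorm
  set M := (MonoidHom.transferSylow P hnorm).ker with hM
  rw [hPcoe] at hcompl
  have hMcard : Nat.card M = Fintype.card Ω - 1 := by
    rw [← hindex]
    exact hcompl.index_eq_card.symm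
  have hdisj : ∀ s : S, s ∈ M → s ∈ P0 → s = 1 := by
    intro s hs hs'
    have := Subgroup.disjoint_def.mp hcompl.disjoint hs hs'
    exact this
  have hconj : ∀ t ∈ P0, ∀ x ∈ M, t * x * t⁻¹ ∈ M := by
    intro t _ x hx
    have hn : M.Normal := by rw [hM]; infer_instance
    exact hn.conj_mem x hx t
  have hinjb : ∀ x ∈ M, ∀ y ∈ M, (x : G) • b = (y : G) • b → x = y := by
    intro x hx y hy h
    have h1 : y⁻¹ * x ∈ P0 := by
      rw [hmemP]
      change ((y : G)⁻¹ * (x : G)) • b = b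
      rw [mul_smul, h, inv_smul_smul]
    have h3 := hdisj _ (M.mul_mem (M.inv_mem hy) hx) h1
    rw [inv_mul_eq_one] at h3
    exact h3.symm
  have hconjb : ∀ t ∈ P0, ∀ x : S, ((t * x * t⁻¹ : S) : G) • b = (t : G) • ((x : G) • b) := by
    intro t ht x
    change ((t : G) * (x : G) * (t : G)⁻¹) • b = _
    rw [mul_smul, mul_smul]
    congr 2
    rw [inv_smul_eq_iff]
    exact ((hmemP t).mp ht).symm
  rw [← hP0card]
  refine card_le_two_of_inverting M P0 hconj hsq ?_ ?_ ?_
  · intro x hx hxx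
    have h1 : orderOf x ∣ 2 := orderOf_dvd_of_pow_eq_one (by rw [pow_two]; exact hxx)
    have h3 : orderOf x ∣ Nat.card M := Subgroup.orderOf_dvd_natCard M hx
    rw [hMcard] at h3
    rcases (Nat.dvd_prime Nat.prime_two).mp h1 with h4 | h4
    · exact orderOf_eq_one_iff.mp h4
    · rw [h4] at h3
      exact absurd h3 hodd.not_two_dvd_nat
  · intro x hx t ht t' ht'
    have htH : (t : G) ∈ H := Subgroup.mem_subgroupOf.mp ht
    have htH' : (t' : G) ∈ H := Subgroup.mem_subgroupOf.mp ht'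
    rcases two_orb_dichotomy (hle ((x : G) • b)) htH htH' with h | h | h
    · left
      exact hinjb _ (hconj t ht x hx) x hx (by rw [hconjb t ht x, h])
    · right; left
      exact hinjb _ (hconj t' ht' x hx) x hx (by rw [hconjb t' ht' x, h])
    · right; right
      exact hinjb _ (hconj t ht x hx) _ (hconj t' ht' x hx) (by rw [hconjb t ht x, hconjb t' ht' x, h])
  · intro t ht h
    apply Subtype.ext
    apply FaithfulSMul.eq_of_smul_eq_smul (α := Ω)
    intro z
    change (t : G) • z = (1 : G) • z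
    rw [one_smul]
    by_cases hz : z = a
    · rw [hz]; exact t.2
    · obtain ⟨g, hg1, hg2⟩ := h2 a b a z hab (Ne.symm hz)
      obtain ⟨⟨m, p⟩, hmp⟩ := (Subgroup.isComplement'_def.mp hcompl).2 ⟨g, hg1⟩
      have hmp' : (m : S) * (p : S) = ⟨g, hg1⟩ := hmp
      have h3 : (m : S) • b = z := by
        have h4 : ((m : S) * (p : S)) • b = z := by rw [hmp']; exact hg2
        rw [mul_smul] at h4
        have h5 : (p : S) • b = b := (hmemP (p : S)).mp p.2
        rw [h5] at h4
        exact h4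
      have h6 := hconjb t ht (m : S)
      rw [h (m : S) m.2] at h6
      have h7 : ((m : S) : G) • b = z := h3
      rw [h7] at h6
      exact h6.symm

end

end Cfsg.Agent.H99
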