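import Cfsg.Agent.H99.DerE

/-!
# The main inequality for two-point stabilizers
-/

set_option autoImplicit false
set_option linter.unusedSectionVars false

namespace Cfsg.Agent.H99

open MulAction Finset

section

variable {G Ω : Type*} [Group G] [Fintype G] [MulAction G Ω] [Fintype Ω]

/-- counting orbits: fixed points and a few big orbits -/
theorem orbit_count (H : Subgroup G) (T : Finset Ω) (hT : ∀ x ∈ T, ∀ y ∈ T, x ≠ y → x ∉ orbit H y) :
    2 * Nat.card (orbitRel.Quotient H Ω) + ∑ x ∈ T, Nat.card (orbit H x) ≤ Fintype.card Ω + (Fx H : Finset Ω).card + 2 * T.card := by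
  classical
  have : Fintype (orbitRel.Quotient H Ω) := Fintype.ofFinite _
  let q : Ω → orbitRel.Quotient H Ω := Quotient.mk''
  have hq : ∀ x y, q x = q y ↔ x ∈ orbit H y := fun x y => Quotient.eq''.trans orbitRel_apply
  let c : orbitRel.Quotient H Ω → ℕ := fun ω => (univ.filter fun x => q x = ω).card
  have hcq : ∀ x, c (q x) = Nat.card (orbit H x) := by
    intro x
    change (univ.filter fun y => q y = q x).card = _
    rw [← Fintype.card_subtype, ← Nat.card_eq_fintype_card]
    apply Nat.card_congr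
    exact Equiv.subtypeEquivRight fun y => hq y x
  have hsum : ∑ ω, c ω = Fintype.card Ω := by
    rw [← Finset.card_univ]
    exact (Finset.card_eq_sum_card_fiberwise (f := q) (s := univ) (t := univ) (fun x _ => Finset.mem_univ _)).symm
  have hsurj : ∀ ω, ∃ x, q x = ω := fun ω => Quotient.exists_rep ω
  have hpos : ∀ ω, 1 ≤ c ω := by
    intro ω
    obtain ⟨x, hx⟩ := hsurj ω
    exact Finset.card_pos.mpr ⟨x, by simp [hx]⟩
  have hone : (univ.filter fun ω => c ω = 1).card ≤ (Fx H : Finset Ω).card := by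
    choose r hr using hsurj
    apply Finset.card_le_card_of_injOn r
    · intro ω hω
      rw [Finset.mem_coe, Finset.mem_filter] at hω
      rw [Finset.mem_coe, mem_Fx]
      intro g hg
      have h1 : (univ.filter fun x => q x = ω).card = 1 := hω.2
      obtain ⟨z, hz⟩ := Finset.card_eq_one.mp h1
      have h2 : r ω ∈ univ.filter fun x => q x = ω := by simp [hr]
      have h3 : g • r ω ∈ univ.filter fun x => q x = ω := by
        rw [Finset.mem_filter]
        refine ⟨Finset.mem_univ _, ?_⟩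
        rw [← hr ω, hq, hr ω]
        exact ⟨⟨g, hg⟩, rfl⟩
      rw [hz, Finset.mem_singleton] at h2 h3
      rw [h2] at h3 ⊢
      exact h3
    · intro ω _ ω' _ h
      rw [← hr ω, ← hr ω', h]
  -- the image of T
  have hinj : Set.InjOn q (T : Set Ω) := by
    intro x hx y hy h
    by_contra hne
    exact hT x hx y hy hne ((hq x y).mp h)
  have hTsum : ∑ x ∈ T, Nat.card (orbit H x) = ∑ ω ∈ T.image q, c ω := by
    rw [Finset.sum_image hinj]
    exact Finset.sum_congr rfl fun x _ => (hcq x).symm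
  have hTcard : (T.image q).card = T.card := Finset.card_image_of_injOn hinj
  have h1 : ∑ ω, (c ω + if c ω = 1 then 1 else 0) ≤ Fintype.card Ω + (Fx H : Finset Ω).card := by
    rw [Finset.sum_add_distrib, hsum, ← Finset.card_filter]
    exact Nat.add_le_add_left hone _
  have h2 : ∑ ω ∈ T.image q, c ω + 2 * (Fintype.card (orbitRel.Quotient H Ω) - T.card) ≤ ∑ ω, (c ω + if c ω = 1 then 1 else 0) := by
    rw [← Finset.sum_add_sum_compl (T.image q)]
    apply Nat.add_le_add
    · exact Finset.sum_le_sum fun ω _ => Nat.le_add_right _ _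
    · rw [← hTcard, ← Finset.card_compl, mul_comm, ← smul_eq_mul, ← Finset.sum_const]
      apply Finset.sum_le_sum
      intro ω _
      by_cases h : c ω = 1
      · rw [if_pos h]
        have := hpos ω
        omega
      · have := hpos ω
        omega
  have h3 : T.card ≤ Fintype.card (orbitRel.Quotient H Ω) := by
    rw [← hTcard]
    exact Finset.card_le_univ _
  rw [Nat.card_eq_fintype_card, hTsum]
  omega

theorem card_orbit_mul (H : Subgroup G) (x : Ω) : Nat.card (orbit H x) * Nat.card (H ⊓ stabilizer G x : Subgroup G) = Nat.card H := by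
  classical
  have h1 := MulAction.card_orbit_mul_card_stabilizer_eq_card_group H x
  rw [← Nat.card_eq_fintype_card, ← Nat.card_eq_fintype_card, ← Nat.card_eq_fintype_card] at h1
  rw [← h1]
  congr 1
  apply Nat.card_congr
  exact ⟨fun g => ⟨⟨g.1, g.2.1⟩, g.2.2⟩, fun g => ⟨g.1.1, g.1.2, g.2⟩, fun g => rfl, fun g => rfl⟩

open Classical in
/-- elements of the two-point stabilizer -/
noncomputable def S2 (G : Type*) {Ω : Type*} [Group G] [Fintype G] [MulAction G Ω] (a b : Ω) : Finset G := univ.filter fun g : G => g • a = a ∧ g • b = b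

theorem mem_S2 {a b : Ω} {g : G} : g ∈ S2 G a b ↔ g ∈ st2 G a b := by
  classical
  simp [S2, mem_st2]

theorem card_S2 (a b : Ω) : (S2 G a b).card = Nat.card (st2 G a b) := by
  classical
  have : Fintype (st2 G a b) := Fintype.ofFinite _
  rw [Nat.card_eq_fintype_card, Fintype.card_subtype]
  congr 1
  ext g
  rw [mem_S2, Finset.mem_filter]
  simp

theorem sum_fx_S2 (a b : Ω) : ∑ g ∈ S2 G a b, fx Ω g = (Nat.card (orbitRel.Quotient (st2 G a b) Ω) : ℚ) * Nat.card (st2 G a b) := by
  classical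
  have : Fintype (st2 G a b) := Fintype.ofFinite _
  have h1 := H59.burnside_nat (st2 G a b) Ω
  rw [← Nat.cast_mul, ← h1]
  push_cast
  rw [Finset.sum_subtype (S2 G a b) (fun x => mem_S2) (fun g => fx Ω g)]
  rfl

/-- the estimate by the arithmetic–harmonic mean inequality -/
theorem amhm {a b : Ω} (hh : 2 ≤ Nat.card (st2 G a b))
    (hs : (2 * Nat.card (st2 G a b) - 1) * Nat.card (orbitRel.Quotient (st2 G a b) Ω) ≤ Fintype.card Ω * Nat.card (st2 G a b)) :
    (Nat.card (st2 G a b) : ℚ) ≤ ∑ g ∈ S2 G a b, ((Fintype.card Ω : ℚ) / fx Ω g - 1) := by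
  classical
  set h := Nat.card (st2 G a b) with hh'
  set s := Nat.card (orbitRel.Quotient (st2 G a b) Ω) with hs'
  set n := Fintype.card Ω with hn
  have hnpos : 0 < n := Fintype.card_pos_iff.mpr ⟨a⟩
  have hnQ : (0 : ℚ) < n := by exact_mod_cast hnpos
  have h1Q : (2 : ℚ) ≤ h := by exact_mod_cast hh
  have hsQ : (2 * (h : ℚ) - 1) * s ≤ n * h := by
    have : ((2 * h - 1 : ℕ) : ℚ) = 2 * (h : ℚ) - 1 := by
      rw [Nat.cast_sub (by omega)]
      push_cast
      ring
    rw [← this]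
    exact_mod_cast hs
  have hone : (1 : G) ∈ S2 G a b := mem_S2.mpr (one_mem _)
  have hsum := sum_fx_S2 (G := G) a b
  rw [← Finset.add_sum_erase _ _ hone, fx_one] at hsum
  rw [← Finset.add_sum_erase _ _ hone, fx_one, ← hn, div_self hnQ.ne', sub_self, zero_add]
  have hcard : (((S2 G a b).erase 1).card : ℚ) = h - 1 := by
    rw [Finset.card_erase_of_mem hone, card_S2, Nat.cast_sub (by omega)]
    push_cast
    rfl
  set t : ℚ := (2 * h - 1) / (n * (h - 1)) with ht
  have hh1 : (0 : ℚ) < h - 1 := by linarith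
  have hterm : ∀ g ∈ (S2 G a b).erase 1, n * (2 * t) - n * t ^ 2 * fx Ω g - 1 ≤ (n : ℚ) / fx Ω g - 1 := by
    intro g hg
    have hg2 := mem_S2.mp (Finset.mem_erase.mp hg).2
    have hpos : 0 < fx Ω g := by
      rw [fx_eq]
      have : 0 < (univ.filter fun z : Ω => g • z = z).card := Finset.card_pos.mpr ⟨a, Finset.mem_filter.mpr ⟨Finset.mem_univ _, hg2.1⟩⟩
      exact_mod_cast this
    have h3 : 0 ≤ n * (1 - t * fx Ω g) ^ 2 / fx Ω g := by positivity
    have h4 : (n : ℚ) / fx Ω g - (n * (2 * t) - n * t ^ 2 * fx Ω g) = n * (1 - t * fx Ω g) ^ 2 / fx Ω g := by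
      field_simp
      ring
    linarith
  refine le_trans ?_ (Finset.sum_le_sum hterm)
  rw [Finset.sum_sub_distrib, Finset.sum_sub_distrib, Finset.sum_const, Finset.sum_const, nsmul_eq_mul, nsmul_eq_mul, ← Finset.mul_sum, hcard]
  have h5 : ∑ g ∈ (S2 G a b).erase 1, fx Ω g = s * h - n := by linarith
  rw [h5]
  have h6 : (s : ℚ) * h - n ≤ n * (h - 1) ^ 2 / (2 * h - 1) := by
    rw [le_div_iff₀ (by linarith)]
    nlinarith
  have h7 : (n : ℚ) * t ^ 2 * (s * h - n) ≤ n * t ^ 2 * (n * (h - 1) ^ 2 / (2 * h - 1)) := by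
    apply mul_le_mul_of_nonneg_left h6
    positivity
  have h8 : (n : ℚ) * t ^ 2 * (n * (h - 1) ^ 2 / (2 * h - 1)) = 2 * h - 1 := by
    rw [ht]
    have e1 : (2 * (h : ℚ) - 1) ≠ 0 := by linarith
    have e2 : ((h : ℚ) - 1) ≠ 0 := hh1.ne'
    field_simp
  have h9 : ((h : ℚ) - 1) * (n * (2 * t)) = 2 * (2 * h - 1) := by
    rw [ht]
    have e2 : ((h : ℚ) - 1) ≠ 0 := hh1.ne'
    field_simp
  linarith

/-- the direct estimate -/
theorem direct {a b : Ω} (ρ : ℚ) (hρ : (Nat.card (st2 G a b) : ℚ) ≤ ρ * (Nat.card (st2 G a b) - 1))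
    (hg : ∀ g ∈ st2 G a b, g ≠ 1 → ρ ≤ (Fintype.card Ω : ℚ) / fx Ω g - 1) :
    (Nat.card (st2 G a b) : ℚ) ≤ ∑ g ∈ S2 G a b, ((Fintype.card Ω : ℚ) / fx Ω g - 1) := by
  classical
  have hnpos : 0 < Fintype.card Ω := Fintype.card_pos_iff.mpr ⟨a⟩
  have hnQ : (0 : ℚ) < Fintype.card Ω := by exact_mod_cast hnpos
  have hone : (1 : G) ∈ S2 G a b := mem_S2.mpr (one_mem _)
  rw [← Finset.add_sum_erase _ _ hone, fx_one, div_self hnQ.ne', sub_self, zero_add]
  have hcard : (((S2 G a b).erase 1).card : ℚ) = Nat.card (st2 G a b) - 1 := by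
    rw [Finset.card_erase_of_mem hone, card_S2, Nat.cast_sub Nat.card_pos]
    push_cast
    rfl
  have h1 : ∑ g ∈ (S2 G a b).erase 1, ρ ≤ ∑ g ∈ (S2 G a b).erase 1, ((Fintype.card Ω : ℚ) / fx Ω g - 1) := by
    apply Finset.sum_le_sum
    intro g hg'
    rw [Finset.mem_erase] at hg'
    exact hg g (mem_S2.mp hg'.2) hg'.1
  rw [Finset.sum_const, nsmul_eq_mul, hcard] at h1
  linarith

/-- a flat bound for the number of fixed points of an element -/
theorem fx_bound [FaithfulSMul G Ω] (h2 : Two G Ω) {f : ℕ} (hf : ∀ x y : Ω, x ≠ y → (Ln G x y).card = f) {g : G} (hg1 : g ≠ 1) :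
    ∃ m : ℕ, fx Ω g = m ∧ m * (f - 1) + 1 ≤ Fintype.card Ω := by
  classical
  refine ⟨(univ.filter fun z : Ω => g • z = z).card, fx_eq g, ?_⟩
  obtain ⟨p, hp⟩ : ∃ p : Ω, g • p ≠ p := by
    by_contra hcon
    push Not at hcon
    exact hg1 (FaithfulSMul.eq_of_smul_eq_smul (α := Ω) (fun y => by rw [hcon y, one_smul]))
  apply flat_bound h2 (W := univ.filter fun z : Ω => g • z = z) (Γ := univ) (p := p) ?_ (Finset.subset_univ _) flat_univ (by simp [hp]) (Finset.mem_univ _) hf
  intro u hu v hv _ z hz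
  rw [Finset.mem_filter] at hu hv ⊢
  exact ⟨Finset.mem_univ _, mem_Ln.mp hz g ⟨hu.2, hv.2⟩⟩

end

end Cfsg.Agent.H99
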