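import Cfsg.Agent.H99.DerF

/-!
# The main inequality, and derangements of two-transitive groups
-/

set_option autoImplicit false
set_option linter.unusedSectionVars false

namespace Cfsg.Agent.H99

open MulAction Finset

section

variable {G Ω : Type*} [Group G] [Fintype G] [MulAction G Ω] [Fintype Ω]

theorem exists_big_orbit {H : Subgroup G} {x : Ω} (hx : x ∉ (Fx H : Finset Ω)) : 2 ≤ Nat.card (orbit H x) := by
  by_contra hcon
  apply hx
  rw [mem_Fx]
  intro g hg
  have hpos : 0 < Nat.card (orbit H x) := by
    have : Nonempty (orbit H x) := ⟨⟨x, mem_orbit_self x⟩⟩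
    exact Nat.card_pos
  have h1 : Nat.card (orbit H x) = 1 := by omega
  obtain ⟨hs, -⟩ := Nat.card_eq_one_iff_unique.mp h1
  have h3 := @Subsingleton.elim _ hs ⟨g • x, ⟨⟨g, hg⟩, rfl⟩⟩ ⟨x, mem_orbit_self x⟩
  exact congrArg Subtype.val h3

theorem three_cycle_case [FaithfulSMul G Ω] (h2 : Two G Ω) (hn : 7 ≤ Fintype.card Ω) {a b : Ω} (hab : a ≠ b) {x : Ω}
    (hx : Nat.card (orbit (st2 G a b) x) = 3) (hle : ∀ y, y ∉ orbit (st2 G a b) x → Nat.card (orbit (st2 G a b) y) ≤ 2) : False := by
  classical
  set H := st2 G a b with hH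
  have h3 : 3 ∣ Nat.card H := by
    rw [← card_orbit_mul H x, hx]
    exact Nat.dvd_mul_right _ _
  have : Fact (Nat.Prime 3) := ⟨Nat.prime_three⟩
  obtain ⟨⟨g, hg⟩, hgo⟩ := exists_prime_orderOf_dvd_card' 3 h3
  have hg3 : g * g * g = 1 := by
    have := pow_orderOf_eq_one (⟨g, hg⟩ : H)
    rw [hgo] at this
    have h4 := congrArg Subtype.val this
    change g ^ 3 = 1 at h4
    rw [pow_succ, pow_two] at h4
    exact h4
  have hg1 : g ≠ 1 := by
    intro h
    have : (⟨g, hg⟩ : H) = 1 := Subtype.ext h
    rw [this, orderOf_one] at hgo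
    omega
  have hg3' : ∀ y : Ω, g • g • g • y = y := by
    intro y
    rw [← mul_smul, ← mul_smul, hg3, one_smul]
  have hfix : ∀ y, y ∉ orbit H x → g • y = y := by
    intro y hy
    rcases two_orb_dichotomy (hle y hy) hg (H.mul_mem hg hg) with h | h | h
    · exact h
    · rw [mul_smul] at h
      have := hg3' y
      rw [h] at this
      exact this
    · rw [mul_smul] at h
      exact (MulAction.injective g h).symm
  set O : Finset Ω := (orbit H x).toFinset with hO
  have hOmem : ∀ y, y ∈ O ↔ y ∈ orbit H x := fun y => by rw [hO, Set.mem_toFinset]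
  have hOcard : O.card = 3 := by
    rw [hO, Set.toFinset_card, ← Nat.card_eq_fintype_card, hx]
  set σ : Equiv.Perm Ω := MulAction.toPermHom G Ω g with hσ
  have hσa : ∀ y, σ y = g • y := fun y => rfl
  have hsupp : σ.support ⊆ O := by
    intro y hy
    rw [Equiv.Perm.mem_support, hσa] at hy
    rw [hOmem]
    by_contra h
    exact hy (hfix y h)
  obtain ⟨z, hz⟩ : ∃ z : Ω, g • z ≠ z := by
    by_contra hcon
    push Not at hcon
    exact hg1 (FaithfulSMul.eq_of_smul_eq_smul (α := Ω) (fun y => by rw [hcon y, one_smul]))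
  have hzz : g • g • z ≠ z := by
    intro h
    have := hg3' z
    rw [h] at this
    exact hz this
  have hsub : ({z, g • z, g • g • z} : Finset Ω) ⊆ σ.support := by
    intro w hw
    simp only [Finset.mem_insert, Finset.mem_singleton] at hw
    rw [Equiv.Perm.mem_support, hσa]
    rcases hw with rfl | rfl | rfl
    · exact hz
    · exact fun h => hz (MulAction.injective g h)
    · exact fun h => hz (MulAction.injective g (MulAction.injective g h))
  have hc3 : ({z, g • z, g • g • z} : Finset Ω).card = 3 := by
    rw [Finset.card_insert_of_notMem, Finset.card_insert_of_notMem, Finset.card_singleton]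
    · simp only [Finset.mem_singleton]
      exact fun h => hz (MulAction.injective g h).symm
    · simp only [Finset.mem_insert, Finset.mem_singleton, not_or]
      exact ⟨Ne.symm hz, Ne.symm hzz⟩
  have hs3 : σ.support.card = 3 := by
    have e1 := Finset.card_le_card hsub
    have e2 := Finset.card_le_card hsupp
    omega
  have hcyc : σ.IsThreeCycle := card_support_eq_three_iff.mp hs3
  -- the image of G
  set Gh : Subgroup (Equiv.Perm Ω) := (MulAction.toPermHom G Ω).range with hGh
  have h2' : IsMultiplyPretransitive Gh Ω 2 := by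
    rw [is_two_pretransitive_iff]
    intro a' b' c' d' hab' hcd'
    obtain ⟨k, hk1, hk2⟩ := h2 a' b' c' d' hab' hcd'
    exact ⟨⟨MulAction.toPermHom G Ω k, ⟨k, rfl⟩⟩, hk1, hk2⟩
  have hprim : IsPreprimitive Gh Ω := isPreprimitive_of_is_two_pretransitive h2'
  have halt := Equiv.Perm.alternatingGroup_le_of_isPreprimitive_of_isThreeCycle_mem hprim hcyc ⟨g, rfl⟩
  -- two points outside
  have hcompl : 1 < ((O ∪ {a, b})ᶜ : Finset Ω).card := by
    have e1 : (O ∪ {a, b}).card ≤ 5 := by
      refine (Finset.card_union_le _ _).trans ?_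
      rw [hOcard]
      have : ({a, b} : Finset Ω).card ≤ 2 := Finset.card_le_two
      omega
    rw [Finset.card_compl]
    omega
  obtain ⟨d, hd, e, he, hde⟩ := Finset.one_lt_card.mp hcompl
  simp only [Finset.mem_compl, Finset.mem_union, Finset.mem_insert, Finset.mem_singleton, not_or] at hd he
  have hxO : x ∈ O := (hOmem x).mpr (mem_orbit_self x)
  have hxd : x ≠ d := fun h => hd.1 (h ▸ hxO)
  have hxe : x ≠ e := fun h => he.1 (h ▸ hxO)
  have hxab : x ≠ a ∧ x ≠ b := by
    have hxF : x ∉ (Fx H : Finset Ω) := by
      intro h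
      have : Nat.card (orbit H x) ≤ 1 := by
        rw [Finite.card_le_one_iff_subsingleton]
        constructor
        rintro ⟨_, ⟨k, rfl⟩⟩ ⟨_, ⟨l, rfl⟩⟩
        apply Subtype.ext
        have e1 := mem_Fx.mp h k k.2
        have e2 := mem_Fx.mp h l l.2
        exact e1.trans e2.symm
      omega
    constructor
    · rintro rfl
      exact hxF (left_mem_Ln _ _)
    · rintro rfl
      exact hxF (right_mem_Ln _ _)
  set τ : Equiv.Perm Ω := Equiv.swap x d * Equiv.swap x e with hτ
  have hτalt : τ ∈ alternatingGroup Ω := by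
    rw [Equiv.Perm.mem_alternatingGroup, hτ, Equiv.Perm.sign_mul, Equiv.Perm.sign_swap hxd, Equiv.Perm.sign_swap hxe]
    decide
  obtain ⟨k, hk⟩ := halt hτalt
  have hk' : ∀ y, k • y = τ y := fun y => by rw [← hk]; rfl
  have hkH : k ∈ H := by
    refine ⟨?_, ?_⟩
    · change k • a = a
      rw [hk', hτ, Equiv.Perm.mul_apply, Equiv.swap_apply_of_ne_of_ne (Ne.symm hxab.1) (Ne.symm he.2.1), Equiv.swap_apply_of_ne_of_ne (Ne.symm hxab.1) (Ne.symm hd.2.1)]
    · change k • b = b
      rw [hk', hτ, Equiv.Perm.mul_apply, Equiv.swap_apply_of_ne_of_ne (Ne.symm hxab.2) (Ne.symm he.2.2), Equiv.swap_apply_of_ne_of_ne (Ne.symm hxab.2) (Ne.symm hd.2.2)]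
  have hkx : k • x = e := by
    rw [hk', hτ, Equiv.Perm.mul_apply, Equiv.swap_apply_left, Equiv.swap_apply_of_ne_of_ne (Ne.symm hxe) (Ne.symm hde)]
  apply he.1
  rw [hOmem, ← hkx]
  exact ⟨⟨k, hkH⟩, rfl⟩

/-- the main inequality -/
theorem pair_ineq [FaithfulSMul G Ω] (h2 : Two G Ω) (hn : 7 ≤ Fintype.card Ω) {a b : Ω} (hab : a ≠ b) (hh : 2 ≤ Nat.card (st2 G a b)) :
    (Nat.card (st2 G a b) : ℚ) ≤ ∑ g ∈ S2 G a b, ((Fintype.card Ω : ℚ) / fx Ω g - 1) := by
  classical
  obtain ⟨f, hf⟩ : ∃ f, ∀ x y : Ω, x ≠ y → (Ln G x y).card = f := ⟨(Ln G a b).card, fun x y hxy => card_Ln_eq h2 hxy hab⟩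
  have hnQ : (7 : ℚ) ≤ Fintype.card Ω := by exact_mod_cast hn
  have hhQ : (2 : ℚ) ≤ Nat.card (st2 G a b) := by exact_mod_cast hh
  have hf2 : 2 ≤ f := by
    rw [← hf a b hab]
    have h1 : ({a, b} : Finset Ω) ⊆ Ln G a b := by
      intro z hz
      simp only [Finset.mem_insert, Finset.mem_singleton] at hz
      rcases hz with rfl | rfl
      · exact left_mem_Ln _ _
      · exact right_mem_Ln _ _
    have h3 := Finset.card_le_card h1
    rwa [Finset.card_pair hab] at h3
  have hmpos : ∀ g ∈ st2 G a b, 0 < fx Ω g := by
    intro g hg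
    rw [fx_eq]
    have : 0 < (univ.filter fun z : Ω => g • z = z).card := Finset.card_pos.mpr ⟨a, Finset.mem_filter.mpr ⟨Finset.mem_univ _, hg.1⟩⟩
    exact_mod_cast this
  have hoc := orbit_count (Ω := Ω) (st2 G a b)
  have hFx : (Fx (st2 G a b) : Finset Ω).card = f := hf a b hab
  rw [hFx] at hoc
  set s := Nat.card (orbitRel.Quotient (st2 G a b) Ω) with hs
  set h := Nat.card (st2 G a b) with hh'
  set n := Fintype.card Ω with hn'
  by_cases hf4 : 4 ≤ f
  · refine direct 2 ?_ ?_
    · rw [← hh']; linarith
    · intro g hg hg1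
      obtain ⟨m, hm, hmn⟩ := fx_bound h2 hf hg1
      have hmp := hmpos g hg
      have h3m : 3 * m + 1 ≤ n := by
        have : m * 3 ≤ m * (f - 1) := Nat.mul_le_mul_left _ (by omega)
        omega
      have h3q : 3 * (m : ℚ) + 1 ≤ n := by exact_mod_cast h3m
      rw [hm] at hmp ⊢
      have : 3 ≤ (n : ℚ) / m := by
        rw [le_div_iff₀ hmp]
        linarith
      linarith
  by_cases hf3 : f = 3
  · subst hf3
    by_cases hbig : n + 1 ≤ 2 * h
    · have hbigQ : (n : ℚ) + 1 ≤ 2 * h := by exact_mod_cast hbig
      have hn1 : (0 : ℚ) < n - 1 := by linarith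
      refine direct (((n : ℚ) + 1) / (n - 1)) ?_ ?_
      · rw [← hh', div_mul_eq_mul_div, le_div_iff₀ hn1]
        nlinarith
      · intro g hg hg1
        obtain ⟨m, hm, hmn⟩ := fx_bound h2 hf hg1
        have hmp := hmpos g hg
        have h3q : 2 * (m : ℚ) + 1 ≤ n := by
          have : 2 * m + 1 ≤ n := by omega
          exact_mod_cast this
        rw [hm] at hmp ⊢
        have h5 : 2 * (n : ℚ) / (n - 1) ≤ (n : ℚ) / m := by
          rw [div_le_div_iff₀ hn1 hmp]
          nlinarith
        have h6 : ((n : ℚ) + 1) / (n - 1) = 2 * (n : ℚ) / (n - 1) - 1 := by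
          field_simp
          ring
        linarith
    · push Not at hbig
      apply amhm hh
      rw [← hs, ← hh', ← hn']
      by_cases hex : ∃ x : Ω, x ∉ Ln G a b ∧ 3 ≤ Nat.card (orbit (st2 G a b) x)
      · obtain ⟨x, -, hx3⟩ := hex
        have h3 := hoc {x} (by
          intro u hu v hv huv
          rw [Finset.mem_singleton] at hu hv
          exact absurd (hu.trans hv.symm) huv)
        rw [Finset.sum_singleton, Finset.card_singleton] at h3
        have hodd : Odd n := by
          have := odd_flat h2 hf (flat_univ (G := G)) (Finset.mem_univ a)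
          rwa [Finset.card_univ] at this
        obtain ⟨k, hk⟩ := hodd
        have h4 : 2 * s ≤ n + 1 := by omega
        have h5 : 2 * ((2 * h - 1) * s) ≤ 2 * (n * h) := by
          calc 2 * ((2 * h - 1) * s) = (2 * h - 1) * (2 * s) := by ring
            _ ≤ (2 * h - 1) * (n + 1) := Nat.mul_le_mul_left _ h4
            _ = (2 * h - 1) * n + (2 * h - 1) := by ring
            _ ≤ (2 * h - 1) * n + n := by omega
            _ = 2 * h * n := by
              have : 2 * h - 1 + 1 = 2 * h := by omega
              rw [← Nat.succ_mul, Nat.succ_eq_add_one, this]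
            _ = 2 * (n * h) := by ring
        omega
      · push Not at hex
        have hO : ∀ x, x ∉ Ln G a b → 2 * Nat.card (st2 G a b ⊓ stabilizer G x : Subgroup G) = Nat.card (st2 G a b) := by
          intro x hx
          have e1 := hex x hx
          have e2 := exists_big_orbit hx
          have e3 := card_orbit_mul (st2 G a b) x
          have e4 : Nat.card (orbit (st2 G a b) x) = 2 := by omega
          rw [← e3, e4]
        have h3 := three_bound h2 hf hab hO
        rw [← hh', ← hn'] at h3
        have h4 := hoc ∅ (by simp)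
        rw [Finset.sum_empty, Finset.card_empty] at h4
        have h5 : 2 * ((2 * h - 1) * s) ≤ 2 * (n * h) := by
          calc 2 * ((2 * h - 1) * s) = (2 * h - 1) * (2 * s) := by ring
            _ ≤ (2 * h - 1) * (n + 3) := Nat.mul_le_mul_left _ (by omega)
            _ = (2 * h - 1) * n + 3 * (2 * h - 1) := by ring
            _ ≤ (2 * h - 1) * n + n := by omega
            _ = 2 * h * n := by
              have : 2 * h - 1 + 1 = 2 * h := by omega
              rw [← Nat.succ_mul, Nat.succ_eq_add_one, this]
            _ = 2 * (n * h) := by ring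
        omega
  · have hf2' : f = 2 := by omega
    subst hf2'
    apply amhm hh
    rw [← hs, ← hh', ← hn']
    have hfin : 2 * s ≤ n → (2 * h - 1) * s ≤ n * h := by
      intro h4
      calc (2 * h - 1) * s ≤ 2 * h * s := Nat.mul_le_mul_right _ (by omega)
        _ = h * (2 * s) := by ring
        _ ≤ h * n := Nat.mul_le_mul_left _ h4
        _ = n * h := mul_comm _ _
    have hL : ∀ z, z ∈ Ln G a b → z = a ∨ z = b := by
      intro z hz
      by_contra hcon
      push Not at hcon
      have h1 : ({a, b, z} : Finset Ω) ⊆ Ln G a b := by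
        intro w hw
        simp only [Finset.mem_insert, Finset.mem_singleton] at hw
        rcases hw with rfl | rfl | rfl
        · exact left_mem_Ln _ _
        · exact right_mem_Ln _ _
        · exact hz
      have h3 := Finset.card_le_card h1
      rw [hf a b hab, Finset.card_insert_of_notMem, Finset.card_pair (Ne.symm hcon.2)] at h3
      · omega
      · simp only [Finset.mem_insert, Finset.mem_singleton, not_or]
        exact ⟨hab, Ne.symm hcon.1⟩
    by_cases h4 : ∃ x : Ω, 4 ≤ Nat.card (orbit (st2 G a b) x)
    · obtain ⟨x, hx⟩ := h4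
      have h3 := hoc {x} (by
        intro u hu v hv huv
        rw [Finset.mem_singleton] at hu hv
        exact absurd (hu.trans hv.symm) huv)
      rw [Finset.sum_singleton, Finset.card_singleton] at h3
      exact hfin (by omega)
    push Not at h4
    by_cases h3 : ∃ x : Ω, Nat.card (orbit (st2 G a b) x) = 3
    · obtain ⟨x, hx⟩ := h3
      by_cases hy : ∃ y, y ∉ orbit (st2 G a b) x ∧ Nat.card (orbit (st2 G a b) y) = 3
      · obtain ⟨y, hyx, hy3⟩ := hy
        have hxy : x ≠ y := fun h => hyx (h ▸ mem_orbit_self x)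
        have h5 := hoc {x, y} (by
          intro u hu v hv huv
          simp only [Finset.mem_insert, Finset.mem_singleton] at hu hv
          rcases hu with rfl | rfl <;> rcases hv with rfl | rfl
          · exact absurd rfl huv
          · rw [mem_orbit_symm]; exact hyx
          · exact hyx
          · exact absurd rfl huv)
        rw [Finset.sum_pair hxy, Finset.card_pair hxy, hx, hy3] at h5
        exact hfin (by omega)
      · push Not at hy
        exfalso
        apply three_cycle_case h2 hn hab hx
        intro y hyx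
        have e1 := hy y hyx
        have e2 := h4 y
        omega
    · push Not at h3
      have hle : ∀ x : Ω, Nat.card (orbit (st2 G a b) x) ≤ 2 := by
        intro x
        have e1 := h3 x
        have e2 := h4 x
        omega
      -- parity
      have hev : Even (Fintype.card Ω) := by
        by_contra hodd
        rw [Nat.not_even_iff_odd] at hodd
        -- an involution argument: some element of order two
        have hsq : ∀ t ∈ st2 G a b, t * t = 1 := by
          intro t ht
          apply FaithfulSMul.eq_of_smul_eq_smul (α := Ω)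
          intro y
          rw [one_smul]
          rcases two_orb_dichotomy (hle y) ht ((st2 G a b).mul_mem ht ht) with h' | h' | h'
          · rw [mul_smul, h', h']
          · exact h'
          · rw [mul_smul] at h'
            have h1 : t • y = y := (MulAction.injective t h').symm
            rw [mul_smul, h1, h1]
        have : Fact (Nat.Prime 2) := ⟨Nat.prime_two⟩
        have hPG : IsPGroup 2 (st2 G a b) := by
          intro t
          exact ⟨1, by rw [pow_one, pow_two]; exact Subtype.ext (hsq t t.2)⟩
        have hmod := hPG.card_modEq_card_fixedPoints Ω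
        have hfixc : Nat.card (fixedPoints (st2 G a b) Ω) = 2 := by
          rw [← hf a b hab]
          rw [← Nat.card_eq_finsetCard]
          apply Nat.card_congr
          apply Equiv.subtypeEquivRight
          intro z
          rw [mem_fixedPoints, mem_Ln]
          exact ⟨fun h' g hg => h' ⟨g, hg⟩, fun h' g => h' g g.2⟩
        rw [hfixc, Nat.card_eq_fintype_card] at hmod
        have h5 : Fintype.card Ω % 2 = 2 % 2 := hmod
        rw [Nat.odd_iff] at hodd
        omega
      have h5 := transfer_case h2 hab hL hle hev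
      have h6 : h = 2 := by omega
      have h7 := hoc ∅ (by simp)
      rw [Finset.sum_empty, Finset.card_empty] at h7
      rw [h6]
      omega

end

end Cfsg.Agent.H99
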